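import Cfsg.Agent.Blocks.CyclicRankOne
import Cfsg.Agent.Blocks.RepPrincipal

/-!
The matrix units and the uniserial centre of a block of regular rank one with a cyclic defect group.
-/

namespace Cfsg.Agent.Blocks.CyclicBasic

open Cfsg Cfsg.Agent Cfsg.Agent.BlockChar Cfsg.Agent.Blocks Module
open scoped MonoidAlgebra
open BasicCorner TwoDim

set_option autoImplicit false
set_option linter.unusedSectionVars false
set_option linter.style.haveILetI false

universe u

section corner

variable {k R : Type*} [Field k] [Ring R] [Algebra k R] [FiniteDimensional k R]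

/-- A single simple module and corners with a cyclic maximal ideal. -/
theorem exists_units [IsAlgClosed k] {n : ℕ} [NeZero n]
    (π : R →ₐ[k] Matrix (Fin n) (Fin n) k) (hπs : Function.Surjective π)
    (hπk : ∀ r, π r = 0 → r ∈ Ring.jacobson R)
    (hA : ∀ (e : R) [Fact (e * e = e)] (ε : crn k e →ₐ[k] k) (N : ℕ),
      LinearMap.ker ε.toLinearMap ^ N = ⊥ → Nontrivial (crn k e) →
      ∀ Ψ : R →ₐ[k] Matrix (Fin n) (Fin n) (crn k e), Function.Surjective Ψ →
      ∃ x : crn k e, ε x = 0 ∧ IsNilpotent x ∧ Algebra.adjoin k {x} = ⊤) :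
    ∃ (x : R) (E : Fin n → Fin n → R),
      (∀ i j a b, E i j * E a b = if j = a then E i b else 0) ∧ ∑ i, E i i = 1 ∧
      (∀ r, x * r = r * x) ∧ IsNilpotent x ∧
      (∀ r, r ∈ Submodule.span k (Set.range fun w : ℕ × Fin n × Fin n =>
        x ^ w.1 * E w.2.1 w.2.2)) ∧
      ∀ l, x ^ l ≠ 0 → x ^ l * E 0 0 ≠ 0 := by
  classical
  obtain ⟨N, hN⟩ := jacobson_isNilpotent (k := k) (R := R)
  have hnil : ∀ x ∈ Ring.jacobson R, IsNilpotent x := fun x hx => ⟨N, by
    have := Ideal.pow_mem_pow hx N
    rw [hN] at this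
    simpa using this⟩
  have hker : ∀ x ∈ RingHom.ker (π : R →+* Matrix (Fin n) (Fin n) k), IsNilpotent x :=
    fun x hx => hnil x (hπk x hx)
  have hE : CompleteOrthogonalIdempotents
      (fun i : Fin n => Matrix.single i i (1 : k)) := by
    refine CompleteOrthogonalIdempotents.iff_ortho_complete.2 ⟨fun i j hij => ?_, ?_⟩
    · simp [Matrix.single_mul_single_of_ne, hij]
    · ext i j
      by_cases h : i = j
      · subst h
        simp [Matrix.sum_apply, Matrix.single_apply]
      · rw [Matrix.sum_apply, Matrix.one_apply_ne h]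
        exact Finset.sum_eq_zero fun x _ => Matrix.single_apply_of_ne _ _ _ _ _
          fun h' => h (h'.1.symm.trans h'.2)
  obtain ⟨E, hEc, hEπ⟩ := CompleteOrthogonalIdempotents.lift_of_isNilpotent_ker
    (π : R →+* Matrix (Fin n) (Fin n) k) hker hE fun i => hπs _
  have hEπ' : ∀ i, π (E i) = Matrix.single i i 1 := fun i => congrFun hEπ i
  set e := E 0 with he0
  have hee : e * e = e := hEc.idem 0
  haveI : Fact (e * e = e) := ⟨hee⟩
  have hab : ∀ j, ∃ a b : R, e * a = a ∧ a * E j = a ∧ E j * b = b ∧ b * e = b ∧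
      a * b = e ∧ b * a = E j := by
    intro j
    obtain ⟨x, hx⟩ := hπs (Matrix.single 0 j 1)
    obtain ⟨y, hy⟩ := hπs (Matrix.single j 0 1)
    have hEj : E j * E j = E j := hEc.idem j
    set u := e * x * E j with hu
    set v := E j * y * e with hv
    have h0u : e * u = u := by rw [hu, ← mul_assoc, ← mul_assoc, hee]
    have huj : u * E j = u := by rw [hu, mul_assoc _ (E j), hEj]
    have hjv : E j * v = v := by rw [hv, ← mul_assoc, ← mul_assoc, hEj]
    have hv0 : v * e = v := by rw [hv, mul_assoc _ e, hee]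
    have hπu : π u = Matrix.single 0 j 1 := by
      simp [hu, he0, hx, hEπ', Matrix.single_mul_single_same]
    have hπv : π v = Matrix.single j 0 1 := by
      simp [hv, he0, hy, hEπ', Matrix.single_mul_single_same]
    set t := e - u * v with ht
    have het : e * t = t := by rw [ht, mul_sub, hee, ← mul_assoc, h0u]
    have hte : t * e = t := by rw [ht, sub_mul, hee, mul_assoc, hv0]
    have htnil : IsNilpotent t := hker t (by
      show π t = 0
      simp [ht, hπu, hπv, he0, hEπ', Matrix.single_mul_single_same])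
    obtain ⟨g, hg⟩ := htnil.isUnit_one_sub
    have hge : (↑g⁻¹ : R) * e = e * ↑g⁻¹ := by
      have h1 : e * (g : R) = (g : R) * e := by rw [hg, mul_sub, sub_mul, het, hte, mul_one, one_mul]
      exact (Commute.units_inv_right (show Commute e (g : R) from h1)).symm.eq
    have huv : u * v = (g : R) * e := by
      rw [hg, sub_mul, one_mul, hte, ht, sub_sub_cancel]
    have h1 : ↑g⁻¹ * u * v = e := by rw [mul_assoc, huv, ← mul_assoc, Units.inv_mul, one_mul]
    refine ⟨↑g⁻¹ * u, v, ?_, ?_, hjv, hv0, h1, ?_⟩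
    · rw [← mul_assoc, ← hge, mul_assoc, h0u]
    · rw [mul_assoc, huj]
    · set w := v * (↑g⁻¹ * u) with hw
      have hww : w * w = w := by
        calc w * w = v * (↑g⁻¹ * u * v) * (↑g⁻¹ * u) := by simp only [hw, mul_assoc]
          _ = w := by rw [h1, hv0]
      have hjw : E j * w = w := by rw [hw, ← mul_assoc, hjv]
      have hwj : w * E j = w := by rw [hw, mul_assoc v, mul_assoc (↑g⁻¹ : R), huj]
      have hπg : π (↑g⁻¹ : R) = 1 := by
        have h1 : π (g : R) = 1 := by
          rw [hg, map_sub, map_one]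
          simp [ht, hπu, hπv, he0, hEπ', Matrix.single_mul_single_same]
        have h2 := congrArg π (Units.inv_mul g)
        rwa [map_mul, h1, mul_one, map_one] at h2
      have hsub : IsIdempotentElem (E j - w) := by
        show (E j - w) * (E j - w) = E j - w
        rw [sub_mul, mul_sub, mul_sub, hEj, hjw, hwj, hww, sub_self, sub_zero]
      have h0 := hsub.eq_zero_of_isNilpotent (hker _ (by
        show π (E j - w) = 0
        simp [hw, hπg, hπu, hπv, hEπ', Matrix.single_mul_single_same]))
      exact (sub_eq_zero.1 h0).symm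
  choose a b hea haE hEb hbe hab' hba using hab
  have hab0 : ∀ i j, i ≠ j → a i * b j = 0 := fun i j hij => by
    rw [← haE i, ← hEb j, mul_assoc, ← mul_assoc (E i), hEc.ortho hij, zero_mul, mul_zero]
  have hrec : ∀ r : R, r = ∑ i, ∑ j, b i * (a i * r * b j) * a j := by
    intro r
    calc r = (∑ i, E i) * r * (∑ j, E j) := by rw [hEc.complete, one_mul, mul_one]
      _ = _ := by
        rw [Finset.sum_mul, Finset.sum_mul]
        refine Finset.sum_congr rfl fun i _ => ?_
        rw [Finset.mul_sum]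
        exact Finset.sum_congr rfl fun j _ => by rw [← hba i, ← hba j]; simp only [mul_assoc]
  have hcorA : ∀ i j r, a i * r * b j ∈ crn k e := fun i j r =>
    ⟨by rw [← mul_assoc, ← mul_assoc, hea], by rw [mul_assoc, hbe]⟩
  have hπe : π e = Matrix.single 0 0 1 := hEπ' 0
  have he_ne : π e ≠ 0 := by
    rw [hπe]
    intro h
    simpa using congrFun (congrFun h 0) 0
  haveI : Nontrivial (crn k e) := ⟨⟨1, 0, fun h => he_ne (by
    rw [show e = ((1 : crn k e) : R) from rfl, h]; simp)⟩⟩
  -- the augmentation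
  have hscal : ∀ x : crn k e, π (x : R) = π (x : R) 0 0 • Matrix.single 0 0 1 := by
    intro x
    have h1 : π (x : R) = π e * π (x : R) * π e := by
      rw [← map_mul, ← map_mul, x.2.1, x.2.2]
    ext i j
    by_cases hi : i = 0 <;> by_cases hj : j = 0 <;>
    · rw [h1, hπe]
      simp [hi, hj, Matrix.single_apply, Matrix.mul_apply, eq_comm]
  set ε : crn k e →ₐ[k] k :=
    { toFun := fun x => π (x : R) 0 0
      map_one' := by
        show π e 0 0 = 1
        rw [hπe]; simp
      map_mul' := fun x y => by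
        show π ((x : R) * (y : R)) 0 0 = _
        rw [map_mul, hscal x, hscal y, smul_mul_smul_comm, Matrix.single_mul_single_same]
        simp
      map_zero' := by simp
      map_add' := fun x y => by simp
      commutes' := fun c => by
        show π (c • e) 0 0 = c
        rw [map_smul, hπe]; simp } with hε
  have hεJ : ∀ x : crn k e, ε x = 0 → (x : R) ∈ Ring.jacobson R := fun x hx => hπk _ (by
    rw [hscal x, show π (x : R) 0 0 = 0 from hx, zero_smul])
  have hεN : (LinearMap.ker ε.toLinearMap) ^ (N + 1) = ⊥ := by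
    have h : ∀ m : ℕ, ∀ x ∈ (LinearMap.ker ε.toLinearMap) ^ (m + 1),
        (x : R) ∈ Ring.jacobson R ^ (m + 1) := by
      intro m
      induction m with
      | zero =>
        intro x hx
        rw [pow_one] at hx
        rw [Submodule.pow_one]
        exact hεJ x hx
      | succ m ih =>
        intro x hx
        rw [pow_succ] at hx
        rw [Submodule.pow_succ (M := Ring.jacobson R)]
        exact Submodule.mul_induction_on hx
          (fun y hy z hz => Ideal.mul_mem_mul (ih y hy) (hεJ z hz))
          fun y z hy hz => add_mem hy hz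
    rw [eq_bot_iff]
    intro x hx
    have h1 := h N x hx
    rw [Submodule.pow_succ, hN] at h1
    simp at h1
    exact (Submodule.mem_bot k).2 h1
  set Ψ : R →ₗ[k] Fin n → Fin n → crn k e := LinearMap.pi fun i => LinearMap.pi fun j =>
    LinearMap.codRestrict (crn k e)
      ((LinearMap.mulLeft k (a i)).comp (LinearMap.mulRight k (b j)))
      (fun r => by simpa [mul_assoc] using hcorA i j r) with hΨ
  have hΨa : ∀ r i j, ((Ψ r i j : crn k e) : R) = a i * r * b j := fun r i j => by
    simp [hΨ, mul_assoc]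
  have hΨb : Function.Bijective Ψ := by
    refine ⟨fun r t h => ?_, fun F => ⟨∑ i, ∑ j, b i * (F i j : R) * a j, ?_⟩⟩
    · rw [hrec r, hrec t]
      simp only [← hΨa, h]
    · funext i j
      apply Subtype.ext
      rw [hΨa, Finset.mul_sum, Finset.sum_mul, Finset.sum_eq_single i]
      · rw [Finset.mul_sum, Finset.sum_mul, Finset.sum_eq_single j]
        · calc a i * (b i * (F i j : R) * a j) * b j = a i * b i * (F i j : R) * (a j * b j) := by
                simp only [mul_assoc]
            _ = _ := by rw [hab', hab', (F i j).2.1, (F i j).2.2]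
        · intro l _ hl
          calc a i * (b i * (F i l : R) * a l) * b j = a i * b i * (F i l : R) * (a l * b j) := by
                simp only [mul_assoc]
            _ = 0 := by rw [hab0 l j hl, mul_zero]
        · exact fun h => absurd (Finset.mem_univ _) h
      · intro l _ hl
        rw [Finset.mul_sum, Finset.sum_mul]
        refine Finset.sum_eq_zero fun m _ => ?_
        calc a i * (b l * (F l m : R) * a m) * b j = a i * b l * (F l m : R) * (a m * b j) := by
              simp only [mul_assoc]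
          _ = 0 := by rw [hab0 i l (Ne.symm hl), zero_mul, zero_mul]
      · exact fun h => absurd (Finset.mem_univ _) h
  set ΨA : R →ₐ[k] Matrix (Fin n) (Fin n) (crn k e) := AlgHom.ofLinearMap
    ((Matrix.ofLinearEquiv k).toLinearMap.comp Ψ)
    (by
      ext i j
      show ((Ψ 1 i j : crn k e) : R) = ((1 : Matrix (Fin n) (Fin n) (crn k e)) i j : R)
      rw [hΨa, mul_one]
      by_cases h : i = j
      · subst h; rw [hab', Matrix.one_apply_eq, coe_one]
      · rw [hab0 i j h, Matrix.one_apply_ne h]; rfl)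
    (fun r t => by
      ext i j
      show ((Ψ (r * t) i j : crn k e) : R) =
        (crn k e).subtype (∑ l, Ψ r i l * Ψ t l j)
      rw [map_sum]
      simp only [Submodule.subtype_apply, coe_mul, hΨa]
      calc a i * (r * t) * b j = a i * r * (∑ l, E l) * (t * b j) := by
            rw [hEc.complete]; simp [mul_assoc]
        _ = _ := by
          rw [Finset.mul_sum, Finset.sum_mul]
          exact Finset.sum_congr rfl fun l _ => by rw [← hba l]; simp only [mul_assoc]) with hΨA
  have hΨAs : Function.Surjective ΨA := fun F => by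
    obtain ⟨r, hr⟩ := hΨb.2 fun i j => F i j
    exact ⟨r, by ext i j; exact congrArg (fun x : crn k e => (x : R)) (congrFun (congrFun hr i) j)⟩
  obtain ⟨x0, hx0, hx0n, hgen⟩ := hA e ε (N + 1) hεN inferInstance ΨA hΨAs
  set X : R := ∑ i, b i * (x0 : R) * a i with hX
  have habj : ∀ i j, a i * b j = if i = j then e else 0 := fun i j => by
    split_ifs with h
    · rw [h, hab']
    · exact hab0 i j h
  have hmid : ∀ (i j l m : Fin n) (u v : R), e * v = v → u * e = u →
      b i * u * a j * (b l * v * a m) = if j = l then b i * (u * v) * a m else 0 := by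
    intro i j l m u v hv hu
    calc b i * u * a j * (b l * v * a m) = b i * u * (a j * b l) * v * a m := by simp only [mul_assoc]
      _ = _ := by
        rw [habj]
        split_ifs
        · rw [mul_assoc (b i) u e, hu]; simp only [mul_assoc]
        · simp
  have hXm : ∀ (u : R), e * u = u → u * e = u → ∀ i j,
      X * (b i * u * a j) = b i * ((x0 : R) * u) * a j := by
    intro u hu hu' i j
    rw [hX, Finset.sum_mul, Finset.sum_eq_single i (fun l _ hl => by
      rw [hmid _ _ _ _ _ _ hu x0.2.2, if_neg hl]) (fun h => absurd (Finset.mem_univ _) h),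
      hmid _ _ _ _ _ _ hu x0.2.2, if_pos rfl]
  have hmX : ∀ (u : R), e * u = u → u * e = u → ∀ i j,
      (b i * u * a j) * X = b i * (u * (x0 : R)) * a j := by
    intro u hu hu' i j
    rw [hX, Finset.mul_sum, Finset.sum_eq_single j (fun l _ hl => by
      rw [hmid _ _ _ _ _ _ x0.2.1 hu', if_neg (Ne.symm hl)]) (fun h => absurd (Finset.mem_univ _) h),
      hmid _ _ _ _ _ _ x0.2.1 hu', if_pos rfl]
  have hcomm : ∀ y : crn k e, x0 * y = y * x0 := by
    intro y
    have hy : y ∈ Algebra.adjoin k ({x0} : Set (crn k e)) := hgen ▸ Algebra.mem_top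
    induction hy using Algebra.adjoin_induction with
    | mem z hz => rw [Set.mem_singleton_iff.1 hz]
    | algebraMap r => exact (Algebra.commutes r x0).symm
    | add u v _ _ hu hv => rw [mul_add, add_mul, hu, hv]
    | mul u v _ _ hu hv => rw [← mul_assoc, hu, mul_assoc, hv, mul_assoc]
  have hXc : ∀ r, X * r = r * X := by
    intro r
    rw [hrec r, Finset.mul_sum, Finset.sum_mul]
    refine Finset.sum_congr rfl fun i _ => ?_
    rw [Finset.mul_sum, Finset.sum_mul]
    refine Finset.sum_congr rfl fun j _ => ?_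
    obtain ⟨hu, hu'⟩ := hcorA i j r
    rw [hXm _ hu hu', hmX _ hu hu']
    congr 2
    exact congrArg (fun z : crn k e => (z : R)) (hcomm ⟨_, hcorA i j r⟩)
  have hXpow : ∀ (l : ℕ) (i j : Fin n), X ^ l * (b i * a j) = b i * ((x0 ^ l : crn k e) : R) * a j := by
    intro l
    induction l with
    | zero =>
      intro i j
      rw [pow_zero, pow_zero, one_mul, coe_one, mul_assoc, hea]
    | succ l ih =>
      intro i j
      rw [pow_succ', mul_assoc, ih, hXm _ (x0 ^ l : crn k e).2.1 (x0 ^ l : crn k e).2.2, pow_succ',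
        coe_mul]
  have hsum1 : ∑ i, b i * a i = 1 := by
    rw [← hEc.complete]; exact Finset.sum_congr rfl fun i _ => hba i
  refine ⟨X, fun i j => b i * a j, fun i j l m => ?_, hsum1, hXc, ?_, fun r => ?_, fun l hl => ?_⟩
  · have h1 := hmid i j l m e e hee hee
    rw [mul_assoc (b i) e, hea, mul_assoc (b l) e, hea, hee] at h1
    rw [h1]
    split_ifs
    · rw [mul_assoc (b i) e, hea]
    · rfl
  · obtain ⟨m, hm⟩ := hx0n
    refine ⟨m, ?_⟩
    rw [← mul_one (X ^ m), ← hsum1, Finset.mul_sum]
    exact Finset.sum_eq_zero fun i _ => by rw [hXpow, hm]; simp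
  · rw [hrec r]
    refine Submodule.sum_mem _ fun i _ => Submodule.sum_mem _ fun j _ => ?_
    have hy : (⟨_, hcorA i j r⟩ : crn k e) ∈
        Submodule.span k ((Submonoid.closure ({x0} : Set (crn k e))) : Set (crn k e)) := by
      rw [← Algebra.adjoin_eq_span, hgen]; trivial
    have key : ∀ y ∈ Submodule.span k ((Submonoid.closure ({x0} : Set (crn k e))) : Set (crn k e)),
        b i * (y : R) * a j ∈ Submodule.span k (Set.range fun w : ℕ × Fin n × Fin n =>
          X ^ w.1 * (b w.2.1 * a w.2.2)) := by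
      intro y hy
      induction hy using Submodule.span_induction with
      | mem z hz =>
        obtain ⟨l, rfl⟩ := Submonoid.mem_closure_singleton.1 hz
        exact Submodule.subset_span ⟨(l, i, j), hXpow l i j⟩
      | zero => simp
      | add u v _ _ hu hv =>
        rw [Submodule.coe_add, mul_add, add_mul]; exact Submodule.add_mem _ hu hv
      | smul c u _ hu =>
        rw [Submodule.coe_smul, mul_smul_comm, smul_mul_assoc]; exact Submodule.smul_mem _ _ hu
    exact key _ hy
  · rw [hXpow]
    intro h0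
    apply hl
    have h1 : ((x0 ^ l : crn k e) : R) = 0 := by
      have := congrArg (fun z => a 0 * z * b 0) h0
      simp only [mul_zero, zero_mul] at this
      rw [show a 0 * (b 0 * ((x0 ^ l : crn k e) : R) * a 0) * b 0 =
        (a 0 * b 0) * ((x0 ^ l : crn k e) : R) * (a 0 * b 0) by simp only [mul_assoc],
        hab', (x0 ^ l : crn k e).2.1, (x0 ^ l : crn k e).2.2] at this
      exact this
    rw [← mul_one (X ^ l), ← hsum1, Finset.mul_sum]
    exact Finset.sum_eq_zero fun i _ => by rw [hXpow, h1]; simp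

end corner

variable {G : Type u} [Group G] [Fintype G] {p : ℕ} [Fact p.Prime] {M : Ideal AlgInt}
  [M.IsMaximal] {B : Set (IrrCharacter G)}

/-- The basic algebra of a block with cyclic defect group is generated by one element. -/
theorem basic_principal (hpM : (p : AlgInt) ∈ M) (hB : IsPBlock M B) {P : Subgroup G}
    (hPD : IsDefectGroup p M B P) (hcyc : IsCyclic P)
    (A : Type u) [Ring A] [Algebra (Res M) A] [FiniteDimensional (Res M) A]
    (ε : A →ₐ[Res M] Res M) (N : ℕ) (hN : LinearMap.ker ε.toLinearMap ^ N = ⊥)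
    (n : ℕ) [NeZero n] (Ψ : (Res M)[G] →ₐ[Res M] Matrix (Fin n) (Fin n) A)
    (hΨ : Function.Surjective Ψ) (hΨb : Ψ (idemG M B) = 1) :
    ∃ x : A, ε x = 0 ∧ IsNilpotent x ∧ Algebra.adjoin (Res M) {x} = ⊤ := by
  classical
  haveI := charP_res (p := p) hpM
  rcases RepType.principal_or_pencil ε hN with h | ⟨δ₁, δ₂, m₁, m₂, h₁, h₂, e₁, e₂, a, b, c, d⟩
  · exact h
  exfalso
  set β := idemG M B with hβ
  have hb := isBlk_idemG hpM hB
  obtain ⟨g, hg, hg0, hnil⟩ := exists_defect_cls hb
  set H := (⊤ : Subgroup G) ⊓ Subgroup.centralizer ({g} : Set G) with hH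
  obtain ⟨S₀⟩ : Nonempty (Sylow p H) := inferInstance
  set S := (S₀ : Subgroup H).map H.subtype with hS
  have hdef := isDef_of_cls hb hg hg0 hnil S₀
  obtain ⟨h, -, hconj⟩ := ((isDefectGroup_iff_idemG hpM hB P).mp hPD).exists_conj hdef
  have hScyc : IsCyclic S := by
    rw [hS, hconj]
    exact isCyclic_of_surjective ((MulAut.conj h).toMonoidHom.subgroupMap P)
      ((MulAut.conj h).toMonoidHom.subgroupMap_surjective P)
  obtain ⟨⟨u, huS⟩, hgen⟩ := hScyc.exists_generator
  have hSu : S = Subgroup.zpowers u := by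
    refine le_antisymm (fun x hx => ?_) (Subgroup.zpowers_le.2 huS)
    obtain ⟨i, hi⟩ := hgen ⟨x, hx⟩
    exact ⟨i, congrArg Subtype.val hi⟩
  obtain ⟨a', ha'⟩ := hdef.pgroup ⟨u, huS⟩
  have hu : u ^ p ^ a' = 1 := congrArg Subtype.val ha'
  obtain ⟨w, hw, hwb⟩ := (nilpotent_or_inv hb (centralIn_cls hg)).resolve_left hnil
  have hSC : S ≤ Subgroup.centralizer ({g} : Set G) := by
    rintro x ⟨v, -, rfl⟩; exact v.2.2
  set cnum := S.relIndex (Subgroup.centralizer ({g} : Set G)) with hcnum
  have hc0 : (cnum : Res M) ≠ 0 := by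
    rw [Ne, CharP.cast_eq_zero_iff (Res M) p]
    have h1 : S.relIndex (Subgroup.centralizer ({g} : Set G)) = (S₀ : Subgroup H).index := by
      have hSH : S.subgroupOf H = (S₀ : Subgroup H) := by
        rw [hS, Subgroup.subgroupOf, Subgroup.comap_map_eq_self_of_injective H.subtype_injective]
      rw [← hSH, ← Subgroup.relIndex, hH, top_inf_eq]
    rw [hcnum, h1]
    exact S₀.not_dvd_index
  set ρ : G →* Matrix (Fin n) (Fin n) A := Ψ.toMonoidHom.comp (MonoidAlgebra.of (Res M) G) with hρ
  set γ := Ψ ((cnum : Res M)⁻¹ • (MonoidAlgebra.single g 1 * (β * w))) with hγ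
  have hcomm : ∀ x : G, MonoidAlgebra.single x (1 : Res M) * (β * w) =
      (β * w) * MonoidAlgebra.single x 1 := fun x =>
    ((hb.central.mul hw).comm (fun y hy => absurd (Subgroup.mem_top y) hy)).symm
  refine RepType.false_of_pencil p ε h₁ h₂ e₁ e₂ a b c d ρ ?_ hSu hu γ (fun x hx => ?_) ?_
  · rw [eq_top_iff]
    rintro m -
    obtain ⟨z, rfl⟩ := hΨ m
    induction z using MonoidAlgebra.induction_on with
    | of g => exact Submodule.subset_span ⟨g, rfl⟩
    | add f g hf hg => rw [map_add]; exact Submodule.add_mem _ hf hg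
    | smul r f hf => rw [map_smul]; exact Submodule.smul_mem _ _ hf
  · show Ψ (MonoidAlgebra.single x 1) * γ = γ * Ψ (MonoidAlgebra.single x 1)
    rw [hγ, ← map_mul, ← map_mul, mul_smul_comm, smul_mul_assoc, mul_assoc (MonoidAlgebra.single g 1),
      ← hcomm]
    simp only [← mul_assoc, MonoidAlgebra.single_mul_single, one_mul]
    rw [Subgroup.mem_centralizer_singleton_iff.1 (hSC hx)]
  · intro _
    have hterm : ∀ q : G ⧸ S, ρ q.out * γ * ρ q.out⁻¹ =
        Ψ ((cnum : Res M)⁻¹ • (MonoidAlgebra.single (q.out * g * q.out⁻¹) 1 * (β * w))) := by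
      intro q
      show Ψ (MonoidAlgebra.single q.out 1) * γ * Ψ (MonoidAlgebra.single q.out⁻¹ 1) = _
      rw [hγ, ← map_mul, ← map_mul, mul_smul_comm, smul_mul_assoc,
        ← mul_assoc (MonoidAlgebra.single q.out 1), MonoidAlgebra.single_mul_single,
        mul_assoc _ (β * w), ← hcomm, ← mul_assoc, MonoidAlgebra.single_mul_single]
      simp only [one_mul]
    rw [Finset.sum_congr rfl fun q _ => hterm q, ← map_sum, ← Finset.smul_sum, ← Finset.sum_mul,
      CyclicRankOne.sum_conj_single g S hSC, smul_mul_assoc, smul_smul, inv_mul_cancel₀ hc0, one_smul,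
      ← mul_assoc, hwb]
    exact hΨb

/-- The data of a block of regular rank one with cyclic defect group. -/
theorem exists_data (hpM : (p : AlgInt) ∈ M) (hB : IsPBlock M B) (hl : blockRank p B = 1)
    {P : Subgroup G} (hPD : IsDefectGroup p M B P) (hcyc : IsCyclic P) :
    ∃ (n q : ℕ) (_ : NeZero n) (x : (Res M)[G]) (E : Fin n → Fin n → (Res M)[G]),
      (∀ i j a b, E i j * E a b = if j = a then E i b else 0) ∧ ∑ i, E i i = idemG M B ∧
      x * idemG M B = x ∧ CentralIn (⊤ : Subgroup G) x ∧ x ^ q = 0 ∧ 1 ≤ q ∧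
      x ^ (q - 1) * E 0 0 ≠ 0 ∧
      ∀ z : (Res M)[G], z * idemG M B ∈ Submodule.span (Res M)
        (Set.range fun w : ℕ × Fin n × Fin n => x ^ w.1 * E w.2.1 w.2.2) := by
  classical
  haveI := charP_res (p := p) hpM
  set k := Res M
  set b := idemG M B with hb
  have hbb : IsBlk (⊤ : Subgroup G) b := isBlk_idemG hpM hB
  have hcomm : ∀ r : k[G], b * r = r * b := fun r =>
    hbb.central.comm (fun g hg => absurd (Subgroup.mem_top g) hg)
  haveI htwo : (TwoChars.annOf b).IsTwoSided := ⟨fun {x} r hx => by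
    rw [TwoChars.mem_annOf] at hx ⊢
    rw [mul_assoc, ← hcomm r, ← mul_assoc, hx, zero_mul]⟩
  set R := k[G] ⧸ TwoChars.annOf b with hR
  set q := Ideal.Quotient.mkₐ k (TwoChars.annOf b) with hq
  have hqs : Function.Surjective q := Ideal.Quotient.mk_surjective
  have hq0 : ∀ x, q x = 0 ↔ x * b = 0 := fun x => Ideal.Quotient.eq_zero_iff_mem
  have hqb : q b = 1 := by
    rw [← sub_eq_zero, ← map_one q, ← map_sub, hq0, sub_mul, one_mul, hbb.idem, sub_self]
  haveI : FiniteDimensional k R :=
    Module.Finite.of_surjective q.toLinearMap hqs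
  haveI : Nontrivial R := ⟨⟨1, 0, fun h => hbb.ne_zero (by
    rw [← map_one q, hq0, one_mul] at h; exact h)⟩⟩
  -- one simple module
  haveI : IsArtinianRing R := IsArtinianRing.of_finite k R
  haveI : IsSemisimpleRing (R ⧸ Ring.jacobson R) := IsSemiprimaryRing.isSemisimpleRing
  obtain ⟨s, d, hd, ⟨ee⟩⟩ :=
    IsSemisimpleRing.exists_algEquiv_pi_matrix_of_isAlgClosed k (R ⧸ Ring.jacobson R)
  set π₀ : R →ₐ[k] Π i, Matrix (Fin (d i)) (Fin (d i)) k :=
    ee.toAlgHom.comp (Ideal.Quotient.mkₐ k (Ring.jacobson R)) with hπ₀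
  have hπ₀s : Function.Surjective π₀ := fun y => by
    obtain ⟨r, hr⟩ := Ideal.Quotient.mk_surjective (ee.symm y)
    exact ⟨r, by simp [hπ₀, hr]⟩
  have hπ₀k : ∀ r, π₀ r = 0 → r ∈ Ring.jacobson R := fun r hr =>
    Ideal.Quotient.eq_zero_iff_mem.1 (ee.injective (by simpa [hπ₀] using hr))
  set T : Fin s → k[G] →ₗ[k] k := fun i =>
    (Matrix.traceLinearMap (Fin (d i)) k k).comp
      ((LinearMap.proj i).comp (π₀.comp q).toLinearMap) with hT
  have hTa : ∀ i x, T i x = Matrix.trace (π₀ (q x) i) := fun i x => rfl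
  have hTi : LinearIndependent k T := by
    rw [Fintype.linearIndependent_iff]
    intro c hc i
    haveI := hd
    obtain ⟨r, hr⟩ := hπ₀s fun j => Matrix.single (0 : Fin (d j)) 0
      (if j = i then (1 : k) else 0)
    obtain ⟨x, rfl⟩ := hqs r
    have h1 := LinearMap.congr_fun hc x
    simp only [LinearMap.coe_sum, Finset.sum_apply, LinearMap.smul_apply, hTa, hr,
      Matrix.trace_single_eq_same, smul_eq_mul, mul_ite, mul_one, mul_zero,
      Finset.sum_ite_eq', Finset.mem_univ, if_true, LinearMap.zero_apply] at h1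
    exact h1
  have hs1 : s = 1 := by
    have hle : s ≤ blockRank p B := by
      refine BlockSimple.card_le_blockRank hpM hB T hTi ?_ ?_ ?_
      · intro i x; rw [hTa, hTa, map_mul q, hqb, mul_one]
      · intro i x y
        rw [hTa, hTa, map_mul, map_mul, map_mul, map_mul, Pi.mul_apply, Pi.mul_apply,
          Matrix.trace_mul_comm]
      · intro i u t hut hu
        obtain ⟨m, hm⟩ := hu
        exact BlockSimple.trace_mul_of_pElement
          ((((Pi.evalAlgHom k (fun i => Matrix (Fin (d i)) (Fin (d i)) k) i).comp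
            (π₀.comp q)).toMonoidHom).comp (MonoidAlgebra.of k G)) hut hm
    rcases Nat.eq_zero_or_pos s with rfl | hpos
    · exfalso
      obtain ⟨N, hN⟩ := TwoDim.jacobson_isNilpotent (k := k) (R := R)
      have h1 : (1 : R) ∈ Ring.jacobson R := hπ₀k 1 (funext fun i => i.elim0)
      have h2 := Ideal.pow_mem_pow h1 N
      rw [hN, one_pow] at h2
      exact one_ne_zero (α := R) (by simpa using h2)
    · omega
  subst hs1
  haveI : NeZero (d 0) := hd 0
  set π : R →ₐ[k] Matrix (Fin (d 0)) (Fin (d 0)) k :=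
    (Pi.evalAlgHom k (fun i => Matrix (Fin (d i)) (Fin (d i)) k) 0).comp π₀ with hπ
  have hπs : Function.Surjective π := fun y => by
    obtain ⟨r, hr⟩ := hπ₀s fun i => (Subsingleton.elim i 0) ▸ y
    exact ⟨r, by simp [hπ, hr]⟩
  have hπk : ∀ r, π r = 0 → r ∈ Ring.jacobson R := fun r h => hπ₀k r (funext fun i => by
    obtain rfl : i = 0 := Subsingleton.elim _ _
    exact h)
  obtain ⟨xR, ER, hEm, hEs, hxc, hxn, hsp, hxne⟩ := exists_units π hπs hπk
    (fun e _ ε N hN hnt Ψ hΨ => basic_principal hpM hB hPD hcyc _ ε N hN (d 0) (Ψ.comp q)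
      (hΨ.comp hqs) (by rw [AlgHom.comp_apply, hqb, map_one]))
  have hsec : ∀ r : R, ∃ z : k[G], z * b = z ∧ q z = r := fun r => by
    obtain ⟨z, rfl⟩ := hqs r
    exact ⟨z * b, by rw [mul_assoc, hbb.idem], by rw [map_mul, hqb, mul_one]⟩
  choose sec hsb hsq using hsec
  have hinj : ∀ u v : k[G], u * b = u → v * b = v → q u = q v → u = v := fun u v hu hv h => by
    have h1 : q (u - v) = 0 := by rw [map_sub, h, sub_self]
    rwa [hq0, sub_mul, hu, hv, sub_eq_zero] at h1
  have hsmul : ∀ u v : k[G], u * b = u → v * b = v → u * v * b = u * v := fun u v _ hv => by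
    rw [mul_assoc, hv]
  have hnil' := hxn
  set N := Nat.find hnil'
  have hN : xR ^ N = 0 := Nat.find_spec hnil'
  have hNpos : 1 ≤ N := by
    rcases Nat.eq_zero_or_pos N with h | h
    · rw [h, pow_zero] at hN; exact absurd hN one_ne_zero
    · exact h
  have hpw : ∀ l, sec xR ^ l * b = sec (xR ^ l) := fun l =>
    hinj _ _ (by rw [mul_assoc, hbb.idem]) (hsb _) (by
      rw [map_mul, map_pow, hsq, hsq, hqb, mul_one])
  have hxE : ∀ (l : ℕ) i j, sec xR ^ l * sec (ER i j) = sec (xR ^ l * ER i j) := fun l i j =>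
    hinj _ _ (by rw [mul_assoc, hsb]) (hsb _) (by rw [map_mul, map_pow, hsq, hsq, hsq])
  refine ⟨d 0, N, inferInstance, sec xR, fun i j => sec (ER i j), fun i j a c => ?_, ?_, hsb xR,
    TwoChars.centralIn_of_comm fun r => ?_, ?_, hNpos, ?_, fun z => ?_⟩
  · refine hinj _ _ (hsmul _ _ (hsb _) (hsb _)) ?_ ?_
    · split_ifs
      · exact hsb _
      · rw [zero_mul]
    · rw [map_mul, hsq, hsq, hEm]
      split_ifs
      · rw [hsq]
      · rw [map_zero]
  · refine hinj _ _ ?_ hbb.idem ?_
    · rw [Finset.sum_mul]; exact Finset.sum_congr rfl fun i _ => hsb _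
    · rw [map_sum, hqb, ← hEs]; exact Finset.sum_congr rfl fun i _ => hsq _
  · refine hinj _ _ ?_ ?_ ?_
    · rw [mul_assoc, ← hcomm, ← mul_assoc, hsb]
    · rw [mul_assoc, hsb]
    · rw [map_mul, map_mul, hsq, hxc]
  · refine hinj _ _ ?_ (zero_mul b) ?_
    · obtain ⟨m, hm⟩ : ∃ m, N = m + 1 := ⟨N - 1, by omega⟩
      rw [hm, pow_succ, mul_assoc, hsb]
    · rw [map_pow, hsq, hN, map_zero]
  · intro h
    have h1 := congrArg q h
    rw [map_mul, map_pow, hsq, hsq, map_zero] at h1
    exact hxne _ (Nat.find_min hnil' (by omega)) h1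
  · have key : ∀ y ∈ Submodule.span k (Set.range fun w : ℕ × Fin (d 0) × Fin (d 0) =>
        xR ^ w.1 * ER w.2.1 w.2.2), sec y ∈ Submodule.span k
        (Set.range fun w : ℕ × Fin (d 0) × Fin (d 0) => sec xR ^ w.1 * sec (ER w.2.1 w.2.2)) := by
      intro y hy
      induction hy using Submodule.span_induction with
      | mem y hy =>
        obtain ⟨w, rfl⟩ := hy
        exact Submodule.subset_span ⟨w, hxE _ _ _⟩
      | zero =>
        rw [hinj (sec 0) 0 (hsb _) (zero_mul b) (by rw [hsq, map_zero])]
        exact Submodule.zero_mem _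
      | add u v _ _ hu hv =>
        rw [hinj (sec (u + v)) (sec u + sec v) (hsb _) (by rw [add_mul, hsb, hsb])
          (by rw [map_add, hsq, hsq, hsq])]
        exact Submodule.add_mem _ hu hv
      | smul c u _ hu =>
        rw [hinj (sec (c • u)) (c • sec u) (hsb _) (by rw [smul_mul_assoc, hsb])
          (by rw [map_smul, hsq, hsq])]
        exact Submodule.smul_mem _ _ hu
    rw [hinj (z * b) (sec (q z)) (by rw [mul_assoc, hbb.idem]) (hsb _)
      (by rw [map_mul, hqb, mul_one, hsq])]
    exact key _ (hsp _)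

end Cfsg.Agent.Blocks.CyclicBasic
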