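import Cfsg.Agent.Blocks.CyclicSimples
import Cfsg.Agent.Blocks.CyclicBasic

/-!
The regular rank of a block is at least the number of eigenvalues of the local socles.
-/

namespace Cfsg.Agent.Blocks.CyclicCount

open Cfsg Cfsg.Agent Cfsg.Agent.BlockChar Cfsg.Agent.Blocks
open StableTr StableLocal SemiUniserial CyclicLayers CyclicSimples
open scoped MonoidAlgebra Classical

set_option autoImplicit false
set_option linter.unusedSectionVars false
set_option linter.style.haveILetI false
set_option linter.style.openClassical false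

universe u v

section local_part

variable {k : Type v} [Field k] {G : Type u} [Group G] [Fintype G] {p : ℕ} [Fact p.Prime]
  [CharP k p]

theorem emb_single (H : Subgroup G) [Fintype H] (h : H) (c : k) :
    emb k H (MonoidAlgebra.single h c) = MonoidAlgebra.single (h : G) c := by simp [emb]

theorem rst_single_mul (H : Subgroup G) [Fintype H] (h : H) (z : k[G]) :
    rst (k := k) H (MonoidAlgebra.single (h : G) 1 * z) =
      MonoidAlgebra.single h 1 * rst H z := by
  ext g
  rw [coeff_rst, MonoidAlgebra.coeff_single_mul_apply, MonoidAlgebra.coeff_single_mul_apply,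
    coeff_rst]
  rfl

/-- The endomorphisms of a factor are scalars. -/
theorem exists_scalar {s : ℕ} {d : Fin s → ℕ} [∀ i, NeZero (d i)]
    (π : k[G] →ₐ[k] Π i, Matrix (Fin (d i)) (Fin (d i)) k) (hπs : Function.Surjective π)
    (i : Fin s) (g : (Fin (d i) → k) →ₗ[k] (Fin (d i) → k))
    (hg : Eqv (matRep π i) (matRep π i) g) : ∃ a : k, g = a • LinearMap.id := by
  have hmat : ∀ (A : Matrix (Fin (d i)) (Fin (d i)) k) v, A.mulVec (g v) = g (A.mulVec v) := by
    intro A v
    obtain ⟨z, hz⟩ := hπs (Pi.single i A)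
    have := asAlgebraHom_eqv hg z v
    rwa [matRep_asAlgebraHom, matRep_asAlgebraHom, hz, Pi.single_eq_same] at this
  refine ⟨g (Pi.single 0 1) 0, LinearMap.pi_ext fun a c => ?_⟩
  have h1 := hmat (Matrix.single a 0 c) (Pi.single 0 1)
  have e1 : (Matrix.single a (0 : Fin (d i)) c).mulVec (Pi.single 0 1) =
      (Pi.single a c : Fin (d i) → k) := by
    ext j
    simp [Matrix.mulVec, dotProduct, Matrix.single_apply, Pi.single_apply, eq_comm]
  rw [e1] at h1
  rw [← h1]
  ext j
  simp [Matrix.mulVec, dotProduct, Matrix.single_apply, Pi.single_apply, ite_and, eq_comm,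
    mul_comm]

variable {H' : Subgroup G} [Fintype H'] {N : Subgroup H'} {n q e : ℕ} [NeZero n]
  (S : SData (k := k) N n q e)

theorem mul_mem_socMod {ζ : k} (hζ : ζ ^ e = 1) (y : k[H']) {w : k[H']} (hw : w ∈ socMod S ζ) :
    y * w ∈ socMod S ζ := by
  induction y using MonoidAlgebra.induction_on with
  | of g => exact (socMod_props S hζ).1 g w hw
  | add a b ha hb => rw [add_mul]; exact Submodule.add_mem _ ha hb
  | smul r a ha => rw [smul_mul_assoc]; exact Submodule.smul_mem _ _ ha

theorem z0_socMod {z0 : H'} (hzN : ∀ h, h ∈ N ↔ Commute h z0) (hzp : z0 ^ p = 1) {ζ : k}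
    (hζ : ζ ^ e = 1) (hne : socGen S ζ ≠ 0) (u : H') (hu : u ∈ Subgroup.zpowers z0) :
    ∀ w ∈ socMod S ζ, MonoidAlgebra.single u (1 : k) * w = w := by
  obtain ⟨hE0, hx, -⟩ := socGen_props S hζ
  obtain ⟨-, hβ, hx0, hgm⟩ := socMod_props S hζ
  have hcomm : ∀ i j, MonoidAlgebra.single z0 (1 : k) * S.E i j =
      S.E i j * MonoidAlgebra.single z0 1 := by
    intro i j
    ext g
    rw [MonoidAlgebra.coeff_single_mul_apply, MonoidAlgebra.coeff_mul_single_apply, one_mul,
      mul_one]
    by_cases hc : Commute g z0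
    · rw [show z0⁻¹ * g = g * z0⁻¹ from (hc.inv_right).symm.eq]
    · have e1 : (S.E i j).coeff (z0⁻¹ * g) = 0 := not_not.1 fun h => hc (by
        have h1 := (hzN _).1 (S.E_supp i j _ h)
        simpa [← mul_assoc] using (Commute.refl z0).mul_left h1)
      have e2 : (S.E i j).coeff (g * z0⁻¹) = 0 := not_not.1 fun h => hc (by
        have h1 := (hzN _).1 (S.E_supp i j _ h)
        simpa [mul_assoc] using h1.mul_left (Commute.refl z0))
      rw [e1, e2]
  have hkey : ∀ y ∈ Submodule.span k (Set.range fun w : ℕ × Fin n × Fin n =>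
      S.x ^ w.1 * S.E w.2.1 w.2.2), ∃ c : k, S.E 0 0 * (y * socGen S ζ) = c • socGen S ζ := by
    intro y hy
    induction hy using Submodule.span_induction with
    | mem y hy =>
      obtain ⟨⟨l, a, b⟩, rfl⟩ := hy
      simp only
      rcases Nat.eq_zero_or_pos l with rfl | hl
      · rw [pow_zero, one_mul, ← mul_assoc, S.E_mul]
        split_ifs with h0
        · by_cases hb : b = 0
          · exact ⟨1, by rw [hb, hE0, one_smul]⟩
          · refine ⟨0, ?_⟩
            rw [zero_smul, ← hE0, ← mul_assoc, S.E_mul, if_neg hb, zero_mul]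
        · exact ⟨0, by simp⟩
      · obtain ⟨l, rfl⟩ : ∃ r, l = r + 1 := ⟨l - 1, by omega⟩
        exact ⟨0, by rw [S.xpow_E, pow_succ, mul_assoc, mul_assoc, hx, mul_zero, mul_zero, mul_zero,
          zero_smul]⟩
    | zero => exact ⟨0, by simp⟩
    | add a b _ _ ha hb =>
      obtain ⟨c, hc⟩ := ha
      obtain ⟨d, hd⟩ := hb
      exact ⟨c + d, by rw [add_mul, mul_add, hc, hd, add_smul]⟩
    | smul t a _ ha =>
      obtain ⟨c, hc⟩ := ha
      exact ⟨t * c, by rw [smul_mul_assoc, mul_smul_comm, hc, smul_smul]⟩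
  obtain ⟨c, hc⟩ := hkey _ (S.span_N z0 ((hzN _).2 (Commute.refl z0)))
  have hzg : MonoidAlgebra.single z0 (1 : k) * socGen S ζ = c • socGen S ζ := by
    rw [← hc, mul_assoc (MonoidAlgebra.single z0 (1 : k)), hβ _ hgm, ← mul_assoc, ← hcomm,
      mul_assoc, hE0]
  have hpow : ∀ m : ℕ, MonoidAlgebra.single (z0 ^ m) (1 : k) * socGen S ζ = c ^ m • socGen S ζ := by
    intro m
    induction m with
    | zero => simp [← MonoidAlgebra.one_def]
    | succ m ih =>
      rw [pow_succ, ← mul_one (1 : k), ← MonoidAlgebra.single_mul_single, mul_assoc, hzg,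
        mul_smul_comm, ih, smul_smul, ← pow_succ']
  have hc1 : c = 1 := by
    have h1 := hpow p
    rw [hzp, ← MonoidAlgebra.one_def, one_mul] at h1
    have h2 : (c ^ p - 1) • socGen S ζ = 0 := by rw [sub_smul, one_smul, ← h1, sub_self]
    have h3 := (smul_eq_zero.1 h2).resolve_right hne
    have h4 : (c - 1) ^ p = 0 := by rw [sub_pow_char, one_pow, h3]
    exact sub_eq_zero.1 (pow_eq_zero_iff (Fact.out : p.Prime).ne_zero |>.1 h4)
  subst hc1
  rw [one_smul] at hzg
  obtain ⟨m, hm⟩ := (mem_powers_iff_mem_zpowers).2 hu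
  simp only at hm
  subst hm
  have hEm : ∀ i j, MonoidAlgebra.single (z0 ^ m) (1 : k) * S.E i j =
      S.E i j * MonoidAlgebra.single (z0 ^ m) 1 := by
    intro i j
    have h := (Commute.pow_left (show Commute (MonoidAlgebra.single z0 (1 : k)) (S.E i j) from
      hcomm i j) m).eq
    rwa [MonoidAlgebra.single_pow, one_pow] at h
  intro w hw
  induction hw using Submodule.span_induction with
  | mem y hy =>
    obtain ⟨i, rfl⟩ := hy
    rw [← mul_assoc, hEm, mul_assoc, hpow, one_pow, one_smul]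
  | zero => simp
  | add a b _ _ ha hb => rw [mul_add, ha, hb]
  | smul r a _ ha => rw [mul_smul_comm, ha]

/-- The inclusion of a group algebra as a linear map. -/
noncomputable def embL (H : Subgroup G) [Fintype H] : k[H] →ₗ[k] k[G] where
  toFun := emb k H
  map_add' := map_add _
  map_smul' r a := by simp [emb]

theorem embL_apply (H : Subgroup G) [Fintype H] (z : k[H]) : embL (k := k) H z = emb k H z := rfl

/-- The identity element of the block fixes the local socle. -/
theorem rst_fix {z0 : H'} (hzN : ∀ h, h ∈ N ↔ Commute h z0) (hzp : z0 ^ p = 1) {ζ : k}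
    (hζ : ζ ^ e = 1) (hne : socGen S ζ ≠ 0) {eB : k[G]} (heB : Fixed (⊤ : Subgroup G) eB)
    (hbr : (∑ h ∈ Finset.univ.filter (· ∈ N), (rst (k := k) H' eB).coeff h •
      MonoidAlgebra.single h (1 : k)) * S.β = S.β) {w : k[H']} (hw : w ∈ socMod S ζ) :
    rst H' eB * w = w := by
  set r := rst (k := k) H' eB with hr
  obtain ⟨-, hβ, -, -⟩ := socMod_props S hζ
  have hsplit : r = ∑ h, r.coeff h • MonoidAlgebra.single h (1 : k) := by
    ext a
    simp [MonoidAlgebra.coeff_sum, Finsupp.single_apply]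
  set F : H' → k[H'] := fun h => r.coeff h • (MonoidAlgebra.single h (1 : k) * w) with hF
  have h1 : r * w = ∑ h, F h := by
    conv_lhs => rw [hsplit]
    rw [Finset.sum_mul]
    exact Finset.sum_congr rfl fun h _ => smul_mul_assoc _ _ _
  have hN : ∑ h ∈ Finset.univ.filter (· ∈ N), F h = w := by
    have : ∑ h ∈ Finset.univ.filter (· ∈ N), F h =
        (∑ h ∈ Finset.univ.filter (· ∈ N), r.coeff h • MonoidAlgebra.single h (1 : k)) * w := by
      rw [Finset.sum_mul]
      exact Finset.sum_congr rfl fun h _ => (smul_mul_assoc _ _ _).symm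
    rw [this]
    conv_lhs => rw [← hβ w hw, ← mul_assoc, hbr, hβ w hw]
  set Z := Subgroup.zpowers z0
  have hZp : IsPGroup p Z := by
    intro u
    obtain ⟨i, hi⟩ := Subgroup.mem_zpowers_iff.1 u.2
    exact ⟨1, Subtype.ext (by
      rw [pow_one, Subgroup.coe_pow, Subgroup.coe_one, ← hi, ← zpow_natCast, ← zpow_mul, mul_comm,
        zpow_mul, zpow_natCast, hzp, one_zpow])⟩
  have hoff : ∑ h ∈ Finset.univ.filter (fun h => ¬ h ∈ N), F h = 0 := by
    letI : MulAction Z H' :=
      MulAction.compHom H' ((MulAut.conj : H' →* MulAut H').comp Z.subtype)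
    have hsmul : ∀ (u : Z) (h : H'), u • h = (u : H') * h * (u : H')⁻¹ := fun u h => rfl
    have hfix := z0_socMod S hzN hzp hζ hne
    set f : H' → k[H'] := fun h => if h ∈ N then 0 else F h with hf
    have hinv : ∀ (u : Z) (h : H'), f (u • h) = f h := by
      intro u h
      have huz : Commute (u : H') z0 := by
        obtain ⟨i, hi⟩ := Subgroup.mem_zpowers_iff.1 u.2
        rw [← hi]; exact Commute.zpow_self z0 i
      have hNiff : (u • h) ∈ N ↔ h ∈ N := by
        rw [hzN, hzN, hsmul]
        constructor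
        · intro hc
          have := ((huz.inv_left).mul_left hc).mul_left huz
          simpa [mul_assoc] using this
        · intro hc; exact (huz.mul_left hc).mul_left huz.inv_left
      have e1 : r.coeff (u • h) = r.coeff h := by
        rw [hr, coeff_rst, coeff_rst, hsmul, Subgroup.coe_mul, Subgroup.coe_mul, Subgroup.coe_inv]
        exact heB.coeff (Subgroup.mem_top _) _
      have e2 : MonoidAlgebra.single (u • h) (1 : k) * w = MonoidAlgebra.single h 1 * w := by
        rw [hsmul, show MonoidAlgebra.single ((u : H') * h * (u : H')⁻¹) (1 : k) =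
            MonoidAlgebra.single (u : H') 1 * MonoidAlgebra.single h 1 *
              MonoidAlgebra.single (u : H')⁻¹ 1 by simp [MonoidAlgebra.single_mul_single],
          mul_assoc, hfix _ (Z.inv_mem u.2) _ hw, mul_assoc,
          hfix _ u.2 _ (mul_mem_socMod S hζ _ hw)]
      simp only [hf, hF, hNiff, e1, e2]
    have hpA : ∀ a : k[H'], p • a = 0 := fun a => by
      rw [← Nat.cast_smul_eq_nsmul k, CharP.cast_eq_zero, zero_smul]
    have h2 := Blocks.sum_eq_sum_fixed hZp hpA f hinv
    rw [Finset.sum_eq_zero (s := Finset.univ.filter _) fun h hh => ?_] at h2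
    · rw [Finset.sum_filter]
      refine Eq.trans ?_ h2
      exact Finset.sum_congr rfl fun h _ => by by_cases hh : h ∈ N <;> simp [hf, hh]
    · have h3 := (Finset.mem_filter.1 hh).2 ⟨z0, Subgroup.mem_zpowers z0⟩
      rw [hsmul, mul_inv_eq_iff_eq_mul] at h3
      simp only [hf]
      rw [if_pos ((hzN h).2 h3.symm)]
  rw [h1, ← Finset.sum_filter_add_sum_filter_not Finset.univ (· ∈ N), hN, hoff, add_zero]

variable {R : Type*} [Ring R] [Algebra k R] {s : ℕ} {d : Fin s → ℕ} [∀ i, NeZero (d i)]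

/-- Every eigenvalue is seen by a simple module of the block. -/
theorem exists_hit (qm : k[G] →ₐ[k] R) (J : Ideal R) [J.IsTwoSided] {J0 : ℕ} (hJ0 : J ^ J0 = ⊥)
    (b : k[G]) (hbi : b * b = b) (hbf : Fixed (⊤ : Subgroup G) b) (hcomm : ∀ r, b * r = r * b)
    (hq0 : ∀ z, qm z = 0 → z * b = 0)
    (π : k[G] →ₐ[k] Π i, Matrix (Fin (d i)) (Fin (d i)) k) (hπs : Function.Surjective π)
    (hπk : ∀ z, π z = 0 → qm z ∈ J) {z0 : H'} (hzN : ∀ h, h ∈ N ↔ Commute h z0) (hzp : z0 ^ p = 1)
    (hbr : (∑ h ∈ Finset.univ.filter (· ∈ N), (rst (k := k) H' b).coeff h •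
      MonoidAlgebra.single h (1 : k)) * S.β = S.β)
    {ζ : k} (hζ : ζ ^ e = 1) (hne : socGen S ζ ≠ 0) :
    ∃ i, ∃ h : socMod S ζ →ₗ[k] (Fin (d i) → k),
      Eqv (StableTr.sub (regL k H') (socMod S ζ) (socMod_props S hζ).1)
        ((matRep π i).comp H'.subtype) h ∧
      ¬ St (StableTr.sub (regL k H') (socMod S ζ) (socMod_props S hζ).1)
        ((matRep π i).comp H'.subtype) h := by
  by_contra hno
  push Not at hno
  obtain ⟨hTs, hTβ, hTx, hgm⟩ := socMod_props S hζ
  set σ := StableTr.sub (regL k H') (socMod S ζ) hTs with hσ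
  set V : Submodule k k[G] := Submodule.span k
    (Set.range fun zw : k[G] × socMod S ζ => zw.1 * emb k H' (zw.2 : k[H']) * b) with hV
  have hVs : ∀ c, ∀ v ∈ V, c * v ∈ V := by
    intro c v hv
    induction hv using Submodule.span_induction with
    | mem z hz =>
      obtain ⟨⟨a, w⟩, rfl⟩ := hz
      exact Submodule.subset_span ⟨(c * a, w), by simp [mul_assoc]⟩
    | zero => simp
    | add x y _ _ hx hy => rw [mul_add]; exact Submodule.add_mem _ hx hy
    | smul t x _ hx => rw [mul_smul_comm]; exact Submodule.smul_mem _ _ hx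
  have hVb : ∀ v ∈ V, v * b = v := by
    intro v hv
    induction hv using Submodule.span_induction with
    | mem z hz =>
      obtain ⟨⟨a, w⟩, rfl⟩ := hz
      simp only
      rw [mul_assoc, hbi]
    | zero => simp
    | add x y _ _ hx hy => rw [add_mul, hx, hy]
    | smul t x _ hx => rw [smul_mul_assoc, hx]
  have hVr : ∀ v ∈ V, rst H' v ∈ socMod S ζ := by
    intro v hv
    induction hv using Submodule.span_induction with
    | mem z hz =>
      obtain ⟨⟨a, w⟩, rfl⟩ := hz
      simp only
      rw [mul_assoc, ← hcomm, ← mul_assoc, rst_mul_emb]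
      exact mul_mem_socMod S hζ _ w.2
    | zero => simp
    | add x y _ _ hx hy => rw [map_add]; exact Submodule.add_mem _ hx hy
    | smul t x _ hx => rw [map_smul]; exact Submodule.smul_mem _ _ hx
  have hVreg : ∀ g, ∀ v ∈ V, regL k G g v ∈ V := fun g v hv => hVs _ v hv
  obtain ⟨f0, hf0a⟩ : ∃ f0 : socMod S ζ →ₗ[k] V, ∀ w, (f0 w : k[G]) = emb k H' (w : k[H']) * b :=
    ⟨LinearMap.codRestrict V ((LinearMap.mulRight k b).comp
      ((embL H').comp (socMod S ζ).subtype))
      (fun w => Submodule.subset_span ⟨(1, w), by simp [embL_apply]⟩), fun w => rfl⟩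
  clear_value V
  have hf0e : Eqv σ ((StableTr.sub (regL k G) V hVreg).comp H'.subtype) f0 := fun x w =>
    Subtype.ext (by
      rw [MonoidHom.coe_comp, Function.comp_apply, StableTr.sub_apply, regL_apply, hf0a, hf0a,
        Subgroup.coe_subtype, hσ, StableTr.sub_apply, regL_apply, map_mul, emb_single, mul_assoc])
  have hst := st_of_layers qm (J) hJ0 b hq0 π hπs hπk V hVs
    hVb hVreg σ (fun i h he => hno i h he) f0 hf0e
  set rV : V →ₗ[k] socMod S ζ :=
    LinearMap.codRestrict _ ((rst H').comp V.subtype) (fun v => hVr v v.2) with hrV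
  have hrVe : Eqv ((StableTr.sub (regL k G) V hVreg).comp H'.subtype) σ rV := fun x v =>
    Subtype.ext (rst_single_mul H' x (v : k[G])).symm
  have hid : rV.comp f0 = LinearMap.id := LinearMap.ext fun w => Subtype.ext (by
    refine Eq.trans (congrArg (rst H') (hf0a w)) ?_
    rw [← hcomm, rst_mul_emb]
    exact rst_fix S hzN hzp hζ hne hbf hbr w.2)
  have hidst := St.comp_left hrVe hst
  rw [hid] at hidst
  have hσb : S.InBlock σ := fun w =>
    Subtype.ext ((sub_asAlgebraHom _ _ _ _).trans (hTβ w w.2))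
  obtain ⟨y, hy⟩ := S.st_mem_range hσb hσb hidst (fun w => Subtype.ext (by
    rw [sub_asAlgebraHom]
    obtain ⟨l, hl⟩ : ∃ l, q - 1 = l + 1 := ⟨q - 2, by have := S.two_le; omega⟩
    rw [hl, pow_succ, mul_assoc, hTx w w.2, mul_zero]
    rfl)) ⟨socGen S ζ, hgm⟩
  refine hne ?_
  have h1 := congrArg Subtype.val hy
  rw [sub_asAlgebraHom, hTx y y.2] at h1
  exact h1.symm

end local_part

variable {G : Type u} [Group G] [Fintype G] {p : ℕ} [Fact p.Prime] {M : Ideal AlgInt}
  [M.IsMaximal] {B : Set (IrrCharacter G)}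

set_option maxHeartbeats 1000000 in
/-- The lower bound for the regular rank. -/
theorem e_le_blockRank (hpM : (p : AlgInt) ∈ M) (hB : IsPBlock M B) (X : Ctx (Res M) G)
    [Fintype X.H'] {N : Subgroup X.H'} {n q e : ℕ} [NeZero n] (S : SData (k := Res M) N n q e)
    (hβ : emb (Res M) X.H' S.β = X.β) (hne : ∀ ζ : Res M, ζ ^ e = 1 → socGen S ζ ≠ 0)
    {η : Res M} (hη : IsPrimitiveRoot η e) {z0 : X.H'} (hzN : ∀ h, h ∈ N ↔ Commute h z0)
    (hzp : z0 ^ p = 1)
    (hbr : (∑ h ∈ Finset.univ.filter (· ∈ N), (rst (k := Res M) X.H' (idemG M B)).coeff h •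
      MonoidAlgebra.single h (1 : Res M)) * S.β = S.β) :
    e ≤ blockRank p B := by
  haveI := charP_res (p := p) hpM
  set b := idemG M B with hb
  have hbb : IsBlk (⊤ : Subgroup G) b := isBlk_idemG hpM hB
  have hcomm : ∀ r : (Res M)[G], b * r = r * b := fun r =>
    hbb.central.comm (fun g hg => absurd (Subgroup.mem_top g) hg)
  haveI htwo : (TwoChars.annOf b).IsTwoSided := ⟨fun {x} r hx => by
    rw [TwoChars.mem_annOf] at hx ⊢
    rw [mul_assoc, ← hcomm r, ← mul_assoc, hx, zero_mul]⟩
  set R := (Res M)[G] ⧸ TwoChars.annOf b with hR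
  set qm := Ideal.Quotient.mkₐ (Res M) (TwoChars.annOf b) with hq
  have hqs : Function.Surjective qm := Ideal.Quotient.mk_surjective
  have hq0 : ∀ x, qm x = 0 ↔ x * b = 0 := fun x => Ideal.Quotient.eq_zero_iff_mem
  have hqb : qm b = 1 := by
    rw [← sub_eq_zero, ← map_one qm, ← map_sub, hq0, sub_mul, one_mul, hbb.idem, sub_self]
  haveI : FiniteDimensional (Res M) R := Module.Finite.of_surjective qm.toLinearMap hqs
  haveI : IsArtinianRing R := IsArtinianRing.of_finite (Res M) R
  haveI : IsSemisimpleRing (R ⧸ Ring.jacobson R) := IsSemiprimaryRing.isSemisimpleRing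
  obtain ⟨s, d, hd, ⟨ee⟩⟩ :=
    IsSemisimpleRing.exists_algEquiv_pi_matrix_of_isAlgClosed (Res M) (R ⧸ Ring.jacobson R)
  haveI := hd
  set π : (Res M)[G] →ₐ[(Res M)] Π i, Matrix (Fin (d i)) (Fin (d i)) (Res M) :=
    (ee.toAlgHom.comp (Ideal.Quotient.mkₐ (Res M) (Ring.jacobson R))).comp qm with hπ
  have hπs : Function.Surjective π := fun y => by
    obtain ⟨r, hr⟩ := Ideal.Quotient.mk_surjective (ee.symm y)
    obtain ⟨z, rfl⟩ := hqs r
    exact ⟨z, by show ee (Ideal.Quotient.mk _ (qm z)) = y; rw [hr, AlgEquiv.apply_symm_apply]⟩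
  have hπk : ∀ z, π z = 0 → qm z ∈ Ring.jacobson R := fun z hz =>
    Ideal.Quotient.eq_zero_iff_mem.1 (ee.injective (hz.trans (map_zero ee).symm))
  have hπb : π b = 1 := by
    rw [hπ, AlgHom.comp_apply, hqb, map_one]
  have hle : s ≤ blockRank p B := by
    set T : Fin s → (Res M)[G] →ₗ[(Res M)] (Res M) := fun i =>
      (Matrix.traceLinearMap (Fin (d i)) (Res M) (Res M)).comp ((LinearMap.proj i).comp π.toLinearMap) with hT
    have hTa : ∀ i x, T i x = Matrix.trace (π x i) := fun i x => rfl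
    refine BlockSimple.card_le_blockRank hpM hB T ?_ ?_ ?_ ?_
    · rw [Fintype.linearIndependent_iff]
      intro c hc i
      obtain ⟨x, hx⟩ := hπs fun j => Matrix.single (0 : Fin (d j)) 0
        (if j = i then (1 : (Res M)) else 0)
      have h1 := LinearMap.congr_fun hc x
      simp only [LinearMap.coe_sum, Finset.sum_apply, LinearMap.smul_apply, hTa, hx,
        Matrix.trace_single_eq_same, smul_eq_mul, mul_ite, mul_one, mul_zero,
        Finset.sum_ite_eq', Finset.mem_univ, if_true, LinearMap.zero_apply] at h1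
      exact h1
    · intro i x; rw [hTa, hTa, map_mul π, hπb, mul_one]
    · intro i x y; rw [hTa, hTa, map_mul, map_mul, Pi.mul_apply, Pi.mul_apply, Matrix.trace_mul_comm]
    · intro i u t hut hu
      obtain ⟨m, hm⟩ := hu
      exact BlockSimple.trace_mul_of_pElement
        ((((Pi.evalAlgHom (Res M) (fun i => Matrix (Fin (d i)) (Fin (d i)) (Res M)) i).comp
          π).toMonoidHom).comp (MonoidAlgebra.of (Res M) G)) hut hm
  obtain ⟨J0, hJ0⟩ := TwoDim.jacobson_isNilpotent (k := Res M) (R := R)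
  have hfix : ∀ ζ : (Res M), ζ ^ e = 1 → ∀ (i : Fin s) hT (h : socMod S ζ →ₗ[(Res M)] (Fin (d i) → (Res M))),
      Eqv (StableTr.sub (regL (Res M) X.H') (socMod S ζ) hT) ((matRep π i).comp X.H'.subtype) h →
      ∀ w, (matRep π i).asAlgebraHom X.β (h w) = h w := by
    intro ζ hζ i hT h he w
    rw [← hβ, asAlgebraHom_emb, asAlgebraHom_eqv he]
    congr 1
    exact Subtype.ext ((sub_asAlgebraHom _ _ _ _).trans ((socMod_props S hζ).2.1 w w.2))
  have hhit : ∀ ζ : (Res M), (hζ : ζ ^ e = 1) → ∃ i, ∃ h : socMod S ζ →ₗ[(Res M)] (Fin (d i) → (Res M)),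
      Eqv (StableTr.sub (regL (Res M) X.H') (socMod S ζ) (socMod_props S hζ).1)
        ((matRep π i).comp X.H'.subtype) h ∧
      ¬ St (StableTr.sub (regL (Res M) X.H') (socMod S ζ) (socMod_props S hζ).1)
        ((matRep π i).comp X.H'.subtype) h := fun ζ hζ =>
    exists_hit S qm (Ring.jacobson R) hJ0 b hbb.idem hbb.fixed hcomm (fun z hz => (hq0 z).1 hz) π
      hπs hπk hzN hzp hbr hζ (hne ζ hζ)
  have hsch := fun i => exists_scalar π hπs i
  have hpowm : ∀ m : Fin e, (η ^ (m : ℕ)) ^ e = 1 := fun m => by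
    rw [← pow_mul, mul_comm, pow_mul, hη.pow_eq_one, one_pow]
  choose ι hι using fun m : Fin e => hhit _ (hpowm m)
  have hinj : Function.Injective ι := by
    intro a c hac
    obtain ⟨ζ₀, hζ₀⟩ := unique_eig S X rfl hβ (matRep π (ι a)) (hsch _)
    have hall : ∀ m : Fin e, ι m = ι a → η ^ (m : ℕ) = ζ₀ := by
      intro m hm
      by_contra hne'
      have h2 : ∀ i, i = ι a → ∀ (h : socMod S (η ^ (m : ℕ)) →ₗ[(Res M)] (Fin (d i) → (Res M))),
          Eqv (StableTr.sub (regL (Res M) X.H') _ (socMod_props S (hpowm m)).1)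
            ((matRep π i).comp X.H'.subtype) h →
          St (StableTr.sub (regL (Res M) X.H') _ (socMod_props S (hpowm m)).1)
            ((matRep π i).comp X.H'.subtype) h := by
        rintro i rfl h he
        exact hζ₀ _ (hpowm m) hne' _ h he (hfix _ (hpowm m) _ _ h he)
      obtain ⟨h, he, hns⟩ := hι m
      exact hns (h2 _ hm h he)
    exact Fin.ext (hη.pow_inj a.2 c.2 ((hall a rfl).trans (hall c hac.symm).symm))
  exact le_trans (by simpa using Fintype.card_le_of_injective ι hinj) hle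

end Cfsg.Agent.Blocks.CyclicCount
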