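import Cfsg.Agent.Blocks.StableTr
import Cfsg.Agent.BlockChar.SubAlg

/-!
A map into a left ideal of a block is stably zero when all maps to the simple modules are.
-/

namespace Cfsg.Agent.Blocks.CyclicLayers

open StableTr Cfsg.Agent.BlockChar
open scoped MonoidAlgebra Classical

set_option autoImplicit false
set_option linter.unusedSectionVars false
set_option linter.style.haveILetI false
set_option linter.style.openClassical false

universe u v

variable {k : Type v} [Field k] {G : Type u} [Group G] [Fintype G]

/-- The left regular representation. -/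
noncomputable def regL (k : Type v) [Field k] (H : Type u) [Group H] :
    Representation k H k[H] where
  toFun g := LinearMap.mulLeft k (MonoidAlgebra.single g (1 : k))
  map_one' := by ext z; simp [MonoidAlgebra.one_def]
  map_mul' a b := LinearMap.ext fun z => by
    simp [← mul_assoc, MonoidAlgebra.single_mul_single]

theorem regL_apply {H : Type u} [Group H] (g : H) (z : k[H]) :
    regL k H g z = MonoidAlgebra.single g (1 : k) * z := rfl

theorem regL_asAlgebraHom {H : Type u} [Group H] (z w : k[H]) :
    (regL k H).asAlgebraHom z w = z * w := by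
  induction z using MonoidAlgebra.induction_on with
  | of g => rw [Representation.asAlgebraHom_of]; rfl
  | add a b ha hb => rw [map_add, LinearMap.add_apply, ha, hb, add_mul]
  | smul r a ha => rw [map_smul, LinearMap.smul_apply, ha, smul_mul_assoc]

theorem sub_asAlgebraHom {H : Type u} [Group H] [Fintype H] (X : Submodule k k[H])
    (hX : ∀ g, ∀ v ∈ X, regL k H g v ∈ X) (z : k[H]) (v : X) :
    (((StableTr.sub (regL k H) X hX).asAlgebraHom z v : X) : k[H]) = z * (v : k[H]) := by
  have h1 := asAlgebraHom_eqv (eqv_subtype X hX) z v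
  simp only [Submodule.subtype_apply] at h1
  rw [← h1, regL_asAlgebraHom]

variable {s : ℕ} {d : Fin s → ℕ}

/-- The representation of a factor. -/
noncomputable def matRep (π : k[G] →ₐ[k] Π i, Matrix (Fin (d i)) (Fin (d i)) k) (i : Fin s) :
    Representation k G (Fin (d i) → k) where
  toFun g := Matrix.toLin' (π (MonoidAlgebra.single g 1) i)
  map_one' := by rw [← MonoidAlgebra.one_def, map_one, Pi.one_apply, Matrix.toLin'_one]; rfl
  map_mul' a b := by
    rw [show MonoidAlgebra.single (a * b) (1 : k) =
      MonoidAlgebra.single a 1 * MonoidAlgebra.single b 1 by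
        rw [MonoidAlgebra.single_mul_single, one_mul], map_mul, Pi.mul_apply, Matrix.toLin'_mul]
    rfl

theorem matRep_apply (π : k[G] →ₐ[k] Π i, Matrix (Fin (d i)) (Fin (d i)) k) (i : Fin s) (g : G)
    (v : Fin (d i) → k) :
    matRep π i g v = (π (MonoidAlgebra.single g 1) i).mulVec v := rfl

theorem matRep_asAlgebraHom (π : k[G] →ₐ[k] Π i, Matrix (Fin (d i)) (Fin (d i)) k) (i : Fin s)
    (z : k[G]) (v : Fin (d i) → k) :
    (matRep π i).asAlgebraHom z v = (π z i).mulVec v := by
  induction z using MonoidAlgebra.induction_on with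
  | of g => rw [Representation.asAlgebraHom_of]; rfl
  | add a b ha hb =>
    rw [map_add, LinearMap.add_apply, ha, hb, map_add, Pi.add_apply, Matrix.add_mulVec]
  | smul r a ha =>
    rw [map_smul, LinearMap.smul_apply, ha, map_smul, Pi.smul_apply, Matrix.smul_mulVec]

variable {R : Type*} [Ring R] [Algebra k R]

/-- The layers of a left ideal. -/
noncomputable def layers (q : k[G] →ₐ[k] R) (J : Ideal R) (V : Submodule k k[G]) : ℕ → Submodule k k[G]
  | 0 => V
  | r + 1 => Submodule.span k {z | ∃ a w, q a ∈ J ∧ w ∈ layers q J V r ∧ a * w = z}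

theorem layers_stable (q : k[G] →ₐ[k] R) (J : Ideal R) {V : Submodule k k[G]}
    (hV : ∀ c, ∀ v ∈ V, c * v ∈ V) (r : ℕ) :
    ∀ c, ∀ v ∈ layers q J V r, c * v ∈ layers q J V r := by
  cases r with
  | zero => exact hV
  | succ r =>
    intro c v hv
    rw [layers] at hv ⊢
    induction hv using Submodule.span_induction with
    | mem z hz =>
      obtain ⟨a, w, ha, hw, rfl⟩ := hz
      refine Submodule.subset_span ⟨c * a, w, ?_, hw, mul_assoc _ _ _⟩
      rw [map_mul]; exact J.mul_mem_left _ ha
    | zero => simp
    | add a b _ _ ha hb => rw [mul_add]; exact Submodule.add_mem _ ha hb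
    | smul t a _ ha => rw [mul_smul_comm]; exact Submodule.smul_mem _ _ ha

theorem layers_anti (q : k[G] →ₐ[k] R) (J : Ideal R) {V : Submodule k k[G]}
    (hV : ∀ c, ∀ v ∈ V, c * v ∈ V) (r : ℕ) : layers q J V (r + 1) ≤ layers q J V r := by
  rw [layers]
  refine Submodule.span_le.2 ?_
  rintro _ ⟨a, w, -, hw, rfl⟩
  exact layers_stable q J hV r a w hw

theorem layers_le (q : k[G] →ₐ[k] R) (J : Ideal R) {V : Submodule k k[G]}
    (hV : ∀ c, ∀ v ∈ V, c * v ∈ V) (r : ℕ) : layers q J V r ≤ V := by
  induction r with
  | zero => exact le_refl _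
  | succ r ih => exact (layers_anti q J hV r).trans ih

theorem layers_pow (q : k[G] →ₐ[k] R) (J : Ideal R) [J.IsTwoSided] (V : Submodule k k[G]) (r : ℕ) :
    ∀ v ∈ layers q J V r, q v ∈ J ^ r := by
  induction r with
  | zero => intro v _; rw [Submodule.pow_zero, Ideal.one_eq_top]; exact Submodule.mem_top
  | succ r ih =>
    intro v hv
    rw [layers] at hv
    induction hv using Submodule.span_induction with
    | mem z hz =>
      obtain ⟨a, w, ha, hw, rfl⟩ := hz
      rw [map_mul]
      rcases Nat.eq_zero_or_pos r with rfl | hr0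
      · rw [Submodule.pow_one]; exact J.mul_mem_right _ ha
      · rw [Submodule.pow_succ' (n := r) (h := hr0.ne')]
        exact Ideal.mul_mem_mul ha (ih w hw)
    | zero => simp
    | add a b _ _ ha hb => rw [map_add]; exact Submodule.add_mem _ ha hb
    | smul t a _ ha => rw [map_smul, Algebra.smul_def]; exact Ideal.mul_mem_left _ _ ha

variable [∀ i, NeZero (d i)] {H' : Subgroup G} [Fintype H'] {U : Type*} [AddCommGroup U] [Module k U]

set_option maxHeartbeats 1000000 in
/-- Maps into a left ideal of the block. -/
theorem st_of_layers (q : k[G] →ₐ[k] R) (J : Ideal R) [J.IsTwoSided] {N : ℕ} (hN : J ^ N = ⊥) (b : k[G])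
    (hq0 : ∀ z, q z = 0 → z * b = 0)
    (π : k[G] →ₐ[k] Π i, Matrix (Fin (d i)) (Fin (d i)) k) (hπs : Function.Surjective π)
    (hπk : ∀ z, π z = 0 → q z ∈ J)
    (V : Submodule k k[G]) (hV : ∀ c, ∀ v ∈ V, c * v ∈ V) (hVb : ∀ v ∈ V, v * b = v)
    (hVreg : ∀ g, ∀ v ∈ V, regL k G g v ∈ V) (σ : Representation k H' U)
    (hall : ∀ (i : Fin s) (h : U →ₗ[k] Fin (d i) → k),
      Eqv σ ((matRep π i).comp H'.subtype) h → St σ ((matRep π i).comp H'.subtype) h)
    (f : U →ₗ[k] V)
    (hf : Eqv σ ((StableTr.sub (regL k G) V hVreg).comp H'.subtype) f) :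
    St σ ((StableTr.sub (regL k G) V hVreg).comp H'.subtype) f := by
  set σV : Representation k H' V := (StableTr.sub (regL k G) V hVreg).comp H'.subtype with hσV
  have hσVa : ∀ (x : H') (v : V), ((σV x v : V) : k[G]) =
      MonoidAlgebra.single (x : G) (1 : k) * (v : k[G]) := fun x v => rfl
  suffices key : ∀ m, ∀ f : U →ₗ[k] V, Eqv σ σV f →
      (∀ u, (f u : k[G]) ∈ layers q J V (N - m)) → St σ σV f by
    refine key N f hf fun u => ?_
    rw [Nat.sub_self, layers]
    exact (f u).2
  intro m
  induction m with
  | zero =>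
    intro f _ hr
    have : f = 0 := LinearMap.ext fun u => Subtype.ext (by
      have h1 := layers_pow q J V N _ (by simpa using hr u)
      rw [hN, Submodule.mem_bot] at h1
      have h2 := hq0 _ h1
      rwa [hVb _ (f u).2] at h2)
    rw [this]; exact St.zero
  | succ m ih =>
    intro f hf hr
    by_cases hm : N ≤ m
    · exact ih f hf fun u => by rw [show N - m = N - (m + 1) by omega]; exact hr u
    set r := N - (m + 1) with hr'
    have hr1 : N - m = r + 1 := by omega
    set W := layers q J V r with hW
    set W1 := layers q J V (r + 1) with hW1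
    have hJW : ∀ a w, π a = 0 → w ∈ W → a * w ∈ W1 := fun a w ha hw => by
      rw [hW1, layers]; exact Submodule.subset_span ⟨a, w, hπk a ha, hw, rfl⟩
    -- projections
    obtain ⟨L, hL⟩ := LinearMap.exists_leftInverse_of_injective W1.subtype W1.ker_subtype
    obtain ⟨PW, hPW⟩ := LinearMap.exists_leftInverse_of_injective W.subtype W.ker_subtype
    set pr : k[G] →ₗ[k] k[G] := LinearMap.id - W1.subtype.comp L with hpr
    have hpr0 : ∀ z ∈ W1, pr z = 0 := fun z hz => by
      have h1 := LinearMap.congr_fun hL ⟨z, hz⟩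
      simp only [LinearMap.comp_apply, Submodule.subtype_apply, LinearMap.id_apply] at h1
      simp [hpr, h1]
    set φ : G → k[G] →ₗ[k] k := fun g =>
      { toFun := fun z => (pr z).coeff g
        map_add' := fun a c => by simp
        map_smul' := fun t a => by simp } with hφ
    set P : G → k[G] := fun g => (PW (MonoidAlgebra.single g 1) : k[G]) with hP
    have hPm : ∀ g, P g ∈ W := fun g => (PW _).2
    have hsum : ∀ z ∈ W, z - ∑ g, φ g z • P g ∈ W1 := by
      intro z hz
      have hzm : pr z ∈ W := by
        rw [show pr z = z - (L z : k[G]) by simp [hpr]]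
        exact W.sub_mem hz (layers_anti q J hV r (L z).2)
      have h1 : ∑ g, φ g z • P g = pr z := by
        have h2 : pr z = ∑ g, (pr z).coeff g • MonoidAlgebra.single g (1 : k) := by
          ext a
          simp [MonoidAlgebra.coeff_sum, Finsupp.single_apply]
        have h3 := LinearMap.congr_fun hPW ⟨pr z, hzm⟩
        simp only [LinearMap.comp_apply, Submodule.subtype_apply, LinearMap.id_apply] at h3
        conv_rhs => rw [show pr z = (PW (pr z) : k[G]) by rw [h3]]
        conv_rhs => rw [h2]
        rw [map_sum, Submodule.coe_sum]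
        exact Finset.sum_congr rfl fun g _ => by rw [map_smul]; rfl
      rw [h1]
      simp [hpr]
    -- matrix units
    have hex : ∀ (i : Fin s) (a c : Fin (d i)), ∃ z, π z = Pi.single i (Matrix.single a c 1) :=
      fun i a c => hπs _
    choose E hE using hex
    have hmulE : ∀ (x : G) (i : Fin s) (a : Fin (d i)), π (E i 0 a * MonoidAlgebra.single x 1 -
        ∑ c, π (MonoidAlgebra.single x 1) i a c • E i 0 c) = 0 := by
      intro x i a
      funext j
      simp only [map_sub, map_mul, map_sum, map_smul, hE, Pi.sub_apply, Pi.mul_apply,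
        Finset.sum_apply, Pi.smul_apply, Pi.zero_apply]
      by_cases hji : j = i
      · subst hji
        ext a' c'
        simp [Matrix.sum_apply, Matrix.mul_apply, Matrix.single_apply, ite_and]
      · simp [hji]
    have hEmul : ∀ (x : G) (i : Fin s) (a : Fin (d i)), π (MonoidAlgebra.single x 1 * E i a 0 -
        ∑ c, π (MonoidAlgebra.single x 1) i c a • E i c 0) = 0 := by
      intro x i a
      funext j
      simp only [map_sub, map_mul, map_sum, map_smul, hE, Pi.sub_apply, Pi.mul_apply,
        Finset.sum_apply, Pi.smul_apply, Pi.zero_apply]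
      by_cases hji : j = i
      · subst hji
        ext a' c'
        simp [Matrix.sum_apply, Matrix.mul_apply, Matrix.single_apply, ite_and]
      · simp [hji]
    have hone : π (1 - ∑ i, ∑ a, E i a 0 * E i 0 a) = 0 := by
      funext j
      simp only [map_sub, map_one, map_sum, map_mul, hE, Pi.sub_apply, Pi.one_apply,
        Finset.sum_apply, Pi.mul_apply, Pi.zero_apply]
      rw [Finset.sum_eq_single j (fun i _ hi => Finset.sum_eq_zero fun a _ => by
        simp [Ne.symm hi]) (fun h => absurd (Finset.mem_univ j) h)]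
      ext a' c'
      simp [Matrix.sum_apply, Matrix.single_apply, Matrix.one_apply, Matrix.mul_apply, ite_and,
        eq_comm]
    -- the components
    set comp : ∀ (i : Fin s), G → (U →ₗ[k] Fin (d i) → k) := fun i g =>
      LinearMap.pi fun a => (φ g).comp ((LinearMap.mulLeft k (E i 0 a)).comp
        (V.subtype.comp f)) with hcomp
    have hcompa : ∀ i g u a, comp i g u a = φ g (E i 0 a * (f u : k[G])) := fun _ _ _ _ => rfl
    have hcompe : ∀ i g, Eqv σ ((matRep π i).comp H'.subtype) (comp i g) := by
      intro i g x u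
      funext a
      show (π (MonoidAlgebra.single (x : G) 1) i).mulVec (comp i g u) a = _
      rw [hcompa, ← hf x u, hσVa, Matrix.mulVec, dotProduct]
      have h1 := hpr0 _ (hJW _ _ (hmulE x i a) (hr u))
      have h2 : φ g ((E i 0 a * MonoidAlgebra.single (x : G) 1 -
          ∑ c, π (MonoidAlgebra.single (x : G) 1) i a c • E i 0 c) * (f u : k[G])) = 0 := by
        show (pr _).coeff g = 0
        rw [h1]; simp
      rw [sub_mul, map_sub, sub_eq_zero, Finset.sum_mul, map_sum] at h2
      rw [← mul_assoc, h2]
      exact Finset.sum_congr rfl fun c _ => by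
        rw [smul_mul_assoc, map_smul, smul_eq_mul, hcompa]
    have hst := fun i g => hall i (comp i g) (hcompe i g)
    choose ψ hψ using hst
    -- the lifts
    set sl : ∀ (i : Fin s), G → ((Fin (d i) → k) →ₗ[k] V) := fun i g =>
      ∑ a, (LinearMap.proj a : (Fin (d i) → k) →ₗ[k] k).smulRight
        (⟨E i a 0 * P g, hV _ _ (layers_le q J hV r (hPm g))⟩ : V) with hsl
    have hsla : ∀ i g v, ((sl i g v : V) : k[G]) = ∑ a, v a • (E i a 0 * P g) := fun i g v => by
      simp [hsl]
    have hslm : ∀ i g (x : H') v, (σV x (sl i g v) : k[G]) -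
        (sl i g (matRep π i (x : G) v) : k[G]) ∈ W1 := by
      intro i g x v
      have h1 : (σV x (sl i g v) : k[G]) - (sl i g (matRep π i (x : G) v) : k[G]) =
          ∑ a, v a • ((MonoidAlgebra.single (x : G) 1 * E i a 0 -
            ∑ c, π (MonoidAlgebra.single (x : G) 1) i c a • E i c 0) * P g) := by
        rw [hσVa, hsla, hsla, Finset.mul_sum]
        simp only [matRep_apply, Matrix.mulVec, dotProduct, Finset.sum_smul, sub_mul, smul_sub,
          Finset.sum_sub_distrib, Finset.sum_mul, Finset.smul_sum, mul_smul_comm, smul_mul_assoc,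
          smul_smul, mul_assoc]
        congr 1
        rw [Finset.sum_comm]
        exact Finset.sum_congr rfl fun a _ => Finset.sum_congr rfl fun c _ => by rw [mul_comm]
      rw [h1]
      exact W1.sum_mem fun a _ => W1.smul_mem _ (hJW _ _ (hEmul x i a) (hPm g))
    set F : U →ₗ[k] V := ∑ i, ∑ g, tr1 σ σV ((sl i g).comp (ψ i g)) with hF
    have hFst : St σ σV F := St.sum _ _ fun i _ => St.sum _ _ fun g _ => ⟨_, rfl⟩
    have hrest : St σ σV (f - F) := by
      refine ih _ (hf.sub hFst.eqv) fun u => ?_
      rw [hr1]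
      show ((f - F) u : k[G]) ∈ W1
      have h1 : ∀ i g, (tr1 σ σV ((sl i g).comp (ψ i g)) u : k[G]) -
          (sl i g (comp i g u) : k[G]) ∈ W1 := by
        intro i g
        rw [hψ i g, tr1_apply, tr1_apply, map_sum, Submodule.coe_sum, Submodule.coe_sum,
          ← Finset.sum_sub_distrib]
        exact W1.sum_mem fun x _ => hslm i g x _
      have h2 : (f u : k[G]) - ∑ i, ∑ g, (sl i g (comp i g u) : k[G]) ∈ W1 := by
        have h3 : (f u : k[G]) - ∑ i, ∑ g, (sl i g (comp i g u) : k[G]) =
            (1 - ∑ i, ∑ a, E i a 0 * E i 0 a) * (f u : k[G]) +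
              ∑ i, ∑ a, E i a 0 * ((E i 0 a * (f u : k[G])) -
                ∑ g, φ g (E i 0 a * (f u : k[G])) • P g) := by
          simp only [hsla, hcompa, sub_mul, one_mul, Finset.sum_mul, mul_sub, Finset.mul_sum,
            mul_smul_comm, Finset.sum_sub_distrib, mul_assoc]
          rw [sub_add_sub_cancel]
          congr 1
          exact Finset.sum_congr rfl fun i _ => Finset.sum_comm
        rw [h3]
        refine W1.add_mem (hJW _ _ hone (hr u)) (W1.sum_mem fun i _ => W1.sum_mem fun a _ => ?_)
        exact layers_stable q J hV (r + 1) _ _ (hsum _ (layers_stable q J hV r _ _ (hr u)))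
      have h4 : ((f - F) u : k[G]) = ((f u : k[G]) - ∑ i, ∑ g, (sl i g (comp i g u) : k[G])) -
          ∑ i, ∑ g, ((tr1 σ σV ((sl i g).comp (ψ i g)) u : k[G]) -
            (sl i g (comp i g u) : k[G])) := by
        simp [hF, LinearMap.sum_apply, Finset.sum_sub_distrib]
      rw [h4]
      exact W1.sub_mem h2 (W1.sum_mem fun i _ => W1.sum_mem fun g _ => h1 i g)
    have := hrest.add hFst
    rwa [show f - F + F = f from LinearMap.ext fun u => sub_add_cancel _ _] at this

end Cfsg.Agent.Blocks.CyclicLayers
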