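import Cfsg.Agent.Blocks.CyclicSections
import Cfsg.Agent.BlockChar.MajorHeight
import Cfsg.Agent.BlockChar.InducedApps
import Cfsg.Agent.BlockChar.RankBounds

/-!
The characters of a block with cyclic defect group, given the lower bound for the regular rank.
-/

namespace Cfsg.Agent.Blocks.CyclicStructure

open Cfsg Cfsg.Agent Cfsg.Agent.BlockChar Cfsg.Agent.Blocks
open Cfsg.Agent.Blocks.OrbitLattice Cfsg.Agent.Blocks.CyclicSections
open scoped MonoidAlgebra ComplexConjugate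

set_option autoImplicit false
set_option linter.unusedSectionVars false
set_option linter.style.haveILetI false

universe u

variable {G : Type u} [Group G] [Fintype G] {p : ℕ} [Fact p.Prime] {M : Ideal AlgInt}
  [M.IsMaximal] {B : Set (IrrCharacter G)} {P : Subgroup G} {e : (Res M)[G]}

theorem commute_of_cyclic (hcyc : IsCyclic P) : ∀ x ∈ P, ∀ y ∈ P, x * y = y * x := by
  obtain ⟨E⟩ := exists_coord hcyc
  intro x hx y hy
  obtain ⟨a, rfl⟩ := E.surj x hx
  obtain ⟨b, rfl⟩ := E.surj y hy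
  rw [← E.add, ← E.add, add_comm]

/-- The subgroup of order `p` of a cyclic defect group and the inertial group. -/
theorem cyclic_setup (hpM : (p : AlgInt) ∈ M) (hPD : IsDefectGroup p M B P) (hcyc : IsCyclic P)
    (hP1 : P ≠ ⊥) {c : Set (IrrCharacter (Subgroup.centralizer (P : Set G)))}
    (hc : IsInducedBlock M (Subgroup.centralizer (P : Set G)) c B) :
    MaxData p B P (idemS M c) ∧
    (∀ t ∈ stab P (idemS M c), ∀ x ∈ P, x ≠ 1 → t * x * t⁻¹ = x →
      t ∈ Subgroup.centralizer (P : Set G)) ∧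
    (Subgroup.centralizer (P : Set G)).relIndex (stab P (idemS M c)) ∣ p - 1 ∧
    (∃ t ∈ stab P (idemS M c), ∀ g ∈ stab P (idemS M c), ∃ k : ℕ,
      (t ^ k)⁻¹ * g ∈ Subgroup.centralizer (P : Set G)) ∧
    ∃ Ω : Subgroup G, Ω ≤ P ∧ Nat.card Ω = p ∧ (∀ Q ≤ P, Q ≠ ⊥ → Ω ≤ Q) ∧
      (∀ t ∈ stab P (idemS M c), t ∈ Subgroup.normalizer (Ω : Set G)) ∧
      stab P (idemS M c) ⊓ Subgroup.centralizer (Ω : Set G) ≤
        Subgroup.centralizer (P : Set G) := by
  classical
  haveI := charP_res (p := p) hpM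
  have hab := commute_of_cyclic hcyc
  have hPC : P ≤ Subgroup.centralizer (P : Set G) := fun x hx =>
    Subgroup.mem_centralizer_iff.mpr fun y hy => hab y hy x hx
  obtain ⟨hmax, ho⟩ := maxPair_of_induced hpM hPD hPC hc
  set T := stab P (idemS M c) with hT
  haveI : ((Subgroup.centralizer (P : Set G)).subgroupOf T).Normal :=
    Subgroup.normal_subgroupOf_of_le_normalizer
      ((stab_le_normalizer P _).trans (normalizer_le_normalizer_centralizer P))
  have hTiff : ∀ g : G, g ∈ T ↔ (g ∈ Subgroup.normalizer (P : Set G) ∧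
      StabilizesBlock (Subgroup.centralizer (P : Set G)) c g) := fun g => by
    rw [hT, mem_stab, stabilizesBlock_iff hpM hc.1]
    exact ⟨fun h => ⟨h.1, normalizer_le_normalizer_centralizer P h.1, h.2⟩,
      fun h => ⟨h.1, h.2.2⟩⟩
  obtain ⟨hcycT, hdvd, hfree⟩ := cyclic_inertial hpM hPD hP1 hcyc hc hTiff
  haveI : Nontrivial P := (Subgroup.nontrivial_iff_ne_bot P).mpr hP1
  have hPp := hmax.pair.pgroup
  obtain ⟨⟨x0, hx0⟩, hord⟩ := exists_prime_orderOf_dvd_card' (G := P) p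
    ((hPp.card_eq_or_dvd).resolve_left Finite.one_lt_card.ne')
  rw [Subgroup.orderOf_mk] at hord
  set Ω := Subgroup.zpowers x0 with hΩ
  have hΩP : Ω ≤ P := Subgroup.zpowers_le.mpr hx0
  have hcardΩ : Nat.card Ω = p := by rw [hΩ, Nat.card_zpowers, hord]
  have hmin : ∀ Q ≤ P, Q ≠ ⊥ → Ω ≤ Q := by
    intro Q hQP hQ
    haveI : Nontrivial Q := (Subgroup.nontrivial_iff_ne_bot Q).mpr hQ
    obtain ⟨⟨y, hy⟩, hyo⟩ := exists_prime_orderOf_dvd_card' (G := Q) p
      (((hPp.to_le hQP).card_eq_or_dvd).resolve_left Finite.one_lt_card.ne')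
    rw [Subgroup.orderOf_mk] at hyo
    haveI := hcyc
    have hyP : Subgroup.zpowers y ≤ P := Subgroup.zpowers_le.mpr (hQP hy)
    have h1 : (Subgroup.zpowers y).subgroupOf P = Ω.subgroupOf P := by
      refine FGS2.subgroup_eq_of_card_eq ?_
      rw [Nat.card_congr (Subgroup.subgroupOfEquivOfLe hyP).toEquiv,
        Nat.card_congr (Subgroup.subgroupOfEquivOfLe hΩP).toEquiv, hcardΩ, Nat.card_zpowers, hyo]
    have h2 := congrArg (Subgroup.map P.subtype) h1
    rw [Subgroup.subgroupOf_map_subtype, Subgroup.subgroupOf_map_subtype, inf_eq_left.mpr hyP,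
      inf_eq_left.mpr hΩP] at h2
    exact h2 ▸ Subgroup.zpowers_le.mpr hy
  refine ⟨⟨hmax, hc.2.1, ho⟩, hfree, hdvd, ?_, Ω, hΩP, hcardΩ, hmin, fun t ht => ?_, ?_⟩
  · obtain ⟨q, hq⟩ := hcycT.exists_generator
    obtain ⟨t, rfl⟩ := QuotientGroup.mk'_surjective _ q
    refine ⟨t, t.2, fun g hg => ?_⟩
    obtain ⟨k, hk⟩ := (mem_powers_iff_mem_zpowers (x := QuotientGroup.mk' _ t)).mpr
      (hq (QuotientGroup.mk' _ ⟨g, hg⟩))
    refine ⟨k, ?_⟩
    simp only at hk
    rw [← map_pow, QuotientGroup.mk'_apply, QuotientGroup.mk'_apply, QuotientGroup.eq,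
      Subgroup.mem_subgroupOf] at hk
    simpa using hk
  · refine mem_normalizer_of_conjS_eq (SetLike.coe_injective (Set.eq_of_subset_of_ncard_le
      (SetLike.coe_subset_coe.2 ?_) ?_ (Set.toFinite _)).symm)
    · refine hmin _ ?_ fun h => ?_
      · exact (conjS_le hΩP).trans (le_of_eq (conjS_eq_self_of_mem_normalizer ((hTiff t).1 ht).1))
      · have := card_conjS t Ω
        rw [h, Subgroup.card_bot, hcardΩ] at this
        exact (Fact.out : p.Prime).ne_one this.symm
    · rw [← Nat.card_coe_set_eq, ← Nat.card_coe_set_eq]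
      exact le_of_eq (card_conjS t Ω)
  · rintro t ⟨ht, htΩ⟩
    refine hfree t ht x0 hx0 (fun h => ?_) ?_
    · rw [h, orderOf_one] at hord; exact (Fact.out : p.Prime).ne_one hord.symm
    · rw [← Subgroup.mem_centralizer_iff.mp htΩ x0 (Subgroup.mem_zpowers x0), mul_inv_cancel_right]

/-- The local block at the identity. -/
theorem conP_one (hpM : (p : AlgInt) ∈ M) (D : MaxData p B P e) {χ ψ : IrrCharacter G}
    (hχ : χ ∈ B) (hψ : ψ ∈ B) :
    conP p P e (χ : G → ℂ) (ψ : G → ℂ) 1 = regInner p (χ : G → ℂ) (ψ : G → ℂ) := by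
  classical
  haveI := charP_res (p := p) hpM
  letI : ∀ v : G, Fintype (cz v) := fun v => Fintype.ofFinite _
  have hu : ∃ k : ℕ, orderOf (1 : G) = p ^ k := ⟨0, by simp⟩
  have hcz : ∀ g : G, g ∈ cz (1 : G) := fun g => mem_cz.mpr (Commute.one_left g)
  have hle := locB_spec hpM D (one_mem P)
  have hβ : IsBlk (cz (1 : G)) (locB p P e 1) := (hle.isPair_left D.pmax.pair).blk
  have hval : ∀ φ : IrrCharacter G, φ ∈ B → ∀ s : G, ¬ p ∣ orderOf s →
      sec (φ : G → ℂ) 1 (locB p P e 1) s = (φ : G → ℂ) s := by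
    intro φ hφ s hs
    have h1 := sum_sec hpM (φ : G → ℂ) 1 s
    rw [one_mul, Finset.sum_eq_single_of_mem (locB p P e 1) (mem_blks.mpr hβ) fun γ hγ hne' => ?_]
      at h1
    · exact h1
    · refine sec_eq_zero hpM D.blk hφ hu (mem_blks.mp hγ) (fun hγo => hne' ?_) (hcz s) hs
      obtain ⟨x, hx⟩ := (below_iff_ofBlock hpM D hu (mem_blks.mp hγ)).mpr hγo
      unfold Below at hx
      rw [mul_one, mul_inv_cancel] at hx
      rw [← eq_locB hpM D (one_mem P) hx]
      exact ((mem_blks.mp hγ).fixed x (hcz x)).symm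
  have hcard : Nat.card (cz (1 : G)) = Nat.card G := by
    rw [show cz (1 : G) = ⊤ from top_le_iff.mp fun g _ => hcz g, Subgroup.card_top]
  rw [conP, m2_eq_filter, hcard, regInner]
  congr 1
  refine Finset.sum_congr ?_ fun g hg => ?_
  · ext g; simp [hcz g, mem_regs]
  · rw [hval χ hχ g (mem_regs.1 hg), hval ψ hψ g (mem_regs.1 hg)]

variable {n : ℕ} [NeZero n]

/-- Sums over a cyclic group in coordinates. -/
theorem sum_coord (E : Coord P n) [DecidablePred (· ∈ P)] (F : G → ℂ) :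
    ∑ v ∈ Finset.univ.filter (· ∈ P), F v = ∑ x, F (E.el x) := by
  symm
  refine Finset.sum_bij (fun x _ => E.el x) (fun x _ => Finset.mem_filter.2 ⟨Finset.mem_univ _, E.mem x⟩)
    (fun a _ b _ h => E.inj h) (fun v hv => ?_) (fun _ _ => rfl)
  obtain ⟨x, hx⟩ := E.surj v (Finset.mem_filter.1 hv).2
  exact ⟨x, Finset.mem_univ _, hx⟩

/-- The shifts of a twisted family. -/
theorem hatF_shift (f : ZMod n → ℤ) (a x : ZMod n) :
    hatF (fun i => f (i - a)) x = ZMod.stdAddChar (a * x) * hatF f x := by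
  rw [hatF, hatF, Finset.mul_sum]
  refine Fintype.sum_equiv (Equiv.subRight a) _ _ fun i => ?_
  rw [Equiv.subRight_apply, show i * x = a * x + (i - a) * x by ring, AddChar.map_add_eq_mul]
  ring

/-- The invariance under a unit. -/
theorem inv_of_hatF {f : ZMod n → ℤ} {ρ σ : ZMod n} (h : σ * ρ = 1)
    (hf : ∀ x, hatF f (σ * x) = hatF f x) (i : ZMod n) : f (ρ * i) = f i := by
  have hg : ∀ x, hatF (fun i => f (ρ * i)) x = hatF f x := by
    intro x
    rw [← hf x, hatF, hatF]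
    refine Fintype.sum_equiv
      { toFun := fun i => ρ * i, invFun := fun i => σ * i,
        left_inv := fun i => show σ * (ρ * i) = i by rw [← mul_assoc, h, one_mul],
        right_inv := fun i => show ρ * (σ * i) = i by rw [← mul_assoc, mul_comm ρ, h, one_mul] } _ _ fun j => ?_
    show _ = (f (ρ * j) : ℂ) * ZMod.stdAddChar (ρ * j * (σ * x))
    rw [show ρ * j * (σ * x) = σ * ρ * (j * x) by ring, h, one_mul]
  have h1 := inv_hatF f i
  have h2 := inv_hatF (fun i => f (ρ * i)) i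
  simp only [hg, mul_zero] at h2
  rw [h1] at h2
  have h3 := mul_left_cancel₀ (Nat.cast_ne_zero.2 (NeZero.ne n) : (n : ℂ) ≠ 0) h2
  have h4 : f i - f 0 = f (ρ * i) - f 0 := by exact_mod_cast h3
  linarith

set_option maxHeartbeats 2000000 in
/-- The structure of a block with cyclic defect group. -/
theorem cyclic_structure (hpM : (p : AlgInt) ∈ M) (hPD : IsDefectGroup p M B P) (hcyc : IsCyclic P)
    (hP1 : P ≠ ⊥) {a : ℕ} (hPa : Nat.card P = p ^ a)
    {c : Set (IrrCharacter (Subgroup.centralizer (P : Set G)))}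
    (hc : IsInducedBlock M (Subgroup.centralizer (P : Set G)) c B)
    (hlow : (Subgroup.centralizer (P : Set G)).relIndex (stab P (idemS M c)) ≤ blockRank p B) :
    let e := (Subgroup.centralizer (P : Set G)).relIndex (stab P (idemS M c))
    blockRank p B = e ∧ e ∣ p - 1 ∧ (∀ χ ∈ B, blockHeight p B (χ : G → ℂ) = 0) ∧
    ∃ X Y : Set (IrrCharacter G), B = X ∪ Y ∧ Disjoint X Y ∧ Nat.card X = e ∧
      Nat.card Y = (p ^ a - 1) / e ∧
      (∀ ψ ∈ Y, ∀ ψ' ∈ Y, ∀ g : G, ¬ p ∣ orderOf g → (ψ : G → ℂ) g = (ψ' : G → ℂ) g) ∧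
      ∃ (δ : IrrCharacter G → ℤ) (δ₀ : ℤ), (∀ χ ∈ X, δ χ = 1 ∨ δ χ = -1) ∧ (δ₀ = 1 ∨ δ₀ = -1) ∧
        (∀ ψ ∈ Y, ∀ g : G, ¬ p ∣ orderOf g →
          (δ₀ : ℂ) * (ψ : G → ℂ) g + ∑ᶠ χ ∈ X, (δ χ : ℂ) * (χ : G → ℂ) g = 0) ∧
        (∀ χ ∈ X, ∀ χ' ∈ X, δ χ * (charDegree (χ : G → ℂ) : ℤ) ≡
          δ χ' * (charDegree (χ' : G → ℂ) : ℤ) [ZMOD (p : ℤ) ^ a]) ∧
        ∀ ψ ∈ Y, ∀ χ ∈ X, (charDegree (ψ : G → ℂ) : ℤ) ≡
          -((e : ℤ) * δ₀ * δ χ * (charDegree (χ : G → ℂ) : ℤ)) [ZMOD (p : ℤ) ^ a] := by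
  classical
  intro e
  haveI := charP_res (p := p) hpM
  letI : ∀ v : G, Fintype (cz v) := fun v => Fintype.ofFinite _
  obtain ⟨D, hfree, hdvd, ⟨t, ht, hgen⟩, Ω, hΩP, hΩcard, hmin, hΩN, hΩC⟩ :=
    cyclic_setup hpM hPD hcyc hP1 hc
  set T := stab P (idemS M c) with hT
  have hab := commute_of_cyclic hcyc
  haveI : NeZero (Nat.card P) := ⟨Nat.card_pos.ne'⟩
  obtain ⟨E⟩ := exists_coord hcyc
  set n := Nat.card P with hn
  haveI : NeZero n := ⟨Nat.card_pos.ne'⟩
  have hn2 : 2 ≤ n := by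
    haveI : Nontrivial P := (Subgroup.nontrivial_iff_ne_bot P).mpr hP1
    exact Finite.one_lt_card
  obtain ⟨hrank, hcount⟩ := card_eq_of_free hpM hPD hab hc hfree
  change e * Nat.card B = e * blockRank p B + (n - 1) at hcount
  obtain ⟨m, S₀, hsec, hcon, htw, -⟩ := exists_mult hpM D E rfl
    (C := Subgroup.centralizer (Ω : Set G))
    (fun x hx => Subgroup.mem_centralizer_iff.mpr fun y hy => hab y (hΩP hy) x hx)
    (centralizer_anti hΩP)
    (fun v hv hv1 => centralizer_anti (hmin _ (Subgroup.zpowers_le.mpr hv)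
      (fun h => hv1 (Subgroup.zpowers_eq_bot.mp h))))
    hΩC (fun t ht => normalizer_le_normalizer_centralizer Ω (hΩN t ht)) hrank
  -- the multipliers
  have hmul : ∀ g ∈ T, ∃ r : ZMod n, ∀ x, g * E.el x * g⁻¹ = E.el (r * x) := by
    intro g hg
    obtain ⟨r, hr⟩ := E.surj _ ((Subgroup.mem_normalizer_iff.mp hg.1 _).mp (E.mem 1))
    refine ⟨r, fun x => ?_⟩
    obtain ⟨k, rfl⟩ := ZMod.natCast_zmod_surjective x
    induction k with
    | zero => simp [E.zero]
    | succ k ih => rw [Nat.cast_succ, E.add, mul_add, mul_one, E.add, ← ih, hr]; group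
  have huniq : ∀ g r, (∀ x, g * E.el x * g⁻¹ = E.el (r * x)) → g * E.el 1 * g⁻¹ = E.el r :=
    fun g r h => by rw [h 1, mul_one]
  set R := Finset.univ.filter (fun r : ZMod n => E.el r ∈ orbP P (idemS M c) (E.el 1)) with hR
  have hRmem : ∀ r, r ∈ R ↔ ∃ g ∈ T, ∀ x, g * E.el x * g⁻¹ = E.el (r * x) := by
    intro r
    simp only [hR, Finset.mem_filter, Finset.mem_univ, true_and]
    constructor
    · rintro ⟨g, hg, h⟩
      obtain ⟨r', hr'⟩ := hmul g hg
      have := huniq g r' hr'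
      rw [h] at this
      exact ⟨g, hg, E.inj this ▸ hr'⟩
    · rintro ⟨g, hg, h⟩
      exact ⟨g, hg, huniq g r h⟩
  have hel1 : E.el 1 ≠ 1 := E.ne_one (fun h => by
    haveI : Fact (1 < n) := ⟨hn2⟩
    exact one_ne_zero h)
  have hRcard : R.card = e := by
    refine Eq.trans ?_
      (card_orbP_of_free D.pmax.pair (E.mem 1) (fun g hg h => hfree g hg _ (E.mem 1) hel1 h))
    rw [← Fintype.card_coe, ← Nat.card_eq_fintype_card]
    refine Nat.card_eq_of_bijective (fun r => (⟨E.el r.1, (Finset.mem_filter.1 r.2).2⟩ :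
      orbP P (idemS M c) (E.el 1))) ⟨fun r s h => Subtype.ext (E.inj (congrArg Subtype.val h)), ?_⟩
    rintro ⟨w, hw⟩
    obtain ⟨x, rfl⟩ := E.surj w (orbP_subset (E.mem 1) w hw)
    exact ⟨⟨x, Finset.mem_filter.2 ⟨Finset.mem_univ _, hw⟩⟩, rfl⟩
  have hone : ∀ g ∈ Subgroup.centralizer (P : Set G), ∀ r : ZMod n,
      (∀ x, g * E.el x * g⁻¹ = E.el (r * x)) → r = 1 := by
    intro g hg r h
    have h1 := huniq g r h
    rw [← Subgroup.mem_centralizer_iff.mp hg _ (E.mem 1), mul_inv_cancel_right] at h1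
    exact (E.inj h1).symm
  have h1R : (1 : ZMod n) ∈ R := (hRmem 1).2 ⟨1, one_mem _, fun x => by simp⟩
  have hfreeR : ∀ r ∈ R, ∀ i : ZMod n, r * i = i → i ≠ 0 → r = 1 := by
    intro r hr i hi hi0
    obtain ⟨g, hg, h⟩ := (hRmem r).1 hr
    exact hone g (hfree g hg _ (E.mem i) (E.ne_one hi0) (by rw [h, hi])) r h
  have hunit : ∀ r ∈ R, ∀ i : ZMod n, r * i = 0 → i = 0 := by
    intro r hr i hi
    obtain ⟨g, hg, h⟩ := (hRmem r).1 hr
    by_contra hi0
    have := h i
    rw [hi, E.zero, conj_eq_one_iff] at this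
    exact E.ne_one hi0 this
  have hdiv : ∀ r ∈ R, ∀ s ∈ R, ∃ u ∈ R, s = r * u := by
    intro r hr s hs
    obtain ⟨g, hg, h⟩ := (hRmem r).1 hr
    obtain ⟨g', hg', h'⟩ := (hRmem s).1 hs
    obtain ⟨u, hu⟩ := hmul (g⁻¹ * g') (T.mul_mem (T.inv_mem hg) hg')
    refine ⟨u, (hRmem u).2 ⟨_, T.mul_mem (T.inv_mem hg) hg', hu⟩, E.inj ?_⟩
    rw [← huniq g' s h', ← h u, ← huniq _ u hu]
    group
  obtain ⟨rt, hrt⟩ := hmul t ht
  have hpow : ∀ k : ℕ, ∀ x, t ^ k * E.el x * (t ^ k)⁻¹ = E.el (rt ^ k * x) := by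
    intro k
    induction k with
    | zero => intro x; simp
    | succ k ih =>
      intro x
      rw [pow_succ' t, pow_succ', mul_assoc rt, ← hrt, ← ih]
      group
  have hRpow : ∀ r ∈ R, ∃ k : ℕ, r = rt ^ k := by
    intro r hr
    obtain ⟨g, hg, h⟩ := (hRmem r).1 hr
    obtain ⟨k, hk⟩ := hgen g hg
    refine ⟨k, E.inj ?_⟩
    rw [← huniq g r h, ← mul_one (rt ^ k), ← hpow k 1]
    have hcm := Subgroup.mem_centralizer_iff.mp hk _ (E.mem 1)
    calc g * E.el 1 * g⁻¹ = t ^ k * ((t ^ k)⁻¹ * g * E.el 1 * ((t ^ k)⁻¹ * g)⁻¹) * (t ^ k)⁻¹ := by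
          group
      _ = _ := by rw [← hcm, mul_inv_cancel_right]
  -- normalise the multiplicities
  obtain ⟨sh, hsh⟩ : ∃ sh : ZMod n, ∀ χ : IrrCharacter G, ∀ x : ZMod n,
      hatF (fun i => m χ (i - sh)) (rt * x) = hatF (fun i => m χ (i - sh)) x := by
    by_cases hr1 : rt = 1
    · exact ⟨0, fun χ x => by rw [hr1, one_mul]⟩
    obtain ⟨j, hj⟩ := htw t ht rt hrt
    have hinj : Function.Injective (fun x : ZMod n => x * (rt - 1)) := by
      intro x y h
      simp only at h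
      by_contra hne
      refine hr1 (hfreeR rt ((hRmem rt).2 ⟨t, ht, hrt⟩) (x - y) ?_ (sub_ne_zero.2 hne))
      linear_combination h
    obtain ⟨sh, hsh⟩ := (Finite.injective_iff_surjective.1 hinj) j
    simp only at hsh
    refine ⟨sh, fun χ x => ?_⟩
    by_cases hx : x = 0
    · rw [hx, mul_zero]
    · rw [hatF_shift, hatF_shift, hj χ x hx, ← mul_assoc (ZMod.stdAddChar (sh * x)),
        ← AddChar.map_add_eq_mul, ← hsh]
      congr 2
      ring
  set A : IrrCharacter G → ZMod n → ℤ := fun χ i => m χ (i - sh) with hA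
  have hAR : ∀ χ, ∀ r ∈ R, ∀ x, hatF (A χ) (r * x) = hatF (A χ) x := by
    intro χ r hr x
    obtain ⟨k, rfl⟩ := hRpow r hr
    induction k with
    | zero => simp
    | succ k ih =>
      by_cases hk : rt ^ k ∈ R
      · rw [pow_succ', mul_assoc, hsh, ih hk]
      · exact absurd ((hRmem _).2 ⟨t ^ k, T.pow_mem ht k, hpow k⟩) hk
  have hAinv : ∀ χ, ∀ r ∈ R, ∀ i, A χ (r * i) = A χ i := by
    intro χ r hr i
    obtain ⟨u, hu, hru⟩ := hdiv r hr 1 h1R
    exact inv_of_hatF (σ := u) (by rw [mul_comm]; exact hru.symm) (hAR χ u hu) i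
  have hconA : ∀ χ ψ : IrrCharacter G, ∀ x : ZMod n, x ≠ 0 →
      (n : ℂ) * conP p P (idemS M c) (χ : G → ℂ) (ψ : G → ℂ) (E.el x) =
        hatF (A χ) x * conj (hatF (A ψ) x) := by
    intro χ ψ x hx
    rw [hcon χ ψ x hx, hA, hatF_shift, hatF_shift, map_mul (starRingEnd ℂ),
      mul_mul_mul_comm, ← AddChar.map_neg_eq_conj, ← AddChar.map_add_eq_mul, add_neg_cancel,
      AddChar.map_zero_eq_one, one_mul]
  have horbcard : ∀ x : ZMod n, x ≠ 0 → Nat.card (orbP P (idemS M c) (E.el x)) = e := fun x hx =>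
    card_orbP_of_free D.pmax.pair (E.mem x) fun g hg h => hfree g hg _ (E.mem x) (E.ne_one hx) h
  -- the orthogonality relations
  set S := (Finset.univ : Finset (ZMod n)).erase 0 with hS
  set W : IrrCharacter G → IrrCharacter G → ℂ := fun χ ψ =>
    ((e : ℂ) * n)⁻¹ * ∑ x ∈ S, hatF (A χ) x * conj (hatF (A ψ) x) with hW
  have he0 : (e : ℂ) ≠ 0 := Nat.cast_ne_zero.mpr Subgroup.index_ne_zero_of_finite
  have hn0 : (n : ℂ) ≠ 0 := Nat.cast_ne_zero.2 (NeZero.ne n)
  have hWR : ∀ χ ψ : IrrCharacter G, χ ∈ B → ψ ∈ B →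
      W χ ψ = (if χ = ψ then 1 else 0) - regInner p (χ : G → ℂ) (ψ : G → ℂ) := by
    intro χ ψ hχ hψ
    have h := sum_conP hpM D hab χ hψ
    rw [sum_coord E, ← Finset.add_sum_erase _ _ (Finset.mem_univ (0 : ZMod n)), E.zero,
      card_orbP_one, conP_one hpM D hχ hψ, Nat.cast_one, inv_one, one_mul] at h
    rw [← h, add_sub_cancel_left]
    simp only [hW]
    rw [Finset.mul_sum]
    refine Finset.sum_congr rfl fun x hx => ?_
    rw [horbcard x (Finset.mem_erase.1 hx).1, ← hconA χ ψ x (Finset.mem_erase.1 hx).1]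
    field_simp
  set Gm : ZMod n → ZMod n → ℂ := fun x y => ∑ χ ∈ bf B, hatF (A χ) x * conj (hatF (A χ) y)
    with hGm
  have hGdiag : ∀ x, x ≠ 0 → Gm x x = n := by
    intro x hx
    rw [hGm]
    show ∑ χ ∈ bf B, _ = _
    rw [Finset.sum_congr rfl fun χ _ => (hconA χ χ x hx).symm, ← Finset.mul_sum,
      sum_conP_diag hpM D (E.mem x), hrank _ (E.mem x) (E.ne_one hx), Nat.cast_one, mul_one]
  have hGR : ∀ x, x ≠ 0 → ∀ r ∈ R, Gm x (r * x) = n := by
    intro x hx r hr
    rw [← hGdiag x hx]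
    exact Finset.sum_congr rfl fun χ _ => by rw [hAR χ r hr x]
  have hWtr : ∑ χ ∈ bf B, W χ χ = (e : ℂ)⁻¹ * (S.card : ℂ) := by
    simp only [hW, ← Finset.mul_sum]
    rw [Finset.sum_comm, Finset.sum_congr rfl fun x hx =>
      show ∑ χ ∈ bf B, hatF (A χ) x * conj (hatF (A χ) x) = (n : ℂ) from
        hGdiag x (Finset.mem_erase.1 hx).1, Finset.sum_const, nsmul_eq_mul]
    field_simp
    all_goals rfl
  have hWW : ∑ χ ∈ bf B, ∑ ψ ∈ bf B, W χ ψ * W ψ χ = ∑ χ ∈ bf B, W χ χ := by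
    refine Finset.sum_congr rfl fun χ hχ => ?_
    have hχ' := mem_bf.1 hχ
    have hrr := regInner_trans hpM D.blk (φ := χ) hχ'
    rw [Finset.sum_congr rfl fun ψ hψ => by
      rw [hWR χ ψ hχ' (mem_bf.1 hψ), hWR ψ χ (mem_bf.1 hψ) hχ'], hWR χ χ hχ' hχ', if_pos rfl]
    simp only [sub_mul, mul_sub, Finset.sum_sub_distrib, ite_mul, mul_ite, one_mul, mul_one,
      zero_mul, mul_zero, Finset.sum_ite_eq, Finset.sum_ite_eq', hχ, if_true, hrr]
    ring
  have hnormSq : ∑ x ∈ S, ∑ y ∈ S, Complex.normSq (Gm x y) = (e : ℝ) * n ^ 2 * S.card := by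
    apply Complex.ofReal_injective
    push_cast
    have h1 : ∑ χ ∈ bf B, ∑ ψ ∈ bf B, W χ ψ * W ψ χ =
        (((e : ℂ) * n)⁻¹) ^ 2 * ∑ x ∈ S, ∑ y ∈ S, Gm y x * conj (Gm y x) := by
      simp only [hW, hGm, map_sum, map_mul, Complex.conj_conj, Finset.sum_mul, Finset.mul_sum]
      rw [Finset.sum_comm]
      conv_rhs => arg 2; ext x; rw [Finset.sum_comm]
      rw [Finset.sum_comm (s := S)]
      refine Finset.sum_congr rfl fun χ _ => ?_
      rw [Finset.sum_comm]
      refine Finset.sum_congr rfl fun x _ => ?_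
      rw [Finset.sum_comm]
      refine Finset.sum_congr rfl fun y _ => Finset.sum_congr rfl fun ψ _ => ?_
      ring
    rw [hWW, hWtr, Finset.sum_comm (s := S) (t := S)] at h1
    rw [Finset.sum_congr rfl fun x _ => Finset.sum_congr rfl fun y _ =>
      (Complex.mul_conj (Gm x y)).symm]
    field_simp at h1 ⊢
    linear_combination -h1
  have hGzero : ∀ x y, x ≠ 0 → y ≠ 0 → Gm x y = if y ∈ R.image (· * x) then (n : ℂ) else 0 := by
    have hsub : ∀ x ∈ S, R.image (· * x) ⊆ S := fun x hx y hy => by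
      obtain ⟨r, hr, rfl⟩ := Finset.mem_image.1 hy
      exact Finset.mem_erase.2 ⟨fun h => (Finset.mem_erase.1 hx).1 (hunit r hr x h),
        Finset.mem_univ _⟩
    have hin : ∀ x ∈ S, ∑ y ∈ R.image (· * x), Complex.normSq (Gm x y) = (e : ℝ) * n ^ 2 := by
      intro x hx
      have hx0 := (Finset.mem_erase.1 hx).1
      rw [Finset.sum_image fun r hr s hs h => ?_, Finset.sum_congr rfl fun r hr => by
        rw [hGR x hx0 r hr], Finset.sum_const, hRcard, nsmul_eq_mul, Complex.normSq_natCast]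
      · ring
      · obtain ⟨u, hu, rfl⟩ := hdiv r hr s hs
        change r * x = r * u * x at h
        have h2 : r * (u * x - x) = 0 := by rw [mul_sub, ← mul_assoc, ← h, sub_self]
        rw [hfreeR u hu x (sub_eq_zero.1 (hunit r hr _ h2)) hx0, mul_one]
    have h0 : ∑ x ∈ S, ∑ y ∈ S \ R.image (· * x), Complex.normSq (Gm x y) = 0 := by
      have h := hnormSq
      rw [Finset.sum_congr rfl fun x hx => (Finset.sum_sdiff (hsub x hx)).symm,
        Finset.sum_add_distrib, Finset.sum_congr rfl hin, Finset.sum_const, nsmul_eq_mul] at h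
      linarith
    intro x y hx hy
    split_ifs with hm
    · obtain ⟨r, hr, rfl⟩ := Finset.mem_image.1 hm
      exact hGR x hx r hr
    · have h1 := (Finset.sum_eq_zero_iff_of_nonneg fun x _ => Finset.sum_nonneg fun y _ =>
        Complex.normSq_nonneg _).1 h0 x (Finset.mem_erase.2 ⟨hx, Finset.mem_univ _⟩)
      exact Complex.normSq_eq_zero.1 ((Finset.sum_eq_zero_iff_of_nonneg fun y _ =>
        Complex.normSq_nonneg _).1 h1 y (Finset.mem_sdiff.2
          ⟨Finset.mem_erase.2 ⟨hy, Finset.mem_univ _⟩, hm⟩))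
  -- the lattice
  set V : bf B → ZMod n → ℤ := fun χ i => A χ i - A χ 0 with hV
  have hgram : ∀ i j : ZMod n, i ≠ 0 → j ≠ 0 → ∑ χ : bf B, V χ i * V χ j =
      (if j ∈ R.image (· * i) then 1 else 0) + (R.card : ℤ) := fun i j hi hj => by
    refine gram h1R hfreeR hunit hdiv (fun χ : bf B => A χ) (fun x y hx hy => ?_) hi hj
    rw [← hGzero x y hx hy]
    exact Finset.sum_coe_sort (bf B) fun χ => hatF (A χ) x * conj (hatF (A χ) y)
  have hne : ∀ χ : bf B, ∃ i, i ≠ 0 ∧ V χ i ≠ 0 := by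
    intro χ
    by_contra hno
    push Not at hno
    have hz : ∀ i, A χ i = A χ 0 := fun i => by
      by_cases hi : i = 0
      · rw [hi]
      · exact sub_eq_zero.1 (hno i hi)
    haveI : Fact (1 < n) := ⟨hn2⟩
    have h1 := hconA χ χ 1 one_ne_zero
    rw [hatF_eq_zero hz one_ne_zero, zero_mul, mul_eq_zero] at h1
    have h2 := conP_pos hpM D (E.mem 1) (fun w hw => hab _ (E.mem 1) w hw) (mem_bf.1 χ.2)
    rw [h1.resolve_left hn0] at h2
    exact lt_irrefl _ h2
  obtain ⟨X, Y, d, o, hXY, hall, hXc, hYc, hd, hVX, hVY, hcov⟩ := shape h1R hfreeR hunit hdiv hn2 V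
    (fun χ r hr i => by simp only [hV, hAinv χ r hr i]) hne hgram (by
      rw [Fintype.card_coe, ← card_bf, mul_comm (Nat.card B), hRcard, hcount]
      have := Nat.mul_le_mul_left e (show e ≤ blockRank p B from hlow)
      omega)
  rw [hRcard] at hXc hYc
  have hepos : 0 < e := Nat.pos_of_ne_zero Subgroup.index_ne_zero_of_finite
  have hcardB : Nat.card B = X.card + Y.card := by
    rw [card_bf, ← Fintype.card_coe, ← Finset.card_union_of_disjoint hXY, ← Finset.card_univ]
    congr 1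
    exact (Finset.eq_univ_iff_forall.2 fun χ => Finset.mem_union.2 (hall χ)).symm
  have hleB : blockRank p B = e := by
    rw [hcardB, hXc, mul_add, mul_comm e Y.card, hYc] at hcount
    have h := Nat.add_right_cancel hcount
    exact (Nat.eq_of_mul_eq_mul_left hepos h).symm
  -- relations on the regular elements
  have hU : ∀ x, x ≠ 0 → ∀ s, ¬ p ∣ orderOf s →
      ∑ χ ∈ bf B, conj (hatF (A χ) x) * (χ : G → ℂ) s = 0 := by
    intro x hx s hs
    set F : G → ℂ := fun s => ∑ χ ∈ bf B, conj (hatF (A χ) x) * (χ : G → ℂ) s with hF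
    have hnorm : (Nat.card G : ℂ)⁻¹ * ∑ s ∈ regs p G, F s * conj (F s) = 0 := by
      have h1 : (Nat.card G : ℂ)⁻¹ * ∑ s ∈ regs p G, F s * conj (F s) = ∑ χ ∈ bf B, ∑ ψ ∈ bf B,
          conj (hatF (A χ) x) * hatF (A ψ) x * regInner p (χ : G → ℂ) (ψ : G → ℂ) := by
        simp only [hF, regInner, map_sum, map_mul, Complex.conj_conj, Finset.sum_mul,
          Finset.mul_sum]
        rw [Finset.sum_comm]
        conv_rhs => rw [Finset.sum_comm]
        refine Finset.sum_congr rfl fun χ _ => ?_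
        rw [Finset.sum_comm]
        refine Finset.sum_congr rfl fun ψ _ => Finset.sum_congr rfl fun g _ => ?_
        ring
      have h2 : ∑ χ ∈ bf B, ∑ ψ ∈ bf B, conj (hatF (A χ) x) * hatF (A ψ) x * W χ ψ =
          ((e : ℂ) * n)⁻¹ * ∑ y ∈ S, Gm y x * conj (Gm y x) := by
        simp only [hW, hGm, map_sum, map_mul, Complex.conj_conj, Finset.sum_mul, Finset.mul_sum]
        conv_rhs => rw [Finset.sum_comm]; arg 2; ext χ; rw [Finset.sum_comm]
        rw [Finset.sum_comm]
        refine Finset.sum_congr rfl fun ψ _ => Finset.sum_congr rfl fun χ _ =>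
          Finset.sum_congr rfl fun y _ => ?_
        ring
      have h3 : ∑ y ∈ S, Gm y x * conj (Gm y x) = (e : ℂ) * n ^ 2 := by
        have hsum : ∀ y ∈ S, Gm y x * conj (Gm y x) =
            if y ∈ R.image (· * x) then (n : ℂ) ^ 2 else 0 := by
          intro y hy
          have hsymm : x ∈ R.image (· * y) ↔ y ∈ R.image (· * x) := by
            simp only [Finset.mem_image]
            constructor <;>
            · rintro ⟨r, hr, rfl⟩
              obtain ⟨u, hu, hru⟩ := hdiv r hr 1 h1R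
              exact ⟨u, hu, by rw [← mul_assoc, mul_comm u r, ← hru, one_mul]⟩
          rw [hGzero y x (Finset.mem_erase.1 hy).1 hx]
          simp only [hsymm]
          split_ifs <;> simp [pow_two]
        rw [Finset.sum_congr rfl hsum, ← Finset.sum_filter, Finset.sum_const,
          show (S.filter fun y => y ∈ R.image (· * x)) = R.image (· * x) from
            Finset.ext fun y => by
              simp only [Finset.mem_filter, hS, Finset.mem_erase, Finset.mem_univ, and_true,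
                and_iff_right_iff_imp]
              intro hy h0
              obtain ⟨r, hr, rfl⟩ := Finset.mem_image.1 hy
              exact hx (hunit r hr x h0),
          Finset.card_image_of_injOn fun r hr s hs h => ?_, hRcard, nsmul_eq_mul]
        obtain ⟨u, hu, rfl⟩ := hdiv r hr s hs
        change r * x = r * u * x at h
        have h2 : r * (u * x - x) = 0 := by rw [mul_sub, ← mul_assoc, ← h, sub_self]
        rw [hfreeR u hu x (sub_eq_zero.1 (hunit r hr _ h2)) hx, mul_one]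
      rw [h1, Finset.sum_congr rfl fun χ hχ => Finset.sum_congr rfl fun ψ hψ => show
        conj (hatF (A χ) x) * hatF (A ψ) x * regInner p (χ : G → ℂ) (ψ : G → ℂ) =
          (if χ = ψ then conj (hatF (A χ) x) * hatF (A ψ) x else 0) -
            conj (hatF (A χ) x) * hatF (A ψ) x * W χ ψ by
          rw [hWR χ ψ (mem_bf.1 hχ) (mem_bf.1 hψ)]; split_ifs <;> ring]
      simp only [Finset.sum_sub_distrib]
      rw [h2, h3, Finset.sum_congr rfl fun χ hχ => by rw [Finset.sum_ite_eq, if_pos hχ]]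
      have h4 : ∑ χ ∈ bf B, conj (hatF (A χ) x) * hatF (A χ) x = n := by
        rw [← hGdiag x hx]; exact Finset.sum_congr rfl fun χ _ => mul_comm _ _
      rw [h4]
      field_simp
      ring
    rw [mul_eq_zero] at hnorm
    have h5 : (∑ s ∈ regs p G, Complex.normSq (F s) : ℝ) = 0 := by
      apply Complex.ofReal_injective
      push_cast
      rw [← hnorm.resolve_left (inv_ne_zero Chars.card_ne_zero)]
      exact Finset.sum_congr rfl fun g _ => (Complex.mul_conj _).symm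
    exact Complex.normSq_eq_zero.1 ((Finset.sum_eq_zero_iff_of_nonneg fun g _ =>
      Complex.normSq_nonneg _).1 h5 s (mem_regs.2 hs))
  have hrel : ∀ i : ZMod n, ∀ s, ¬ p ∣ orderOf s →
      ∑ χ : bf B, (V χ i : ℂ) * ((χ : IrrCharacter G) : G → ℂ) s = 0 := by
    intro i s hs
    have key : ∀ χ : IrrCharacter G, (n : ℂ) * ((A χ i : ℂ) - A χ 0) =
        ∑ x, conj (hatF (A χ) x) * (ZMod.stdAddChar (i * x) - 1) := fun χ => by
      have hb := congrArg conj (inv_hatF (A χ) i)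
      simp only [map_sum, map_mul, map_sub, map_one, map_natCast, map_intCast,
        ← AddChar.map_neg_eq_conj, neg_neg] at hb
      exact hb.symm
    have h : (n : ℂ) * ∑ χ : bf B, (V χ i : ℂ) * ((χ : IrrCharacter G) : G → ℂ) s = 0 := by
      rw [Finset.sum_coe_sort (bf B) fun χ => ((A χ i - A χ 0 : ℤ) : ℂ) * (χ : G → ℂ) s,
        Finset.mul_sum, Finset.sum_congr rfl fun χ _ => by
          rw [← mul_assoc, Int.cast_sub, key χ, Finset.sum_mul],
        Finset.sum_comm]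
      refine Finset.sum_eq_zero fun x _ => ?_
      by_cases hx : x = 0
      · simp [hx]
      · rw [Finset.sum_congr rfl fun χ _ => show conj (hatF (A χ) x) *
            (ZMod.stdAddChar (i * x) - 1) * (χ : G → ℂ) s = (ZMod.stdAddChar (i * x) - 1) *
              (conj (hatF (A χ) x) * (χ : G → ℂ) s) by ring,
          ← Finset.mul_sum, hU x hx s hs, mul_zero]
    exact (mul_eq_zero.1 h).resolve_left hn0
  -- combinations vanishing on the singular elements
  have hvanish : ∀ f : bf B → ℤ, (∀ i, i ≠ 0 → ∑ χ, f χ * V χ i = 0) →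
      ∃ k : ℤ, ∑ χ : bf B, f χ * (charDegree ((χ : IrrCharacter G) : G → ℂ) : ℤ) =
        (p : ℤ) ^ (Nat.card G).factorization p * k := by
    intro f hf
    set θ : G → ℂ := ∑ χ : bf B, (f χ : ℂ) • ((χ : IrrCharacter G) : G → ℂ) with hθ
    have hgen : IsGeneralizedCharacter G θ := Chars.isGen_sum _ _ fun χ _ =>
      Chars.isGen_intCast_smul (Chars.isGen_of_isCharacter (Chars.irr_isCharacter _)) _
    obtain ⟨k, hk⟩ := pow_dvd_degree_of_vanish (p := p) hgen fun g hg => by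
      obtain ⟨y, hy, hcm, hu, hr⟩ := isPPart_ppart (p := p) g
      have hu1 : ppart p g ≠ 1 := fun h => ppart_one_iff.mp h hg
      simp only [hθ, Finset.sum_apply, Pi.smul_apply, smul_eq_mul]
      rw [← hy, Finset.sum_congr rfl fun χ _ => by
        rw [← sum_sec hpM ((χ : IrrCharacter G) : G → ℂ) (ppart p g) y, Finset.mul_sum],
        Finset.sum_comm]
      refine Finset.sum_eq_zero fun β hβ => ?_
      have hβ' := mem_blks.1 hβ
      by_cases hb : ∃ x : G, Below p P (idemS M c) x (ppart p g) β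
      · obtain ⟨x, hx⟩ := hb
        obtain ⟨z, hz⟩ := E.surj _ hx.mem
        have hz0 : z ≠ 0 := fun h => hu1 (by
          rw [h, E.zero] at hz
          exact conj_eq_one_iff.1 hz.symm)
        have hloc : cj x β = locB p P (idemS M c) (E.el z) := by
          refine eq_locB hpM D (E.mem z) ?_
          rw [hz]; exact hx
        have hsx : x * y * x⁻¹ ∈ cz (E.el z) := by
          rw [hz, ← conjS_cz, mem_conjS]
          simpa [mul_assoc] using mem_cz.2 hcm
        have hrx : ¬ p ∣ orderOf (x * y * x⁻¹) := by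
          rwa [show x * y * x⁻¹ = (MulAut.conj x).toMonoidHom y from rfl,
            orderOf_injective (MulAut.conj x).toMonoidHom (MulAut.conj x).injective]
        have hterm : ∀ χ : IrrCharacter G, sec (χ : G → ℂ) (ppart p g) β y =
            hatF (m χ) z * S₀ z (x * y * x⁻¹) := by
          intro χ
          rw [← sec_cj hpM χ x hβ' y, ← hz, hloc, hsec χ z hz0 _ hsx hrx]
        simp only [hterm, ← mul_assoc, ← Finset.sum_mul]
        refine mul_eq_zero_of_left ?_ _
        have hconst : ∀ i : ZMod n, ∑ χ : bf B, f χ * A χ i = ∑ χ : bf B, f χ * A χ 0 := by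
          intro i
          by_cases hi : i = 0
          · rw [hi]
          · rw [← sub_eq_zero, ← Finset.sum_sub_distrib, ← hf i hi]
            exact Finset.sum_congr rfl fun χ _ => by simp only [hV]; ring
        have h1 := hatF_eq_zero hconst hz0
        have hcomb : ∑ χ : bf B, (f χ : ℂ) * hatF (A χ) z =
            hatF (fun i => ∑ χ : bf B, f χ * A χ i) z := by
          simp only [hatF, Int.cast_sum, Int.cast_mul, Finset.sum_mul, Finset.mul_sum]
          rw [Finset.sum_comm]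
          exact Finset.sum_congr rfl fun i _ => Finset.sum_congr rfl fun χ _ => by ring
        have h6 : ZMod.stdAddChar (sh * z) *
            ∑ χ : bf B, (f χ : ℂ) * hatF (m χ) z = 0 := by
          rw [← h1, ← hcomb, Finset.mul_sum]
          exact Finset.sum_congr rfl fun χ _ => by simp only [hA, hatF_shift]; ring
        exact (mul_eq_zero.1 h6).resolve_left (AddChar.val_isUnit _ _).ne_zero
      · refine Finset.sum_eq_zero fun χ _ => ?_
        rw [sec_eq_zero hpM D.blk (mem_bf.1 χ.2) hu hβ'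
          (fun ho => hb ((below_iff_ofBlock hpM D hu hβ').mpr ho)) (mem_cz.mpr hcm) hr, mul_zero]
    refine ⟨k, ?_⟩
    simp only [hθ, Finset.sum_apply, Pi.smul_apply, smul_eq_mul] at hk
    rw [Finset.sum_congr rfl fun χ _ => by rw [(charDegree_eq (χ : IrrCharacter G).2).1]] at hk
    exact_mod_cast hk
  have hmemR : ∀ i : ZMod n, i ∈ R.image (· * i) := fun i =>
    Finset.mem_image.2 ⟨1, h1R, one_mul i⟩
  -- the common sign
  have hYrel : ∀ ψ ∈ Y, ∀ s, ¬ p ∣ orderOf s → (d ψ : ℂ) * ((ψ : IrrCharacter G) : G → ℂ) s +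
      ∑ χ ∈ X, (d χ : ℂ) * ((χ : IrrCharacter G) : G → ℂ) s = 0 := by
    intro ψ hψ s hs
    obtain ⟨ho, hoV⟩ := hVY ψ hψ
    have h := hrel (o ψ) s hs
    have hsplit : (Finset.univ : Finset (bf B)) = X ∪ Y :=
      (Finset.eq_univ_iff_forall.2 fun χ => Finset.mem_union.2 (hall χ)).symm
    have hsingle : ∀ χ ∈ Y, χ ≠ ψ → V χ (o ψ) = 0 := by
      have hg := hgram _ _ ho ho
      rw [if_pos (hmemR _), hsplit, Finset.sum_union hXY,
        Finset.sum_congr rfl (fun χ hχ => show V χ (o ψ) * V χ (o ψ) = 1 by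
          rw [hVX χ hχ _ ho]; rcases hd χ with h | h <;> rw [h] <;> norm_num),
        Finset.sum_const, nsmul_eq_mul, mul_one, hXc, hRcard, add_comm,
        add_left_inj, ← Finset.add_sum_erase _ _ hψ,
        show V ψ (o ψ) * V ψ (o ψ) = 1 by
          rw [hoV _ ho, if_pos (hmemR _)]
          rcases hd ψ with h | h <;> rw [h] <;> norm_num, add_eq_left] at hg
      intro χ hχ hne
      exact mul_self_eq_zero.1 ((Finset.sum_eq_zero_iff_of_nonneg fun χ _ => mul_self_nonneg _).1 hg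
        χ (Finset.mem_erase.2 ⟨hne, hχ⟩))
    rw [hsplit, Finset.sum_union hXY, Finset.sum_eq_single_of_mem ψ hψ
      (fun χ hχ hne => by rw [hsingle χ hχ hne, Int.cast_zero, zero_mul]),
      hoV _ ho, if_pos (hmemR _),
      Finset.sum_congr rfl fun χ hχ => by rw [hVX χ hχ _ ho]] at h
    rw [add_comm]; exact h
  have hreg1 : ¬ p ∣ orderOf (1 : G) := by
    rw [orderOf_one]; exact (Fact.out : p.Prime).not_dvd_one
  obtain ⟨ψ0, hψ0⟩ : Y.Nonempty := Finset.card_pos.1 (Nat.pos_of_ne_zero fun h => by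
    rw [h] at hYc; omega)
  have hdY : ∀ ψ ∈ Y, d ψ = d ψ0 := by
    intro ψ hψ
    have h1 := hYrel ψ hψ 1 hreg1
    have h2 := hYrel ψ0 hψ0 1 hreg1
    rw [← h2, add_left_inj, (charDegree_eq (ψ : IrrCharacter G).2).1,
      (charDegree_eq (ψ0 : IrrCharacter G).2).1] at h1
    have h3 : d ψ * (charDegree ((ψ : IrrCharacter G) : G → ℂ) : ℤ) =
        d ψ0 * (charDegree ((ψ0 : IrrCharacter G) : G → ℂ) : ℤ) := by exact_mod_cast h1
    have p1 := (charDegree_eq (ψ : IrrCharacter G).2).2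
    have p2 := (charDegree_eq (ψ0 : IrrCharacter G).2).2
    rcases hd ψ with h | h <;> rcases hd ψ0 with h' | h' <;> rw [h, h'] at h3 ⊢ <;> omega
  set δ₀ := d ψ0 with hδ₀
  have hδ₀sq : δ₀ * δ₀ = 1 := by rcases hd ψ0 with h | h <;> rw [hδ₀, h] <;> norm_num
  have hagree : ∀ ψ ∈ Y, ∀ ψ' ∈ Y, ∀ g : G, ¬ p ∣ orderOf g →
      ((ψ : IrrCharacter G) : G → ℂ) g = ((ψ' : IrrCharacter G) : G → ℂ) g := by
    intro ψ hψ ψ' hψ' g hg
    have h1 := hYrel ψ hψ g hg
    have h2 := hYrel ψ' hψ' g hg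
    rw [← h2, add_left_inj, hdY ψ hψ, hdY ψ' hψ'] at h1
    exact mul_left_cancel₀ (Int.cast_ne_zero.2 (fun h => by rw [h] at hδ₀sq; simp at hδ₀sq)) h1
  set N := (Nat.card G).factorization p
  have hcongX : ∀ χ ∈ X, ∀ χ' ∈ X, d χ * (charDegree ((χ : IrrCharacter G) : G → ℂ) : ℤ) ≡
      d χ' * (charDegree ((χ' : IrrCharacter G) : G → ℂ) : ℤ) [ZMOD (p : ℤ) ^ N] := by
    intro χ hχ χ' hχ'
    obtain ⟨k, hk⟩ := hvanish (fun x => (if x = χ' then d χ' else 0) - if x = χ then d χ else 0)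
      fun i hi => by
        simp only [sub_mul, ite_mul, zero_mul, Finset.sum_sub_distrib, Finset.sum_ite_eq',
          Finset.mem_univ, if_true, hVX χ hχ i hi, hVX χ' hχ' i hi]
        rcases hd χ with h | h <;> rcases hd χ' with h' | h' <;> rw [h, h'] <;> norm_num
    simp only [sub_mul, ite_mul, zero_mul, Finset.sum_sub_distrib, Finset.sum_ite_eq',
      Finset.mem_univ, if_true] at hk
    exact Int.modEq_iff_dvd.2 ⟨k, hk⟩
  have hcongY : ∀ ψ ∈ Y, ∀ χ ∈ X, (e : ℤ) * (d χ * (charDegree ((χ : IrrCharacter G) : G → ℂ) : ℤ)) ≡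
      ((n : ℤ) - 1) * (δ₀ * (charDegree ((ψ : IrrCharacter G) : G → ℂ) : ℤ)) [ZMOD (p : ℤ) ^ N] := by
    intro ψ hψ χ hχ
    have hsum1 : ∀ i, i ≠ 0 → ∑ x ∈ Y, δ₀ * V x i = 1 := by
      intro i hi
      have hg := hgram i i hi hi
      rw [if_pos (hmemR _),
        show (Finset.univ : Finset (bf B)) = X ∪ Y from
          (Finset.eq_univ_iff_forall.2 fun x => Finset.mem_union.2 (hall x)).symm,
        Finset.sum_union hXY, Finset.sum_congr rfl (fun x hx => show V x i * V x i = 1 by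
          rw [hVX x hx i hi]; rcases hd x with h | h <;> rw [h] <;> norm_num),
        Finset.sum_const, nsmul_eq_mul, mul_one, hXc, hRcard, add_comm, add_left_inj] at hg
      rw [← hg]
      refine Finset.sum_congr rfl fun x hx => ?_
      rw [(hVY x hx).2 i hi, hdY x hx]
      split_ifs <;> ring
    obtain ⟨k, hk⟩ := hvanish (fun x => (if x ∈ Y then δ₀ else 0) - if x = χ then d χ else 0)
      fun i hi => by
        simp only [sub_mul, ite_mul, zero_mul, Finset.sum_sub_distrib, Finset.sum_ite_eq',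
          Finset.mem_univ, if_true, Finset.sum_ite_mem, Finset.univ_inter, hsum1 i hi,
          hVX χ hχ i hi]
        rcases hd χ with h | h <;> rw [h] <;> norm_num
    simp only [sub_mul, ite_mul, zero_mul, Finset.sum_sub_distrib, Finset.sum_ite_eq',
      Finset.mem_univ, if_true, Finset.sum_ite_mem, Finset.univ_inter] at hk
    have heq : ∀ x ∈ Y, (charDegree ((x : IrrCharacter G) : G → ℂ) : ℤ) =
        (charDegree ((ψ : IrrCharacter G) : G → ℂ) : ℤ) := by
      intro x hx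
      have := hagree x hx ψ hψ 1 hreg1
      rw [(charDegree_eq (x : IrrCharacter G).2).1, (charDegree_eq (ψ : IrrCharacter G).2).1] at this
      exact_mod_cast this
    rw [Finset.sum_congr rfl fun x hx => by rw [heq x hx], Finset.sum_const, nsmul_eq_mul] at hk
    refine Int.modEq_iff_dvd.2 ⟨(e : ℤ) * k, ?_⟩
    have hYc' : (Y.card : ℤ) * e = (n : ℤ) - 1 := by
      rw [← Nat.cast_mul, hYc, Nat.cast_sub (by omega)]; rfl
    rw [← hYc']
    linear_combination (e : ℤ) * hk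
  have haN : a ≤ N := by
    have h := Subgroup.card_subgroup_dvd_card P
    rw [← hn, hPa] at h
    exact (Nat.Prime.pow_dvd_iff_le_factorization Fact.out Nat.card_pos.ne').1 h
  have hlift : ∀ {x y : ℤ}, x ≡ y [ZMOD (p : ℤ) ^ N] → x ≡ y [ZMOD (p : ℤ) ^ a] := fun h =>
    h.of_dvd (pow_dvd_pow _ haN)
  have hXne : X.Nonempty := Finset.card_pos.1 (hXc ▸ hepos)
  have hheights : ∀ χ ∈ B, blockHeight p B (χ : G → ℂ) = 0 := by
    have hp := (Fact.out : p.Prime)
    have hep : ¬ p ∣ e := fun h => by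
      have h1 := Nat.le_of_dvd (by have := hp.two_le; omega) (show e ∣ p - 1 from hdvd)
      have h2 := Nat.le_of_dvd hepos h
      have := hp.two_le
      omega
    have hn1p : ¬ (p : ℤ) ∣ (n : ℤ) - 1 := by
      intro h
      have hpn : (p : ℤ) ∣ (n : ℤ) := by
        obtain ⟨k, hk⟩ := (D.pmax.pair.pgroup).exists_card_eq
        rw [hn, hk]
        refine Int.natCast_dvd_natCast.2 (dvd_pow_self p fun h0 => ?_)
        rw [h0, pow_zero] at hk
        omega
      have := dvd_sub hpn h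
      rw [sub_sub_cancel] at this
      exact hp.ne_one (Nat.dvd_one.1 (Int.natCast_dvd_natCast.1 (by simpa using this)))
    have hiff : ∀ χ χ' : bf B, ∀ k ≤ N,
        (p : ℤ) ^ k ∣ (charDegree ((χ : IrrCharacter G) : G → ℂ) : ℤ) ↔
        (p : ℤ) ^ k ∣ (charDegree ((χ' : IrrCharacter G) : G → ℂ) : ℤ) := by
      obtain ⟨χ₁, hχ₁⟩ := hXne
      suffices h : ∀ χ : bf B, ∀ k ≤ N,
          ((p : ℤ) ^ k ∣ (charDegree ((χ : IrrCharacter G) : G → ℂ) : ℤ) ↔
            (p : ℤ) ^ k ∣ (charDegree ((χ₁ : IrrCharacter G) : G → ℂ) : ℤ)) from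
        fun χ χ' k hk => (h χ k hk).trans (h χ' k hk).symm
      have hu : ∀ χ : bf B, IsUnit (d χ) := fun χ => Int.isUnit_iff.2 (hd χ)
      intro χ k hk
      rcases hall χ with hχ | hχ
      · have h1 := ((hcongX χ hχ χ₁ hχ₁).of_dvd (pow_dvd_pow _ hk))
        have h2 := (hu χ).dvd_mul_left (a := (p : ℤ) ^ k)
          (b := (charDegree ((χ : IrrCharacter G) : G → ℂ) : ℤ))
        have h3 := (hu χ₁).dvd_mul_left (a := (p : ℤ) ^ k)
          (b := (charDegree ((χ₁ : IrrCharacter G) : G → ℂ) : ℤ))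
        rw [← h2, ← h3]
        exact h1.dvd_iff
      · have h1 := ((hcongY χ hχ χ₁ hχ₁).of_dvd (pow_dvd_pow _ hk))
        have hc1 : IsCoprime ((p : ℤ) ^ k) (e : ℤ) :=
          ((Nat.isCoprime_iff_coprime.2 ((Nat.Prime.coprime_iff_not_dvd hp).2 hep)).pow_left)
        have hc2 : IsCoprime ((p : ℤ) ^ k) ((n : ℤ) - 1) :=
          ((Prime.coprime_iff_not_dvd (Nat.prime_iff_prime_int.1 hp)).2 hn1p).pow_left
        have h2 := h1.dvd_iff
        constructor
        · intro h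
          have h4 := h2.2 ((h.mul_left δ₀).mul_left _)
          exact ((hu χ₁).dvd_mul_left).1 (hc1.dvd_of_dvd_mul_left h4)
        · intro h
          have h4 := h2.1 ((h.mul_left (d χ₁)).mul_left _)
          exact ((Int.isUnit_iff.2 (hd ψ0)).dvd_mul_left).1 (hc2.dvd_of_dvd_mul_left h4)
    intro χ hχ
    obtain ⟨χ₀, hχ₀, h0⟩ := exists_height_zero (p := p) D.blk
    have hd0 : blockDefect p B = a := by
      have h1 := card_defectGroup hpM D.blk hPD
      rw [← hn, hPa] at h1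
      exact (Nat.pow_right_injective hp.two_le h1).symm
    have e0 := degree_eq_height hpM D.blk hχ₀
    have e1 := degree_eq_height hpM D.blk hχ
    rw [h0, hd0] at e0
    rw [hd0] at e1
    set w₀ := (charDegree (χ₀ : G → ℂ)).factorization p
    set w := (charDegree (χ : G → ℂ)).factorization p
    have ha1 : 1 ≤ a := by
      rcases Nat.eq_zero_or_pos a with h | h
      · rw [h, pow_zero] at hPa; omega
      · exact h
    have h3 := hiff ⟨χ, mem_bf.2 hχ⟩ ⟨χ₀, mem_bf.2 hχ₀⟩ (w₀ + 1) (by omega)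
    rw [← Nat.cast_pow, Int.natCast_dvd_natCast, Int.natCast_dvd_natCast,
      hp.pow_dvd_iff_le_factorization (charDegree_eq χ.2).2.ne',
      hp.pow_dvd_iff_le_factorization (charDegree_eq χ₀.2).2.ne'] at h3
    have : w ≤ w₀ := by
      by_contra hlt
      have h4 : w₀ + 1 ≤ w₀ := h3.1 (by omega)
      omega
    omega
  refine ⟨hleB, hdvd, hheights, Subtype.val '' (X : Set (bf B)), Subtype.val '' (Y : Set (bf B)),
    ?_, ?_, ?_, ?_, ?_, fun χ => if h : χ ∈ bf B then d ⟨χ, h⟩ else 0, δ₀, ?_, hd ψ0, ?_, ?_, ?_⟩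
  · ext χ
    constructor
    · intro hχ
      exact (hall ⟨χ, mem_bf.2 hχ⟩).imp (fun h => ⟨_, h, rfl⟩) (fun h => ⟨_, h, rfl⟩)
    · rintro (⟨x, -, rfl⟩ | ⟨x, -, rfl⟩) <;> exact mem_bf.1 x.2
  · rw [Set.disjoint_image_iff Subtype.val_injective]; exact_mod_cast hXY
  · rw [Nat.card_image_of_injective Subtype.val_injective, Nat.card_coe_set_eq, Set.ncard_coe_finset,
      hXc]
  · rw [Nat.card_image_of_injective Subtype.val_injective, Nat.card_coe_set_eq, Set.ncard_coe_finset,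
      ← hPa, ← hYc, Nat.mul_div_cancel _ hepos]
  · rintro _ ⟨ψ, hψ, rfl⟩ _ ⟨ψ', hψ', rfl⟩ g hg
    exact hagree ψ hψ ψ' hψ' g hg
  · rintro _ ⟨χ, hχ, rfl⟩
    simp only [χ.2, dif_pos, Subtype.coe_eta]
    exact hd χ
  · rintro _ ⟨ψ, hψ, rfl⟩ g hg
    rw [finsum_mem_image Subtype.val_injective.injOn, finsum_mem_coe_finset]
    have h := hYrel ψ hψ g hg
    rw [hdY ψ hψ] at h
    refine Eq.trans ?_ h
    congr 1
    exact Finset.sum_congr rfl fun χ _ => by simp only [χ.2, dif_pos, Subtype.coe_eta]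
  · rintro _ ⟨χ, hχ, rfl⟩ _ ⟨χ', hχ', rfl⟩
    simp only [χ.2, χ'.2, dif_pos, Subtype.coe_eta]
    exact hlift (hcongX χ hχ χ' hχ')
  · rintro _ ⟨ψ, hψ, rfl⟩ _ ⟨χ, hχ, rfl⟩
    simp only [χ.2, dif_pos, Subtype.coe_eta]
    have h1 := hlift (hcongY ψ hψ χ hχ)
    have hn0' : ((n : ℤ) - 1) ≡ -1 [ZMOD (p : ℤ) ^ a] := by
      rw [hPa, Int.modEq_iff_dvd]
      exact ⟨-1, by push_cast; ring⟩
    have h2 := (h1.trans (hn0'.mul_right _)).mul_left (-δ₀)
    calc ((charDegree ((ψ : IrrCharacter G) : G → ℂ) : ℤ))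
        = -δ₀ * (-1 * (δ₀ * (charDegree ((ψ : IrrCharacter G) : G → ℂ) : ℤ))) := by
          linear_combination -(charDegree ((ψ : IrrCharacter G) : G → ℂ) : ℤ) * hδ₀sq
      _ ≡ -δ₀ * ((e : ℤ) * (d χ * (charDegree ((χ : IrrCharacter G) : G → ℂ) : ℤ)))
          [ZMOD (p : ℤ) ^ a] := h2.symm
      _ = _ := by ring

end Cfsg.Agent.Blocks.CyclicStructure
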