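import Cfsg.Agent.Blocks.CyclicCount
import Cfsg.Agent.Blocks.CyclicStructure

/-!
The lower bound for the regular rank of a block with cyclic defect group.
-/

namespace Cfsg.Agent.Blocks.CyclicLocal

open Cfsg Cfsg.Agent Cfsg.Agent.BlockChar Cfsg.Agent.Blocks
open StableTr StableLocal SemiUniserial CyclicSimples CyclicSections
open scoped MonoidAlgebra Classical

set_option autoImplicit false
set_option linter.unusedSectionVars false
set_option linter.style.haveILetI false
set_option linter.style.openClassical false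

universe u v

variable {G : Type u} [Group G] [Fintype G] {p : ℕ} [Fact p.Prime] {M : Ideal AlgInt}
  [M.IsMaximal] {B : Set (IrrCharacter G)} {P : Subgroup G} {e0 : (Res M)[G]}

section generic

variable {k : Type v} [Field k] [CharP k p]

/-- A relative trace for a block. -/
theorem exists_trace {C : Type u} [Group C] [Fintype C] 
    {b : k[C]} (hb : IsBlk (⊤ : Subgroup C) b) :
    ∃ (S : Subgroup C) (a : k[C]), IsDef p (⊤ : Subgroup C) b S ∧ Fixed S a ∧
      ∀ (T : Subgroup C), T = S → ∀ [Fintype (C ⧸ T)], ∑ r : C ⧸ T, cj r.out a = b := by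
  obtain ⟨g, hg, hg0, hnil⟩ := exists_defect_cls hb
  set H := (⊤ : Subgroup C) ⊓ Subgroup.centralizer ({g} : Set C) with hH
  obtain ⟨S₀⟩ : Nonempty (Sylow p H) := inferInstance
  set S := (S₀ : Subgroup H).map H.subtype with hS
  obtain ⟨w, hw, hwb⟩ := (nilpotent_or_inv hb (centralIn_cls hg)).resolve_left hnil
  have hSC : S ≤ Subgroup.centralizer ({g} : Set C) := by
    rintro x ⟨v, -, rfl⟩; exact v.2.2
  set cnum := S.relIndex (Subgroup.centralizer ({g} : Set C)) with hcnum
  have hc0 : (cnum : k) ≠ 0 := by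
    rw [Ne, CharP.cast_eq_zero_iff k p]
    have h1 : S.relIndex (Subgroup.centralizer ({g} : Set C)) = (S₀ : Subgroup H).index := by
      have hSH : S.subgroupOf H = (S₀ : Subgroup H) := by
        rw [hS, Subgroup.subgroupOf, Subgroup.comap_map_eq_self_of_injective H.subtype_injective]
      rw [← hSH, ← Subgroup.relIndex, hH, top_inf_eq]
    rw [hcnum, h1]
    exact S₀.not_dvd_index
  have hfix : ∀ x : C, cj x (b * w) = b * w := fun x =>
    (hb.central.mul hw).fixed x (Subgroup.mem_top x)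
  have hcs : ∀ x : C, cj x (MonoidAlgebra.single g (1 : k)) =
      MonoidAlgebra.single (x * g * x⁻¹) 1 := fun x => by
    rw [cj_eq_conj, MonoidAlgebra.single_mul_single, MonoidAlgebra.single_mul_single, one_mul,
      one_mul]
  refine ⟨S, (cnum : k)⁻¹ • (MonoidAlgebra.single g 1 * (b * w)),
    isDef_of_cls hb hg hg0 hnil S₀, fun x hx => ?_, fun T hT _ => ?_⟩
  · rw [map_smul, map_mul, hfix, hcs,
      Subgroup.mem_centralizer_singleton_iff.1 (hSC hx), mul_inv_cancel_right]
  · subst hT
    rw [Finset.sum_congr rfl fun r _ => by rw [map_smul, map_mul, hfix, hcs],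
      ← Finset.smul_sum, ← Finset.sum_mul, CyclicRankOne.sum_conj_single g S hSC, smul_mul_assoc,
      smul_smul, inv_mul_cancel₀ hc0, one_smul, ← mul_assoc, hwb]

/-- A central element of order `p` multiplies no block to itself. -/
theorem single_mul_ne {C : Type u} [Group C] [Fintype C] 
    {b : k[C]} (hb : IsBlk (⊤ : Subgroup C) b) {z : C} (hz : ∀ y, Commute z y) (hz1 : z ≠ 1)
    (hzp : z ^ p = 1) : MonoidAlgebra.single z (1 : k) * b ≠ b := by
  intro h
  set Z := Subgroup.zpowers z
  have hZp : IsPGroup p Z := by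
    intro u
    obtain ⟨i, hi⟩ := Subgroup.mem_zpowers_iff.1 u.2
    exact ⟨1, Subtype.ext (by
      rw [pow_one, Subgroup.coe_pow, Subgroup.coe_one, ← hi, ← zpow_natCast, ← zpow_mul, mul_comm,
        zpow_mul, zpow_natCast, hzp, one_zpow])⟩
  have hco : ∀ (u : Z) (y : C), b.coeff ((u : C) * y) = b.coeff y := by
    rintro ⟨u, hu⟩ y
    obtain ⟨m, rfl⟩ := (mem_powers_iff_mem_zpowers).2 hu
    simp only
    induction m generalizing y with
    | zero => simp
    | succ m ih =>
      have h1 := congrArg (fun w : k[C] => w.coeff (z ^ (m + 1) * y)) h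
      simp only [MonoidAlgebra.coeff_single_mul_apply, one_mul] at h1
      rw [← ih y (Subgroup.pow_mem _ (Subgroup.mem_zpowers z) m), ← h1]
      congr 1
      rw [pow_succ']; group
  refine hb.ne_zero ?_
  rw [← hb.idem]
  ext g
  rw [coeff_mul_sum, MonoidAlgebra.coeff_zero, Finsupp.coe_zero, Pi.zero_apply]
  have hcu : ∀ (u : Z) (y : C), Commute (u : C) y := by
    intro u y
    obtain ⟨i, hi⟩ := Subgroup.mem_zpowers_iff.1 u.2
    rw [← hi]; exact (hz y).zpow_left i
  have h2 := Blocks.sum_eq_sum_fixed hZp (fun a : k => by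
      rw [nsmul_eq_mul, CharP.cast_eq_zero, zero_mul])
    (fun a : C => b.coeff a * (MonoidAlgebra.single a (1 : k) * b).coeff g) (fun u a => by
      show b.coeff ((u : C) * a) * _ = _
      congr 1
      · exact hco u a
      · rw [MonoidAlgebra.coeff_single_mul_apply, MonoidAlgebra.coeff_single_mul_apply]
        congr 1
        show b.coeff (((u : C) * a)⁻¹ * g) = _
        rw [← hco u (((u : C) * a)⁻¹ * g)]
        congr 1
        rw [mul_inv_rev, ← mul_assoc, ← mul_assoc, (hcu u a⁻¹).eq, mul_inv_cancel_right])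
  rw [Finset.sum_eq_zero (s := Finset.univ.filter _) fun a ha => ?_] at h2
  · refine Eq.trans ?_ h2
    exact Finset.sum_congr rfl fun a _ => by rw [MonoidAlgebra.coeff_single_mul_apply, one_mul]
  · have h3 : z * a = a :=
      MulAction.mem_fixedPoints.1 (Finset.mem_filter.1 ha).2 ⟨z, Subgroup.mem_zpowers z⟩
    exact absurd (mul_eq_right.1 h3) hz1

/-- The radical of the local block is nonzero. -/
theorem two_le_of {C : Type u} [Group C] [Fintype C] {b : k[C]}
    (hb : IsBlk (⊤ : Subgroup C) b) {z : C} (hzc : ∀ y, Commute z y) (hz1 : z ≠ 1)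
    (hzp : z ^ p = 1) {n q : ℕ} [NeZero n] {x : k[C]} {E : Fin n → Fin n → k[C]}
    (hEm : ∀ i j a b, E i j * E a b = if j = a then E i b else 0) (hEs : ∑ i, E i i = b)
    (hxq : x ^ q = 0) (hq1 : 1 ≤ q)
    (hsp : ∀ w, w * b ∈ Submodule.span k
      (Set.range fun w : ℕ × Fin n × Fin n => x ^ w.1 * E w.2.1 w.2.2)) : 2 ≤ q := by
  by_contra hq2
  obtain rfl : q = 1 := by omega
  rw [pow_one] at hxq
  set y := MonoidAlgebra.single z (1 : k) * b with hy
  have hycomm : ∀ i j, y * E i j = E i j * y := fun i j => by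
    have hbE : b * E i j = E i j * b := hb.central.comm fun g hg => absurd (Subgroup.mem_top g) hg
    rw [hy, mul_assoc, hbE, ← mul_assoc, MonoidAlgebra.single_commute (fun g => hzc g)
      (fun g => Commute.one_left g), mul_assoc]
  have hspy : ∀ w ∈ Submodule.span k (Set.range fun w : ℕ × Fin n × Fin n =>
      x ^ w.1 * E w.2.1 w.2.2), ∃ c : k, E 0 0 * w * E 0 0 = c • E 0 0 := by
    intro w hw
    induction hw using Submodule.span_induction with
    | mem w hw =>
      obtain ⟨⟨l, i, j⟩, rfl⟩ := hw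
      simp only
      rcases Nat.eq_zero_or_pos l with rfl | hl'
      · rw [pow_zero, one_mul, hEm]
        split_ifs with h0
        · rw [hEm]
          split_ifs with h1
          · exact ⟨1, (one_smul _ _).symm⟩
          · exact ⟨0, (zero_smul _ _).symm⟩
        · exact ⟨0, by simp⟩
      · exact ⟨0, by rw [hxq, zero_pow hl'.ne', zero_mul, mul_zero, zero_mul, zero_smul]⟩
    | zero => exact ⟨0, by simp⟩
    | add a b _ _ ha hb =>
      obtain ⟨c, hc⟩ := ha
      obtain ⟨d, hd⟩ := hb
      exact ⟨c + d, by rw [mul_add, add_mul, hc, hd, add_smul]⟩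
    | smul t a _ ha =>
      obtain ⟨c, hc⟩ := ha
      exact ⟨t * c, by rw [mul_smul_comm, smul_mul_assoc, hc, smul_smul]⟩
  obtain ⟨c, hc⟩ := hspy _ (hsp (MonoidAlgebra.single z 1))
  rw [← hy] at hc
  have hyc : y = c • b := by
    have hyb : y * b = y := by rw [hy, mul_assoc, hb.idem]
    clear_value y
    calc y = ∑ i, E i 0 * (E 0 0 * y * E 0 0) * E 0 i := by
          refine (hyb.symm.trans (show y * b = ∑ i, y * E i i by rw [← Finset.mul_sum, hEs])).trans ?_
          refine Finset.sum_congr rfl fun i _ => ?_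
          rw [← mul_assoc (E i 0), ← mul_assoc (E i 0), hEm, if_pos rfl, mul_assoc (E i 0 * y),
            hEm, if_pos rfl, ← hycomm, mul_assoc, hEm, if_pos rfl]
      _ = c • b := by
          simp only [hc, mul_smul_comm, smul_mul_assoc, hEm, if_true, ← Finset.smul_sum, hEs]
  have hpow : ∀ m : ℕ, MonoidAlgebra.single (z ^ m) (1 : k) * b = c ^ m • b := by
    intro m
    induction m with
    | zero => simp [← MonoidAlgebra.one_def]
    | succ m ih =>
      rw [pow_succ, ← mul_one (1 : k), ← MonoidAlgebra.single_mul_single, mul_assoc, ← hy,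
        hyc, mul_smul_comm, ih, smul_smul, ← pow_succ']
  have hc1 : c = 1 := by
    have h1 := hpow p
    rw [hzp, ← MonoidAlgebra.one_def, one_mul] at h1
    have h2 : (c ^ p - 1) • b = 0 := by rw [sub_smul, one_smul, ← h1, sub_self]
    have h3 := (smul_eq_zero.1 h2).resolve_right hb.ne_zero
    have h4 : (c - 1) ^ p = 0 := by rw [sub_pow_char, one_pow, h3]
    exact sub_eq_zero.1 (pow_eq_zero_iff (Fact.out : p.Prime).ne_zero |>.1 h4)
  refine single_mul_ne hb hzc hz1 hzp ?_
  rw [← hy, hyc, hc1, one_smul]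

/-- The local data seen in the inertial group. -/
theorem exists_rdata {C H' : Subgroup G} [Fintype C] [Fintype H'] (hCH : C ≤ H')
    (N : Subgroup H') (hN : ∀ g : H', g ∈ N ↔ (g : G) ∈ C) {n q : ℕ} [NeZero n] {b x : k[C]}
    {E : Fin n → Fin n → k[C]}
    (hEm : ∀ i j a b, E i j * E a b = if j = a then E i b else 0) (hEs : ∑ i, E i i = b)
    (hxb : x * b = x) (hxc : CentralIn (⊤ : Subgroup C) x) (hxq : x ^ q = 0) (hq : 2 ≤ q)
    (hxne : x ^ (q - 1) * E 0 0 ≠ 0)
    (hsp : ∀ z, z * b ∈ Submodule.span k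
      (Set.range fun w : ℕ × Fin n × Fin n => x ^ w.1 * E w.2.1 w.2.2))
    (hb : CentralIn (⊤ : Subgroup C) b) (hfix : Fixed H' (emb k C b)) :
    ∃ R : SemiUniserial.RData (k := k) N n q, emb k H' R.β = emb k C b := by
  set j : k[C] →ₐ[k] k[H'] := MonoidAlgebra.mapDomainAlgHom k k (Subgroup.inclusion hCH) with hj
  have hje : ∀ z, emb k H' (j z) = emb k C z := by
    intro z
    induction z using MonoidAlgebra.induction_on with
    | of g => simp [hj, emb]
    | add a c ha hc => rw [map_add, map_add, map_add, ha, hc]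
    | smul r a ha =>
      rw [map_smul, show emb k H' (r • j a) = r • emb k H' (j a) by simp [emb],
        show emb k C (r • a) = r • emb k C a by simp [emb], ha]
  have hjinj : Function.Injective j := fun a c h =>
    emb_injective (by rw [← hje, ← hje, h])
  have hjsupp : ∀ z, SupportedIn N (j z) := fun z g hg => by
    rw [← coeff_emb, hje]
    exact supportedIn_emb _ _ fun hh => hg ((hN g).2 hh)
  have hjfix : ∀ z, CentralIn (⊤ : Subgroup C) z → CentralIn N (j z) := fun z hz =>
    ⟨hjsupp z, fun g hg => emb_injective (by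
      rw [emb_cj, hje, show ((g : H') : G) = ((⟨(g : G), (hN g).1 hg⟩ : C) : G) from rfl, ← emb_cj,
        hz.fixed _ (Subgroup.mem_top _)])⟩
  refine ⟨{ β := j b, x := j x, E := fun i l => j (E i l)
            E_mul := fun i l a c => by rw [← map_mul, hEm]; split_ifs <;> simp
            E_sum := by rw [← map_sum, hEs]
            E_supp := fun i l => hjsupp _
            x_β := by rw [← map_mul, hxb]
            x_cen := hjfix x hxc
            β_cen := hjfix b hb
            β_fix := fun g _ => emb_injective (by rw [emb_cj, hje, hfix _ g.2])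
            x_pow := by rw [← map_pow, hxq, map_zero]
            x_ne := fun h => hxne (hjinj (by rw [map_zero, ← h, map_mul, map_pow]))
            two_le := hq
            span_N := fun g hg => ?_ }, hje b⟩
  have h1 := Submodule.mem_map_of_mem (f := j.toLinearMap)
    (hsp (MonoidAlgebra.single ⟨(g : G), (hN g).1 hg⟩ 1))
  rw [AlgHom.toLinearMap_apply, map_mul, Submodule.map_span, ← Set.range_comp] at h1
  have h2 : j (MonoidAlgebra.single ⟨(g : G), (hN g).1 hg⟩ 1) = MonoidAlgebra.single g 1 := by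
    simp [hj]; rfl
  rw [h2] at h1
  simpa only [Function.comp_def, AlgHom.toLinearMap_apply, map_mul, map_pow] using h1

/-- Roots of unity of order prime to the characteristic. -/
theorem exists_primitive [IsAlgClosed k] {e : ℕ} (he : (e : k) ≠ 0) :
    ∃ η : k, IsPrimitiveRoot η e := by
  haveI : NeZero (e : k) := ⟨he⟩
  exact HasEnoughRootsOfUnity.exists_primitiveRoot k e

end generic

set_option synthInstance.maxHeartbeats 400000 in
set_option maxHeartbeats 1000000 in
/-- The local data at an element of order `p`. -/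
theorem exists_local (hpM : (p : AlgInt) ∈ M) (D : MaxData p B P e0) (hcyc : IsCyclic P) {x0 : G}
    (hx0 : x0 ∈ P) (hx1 : x0 ≠ 1) (hxp : x0 ^ p = 1) [Fintype (cz x0)]
    (hl : blockRank p (blkSet (M := M) x0 (locB p P e0 x0)) = 1) :
    ∃ (b : (Res M)[cz x0]) (n q : ℕ) (_ : NeZero n) (x : (Res M)[cz x0])
      (E : Fin n → Fin n → (Res M)[cz x0]) (R : Subgroup G) (a : (Res M)[G]) (h : cz x0),
      emb (Res M) (cz x0) b = locB p P e0 x0 ∧ IsBlk (⊤ : Subgroup (cz x0)) b ∧
      (∀ i j a b, E i j * E a b = if j = a then E i b else 0) ∧ ∑ i, E i i = b ∧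
      x * b = x ∧ CentralIn (⊤ : Subgroup (cz x0)) x ∧ x ^ q = 0 ∧ 2 ≤ q ∧
      x ^ (q - 1) * E 0 0 ≠ 0 ∧
      (∀ z, z * b ∈ Submodule.span (Res M)
        (Set.range fun w : ℕ × Fin n × Fin n => x ^ w.1 * E w.2.1 w.2.2)) ∧
      R ≤ cz x0 ∧ (∀ u ∈ R, (h : G)⁻¹ * u * h ∈ P) ∧ SupportedIn (cz x0) a ∧ Fixed R a ∧
      ∀ [Fintype (cz x0 ⧸ R.subgroupOf (cz x0))],
        ∑ r : cz x0 ⧸ R.subgroupOf (cz x0), cj (r.out : G) a = locB p P e0 x0 := by
  haveI := charP_res (p := p) hpM
  have hab := CyclicStructure.commute_of_cyclic hcyc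
  have hPC : P ≤ cz x0 := fun w hw => mem_cz.mpr (hab x0 hx0 w hw)
  have hCC : Subgroup.centralizer (P : Set G) ≤ cz x0 := fun w hw =>
    mem_cz.mpr (Subgroup.mem_centralizer_iff.mp hw x0 hx0)
  obtain ⟨P', e', B', SP, D', hrk⟩ := exists_subPair hpM D.pmax hPC hCC
  rw [← rk_cz hpM D hab hx0, hl] at hrk
  set b := idemG M B' with hbdef
  have hb : IsBlk (⊤ : Subgroup (cz x0)) b := isBlk_idemG hpM D'.blk
  have hle := locB_spec hpM D hx0
  have hβ : IsBlk (cz x0) (locB p P e0 x0) := (hle.isPair_left D.pmax.pair).blk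
  have heq : emb (Res M) (cz x0) b = locB p P e0 x0 := by
    obtain ⟨b₁, -, hu⟩ := existsUnique_ofBlock_in D.pmax.pair hPC hCC
    refine (hu _ ⟨?_, ?_⟩).trans (hu _ ⟨hβ, ?_⟩).symm
    · have := (isBlk_emb_iff (⊤ : Subgroup (cz x0)) b).2 hb
      rwa [← MonoidHom.range_eq_map, Subgroup.range_subtype] at this
    · show br P (emb (Res M) (cz x0) b) * e0 = e0
      rw [← SP.map_eq, ← emb_br, ← SP.emb_eq, ← map_mul]
      exact congrArg _ D'.ofB
    · refine (PairLE.ofBlock_iff_in hle hPC le_rfl hβ).mp ?_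
      show br (Subgroup.zpowers x0) (locB p P e0 x0) * locB p P e0 x0 = locB p P e0 x0
      rw [br_eq_self hβ.supp, hβ.idem]
  have hPD' : IsDefectGroup p M B' P' :=
    (isDefectGroup_iff_idemG hpM D'.blk P').mpr (D'.pmax.isDef hb D'.ofB)
  haveI := hcyc
  have hcyc' : IsCyclic P' := by
    have e1 : P' ≃* P := (P'.equivMapOfInjective _ (cz x0).subtype_injective).trans
      (MulEquiv.subgroupCongr SP.map_eq)
    exact isCyclic_of_surjective e1.symm.toMonoidHom e1.symm.surjective
  obtain ⟨n, q, hn, x, E, hEm, hEs, hxb, hxc, hxq, hq1, hxne, hsp⟩ :=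
    CyclicBasic.exists_data hpM D'.blk hrk hPD' hcyc'
  obtain ⟨S, a, hS, haS, hatr⟩ := exists_trace (p := p) hb
  obtain ⟨h, -, hSh⟩ := (D'.pmax.isDef hb D'.ofB).exists_conj hS
  have hq : 2 ≤ q := two_le_of hb (z := ⟨x0, hPC hx0⟩) (fun y => Subtype.ext (mem_cz.1 y.2))
    (fun hh => hx1 (congrArg Subtype.val hh)) (Subtype.ext hxp) hEm hEs hxq hq1 hsp
  refine ⟨b, n, q, hn, x, E, S.map (cz x0).subtype, emb (Res M) (cz x0) a, h, heq, hb, hEm, hEs,
    hxb, hxc, hxq, hq, hxne, hsp, ?_, ?_, supportedIn_emb _, (fixed_emb_iff S a).2 haS, ?_⟩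
  · rintro _ ⟨v, -, rfl⟩; exact v.2
  · rintro _ ⟨v, hv, rfl⟩
    rw [hSh, SetLike.mem_coe, mem_conjS] at hv
    exact SP.mem_iff.1 hv
  · intro _
    have hT : (S.map (cz x0).subtype).subgroupOf (cz x0) = S := by
      rw [Subgroup.subgroupOf, Subgroup.comap_map_eq_self_of_injective (cz x0).subtype_injective]
    rw [← heq, ← hatr _ hT, map_sum]
    exact Finset.sum_congr rfl fun r _ => (emb_cj _ _).symm

set_option synthInstance.maxHeartbeats 400000 in
set_option maxHeartbeats 2000000 in
/-- The regular rank is at least the inertial index. -/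
theorem low_bound (hpM : (p : AlgInt) ∈ M) (hPD : IsDefectGroup p M B P) (hcyc : IsCyclic P)
    (hP1 : P ≠ ⊥) {c : Set (IrrCharacter (Subgroup.centralizer (P : Set G)))}
    (hc : IsInducedBlock M (Subgroup.centralizer (P : Set G)) c B) :
    (Subgroup.centralizer (P : Set G)).relIndex (stab P (idemS M c)) ≤ blockRank p B := by
  haveI := charP_res (p := p) hpM
  obtain ⟨D, hfree, hdvd, -, Ω, hΩP, hΩcard, hmin, hΩN, hΩC⟩ :=
    CyclicStructure.cyclic_setup hpM hPD hcyc hP1 hc
  haveI : Nontrivial Ω := Finite.one_lt_card_iff_nontrivial.1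
    (hΩcard ▸ (Fact.out : p.Prime).one_lt)
  obtain ⟨⟨x0, hx0Ω⟩, hx1'⟩ := exists_ne (1 : Ω)
  have hx1 : x0 ≠ 1 := fun h => hx1' (Subtype.ext h)
  have hxp : x0 ^ p = 1 := by
    have h := pow_card_eq_one' (x := (⟨x0, hx0Ω⟩ : Ω))
    rw [hΩcard] at h
    exact congrArg Subtype.val h
  have hord := orderOf_eq_prime hxp hx1
  obtain rfl : Subgroup.zpowers x0 = Ω := Subgroup.eq_of_le_of_card_ge
    (Subgroup.zpowers_le.2 hx0Ω) (by rw [hΩcard, Nat.card_zpowers, hord])
  have hx0P : x0 ∈ P := hΩP hx0Ω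
  have hab := CyclicStructure.commute_of_cyclic hcyc
  letI : Fintype (cz x0) := Fintype.ofFinite _
  obtain ⟨hrank, -⟩ := card_eq_of_free hpM hPD hab hc hfree
  obtain ⟨b, n, q, hn, x, E, R, a, h, hbe, hb, hEm, hEs, hxb, hxc, hxq, hq, hxne, hsp, hRC, hRP,
    has, haf, hatr⟩ := exists_local hpM D hcyc hx0P hx1 hxp (hrank x0 hx0P hx1)
  set β := locB p P (idemS M c) x0 with hβdef
  set Ω := Subgroup.zpowers x0 with hΩ
  set H' := stab Ω β with hH'
  have hle := locB_spec hpM D hx0P
  have hβ : IsBlk (cz x0) β := (hle.isPair_left D.pmax.pair).blk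
  have hCH : (cz x0) ≤ H' := fun y hy => ⟨Subgroup.centralizer_le_normalizer _ hy, hβ.fixed y hy⟩
  have hhH : (h : G) ∈ Subgroup.normalizer (Ω : Set G) := (hCH h.2).1
  have hmin' : ∀ d ∈ P, d ≠ 1 → Ω ≤ Subgroup.zpowers d := fun d hd hd1 =>
    hmin _ (Subgroup.zpowers_le.2 hd) (fun hh => hd1 (Subgroup.zpowers_eq_bot.1 hh))
  have hd' : ∀ d ∈ R, d ≠ 1 → (h : G)⁻¹ * d * h ≠ 1 := fun d _ hd1 hh => hd1 (by
    have := congrArg (fun y => (h : G) * y * (h : G)⁻¹) hh
    simpa [mul_assoc] using this)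
  letI : Fintype H' := Fintype.ofFinite _
  set φ : H' →* (ZMod (Nat.card Ω))ˣ :=
    (IsCyclic.mulAutMulEquiv Ω).toMonoidHom.comp
      (Ω.normalizerMonoidHom.comp (Subgroup.inclusion (stab_le_normalizer Ω β))) with hφ
  have hker : ∀ g : H', g ∈ φ.ker ↔ (g : G) ∈ (cz x0) := fun g => by
    rw [hφ, MonoidHom.mem_ker, MonoidHom.comp_apply, MulEquiv.coe_toMonoidHom,
      MulEquiv.map_eq_one_iff, MonoidHom.comp_apply, ← MonoidHom.mem_ker,
      Subgroup.normalizerMonoidHom_ker, Subgroup.mem_subgroupOf]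
    rfl
  have hCsub : (cz x0).subgroupOf H' = φ.ker := by ext g; rw [Subgroup.mem_subgroupOf, hker]
  have hidx : φ.ker.index = Nat.card φ.range := Subgroup.index_ker φ
  have hdiv : Nat.card φ.range ∣ p - 1 := by
    have h1 := Subgroup.card_subgroup_dvd_card φ.range
    rw [Nat.card_eq_fintype_card (α := (ZMod (Nat.card Ω))ˣ), ZMod.card_units_eq_totient] at h1
    have h2 : (Nat.card Ω).totient = p - 1 := by rw [hΩcard, Nat.totient_prime Fact.out]
    rwa [h2] at h1
  have hek : ((Nat.card φ.range : ℕ) : Res M) ≠ 0 := by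
    rw [Ne, CharP.cast_eq_zero_iff (Res M) p]
    intro hpe
    have h1 := Nat.le_of_dvd (by have := (Fact.out : p.Prime).two_le; omega) (hpe.trans hdiv)
    have := (Fact.out : p.Prime).two_le
    omega
  let X : Ctx (Res M) G :=
    { P := R
      C := cz x0
      H' := H'
      H := Subgroup.normalizer (Ω : Set G)
      eB := 0
      β := β
      a := a
      aB := 0
      O := ∅
      PC := hRC
      CH' := hCH
      H'H := stab_le_normalizer _ _
      norm := fun y hy z hz =>
        (Subgroup.mem_normalizer_iff''.1 (normalizer_le_normalizer_centralizer Ω hy) z).1 hz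
      free := fun d hd hd1 y hy => by
        have h1 : x0 ∈ Subgroup.zpowers ((h : G)⁻¹ * d * h) :=
          hmin' _ (hRP d hd) (hd' d hd hd1) (Subgroup.mem_zpowers x0)
        have h2 : Commute ((h : G)⁻¹ * d * h) ((h : G)⁻¹ * y * h) := by
          show _ * _ = _ * _
          calc (h : G)⁻¹ * d * h * ((h : G)⁻¹ * y * h) = (h : G)⁻¹ * (d * y) * h := by group
            _ = (h : G)⁻¹ * (y * d) * h := by rw [hy]
            _ = _ := by group
        obtain ⟨i, hi⟩ := Subgroup.mem_zpowers_iff.1 h1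
        have h3 : (h : G)⁻¹ * y * h ∈ (cz x0) := mem_cz.2 (by
          have hh := h2.zpow_left i
          rw [hi] at hh
          exact hh.eq)
        have h4 := (cz x0).mul_mem ((cz x0).mul_mem h.2 h3) ((cz x0).inv_mem h.2)
        simpa [mul_assoc] using h4
      freeH := fun d hd hd1 y hy => by
        have h1 := hmin' _ (hRP d hd) (hd' d hd hd1)
        have h2 : conjS ((h : G)⁻¹ * y * h)⁻¹ Ω ≤ P := by
          refine (conjS_le h1).trans ?_
          rw [conjS_zpowers]
          refine Subgroup.zpowers_le.2 ?_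
          convert hRP _ hy using 1
          group
        have h3 : conjS ((h : G)⁻¹ * y * h)⁻¹ Ω = Ω := by
          have hne : conjS ((h : G)⁻¹ * y * h)⁻¹ Ω ≠ ⊥ := fun hh => by
            have := card_conjS ((h : G)⁻¹ * y * h)⁻¹ Ω
            rw [hh, Subgroup.card_bot, hΩcard] at this
            exact (Fact.out : p.Prime).ne_one this.symm
          exact (Subgroup.eq_of_le_of_card_ge (hmin _ h2 hne) (card_conjS _ _).le).symm
        have h4 := inv_mem_iff.1 (mem_normalizer_of_conjS_eq h3)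
        have h5 := Subgroup.mul_mem _ (Subgroup.mul_mem _ hhH h4) (Subgroup.inv_mem _ hhH)
        simpa [mul_assoc] using h5
      β_supp := hβ.supp
      β_fix := fun y hy => hy.2
      β_idem := hβ.idem
      β_orth := fun y hy hyH => by
        have h1 := hβ.cj y
        rw [show conjS y (cz x0) = cz x0 from
          conjS_eq_self_of_mem_normalizer (normalizer_le_normalizer_centralizer Ω hy)] at h1
        exact hβ.orth h1 fun hh => hyH ⟨hy, hh.symm⟩
      a_supp := has
      a_fix := haf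
      a_tr := hatr
      aB_fix := fun y _ => map_zero _
      aB_tr := by intro _; simp
      eB_fix := fun y _ => map_zero _
      trunc_eq := by intro g; simp
      orbit := by simp
      idx_ne := by rw [hCsub, hidx]; exact hek }
  haveI : IsCyclic (ZMod (Nat.card Ω))ˣ := by
    rw [hΩcard]; exact ZMod.isCyclic_units_prime Fact.out
  obtain ⟨⟨_, ⟨t, rfl⟩⟩, hgen⟩ := IsCyclic.exists_generator (α := φ.range)
  have hordt : orderOf (φ t) = Nat.card φ.range := by
    rw [← orderOf_eq_card_of_forall_mem_zpowers hgen]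
    exact Subgroup.orderOf_coe ⟨φ t, _⟩
  set e' := Nat.card φ.range with he'
  have hepos : 0 < e' := Nat.card_pos
  have hpow : φ t ^ e' = 1 := by rw [← hordt]; exact pow_orderOf_eq_one _
  obtain ⟨Rd, hRdβ⟩ := exists_rdata hCH φ.ker hker hEm hEs hxb hxc hxq hq hxne hsp hb.central
    (by rw [hbe]; exact fun y hy => hy.2)
  have hgen' : ∀ g : H', ∃ m < e', (t ^ m)⁻¹ * g ∈ φ.ker := fun g => by
    obtain ⟨i, hi⟩ := (mem_powers_iff_mem_zpowers).2 (hgen ⟨φ g, g, rfl⟩)
    refine ⟨i % e', Nat.mod_lt _ hepos, ?_⟩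
    have hi' : φ t ^ i = φ g := congrArg Subtype.val hi
    rw [MonoidHom.mem_ker, map_mul, map_inv, map_pow, ← hi', inv_mul_eq_one]
    rw [← hordt]; exact pow_mod_orderOf _ _
  obtain ⟨S, hSβ, -, hsoc⟩ := SemiUniserial.exists_sdata p Rd t hgen'
    (by rw [MonoidHom.mem_ker, map_pow, hpow])
    (fun m hm0 hm => by
      rw [MonoidHom.mem_ker, map_pow]
      exact pow_ne_one_of_lt_orderOf hm0.ne' (hordt.symm ▸ hm)) hidx hek
  obtain ⟨η, hη⟩ := exists_primitive hek
  have hzN : ∀ g : H', g ∈ φ.ker ↔ Commute g ⟨x0, hCH (mem_cz.2 rfl)⟩ := fun g => by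
    rw [hker, mem_cz]
    exact ⟨fun hh => Subtype.ext hh.symm, fun hh => (congrArg Subtype.val hh.eq).symm⟩
  have hbb : IsBlk (⊤ : Subgroup G) (idemG M B) := isBlk_idemG hpM D.blk
  have hof : br Ω (idemG M B) * β = β := (PairLE.ofBlock_iff hle hbb).mpr D.ofB
  letI : Fintype X.H' := inferInstanceAs (Fintype H')
  have hTH : stab P (idemS M c) ≤ H' := fun y hy => by
    refine ⟨hΩN y hy, ?_⟩
    rw [hβdef, cj_locB hpM D hy hx0P]
    have h1 : conjS y Ω = Ω := conjS_eq_self_of_mem_normalizer (hΩN y hy)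
    rw [hΩ, conjS_zpowers] at h1
    unfold locB
    simp only [h1]
  have hle' : (Subgroup.centralizer (P : Set G)).relIndex (stab P (idemS M c)) ≤ e' := by
    have h1 : (Subgroup.centralizer (P : Set G)).relIndex (stab P (idemS M c)) =
        (cz x0).relIndex (stab P (idemS M c)) := by
      rw [← Subgroup.inf_relIndex_right, ← Subgroup.inf_relIndex_right (cz x0)]
      congr 1
      exact le_antisymm (inf_le_inf_right _ (centralizer_anti (Subgroup.zpowers_le.2 hx0P)))
        (le_inf (by rw [inf_comm]; exact hΩC) inf_le_right)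
    rw [h1, ← hidx, ← hCsub]
    exact Subgroup.relIndex_le_of_le_right hTH Subgroup.index_ne_zero_of_finite
  refine hle'.trans (CyclicCount.e_le_blockRank hpM D.blk X S
    (show emb (Res M) H' S.β = β by rw [hSβ, hRdβ, hbe]) (fun ζ hζ => hsoc ζ hζ) hη hzN
    (Subtype.ext hxp) (emb_injective ?_))
  rw [map_mul]
  have hsum : emb (Res M) H' (∑ g ∈ Finset.univ.filter (· ∈ φ.ker),
      (rst (k := Res M) H' (idemG M B)).coeff g • MonoidAlgebra.single g (1 : Res M)) =
      br Ω (idemG M B) := by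
    ext g
    rw [show br Ω (idemG M B) = trunc (cz x0) (idemG M B) from rfl]
    by_cases hg : g ∈ (cz x0)
    · rw [coeff_trunc_of_mem _ hg,
        show g = ((⟨g, hCH hg⟩ : H') : G) from rfl, coeff_emb]
      simp [MonoidAlgebra.coeff_sum, Finsupp.single_apply, coeff_rst]
      exact fun hh => absurd ((hker ⟨g, hCH hg⟩).2 hg) hh
    · rw [coeff_trunc_of_notMem _ hg]
      by_cases hg' : g ∈ H'
      · rw [show g = ((⟨g, hg'⟩ : H') : G) from rfl, coeff_emb]
        simp [MonoidAlgebra.coeff_sum, Finsupp.single_apply, coeff_rst]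
        exact fun hh => absurd ((hker ⟨g, hg'⟩).1 hh) hg
      · exact supportedIn_emb _ _ hg'
  convert (congrArg (· * emb (Res M) H' S.β) hsum).trans
    (show br Ω (idemG M B) * emb (Res M) H' S.β = emb (Res M) H' S.β by rw [hSβ, hRdβ, hbe, hof])

end Cfsg.Agent.Blocks.CyclicLocal

namespace Cfsg.Agent.Blocks.CyclicLocal

open Cfsg Cfsg.Agent Cfsg.Agent.BlockChar

universe u'

/-- The stabiliser of a block of the centraliser, given elementwise. -/
theorem eq_stab' {G : Type u'} [Group G] [Fintype G] {p : ℕ} [Fact p.Prime] {M : Ideal AlgInt}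
    [M.IsMaximal] (hpM : (p : AlgInt) ∈ M) {D : Subgroup G}
    {b : Set (IrrCharacter (Subgroup.centralizer (D : Set G)))} (hb : IsPBlock M b) {T : Subgroup G}
    (hT : ∀ g : G, g ∈ T ↔ (g ∈ Subgroup.normalizer (D : Set G) ∧ ∀ θ ∈ b,
      ∀ θ' : IrrCharacter (Subgroup.centralizer (D : Set G)),
      (∀ h h' : Subgroup.centralizer (D : Set G), (h' : G) = g * h * g⁻¹ →
        (θ' : Subgroup.centralizer (D : Set G) → ℂ) h' = (θ : Subgroup.centralizer (D : Set G) → ℂ) h) →
          θ' ∈ b)) :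
    T = stab D (idemS M b) := by
  classical
  refine eq_stab hpM hb fun g => (hT g).trans (and_congr_right fun hg => ?_)
  have hn := normalizer_le_normalizer_centralizer D hg
  constructor
  · intro h
    refine ⟨hn, fun θ hθ => ?_⟩
    let θ' : IrrCharacter (Subgroup.centralizer (D : Set G)) := irrEquiv (normEquiv hn).symm θ
    have hval : ∀ h h' : Subgroup.centralizer (D : Set G), (h' : G) = g * h * g⁻¹ →
        (θ' : Subgroup.centralizer (D : Set G) → ℂ) h' =
          (θ : Subgroup.centralizer (D : Set G) → ℂ) h := by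
      intro k k' hk
      have : k' = normEquiv hn k := Subtype.ext (by rw [coe_normEquiv]; exact hk)
      rw [this, irrEquiv_apply, MulEquiv.symm_apply_apply]
    exact ⟨θ', h θ hθ θ' hval, hval⟩
  · rintro ⟨-, h⟩ θ hθ θ' hθ'
    obtain ⟨χ', hχ', hc⟩ := h θ hθ
    have : θ' = χ' := Subtype.ext (funext fun k' => by
      have hk : (k' : G) = g * (((normEquiv hn).symm k' : Subgroup.centralizer (D : Set G)) : G) * g⁻¹ := by
        rw [← coe_normEquiv hn, MulEquiv.apply_symm_apply]
      rw [hθ' _ k' hk, hc _ k' hk])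
    exact this ▸ hχ'

end Cfsg.Agent.Blocks.CyclicLocal
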