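import Cfsg.Agent.Blocks.RepType
import Cfsg.Agent.Blocks.SmallRankOne

/-!
Blocks with cyclic defect groups and regular rank one are nilpotent.
-/

namespace Cfsg.Agent.Blocks.CyclicRankOne

open Cfsg Cfsg.Agent Cfsg.Agent.BlockChar Cfsg.Agent.Blocks
open scoped MonoidAlgebra

set_option autoImplicit false
set_option linter.unusedSectionVars false
set_option linter.style.haveILetI false

universe u

section trace

variable {k : Type*} [Field k] {G : Type u} [Group G] [Fintype G]

/-- The relative trace of an element centralised by `S`. -/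
theorem sum_conj_single (g : G) (S : Subgroup G)
    (hS : S ≤ Subgroup.centralizer ({g} : Set G)) [Fintype (G ⧸ S)] :
    ∑ q : G ⧸ S, MonoidAlgebra.single (q.out * g * q.out⁻¹) (1 : k) =
      (S.relIndex (Subgroup.centralizer ({g} : Set G)) : k) • cls k (⊤ : Subgroup G) g := by
  classical
  set C := Subgroup.centralizer ({g} : Set G) with hC
  have hproj : ∀ q : G ⧸ S, (Subgroup.quotientEquivProdOfLE hS q).1 = ((q.out : G) : G ⧸ C) := by
    intro q
    conv_lhs => rw [← QuotientGroup.out_eq' q]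
    rfl
  ext x
  simp only [MonoidAlgebra.coeff_sum, Finsupp.finsetSum_apply, MonoidAlgebra.coeff_smul,
    Finsupp.smul_apply, smul_eq_mul, MonoidAlgebra.coeff_single, Finsupp.single_apply]
  rw [Finset.sum_boole]
  by_cases hx : ∃ y ∈ (⊤ : Subgroup G), y * g * y⁻¹ = x
  · obtain ⟨y, -, rfl⟩ := hx
    rw [coeff_cls_of_conj ⟨y, Subgroup.mem_top y, rfl⟩, mul_one]
    congr 1
    have hiff : ∀ q : G ⧸ S, q.out * g * q.out⁻¹ = y * g * y⁻¹ ↔
        (Subgroup.quotientEquivProdOfLE hS q).1 = (y : G ⧸ C) := by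
      intro q
      rw [hproj, QuotientGroup.eq, hC, Subgroup.mem_centralizer_singleton_iff]
      constructor
      · intro h
        calc q.out⁻¹ * y * g = q.out⁻¹ * (y * g * y⁻¹) * y := by group
          _ = g * (q.out⁻¹ * y) := by rw [← h]; group
      · intro h
        calc q.out * g * q.out⁻¹ = q.out * (g * (q.out⁻¹ * y)) * y⁻¹ := by group
          _ = y * g * y⁻¹ := by rw [← h]; group
    rw [Subgroup.relIndex, Subgroup.index, ← Fintype.card_subtype, ← Nat.card_eq_fintype_card]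
    refine Nat.card_congr ?_
    exact
      { toFun := fun q => (Subgroup.quotientEquivProdOfLE hS q.1).2
        invFun := fun c => ⟨(Subgroup.quotientEquivProdOfLE hS).symm ((y : G ⧸ C), c),
          (hiff _).2 (by rw [Equiv.apply_symm_apply])⟩
        left_inv := fun q => Subtype.ext ((Subgroup.quotientEquivProdOfLE hS).symm_apply_eq.2
          (Prod.ext ((hiff q.1).1 q.2).symm rfl))
        right_inv := fun c => congrArg Prod.snd ((Subgroup.quotientEquivProdOfLE hS).apply_symm_apply _) }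
  · rw [coeff_cls_of_not_conj hx, mul_zero, Finset.filter_eq_empty_iff.2 fun q _ h =>
      hx ⟨q.out, Subgroup.mem_top _, h⟩]
    simp

end trace

variable {G : Type u} [Group G] [Fintype G] {p : ℕ} [Fact p.Prime] {M : Ideal AlgInt}
  [M.IsMaximal] {B : Set (IrrCharacter G)}

/-- The basic algebra of a rank one block with cyclic defect group is commutative. -/
theorem basic_commutative (hpM : (p : AlgInt) ∈ M) (hB : IsPBlock M B) {P : Subgroup G}
    (hPD : IsDefectGroup p M B P) (hcyc : IsCyclic P)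
    (A : Type u) [Ring A] [Algebra (Res M) A] [FiniteDimensional (Res M) A]
    (ε : A →ₐ[Res M] Res M) (N : ℕ) (hN : LinearMap.ker ε.toLinearMap ^ N = ⊥)
    (n : ℕ) [NeZero n] (Ψ : (Res M)[G] →ₐ[Res M] Matrix (Fin n) (Fin n) A)
    (hΨ : Function.Surjective Ψ) (hΨb : Ψ (idemG M B) = 1) : ∀ x y : A, x * y = y * x := by
  classical
  haveI := charP_res (p := p) hpM
  rcases RepType.commutative_or_pencil ε hN with h | ⟨δ₁, δ₂, m₁, m₂, h₁, h₂, e₁, e₂, a, b, c, d⟩
  · exact h
  exfalso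
  set β := idemG M B with hβ
  have hb := isBlk_idemG hpM hB
  obtain ⟨g, hg, hg0, hnil⟩ := exists_defect_cls hb
  set H := (⊤ : Subgroup G) ⊓ Subgroup.centralizer ({g} : Set G) with hH
  obtain ⟨S₀⟩ : Nonempty (Sylow p H) := inferInstance
  set S := (S₀ : Subgroup H).map H.subtype with hS
  have hdef := isDef_of_cls hb hg hg0 hnil S₀
  obtain ⟨h, -, hconj⟩ := ((isDefectGroup_iff_idemG hpM hB P).mp hPD).exists_conj hdef
  have hScyc : IsCyclic S := by
    rw [hS, hconj]
    exact isCyclic_of_surjective ((MulAut.conj h).toMonoidHom.subgroupMap P)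
      ((MulAut.conj h).toMonoidHom.subgroupMap_surjective P)
  obtain ⟨⟨u, huS⟩, hgen⟩ := hScyc.exists_generator
  have hSu : S = Subgroup.zpowers u := by
    refine le_antisymm (fun x hx => ?_) (Subgroup.zpowers_le.2 huS)
    obtain ⟨i, hi⟩ := hgen ⟨x, hx⟩
    exact ⟨i, congrArg Subtype.val hi⟩
  obtain ⟨a', ha'⟩ := hdef.pgroup ⟨u, huS⟩
  have hu : u ^ p ^ a' = 1 := congrArg Subtype.val ha'
  obtain ⟨w, hw, hwb⟩ := (nilpotent_or_inv hb (centralIn_cls hg)).resolve_left hnil
  have hSC : S ≤ Subgroup.centralizer ({g} : Set G) := by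
    rintro x ⟨v, -, rfl⟩; exact v.2.2
  set cnum := S.relIndex (Subgroup.centralizer ({g} : Set G)) with hcnum
  have hc0 : (cnum : Res M) ≠ 0 := by
    rw [Ne, CharP.cast_eq_zero_iff (Res M) p]
    have h1 : S.relIndex (Subgroup.centralizer ({g} : Set G)) = (S₀ : Subgroup H).index := by
      have hSH : S.subgroupOf H = (S₀ : Subgroup H) := by
        rw [hS, Subgroup.subgroupOf, Subgroup.comap_map_eq_self_of_injective H.subtype_injective]
      rw [← hSH, ← Subgroup.relIndex, hH, top_inf_eq]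
    rw [hcnum, h1]
    exact S₀.not_dvd_index
  set ρ : G →* Matrix (Fin n) (Fin n) A := Ψ.toMonoidHom.comp (MonoidAlgebra.of (Res M) G) with hρ
  set γ := Ψ ((cnum : Res M)⁻¹ • (MonoidAlgebra.single g 1 * (β * w))) with hγ
  have hcomm : ∀ x : G, MonoidAlgebra.single x (1 : Res M) * (β * w) =
      (β * w) * MonoidAlgebra.single x 1 := fun x =>
    ((hb.central.mul hw).comm (fun y hy => absurd (Subgroup.mem_top y) hy)).symm
  refine RepType.false_of_pencil p ε h₁ h₂ e₁ e₂ a b c d ρ ?_ hSu hu γ (fun x hx => ?_) ?_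
  · rw [eq_top_iff]
    rintro m -
    obtain ⟨z, rfl⟩ := hΨ m
    induction z using MonoidAlgebra.induction_on with
    | of g => exact Submodule.subset_span ⟨g, rfl⟩
    | add f g hf hg => rw [map_add]; exact Submodule.add_mem _ hf hg
    | smul r f hf => rw [map_smul]; exact Submodule.smul_mem _ _ hf
  · show Ψ (MonoidAlgebra.single x 1) * γ = γ * Ψ (MonoidAlgebra.single x 1)
    rw [hγ, ← map_mul, ← map_mul, mul_smul_comm, smul_mul_assoc, mul_assoc (MonoidAlgebra.single g 1),
      ← hcomm]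
    simp only [← mul_assoc, MonoidAlgebra.single_mul_single, one_mul]
    rw [Subgroup.mem_centralizer_singleton_iff.1 (hSC hx)]
  · intro _
    have hterm : ∀ q : G ⧸ S, ρ q.out * γ * ρ q.out⁻¹ =
        Ψ ((cnum : Res M)⁻¹ • (MonoidAlgebra.single (q.out * g * q.out⁻¹) 1 * (β * w))) := by
      intro q
      show Ψ (MonoidAlgebra.single q.out 1) * γ * Ψ (MonoidAlgebra.single q.out⁻¹ 1) = _
      rw [hγ, ← map_mul, ← map_mul, mul_smul_comm, smul_mul_assoc,
        ← mul_assoc (MonoidAlgebra.single q.out 1), MonoidAlgebra.single_mul_single,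
        mul_assoc _ (β * w), ← hcomm, ← mul_assoc, MonoidAlgebra.single_mul_single]
      simp only [one_mul]
    rw [Finset.sum_congr rfl fun q _ => hterm q, ← map_sum, ← Finset.smul_sum, ← Finset.sum_mul,
      sum_conj_single g S hSC, smul_mul_assoc, smul_smul, inv_mul_cancel₀ hc0, one_smul,
      ← mul_assoc, hwb]
    exact hΨb

/-- An element fixing a non-trivial element of a cyclic subgroup. -/
theorem commute_of_fix_cyclic {P : Subgroup G} {x y u : G} (hP : IsPGroup p P)
    (hPu : P = Subgroup.zpowers u) (hy : y ∈ Subgroup.normalizer (P : Set G))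
    (hx : x ∈ P) (hx1 : x ≠ 1) (hfix : Commute y x) {q i : ℕ} (hq : q.Prime) (hqp : q ≠ p)
    (hord : orderOf y = q ^ i) : y ∈ Subgroup.centralizer (P : Set G) := by
  have huP : u ∈ P := hPu ▸ Subgroup.mem_zpowers u
  obtain ⟨r, hr⟩ : ∃ r : ℤ, u ^ r = y * u * y⁻¹ := Subgroup.mem_zpowers_iff.1
    (hPu ▸ (Subgroup.mem_normalizer_iff.1 hy u).1 huP)
  obtain ⟨j, hj⟩ : ∃ j : ℤ, u ^ j = x := Subgroup.mem_zpowers_iff.1 (hPu ▸ hx)
  obtain ⟨a, ha⟩ := hP ⟨u, huP⟩
  have hua : u ^ p ^ a = 1 := congrArg Subtype.val ha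
  have hdvd : (orderOf u : ℤ) ∣ (p : ℤ) ^ a := by exact_mod_cast orderOf_dvd_of_pow_eq_one hua
  have hpr : ((p : ℤ)) ∣ r - 1 := by
    have h1 : u ^ (j * (r - 1)) = 1 := by
      have h2 : y * u ^ j * y⁻¹ = u ^ (r * j) := by rw [zpow_mul, hr, conj_zpow]
      rw [mul_sub, mul_one, zpow_sub, mul_comm j r, ← h2, hj, hfix.eq, mul_inv_cancel_right,
        mul_inv_cancel]
    have h3 : (orderOf u : ℤ) ∣ j * (r - 1) := orderOf_dvd_iff_zpow_eq_one.2 h1
    have hnd : ¬ (orderOf u : ℤ) ∣ j := fun h => hx1 (hj ▸ orderOf_dvd_iff_zpow_eq_one.1 h)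
    by_contra hp
    have hp' : IsCoprime (r - 1) ((p : ℤ) ^ a) := by
      refine IsCoprime.pow_right ?_
      rw [isCoprime_comm]
      exact (Nat.prime_iff_prime_int.1 Fact.out).coprime_iff_not_dvd.2 hp
    exact hnd ((hp'.symm.of_isCoprime_of_dvd_left hdvd).dvd_of_dvd_mul_right h3)
  have hpow : ∀ m : ℕ, y ^ m * u * (y ^ m)⁻¹ = u ^ r ^ m := by
    intro m
    induction m with
    | zero => simp
    | succ m ih =>
      calc y ^ (m + 1) * u * (y ^ (m + 1))⁻¹ = y * (y ^ m * u * (y ^ m)⁻¹) * y⁻¹ := by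
            rw [pow_succ']; group
        _ = _ := by rw [ih, ← conj_zpow, ← hr, ← zpow_mul, pow_succ']
  have hra : (p : ℤ) ^ (a + 1) ∣ r ^ p ^ a - 1 := by
    simpa using dvd_sub_pow_of_dvd_sub (a := r) (b := 1) hpr a
  have hcomm : Commute (y ^ p ^ a) u := by
    have h1 : u ^ (r ^ p ^ a) = u := by
      conv_rhs => rw [← zpow_one u]
      rw [zpow_eq_zpow_iff_modEq]
      exact (Int.modEq_iff_dvd.2 (hdvd.trans ((pow_dvd_pow _ (Nat.le_succ a)).trans hra))).symm
    show y ^ p ^ a * u = u * y ^ p ^ a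
    rw [← mul_inv_eq_iff_eq_mul, hpow, h1]
  obtain ⟨m, hm⟩ : ∃ m : ℕ, y = (y ^ p ^ a) ^ m := by
    obtain ⟨m, hm⟩ := exists_pow_eq_self_of_coprime (n := p ^ a) (x := y)
      (by rw [hord]; exact ((Nat.coprime_primes Fact.out hq).2 hqp.symm).pow a i)
    exact ⟨m, hm.symm⟩
  rw [Subgroup.mem_centralizer_iff]
  intro z hz
  obtain ⟨l, rfl⟩ := Subgroup.mem_zpowers_iff.1 (hPu ▸ hz)
  rw [hm]
  exact ((hcomm.pow_left m).zpow_right l).eq.symm

/-- Cyclic defect group and rank one. -/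
theorem nilpotent_of_cyclic (hpM : (p : AlgInt) ∈ M) (hB : IsPBlock M B) {P : Subgroup G}
    (hPD : IsDefectGroup p M B P) (hcyc : IsCyclic P) (hl : blockRank p B = 1) :
    IsNilpotentBlock p M B := by
  classical
  haveI := charP_res (p := p) hpM
  obtain ⟨e, D⟩ := exists_maxData_of_defect hpM hB hPD
  obtain ⟨⟨u, huP⟩, hgen⟩ := hcyc.exists_generator
  have hPu : P = Subgroup.zpowers u := by
    refine le_antisymm (fun x hx => ?_) (Subgroup.zpowers_le.2 huP)
    obtain ⟨i, hi⟩ := hgen ⟨x, hx⟩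
    exact ⟨i, congrArg Subtype.val hi⟩
  have hab : ∀ x ∈ P, ∀ y ∈ P, x * y = y * x := by
    intro x hx y hy
    rw [hPu] at hx hy
    obtain ⟨i, rfl⟩ := hx
    obtain ⟨j, rfl⟩ := hy
    exact (Commute.zpow_zpow (Commute.refl u) i j).eq
  have hPC : P ≤ Subgroup.centralizer (P : Set G) := fun x hx =>
    Subgroup.mem_centralizer_iff.mpr fun y hy => hab y hy x hx
  obtain ⟨c, hc, rfl⟩ := exists_idemS_eq hpM D.pmax.pair.blk
  have hmax : IsMaximalBrauerPair p M B P c :=
    (isMaximalBrauerPair_iff hpM).2 ⟨(isBrauerPairOf_iff hpM).2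
      ⟨⟨D.pmax.pair.pgroup, hc⟩, hB, D.ofB⟩, D.pmax⟩
  rw [nilpotent_iff_of_abelian hpM hmax hab]
  by_cases hP1 : P = ⊥
  · intro x _ _
    rw [Subgroup.mem_centralizer_iff]
    intro z hz
    rw [hP1] at hz
    rw [Subgroup.mem_bot.1 hz, one_mul, mul_one]
  have hind : IsInducedBlock M (Subgroup.centralizer (P : Set G)) c B :=
    (isInducedBlock_iff hpM hc hB).2 ((inducesIn_iff_ofBlock le_top D.pmax.pair hPC le_rfl
      D.pmax.pair.blk (by
        show br P (idemS M c) * idemS M c = idemS M c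
        rw [br_eq_self D.pmax.pair.blk.supp, D.pmax.pair.blk.idem])
      (isBlk_idemG hpM hB)).2 D.ofB)
  have hfree : ∀ t ∈ stab P (idemS M c), ∀ x ∈ P, x ≠ 1 → t * x * t⁻¹ = x →
      t ∈ Subgroup.centralizer (P : Set G) := by
    intro t ht x hx hx1 hfix
    have htx : Commute t x := by
      show t * x = x * t
      rw [← hfix, inv_mul_cancel_right, hfix]
    refine mem_of_primePow_parts fun y q i hq hy hord => ?_
    have hys : y ∈ stab P (idemS M c) := Subgroup.zpowers_le.2 ht hy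
    by_cases hqp : q = p
    · subst hqp
      have := mem_sup_of_isPElement D.pmax hys (n := i) (hord ▸ pow_orderOf_eq_one y)
      rwa [sup_eq_right.2 hPC] at this
    obtain ⟨r, rfl⟩ := hy
    exact commute_of_fix_cyclic D.pmax.pair.pgroup hPu hys.1 hx hx1 (htx.zpow_left r) hq hqp hord
  obtain ⟨-, hE⟩ := card_eq_of_free hpM hPD hab hind hfree
  have hcard := SmallRankOne.card_defect_eq' hpM hB hPD hl
    (BlockSimple.exists_degree_eq' hpM hB hl (Or.inr fun A _ _ _ ε N hN n _ Ψ hs hb =>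
      basic_commutative hpM hB hPD hcyc A ε N hN n Ψ hs hb))
  rw [hl, mul_one, ← hcard] at hE
  have hP2 : 2 ≤ Nat.card P := (Subgroup.one_lt_card_iff_ne_bot P).2 hP1
  have hE1 : (Subgroup.centralizer (P : Set G)).relIndex (stab P (idemS M c)) = 1 := by
    obtain ⟨r, hr⟩ : ∃ r, Nat.card P = r + 2 := ⟨Nat.card P - 2, by omega⟩
    rw [hr] at hE
    have h2 : r + 2 - 1 = r + 1 := by omega
    rw [h2, Nat.mul_succ] at hE
    set E := (Subgroup.centralizer (P : Set G)).relIndex (stab P (idemS M c))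
    have h3 : E * (r + 1) = 1 * (r + 1) := by omega
    exact Nat.eq_of_mul_eq_mul_right (Nat.succ_pos r) h3
  exact fun x hx hst => Subgroup.relIndex_eq_one.1 hE1
    ⟨hx, ((stabilizesBlock_iff hpM hc x).mp hst).2⟩

end Cfsg.Agent.Blocks.CyclicRankOne
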