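import Cfsg.Agent.Chars.PResidual
import Mathlib.GroupTheory.SpecificGroups.Cyclic
import Cfsg.Agent.Chars.CanonicalExt
import Cfsg.Agent.Chars.GaloisValues
import Cfsg.Agent.Chars.Linear
import Cfsg.Agent.Blocks.Covering

/-!
Characters of the principal block above a cyclic p-residual quotient fixed by the Galois
automorphism raising p-power roots of unity to the power 1 + p.
-/

set_option autoImplicit false
set_option linter.style.haveILetI false
set_option linter.unusedSectionVars false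

namespace Cfsg.Agent.Blocks

open Cfsg Cfsg.Agent

universe u

variable {G : Type u} [Group G] [Fintype G] {p : ℕ} [Fact p.Prime] {M : Ideal AlgInt} [M.IsMaximal]

theorem coprime_of_powerMap {k : ℕ}
    (hk₁ : ∀ g : G, (∃ j : ℕ, orderOf g = p ^ j) → g ^ k = g ^ (1 + p))
    (hk₂ : ∀ g : G, Nat.Coprime (orderOf g) p → g ^ k = g) : k.Coprime (Nat.card G) := by
  have hp := (Fact.out : p.Prime)
  by_contra hc
  obtain ⟨q, hq, hqk, hqG⟩ := Nat.Prime.not_coprime_iff_dvd.1 hc
  haveI := Fact.mk hq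
  obtain ⟨x, hx⟩ := exists_prime_orderOf_dvd_card' (G := G) q hqG
  have h1 : x ^ k = 1 := orderOf_dvd_iff_pow_eq_one.1 (hx ▸ hqk)
  have h2 : x ^ k = x := by
    rcases eq_or_ne q p with rfl | hne
    · rw [hk₁ x ⟨1, by rw [hx, pow_one]⟩, pow_add, pow_one, ← hx, pow_orderOf_eq_one, mul_one]
    · exact hk₂ x (by rw [hx]; exact (Nat.coprime_primes hq hp).2 hne)
  rw [h1] at h2
  rw [← h2, orderOf_one] at hx
  exact hq.one_lt.ne hx

/-- The linear characters of exponent `p` of a nontrivial cyclic p-group. -/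
theorem card_hom_pow_eq_one {C : Type u} [Group C] [Finite C] (hcyc : IsCyclic C)
    (hC : IsPGroup p C) [Nontrivial C] :
    Nat.card {β : C →* ℂˣ // ∀ c, β c ^ p = 1} = p := by
  obtain ⟨g, hg⟩ := hcyc.exists_generator
  haveI : NeZero p := ⟨(Fact.out : p.Prime).ne_zero⟩
  have hord : p ∣ orderOf g := by
    obtain ⟨j, hj⟩ := hC g
    obtain ⟨i, -, hi⟩ := (Nat.dvd_prime_pow (Fact.out : p.Prime)).1 (orderOf_dvd_of_pow_eq_one hj)
    rw [hi]
    refine dvd_pow_self p fun h0 => ?_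
    rw [h0, pow_zero, orderOf_eq_one_iff] at hi
    obtain ⟨c, hc⟩ := exists_ne (1 : C)
    obtain ⟨n, rfl⟩ := Subgroup.mem_zpowers_iff.1 (hg c)
    exact hc (by rw [hi, one_zpow])
  refine (Nat.card_congr ?_).trans (Complex.card_rootsOfUnity p)
  refine
    { toFun := fun β => ⟨β.1 g, (mem_rootsOfUnity p _).2 (β.2 g)⟩
      invFun := fun z => ⟨monoidHomOfForallMemZpowers hg
        (g' := (z : ℂˣ)) ((orderOf_dvd_of_pow_eq_one ((mem_rootsOfUnity p _).1 z.2)).trans hord),
        fun c => ?_⟩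
      left_inv := fun β => ?_
      right_inv := fun z => ?_ }
  · obtain ⟨n, rfl⟩ := Subgroup.mem_zpowers_iff.1 (hg c)
    rw [map_zpow, monoidHomOfForallMemZpowers_apply_gen, ← zpow_natCast, ← zpow_mul, mul_comm,
      zpow_mul, zpow_natCast, (mem_rootsOfUnity p _).1 z.2, one_zpow]
  · apply Subtype.ext
    refine MonoidHom.ext fun c => ?_
    obtain ⟨n, rfl⟩ := Subgroup.mem_zpowers_iff.1 (hg c)
    simp only [map_zpow, monoidHomOfForallMemZpowers_apply_gen]
  · apply Subtype.ext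
    simp only [monoidHomOfForallMemZpowers_apply_gen]

theorem card_galois_fixed_principal (hpM : (p : AlgInt) ∈ M) (P : Sylow p G)
    (hcyc : IsCyclic (G ⧸ pResidual p G)) (hnt : pResidual p G ≠ ⊤) (k : ℕ)
    (hk₁ : ∀ g : G, (∃ j : ℕ, orderOf g = p ^ j) → g ^ k = g ^ (1 + p))
    (hk₂ : ∀ g : G, Nat.Coprime (orderOf g) p → g ^ k = g) :
    Nat.card {χ : IrrCharacter G // χ ∈ principalBlock M G ∧ ¬ p ∣ charDegree (χ : G → ℂ) ∧
      ∀ g : G, (χ : G → ℂ) (g ^ k) = (χ : G → ℂ) g} =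
    p * Nat.card {θ : IrrCharacter ↥(pResidual p G) // θ ∈ principalBlock M ↥(pResidual p G) ∧
      ¬ p ∣ charDegree (θ : pResidual p G → ℂ) ∧
      (∀ x ∈ (P : Subgroup G), ∀ n : pResidual p G, (θ : pResidual p G → ℂ)
        ⟨x * n * x⁻¹, (inferInstance : (pResidual p G).Normal).conj_mem n n.2 x⟩ =
          (θ : pResidual p G → ℂ) n) ∧
      ∀ n : pResidual p G, (θ : pResidual p G → ℂ) (n ^ k) = (θ : pResidual p G → ℂ) n} := by
  classical
  have hp := (Fact.out : p.Prime)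
  set N := pResidual p G with hNdef
  haveI : Fintype N := Fintype.ofFinite _
  obtain ⟨a, hidx⟩ := Core.index_pResidual p G
  have hsup := Core.sylow_sup_pResidual P
  obtain ⟨σ, hσ⟩ := Chars.exists_aut_of_coprime (coprime_of_powerMap hk₁ hk₂)
  -- invariance under the whole group
  have hinv : ∀ θ : IrrCharacter N, (∀ x ∈ (P : Subgroup G), ∀ n : N, (θ : N → ℂ)
      ⟨x * n * x⁻¹, (inferInstance : N.Normal).conj_mem n n.2 x⟩ = (θ : N → ℂ) n) →
      Chars2.inertiaSub (θ : N → ℂ) = ⊤ := by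
    intro θ h
    rw [eq_top_iff, ← hsup]
    refine sup_le (fun x hx => ?_) (Chars2.le_inertiaSub (Chars.isClassFunction_irr θ))
    rw [Chars2.mem_inertiaSub]
    funext n
    rw [Chars2.conjFun_apply]
    exact h x⁻¹ (Subgroup.inv_mem _ hx) n
  have hres : ∀ χ : IrrCharacter G, ¬ p ∣ charDegree (χ : G → ℂ) →
      IsIrrCharacter N (fun n : N => (χ : G → ℂ) n) ∧
      Chars2.inertiaSub (fun n : N => (χ : G → ℂ) n) = ⊤ := fun χ hd => Chars.restrict_pPrime χ.2 hd
  -- the blocks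
  have hblock : ∀ (χ : IrrCharacter G) (θ : IrrCharacter N),
      classInner (fun n : N => (χ : G → ℂ) n) (θ : N → ℂ) ≠ 0 →
      θ ∈ principalBlock M N → χ ∈ principalBlock M G := by
    intro χ θ hc hθ
    obtain ⟨B, -, huniq⟩ := existsUnique_covering hpM hidx (isPBlock_principal (G := N) (M := M))
    have h1 := huniq (blockOf M (χ : G → ℂ)) ⟨isPBlock_blockOf χ, χ, mem_blockOf_self χ, θ, hθ, hc⟩
    have h2 := huniq (principalBlock M G) ⟨isPBlock_principal, oneChar G, one_mem_principal,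
      oneChar N, one_mem_principal, by
        show classInner (fun _ : N => (1 : ℂ)) (fun _ : N => (1 : ℂ)) ≠ 0
        rw [Chars.classInner_self_irr (Chars.isIrrCharacter_one (G := N))]
        exact one_ne_zero⟩
    rw [h2, ← h1]
    exact mem_blockOf_self χ
  have hdown : ∀ χ : IrrCharacter G, χ ∈ principalBlock M G →
      ∀ θ : IrrCharacter N, (∀ n : N, (χ : G → ℂ) n = (θ : N → ℂ) n) →
      θ ∈ principalBlock M N := by
    intro χ hχ θ hθ
    have hone : classInner (fun n : N => ((oneChar G : IrrCharacter G) : G → ℂ) n)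
        ((oneChar N : IrrCharacter N) : N → ℂ) ≠ 0 := by
      show classInner (fun _ : N => (1 : ℂ)) (fun _ : N => (1 : ℂ)) ≠ 0
      rw [Chars.classInner_self_irr (Chars.isIrrCharacter_one (G := N))]
      exact one_ne_zero
    obtain ⟨g, hg⟩ := covered_conjugate hpM (isPBlock_principal (G := N) (M := M))
      (χ := oneChar G) (χ' := χ) hχ (θ := oneChar N) one_mem_principal hone (ψ := θ)
      (by rw [show (fun n : N => (χ : G → ℂ) n) = (θ : N → ℂ) from funext hθ,
        Chars.classInner_self_irr θ.2]; exact one_ne_zero)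
    -- `θ` is invariant
    have hdfix : conjIrr θ g = θ := by
      apply Subtype.ext
      funext n
      have hcl := Chars.isCharacter_conj_apply (Chars.irr_isCharacter χ) (n : G)
      rw [← hθ n]
      show (conjIrr θ g : N → ℂ) n = _
      simp only [conjIrr, Chars2.conjFun_apply, ← hθ]
      exact hcl g⁻¹
    rwa [hdfix] at hg
  let pp : {θ : IrrCharacter N // θ ∈ principalBlock M N ∧ ¬ p ∣ charDegree (θ : N → ℂ) ∧
      (∀ x ∈ (P : Subgroup G), ∀ n : N, (θ : N → ℂ)
        ⟨x * n * x⁻¹, (inferInstance : N.Normal).conj_mem n n.2 x⟩ = (θ : N → ℂ) n) ∧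
      ∀ n : N, (θ : N → ℂ) (n ^ k) = (θ : N → ℂ) n} → IrrCharacter G := fun θ =>
    ⟨(Chars.existsUnique_ext_pPrime θ.1.2 (hinv θ.1 θ.2.2.2.1) θ.2.2.1).exists.choose,
      (Chars.existsUnique_ext_pPrime θ.1.2 (hinv θ.1 θ.2.2.2.1) θ.2.2.1).exists.choose_spec.1⟩
  have hppN : ∀ θ, ∀ n : N, (pp θ : G → ℂ) n = (θ.1 : N → ℂ) n := fun θ =>
    (Chars.existsUnique_ext_pPrime θ.1.2 (hinv θ.1 θ.2.2.2.1) θ.2.2.1).exists.choose_spec.2.1
  have hppσ : ∀ θ, ∀ g : G, (pp θ : G → ℂ) (g ^ k) = (pp θ : G → ℂ) g := by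
    intro θ g
    have hu := Chars.existsUnique_ext_pPrime θ.1.2 (hinv θ.1 θ.2.2.2.1) θ.2.2.1
    have hs := hu.exists.choose_spec
    have hσN : ∀ n : N, σ ((pp θ : G → ℂ) n) = (θ.1 : N → ℂ) n := fun n => by
      rw [hσ _ (Chars.irr_isCharacter (pp θ)), ← Subgroup.coe_pow, hppN θ, θ.2.2.2.2]
    have h2 := hu.unique
      (y₁ := fun g => σ ((pp θ : G → ℂ) g))
      ⟨OddChar.isIrrCharacter_map σ hs.1, hσN, by
        rw [Chars.detOrder_map σ hs.1]; exact hs.2.2⟩ hs
    rw [← hσ _ (Chars.irr_isCharacter (pp θ))]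
    exact congrFun h2 g
  let S := {β : G ⧸ N →* ℂˣ // ∀ c, β c ^ p = 1}
  have hβfix : ∀ (β : S) (g : G), β.1 ((g ^ k : G) : G ⧸ N) = β.1 (g : G ⧸ N) := by
    intro β g
    have hg : g ∈ N ⊔ (P : Subgroup G) := by rw [sup_comm, hsup]; trivial
    obtain ⟨n, hn, x, hx, rfl⟩ := Subgroup.mem_sup_of_normal_left.1 hg
    have hxk : x ^ k = x ^ (1 + p) := by
      obtain ⟨j, hj⟩ := P.isPGroup' ⟨x, hx⟩
      obtain ⟨i, -, hi⟩ := (Nat.dvd_prime_pow hp).1
        (orderOf_dvd_of_pow_eq_one (show x ^ p ^ j = 1 by simpa using congrArg Subtype.val hj))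
      exact hk₁ x ⟨i, hi⟩
    rw [QuotientGroup.mk_pow, QuotientGroup.mk_mul, (QuotientGroup.eq_one_iff n).2 hn, one_mul,
      ← QuotientGroup.mk_pow, hxk, QuotientGroup.mk_pow, map_pow, pow_add, pow_one, β.2, mul_one]
  have hGp : IsPGroup p (G ⧸ N) := Core.isPGroup_quotient_pResidual p G
  haveI : Nontrivial (G ⧸ N) := by
    rw [← not_subsingleton_iff_nontrivial]
    intro h
    exact hnt (Subgroup.index_eq_one.1 (by rw [Subgroup.index_eq_card]; exact Nat.card_unique))
  have hcardS : Nat.card S = p := card_hom_pow_eq_one hcyc hGp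
  conv_rhs => arg 1; rw [← hcardS]
  rw [← Nat.card_prod]
  symm
  let F : S × {θ : IrrCharacter N // θ ∈ principalBlock M N ∧ ¬ p ∣ charDegree (θ : N → ℂ) ∧
      (∀ x ∈ (P : Subgroup G), ∀ n : N, (θ : N → ℂ)
        ⟨x * n * x⁻¹, (inferInstance : N.Normal).conj_mem n n.2 x⟩ = (θ : N → ℂ) n) ∧
      ∀ n : N, (θ : N → ℂ) (n ^ k) = (θ : N → ℂ) n} →
      {χ : IrrCharacter G // χ ∈ principalBlock M G ∧ ¬ p ∣ charDegree (χ : G → ℂ) ∧
        ∀ g : G, (χ : G → ℂ) (g ^ k) = (χ : G → ℂ) g} := fun z =>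
    ⟨⟨fun g => ((z.1.1.comp (QuotientGroup.mk' N)) g : ℂ) * (pp z.2 : G → ℂ) g,
        Chars.isIrrCharacter_mul_hom (pp z.2).2 _⟩, by
      have hN1 : ∀ n : N, ((z.1.1.comp (QuotientGroup.mk' N)) (n : G) : ℂ) * (pp z.2 : G → ℂ) n =
          (z.2.1 : N → ℂ) n := fun n => by
        rw [MonoidHom.comp_apply, QuotientGroup.mk'_apply, (QuotientGroup.eq_one_iff (n : G)).2 n.2,
          map_one, Units.val_one, one_mul, hppN]
      refine ⟨hblock _ z.2.1 ?_ z.2.2.1, ?_, fun g => ?_⟩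
      · rw [show (fun n : N => ((z.1.1.comp (QuotientGroup.mk' N)) (n : G) : ℂ) *
            (pp z.2 : G → ℂ) n) = (z.2.1 : N → ℂ) from funext hN1, Chars.classInner_self_irr z.2.1.2]
        exact one_ne_zero
      · have := hN1 1
        simp only [OneMemClass.coe_one] at this
        rw [charDegree]
        simp only [this]
        exact z.2.2.2.1
      · show ((z.1.1.comp (QuotientGroup.mk' N)) (g ^ k) : ℂ) * (pp z.2 : G → ℂ) (g ^ k) = _
        rw [hppσ, MonoidHom.comp_apply, QuotientGroup.mk'_apply, hβfix]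
        rfl⟩
  refine Nat.card_congr (Equiv.ofBijective F ⟨?_, ?_⟩)
  · rintro ⟨β, θ⟩ ⟨β', θ'⟩ h
    have h' : ∀ g : G, ((β.1 (g : G ⧸ N) : ℂˣ) : ℂ) * (pp θ : G → ℂ) g =
        ((β'.1 (g : G ⧸ N) : ℂˣ) : ℂ) * (pp θ' : G → ℂ) g :=
      fun g => congrFun (congrArg (fun z => ((z.1 : IrrCharacter G) : G → ℂ)) h) g
    have hθ : θ = θ' := by
      apply Subtype.ext; apply Subtype.ext
      funext n
      have := h' n
      rwa [(QuotientGroup.eq_one_iff (n : G)).2 n.2, map_one, map_one, Units.val_one, one_mul,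
        one_mul, hppN, hppN] at this
    subst hθ
    have hg := Chars2.gallagher (N := N) (φ := 1) (ϑ := (θ.1 : N → ℂ))
      Chars.isIrrCharacter_one (Chars2.inertiaSub_eq_top fun g n => rfl) (hinv θ.1 θ.2.2.2.1)
      (by rw [one_mul]; exact θ.1.2) (pp θ).2 (hppN θ)
    have hmem : ∀ γ : S, (fun g : G => ((γ.1 (g : G ⧸ N) : ℂˣ) : ℂ)) ∈
        {β : G → ℂ | IsIrrCharacter G β ∧ classInner (indFun N 1) β ≠ 0} := fun γ => by
      refine ⟨Chars.isIrrCharacter_hom (γ.1.comp (QuotientGroup.mk' N)), ?_⟩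
      change classInner (indFun N 1) (fun g : G => (((γ.1.comp (QuotientGroup.mk' N)) g : ℂˣ) : ℂ)) ≠ 0
      rw [Chars.classInner_indFun N 1 (Chars.isClassFunction_of_isCharacter
        (Chars.isCharacter_hom (γ.1.comp (QuotientGroup.mk' N))))]
      simp only [MonoidHom.comp_apply, QuotientGroup.mk'_apply]
      rw [show (fun n : N => ((γ.1 ((n : G) : G ⧸ N) : ℂˣ) : ℂ)) = (1 : N → ℂ) from funext fun n => by
        rw [(QuotientGroup.eq_one_iff (n : G)).2 n.2, map_one, Units.val_one]; rfl]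
      show classInner (fun _ : N => (1 : ℂ)) (fun _ : N => (1 : ℂ)) ≠ 0
      rw [Chars.classInner_self_irr Chars.isIrrCharacter_one]
      exact one_ne_zero
    have e := hg.injOn (hmem β) (hmem β') (funext h')
    refine Prod.ext (Subtype.ext (MonoidHom.ext fun c => ?_)) rfl
    obtain ⟨g, rfl⟩ := QuotientGroup.mk'_surjective N c
    exact Units.ext (congrFun e g)
  · rintro ⟨χ, hχB, hχd, hχσ⟩
    obtain ⟨hirr, hI⟩ := hres χ hχd
    let θ : IrrCharacter N := ⟨_, hirr⟩
    have hθP : ∀ x ∈ (P : Subgroup G), ∀ n : N, (θ : N → ℂ)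
        ⟨x * n * x⁻¹, (inferInstance : N.Normal).conj_mem n n.2 x⟩ = (θ : N → ℂ) n :=
      fun x _ n => Chars.isCharacter_conj_apply (Chars.irr_isCharacter χ) (n : G) x
    let θ₀ : {θ : IrrCharacter N // θ ∈ principalBlock M N ∧ ¬ p ∣ charDegree (θ : N → ℂ) ∧
      (∀ x ∈ (P : Subgroup G), ∀ n : N, (θ : N → ℂ)
        ⟨x * n * x⁻¹, (inferInstance : N.Normal).conj_mem n n.2 x⟩ = (θ : N → ℂ) n) ∧
      ∀ n : N, (θ : N → ℂ) (n ^ k) = (θ : N → ℂ) n} :=
      ⟨θ, hdown χ hχB θ (fun n => rfl), hχd, hθP, fun n => hχσ (n : G)⟩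
    obtain ⟨d, hd⟩ : ∃ d : ℕ, (χ : G → ℂ) 1 = d := Chars.exists_apply_one_eq (Chars.irr_isCharacter χ)
    -- the quotient of two extensions is linear
    have hg := Chars2.gallagher (N := N) (φ := 1) (ϑ := (θ : N → ℂ))
      Chars.isIrrCharacter_one (Chars2.inertiaSub_eq_top fun g n => rfl) hI
      (by rw [one_mul]; exact θ.2) (pp θ₀).2 (hppN θ₀)
    obtain ⟨β, ⟨hβ, hβ1⟩, hβχ⟩ := hg.surjOn (show (χ : G → ℂ) ∈ {ψ : G → ℂ | IsIrrCharacter G ψ ∧
        classInner (indFun N (1 * (θ : N → ℂ))) ψ ≠ 0} from ⟨χ.2, by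
      rw [one_mul, Chars.classInner_indFun N _ (Chars.isClassFunction_irr χ)]
      show classInner (θ : N → ℂ) (θ : N → ℂ) ≠ 0
      rw [Chars.classInner_self_irr θ.2]; exact one_ne_zero⟩)
    have hχ1 : (χ : G → ℂ) 1 ≠ 0 := Chars.irr_apply_one_ne_zero χ.2
    have hβone : β 1 = 1 := by
      have := congrFun hβχ 1
      simp only [Pi.mul_apply] at this
      have h1 := hppN θ₀ 1
      simp only [OneMemClass.coe_one] at h1
      rw [h1, show (θ₀.1 : N → ℂ) 1 = (χ : G → ℂ) 1 from rfl] at this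
      exact (mul_eq_right₀ hχ1).1 this
    obtain ⟨l, hl⟩ := Chars.exists_hom_of_degree_one (Chars.isCharacter_of_isIrr hβ) hβone
    subst hl
    have hlN : ∀ n : N, l (n : G) = 1 := by
      rw [Chars.classInner_indFun N 1 (Chars.isClassFunction_of_isCharacter
        (Chars.isCharacter_of_isIrr hβ))] at hβ1
      have e : (fun n : N => ((l (n : G) : ℂˣ) : ℂ)) = fun _ => 1 := by
        by_contra hne
        apply hβ1
        exact Chars.classInner_irr_of_ne Chars.isIrrCharacter_one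
          (Chars.isIrrCharacter_hom (l.comp N.subtype)) fun h => hne h.symm
      exact fun n => Units.ext (congrFun e n)
    let lb : G ⧸ N →* ℂˣ := QuotientGroup.lift N l fun n hn => hlN ⟨n, hn⟩
    have hlp : ∀ c, lb c ^ p = 1 := by
      have hlk : ∀ g, l (g ^ k) = l g := by
        intro g
        -- compare through the values of the fixed extensions
        by_contra hne
        have hinj : ∀ γ : G →* ℂˣ, (∀ n : N, γ (n : G) = 1) →
            (fun g => ((γ g : ℂˣ) : ℂ)) ∈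
              {β : G → ℂ | IsIrrCharacter G β ∧ classInner (indFun N 1) β ≠ 0} := fun γ hγ => by
          refine ⟨Chars.isIrrCharacter_hom γ, ?_⟩
          rw [Chars.classInner_indFun N 1 (Chars.isClassFunction_of_isCharacter
            (Chars.isCharacter_hom γ))]
          rw [show (fun n : N => ((γ (n : G) : ℂˣ) : ℂ)) = (1 : N → ℂ) from funext fun n => by
            rw [hγ n, Units.val_one]; rfl]
          show classInner (fun _ : N => (1 : ℂ)) (fun _ : N => (1 : ℂ)) ≠ 0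
          rw [Chars.classInner_self_irr Chars.isIrrCharacter_one]
          exact one_ne_zero
        have hsame : (fun g => (((l ^ k) g : ℂˣ) : ℂ)) * (pp θ₀ : G → ℂ) =
            (fun g => ((l g : ℂˣ) : ℂ)) * (pp θ₀ : G → ℂ) := by
          funext x
          have h1 := congrFun hβχ (x ^ k)
          have h2 := congrFun hβχ x
          simp only [Pi.mul_apply] at h1 h2 ⊢
          rw [hppσ, hχσ, map_pow] at h1
          rw [MonoidHom.pow_apply, h2]
          exact h1
        have := congrFun (hg.injOn (hinj (l ^ k) (fun n => by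
          rw [MonoidHom.pow_apply, hlN, one_pow])) (hinj l hlN) hsame) g
        exact hne (by rw [map_pow]; exact Units.ext this)
      intro c
      obtain ⟨g, rfl⟩ := QuotientGroup.mk'_surjective N c
      have hg' : g ∈ N ⊔ (P : Subgroup G) := by rw [sup_comm, hsup]; trivial
      obtain ⟨n, hn, x, hx, rfl⟩ := Subgroup.mem_sup_of_normal_left.1 hg'
      obtain ⟨j, hj⟩ := P.isPGroup' ⟨x, hx⟩
      obtain ⟨i, -, hi⟩ := (Nat.dvd_prime_pow hp).1
        (orderOf_dvd_of_pow_eq_one (show x ^ p ^ j = 1 by simpa using congrArg Subtype.val hj))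
      have hxk := hlk x
      rw [hk₁ x ⟨i, hi⟩, pow_add, pow_one, map_mul, mul_eq_left] at hxk
      show l (n * x : G) ^ p = 1
      rw [map_mul, hlN ⟨n, hn⟩, one_mul, ← map_pow, hxk]
    refine ⟨⟨⟨lb, hlp⟩, θ₀⟩, ?_⟩
    apply Subtype.ext; apply Subtype.ext
    funext g
    exact congrFun hβχ g

end Cfsg.Agent.Blocks
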