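import Cfsg.Agent.BlockChar.VanishDiv
import Cfsg.Agent.BlockChar.DefectTwo
import Cfsg.Agent.BlockChar.AbelianContrib
import Cfsg.Agent.BlockChar.CentralDefectGroup

/-!
Integrality of the parts of characters at a section of regular rank one.
-/

namespace Cfsg.Agent.Blocks.CyclicSecLocal

open Cfsg Cfsg.Agent Cfsg.Agent.BlockChar Cfsg.Agent.Blocks
open MonoidAlgebra
open scoped MonoidAlgebra ComplexConjugate

set_option autoImplicit false
set_option linter.unusedSectionVars false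
set_option linter.style.haveILetI false

universe u

variable {G : Type u} [Group G] [Fintype G] {p : ℕ} [Fact p.Prime] {M : Ideal AlgInt}
  [M.IsMaximal]

theorem centralizer_mul_eq {v s : G} (hv : ∃ k : ℕ, orderOf v = p ^ k) (hs : s ∈ cz v)
    (hsr : ¬ p ∣ orderOf s) :
    Subgroup.centralizer ({v * s} : Set G) = cz v ⊓ Subgroup.centralizer ({s} : Set G) := by
  have hc : Commute v s := mem_cz.mp hs
  have hp := ppart_mul hc hv hsr
  ext x
  simp only [Subgroup.mem_inf, Subgroup.mem_centralizer_iff, Set.mem_singleton_iff, forall_eq]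
  constructor
  · intro hx
    have hxv : Commute v x := by
      have h := (show Commute (v * s) x from hx).pow_left (ppExp p G)
      rwa [show (v * s) ^ ppExp p G = v from hp] at h
    refine ⟨mem_cz.mpr hxv, ?_⟩
    have := hxv.inv_left.mul_left (show Commute (v * s) x from hx)
    rw [inv_mul_cancel_left] at this
    exact this.eq
  · rintro ⟨hxv, hxs⟩
    exact (Commute.mul_left (mem_cz.mp hxv) (show Commute s x from hxs)).eq

/-- A section of regular rank one. -/
theorem sec_local (hpM : (p : AlgInt) ∈ M) {B : Set (IrrCharacter G)} {P : Subgroup G}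
    {e : (Res M)[G]} (D : MaxData p B P e) (hab : ∀ x ∈ P, ∀ y ∈ P, x * y = y * x) {v : G}
    (hv : v ∈ P) [Fintype (cz v)]
    (hl : blockRank p (blkSet (M := M) v (locB p P e v)) = 1) :
    ∀ χ : IrrCharacter G, ∀ s ∈ cz v, ¬ p ∣ orderOf s →
      MemLocalRing M (sec (χ : G → ℂ) v (locB p P e v) s) ∧
      MemLocalRing M ((Nat.card P : ℂ) * sec (χ : G → ℂ) v (locB p P e v) s /
          (Nat.card (Subgroup.centralizer ({v * s} : Set G)) : ℂ)) := by
  classical
  haveI := charP_res (p := p) hpM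
  intro χ s hs hsr
  set β := locB p P e v with hβdef
  have hle := locB_spec hpM D hv
  have hβ : IsBlk (cz v) β := (hle.isPair_left D.pmax.pair).blk
  have hPC : P ≤ cz v := fun w hw => mem_cz.mpr (hab v hv w hw)
  obtain ⟨hbs, -⟩ := blkSet_spec hpM hβ
  set b := blkSet (M := M) v β with hbdef
  have hDG := isDefectGroup_locB hpM D hab hv
  obtain ⟨f₀, d, ⟨m, hm⟩, hd, hsum⟩ := rank_one_cartan hpM hbs hDG hl
  rw [Nat.card_congr (Subgroup.subgroupOfEquivOfLe hPC).toEquiv, finsum_mem_bf] at hsum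
  have hvH : v ∈ cz v := zpowers_le_cz v (Subgroup.mem_zpowers v)
  have hc : ∀ c : cz v, (⟨v, hvH⟩ : cz v) * c = c * ⟨v, hvH⟩ := fun c =>
    Subtype.ext (mem_cz.mp c.2).eq
  have hvo := orderOf_of_mem D.pmax.pair.pgroup hv
  obtain ⟨k, hk⟩ := hvo
  have hvk : v ^ p ^ k = 1 := by rw [← hk]; exact pow_orderOf_eq_one v
  set a : IrrCharacter (cz v) → ℂ := fun φ =>
    classInner (fun c : cz v => (χ : G → ℂ) (v * (c : G))) (φ : cz v → ℂ) with ha
  have hamem : ∀ φ, MemLocalRing M (a φ) := by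
    intro φ
    obtain ⟨ζ, hζk, hζ⟩ := exists_central_scalar hpM (z := (⟨v, hvH⟩ : cz v)) (k := k)
      (Subtype.ext hvk) hc φ
    obtain ⟨nn, hn⟩ := Chars.exists_classInner_eq_nat
      (Chars.isCharacter_restrict (Chars.irr_isCharacter χ) (cz v)) (Chars.irr_isCharacter φ)
    have hp0 : p ^ k ≠ 0 := pow_ne_zero _ (Fact.out : p.Prime).ne_zero
    have hnorm : ζ * conj ζ = 1 := by
      rw [Complex.mul_conj', Complex.norm_eq_one_of_pow_eq_one hζk hp0]; norm_num
    have hval : a φ = (nn : ℂ) * ζ := by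
      rw [ha, ← hn]
      simp only
      rw [Chars.classInner_def, Chars.classInner_def, mul_assoc, Finset.sum_mul]
      congr 1
      refine Fintype.sum_equiv (Equiv.mulLeft (⟨v, hvH⟩ : cz v)) _ _ fun c => ?_
      show (χ : G → ℂ) (v * (c : G)) * conj ((φ : cz v → ℂ) c) =
        (χ : G → ℂ) (v * (c : G)) * conj ((φ : cz v → ℂ) ((⟨v, hvH⟩ : cz v) * c)) * ζ
      rw [hζ, map_mul]
      linear_combination -((χ : G → ℂ) (v * (c : G)) * conj ((φ : cz v → ℂ) c)) * hnorm
    rw [hval]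
    exact memR_mul (memR_natCast _)
      (memR_of_isIntegral ⟨Polynomial.X ^ p ^ k - Polynomial.C 1,
        Polynomial.monic_X_pow_sub_C 1 hp0, by simp [hζk]⟩)
  set lam : ℂ := ∑ φ ∈ bf b, a φ * (d φ : ℂ) with hlam
  have hlamR : MemLocalRing M lam :=
    memR_sum _ _ fun φ _ => memR_mul (hamem φ) (memR_natCast _)
  have hs' : IsPRegular p (⟨s, hs⟩ : cz v) := by
    show ¬ p ∣ orderOf (⟨s, hs⟩ : cz v)
    rwa [← Subgroup.orderOf_coe]
  have hsec : sec (χ : G → ℂ) v β s = lam * f₀ ⟨s, hs⟩ := by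
    refine Eq.trans (sec_eq_secPart hpM χ hβ (⟨s, hs⟩ : cz v)) ?_
    rw [secPart, blockPart, finsum_mem_bf, hlam, Finset.sum_mul]
    refine Finset.sum_congr rfl fun φ hφ => ?_
    rw [hd φ (mem_bf.mp hφ) _ hs', ha, ← mul_assoc]
    congr 2
    exact congrArg (fun i => @classInner _ _ i _ _) (Subsingleton.elim _ _)
  have hf0R : MemLocalRing M (f₀ ⟨s, hs⟩) := by
    rw [hm _ hs', finsum_mem_bf]
    exact memR_sum _ _ fun φ _ => memR_mul (memR_intCast _) (irr_memR φ _)
  refine ⟨by rw [hsec]; exact memR_mul hlamR hf0R, ?_⟩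
  set c : IrrCharacter (cz v) → ℂ := fun φ => if φ ∈ b then (d φ : ℂ) else 0 with hc'
  have hsplit : ∀ x : cz v, ∑ φ : IrrCharacter (cz v), c φ * (φ : cz v → ℂ) x =
      ∑ φ ∈ bf b, (d φ : ℂ) * (φ : cz v → ℂ) x := fun x => by
    rw [← Finset.sum_subset (Finset.subset_univ (bf b))
      fun φ _ hφ => by simp only [c, if_neg (fun h => hφ (mem_bf.mpr h)), zero_mul]]
    exact Finset.sum_congr rfl fun φ hφ => by simp only [c, if_pos (mem_bf.mp hφ)]
  have h1r : IsPRegular p (1 : cz v) := by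
    show ¬ p ∣ orderOf (1 : cz v)
    rw [orderOf_one]; exact (Fact.out : p.Prime).not_dvd_one
  have hf1 : f₀ 1 ≠ 0 := by
    obtain ⟨φ, hφ⟩ := block_nonempty hbs
    intro h
    exact Chars.irr_apply_one_ne_zero φ.2 (by rw [hd φ hφ 1 h1r, h, mul_zero])
  have hvan : ∀ x : cz v, p ∣ orderOf x →
      ∑ φ : IrrCharacter (cz v), c φ * (φ : cz v → ℂ) x = 0 := by
    intro x hx
    rw [hsplit]
    have h := block_orth_weak hpM hbs (x := (1 : cz v)) h1r hx
    have e1 : ∀ φ ∈ bf b, (φ : cz v → ℂ) (1 : cz v) * conj ((φ : cz v → ℂ) x) =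
        f₀ 1 * conj ((d φ : ℂ) * (φ : cz v → ℂ) x) := fun φ hφ => by
      rw [hd φ (mem_bf.mp hφ) 1 h1r, map_mul, map_natCast]; ring
    rw [show (Finset.univ.filter (· ∈ b)) = bf b by ext; simp, Finset.sum_congr rfl e1,
      ← Finset.mul_sum, ← map_sum, mul_eq_zero] at h
    have h' := congrArg conj (h.resolve_left hf1)
    rwa [Complex.conj_conj, map_zero] at h'
  have hloc := local_div_of_vanish hpM c
    (fun φ => by simp only [c]; split_ifs <;> [exact memR_natCast _; exact memR_zero])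
    hvan (t := (⟨s, hs⟩ : cz v)) hs'
  have hval : ∑ φ : IrrCharacter (cz v), c φ * (φ : cz v → ℂ) ⟨s, hs⟩ =
      (Nat.card P : ℂ) * f₀ ⟨s, hs⟩ := by
    rw [hsplit, ← hsum, Nat.cast_sum, Finset.sum_mul]
    refine Finset.sum_congr rfl fun φ hφ => ?_
    rw [hd φ (mem_bf.mp hφ) _ hs', Nat.cast_pow]
    ring
  have hcard : Nat.card (Subgroup.centralizer ({(⟨s, hs⟩ : cz v)} : Set (cz v))) =
      Nat.card (Subgroup.centralizer ({v * s} : Set G)) := by
    have e : Subgroup.centralizer ({(⟨s, hs⟩ : cz v)} : Set (cz v)) =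
        (Subgroup.centralizer ({s} : Set G)).subgroupOf (cz v) := by
      ext x
      rw [Subgroup.mem_subgroupOf, Subgroup.mem_centralizer_singleton_iff,
        Subgroup.mem_centralizer_singleton_iff]
      exact ⟨fun h => congrArg Subtype.val h, fun h => Subtype.ext h⟩
    rw [e, centralizer_mul_eq ⟨k, hk⟩ hs hsr, ← Subgroup.inf_subgroupOf_left,
      Nat.card_congr (Subgroup.subgroupOfEquivOfLe inf_le_left).toEquiv]
  rw [hval, hcard] at hloc
  rw [hsec, show (Nat.card P : ℂ) * (lam * f₀ ⟨s, hs⟩) /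
      (Nat.card (Subgroup.centralizer ({v * s} : Set G)) : ℂ) = lam *
      ((Nat.card P : ℂ) * f₀ ⟨s, hs⟩ /
        (Nat.card (Subgroup.centralizer ({v * s} : Set G)) : ℂ)) by ring]
  exact memR_mul hlamR hloc

end Cfsg.Agent.Blocks.CyclicSecLocal
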