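import Cfsg.Agent.Blocks.OrbitLattice
import Cfsg.Agent.BlockChar.NilpotentBlock
import Cfsg.Agent.BlockChar.LocalRank
import Cfsg.Agent.BlockChar.AbelianLocal
import Cfsg.Agent.Blocks.CyclicSecLocal

/-!
The parts of the characters of a block at the elements of a cyclic defect group, read in a
subgroup in which the local block is nilpotent.
-/

namespace Cfsg.Agent.Blocks.CyclicSections

open Cfsg Cfsg.Agent Cfsg.Agent.BlockChar Cfsg.Agent.Blocks
open Cfsg.Agent.Blocks.OrbitLattice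
open scoped MonoidAlgebra ComplexConjugate

set_option autoImplicit false
set_option linter.unusedSectionVars false
set_option linter.style.haveILetI false

universe u

variable {G : Type u} [Group G] [Fintype G] {p : ℕ} [Fact p.Prime] {M : Ideal AlgInt}
  [M.IsMaximal]

open scoped Classical in
theorem sum_regs_cz (v : G) [Fintype (cz v)] (F : G → ℂ) :
    ∑ s ∈ regs p (cz v), F (s : G) =
      ∑ g ∈ Finset.univ.filter (fun g => g ∈ cz v ∧ ¬ p ∣ orderOf g), F g := by
  classical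
  refine Finset.sum_bij (fun (s : cz v) _ => (s : G)) (fun s hs => ?_)
    (fun a _ b _ h => Subtype.ext h) (fun g hg => ?_) (fun _ _ => rfl)
  · refine Finset.mem_filter.2 ⟨Finset.mem_univ _, s.2, ?_⟩
    rw [Subgroup.orderOf_coe]; exact mem_regs.1 hs
  · obtain ⟨-, h1, h2⟩ := Finset.mem_filter.1 hg
    exact ⟨⟨g, h1⟩, mem_regs.2 (by rwa [← Subgroup.orderOf_coe]), rfl⟩

theorem cz_map {C : Subgroup G} [Fintype C] {v : C} (hcz : cz (v : G) ≤ C) :
    (cz v).map C.subtype = cz (v : G) := by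
  ext g
  simp only [Subgroup.mem_map, mem_cz, Subgroup.coe_subtype]
  constructor
  · rintro ⟨x, hx, rfl⟩
    exact congrArg Subtype.val hx.eq
  · exact fun hg => ⟨⟨g, hcz (mem_cz.2 hg)⟩, Subtype.ext hg.eq, rfl⟩

/-- Parts read in a subgroup containing the centralizer of the element. -/
theorem sec_subgroup (hpM : (p : AlgInt) ∈ M) {C : Subgroup G} [Fintype C] {v : C}
    (hcz : cz (v : G) ≤ C) {β : (Res M)[C]} (hβ : IsBlk (cz v) β) (f : G → ℂ) (s : C) :
    sec f (v : G) (emb (Res M) C β) (s : G) = sec (fun c : C => f c) v β s := by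
  classical
  obtain ⟨h1, h2, h3, h4⟩ := hat_spec hpM hβ
  set ι := MonoidAlgebra.mapDomainRingHom (loc M) C.subtype
  have hmap := cz_map hcz
  have hcoef : ∀ (z : (loc M)[C]) (c : C), (ι z).coeff (c : G) = z.coeff c := fun z c => by
    simp [ι]
  have hout : ∀ (z : (loc M)[C]) (g : G), g ∉ C → (ι z).coeff g = 0 := fun z g hg => by
    simp only [ι, MonoidAlgebra.mapDomainRingHom_apply, MonoidAlgebra.coeff_mapDomain]
    exact Finsupp.mapDomain_of_notMem_range _ _ fun ⟨h, hh⟩ => hg (hh ▸ h.2)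
  have hblk : IsBlk (cz (v : G)) (emb (Res M) C β) := hmap ▸ (isBlk_emb_iff _ _).2 hβ
  have hkey : ι (hat v β) = hat (v : G) (emb (Res M) C β) := by
    refine hat_unique hpM hblk (by rw [← map_mul, h1]) ?_ ?_ ?_
    · intro g hg
      by_cases hgC : g ∈ C
      · rw [show g = ((⟨g, hgC⟩ : C) : G) from rfl, hcoef]
        exact h2 _ fun h' => hg (hmap.le ⟨_, h', rfl⟩)
      · exact hout _ g hgC
    · refine fixed_of_coeff fun h hh g => ?_
      obtain ⟨w, hw, rfl⟩ := hmap.ge hh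
      by_cases hgC : g ∈ C
      · rw [show g = ((⟨g, hgC⟩ : C) : G) from rfl, show C.subtype w * ((⟨g, hgC⟩ : C) : G) *
          (C.subtype w)⁻¹ = ((w * ⟨g, hgC⟩ * w⁻¹ : C) : G) from rfl, hcoef, hcoef, h3.coeff hw]
      · rw [hout _ g hgC, hout _ _ fun h' => hgC ?_]
        have := C.mul_mem (C.mul_mem (C.inv_mem w.2) h') w.2
        simpa [mul_assoc] using this
    · ext g
      rw [coeff_redG]
      by_cases hgC : g ∈ C
      · rw [show g = ((⟨g, hgC⟩ : C) : G) from rfl, hcoef, coeff_emb, ← coeff_redG, h4]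
      · rw [hout _ g hgC, map_zero, supportedIn_emb _ g hgC]
  rw [sec, sec, ← hkey, trv, trv, ← Finset.sum_subset
    (Finset.subset_univ (Finset.univ.image fun c : C => (c : G))) fun g _ hg => by
      rw [hout _ g fun h => hg (Finset.mem_image.2 ⟨⟨g, h⟩, Finset.mem_univ _, rfl⟩)]; simp,
    Finset.sum_image fun a _ b _ h => Subtype.ext h]
  exact Finset.sum_congr rfl fun c _ => by rw [hcoef]; rfl

/-- Parts are linear. -/
theorem sec_sum {ι : Type*} (S : Finset ι) (c : ι → ℂ) (f : ι → G → ℂ) (v : G)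
    (β : (Res M)[G]) (s : G) :
    sec (fun g => ∑ i ∈ S, c i * f i g) v β s = ∑ i ∈ S, c i * sec (f i) v β s := by
  simp only [sec, trv, Finset.mul_sum]
  rw [Finset.sum_comm]
  exact Finset.sum_congr rfl fun i _ => Finset.sum_congr rfl fun g _ => by ring

/-- Parts of a conjugated function. -/
theorem sec_conjFun (hpM : (p : AlgInt) ∈ M) (f : G → ℂ) (t : G) {v : G} {β : (Res M)[G]}
    (hβ : IsBlk (cz v) β) (s : G) :
    sec (fun g => f (t * g * t⁻¹)) v β s = sec f (t * v * t⁻¹) (cj t β) (t * s * t⁻¹) := by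
  rw [sec, sec, ← hat_cj hpM t hβ, trv, trv]
  refine Fintype.sum_equiv (MulAut.conj t).toEquiv _ _ fun g => ?_
  simp only [coeff_cj, MulEquiv.toEquiv_eq_coe, EquivLike.coe_coe, MulAut.conj_apply]
  congr 2
  · congr 1; group
  · group

variable {B : Set (IrrCharacter G)} {P : Subgroup G} {e : (Res M)[G]}

/-- The block below the pair at a conjugate. -/
theorem cj_locB (hpM : (p : AlgInt) ∈ M) (D : MaxData p B P e) {t : G} (ht : t ∈ stab P e) {v : G}
    (hv : v ∈ P) : cj t (locB p P e v) = locB p P e (t * v * t⁻¹) := by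
  haveI := charP_res (p := p) hpM
  refine eq_locB hpM D ((Subgroup.mem_normalizer_iff.1 ht.1 v).1 hv) ?_
  have h := (locB_spec hpM D hv).cj t
  rwa [conjS_zpowers, conjS_eq_self_of_mem_normalizer ht.1, ht.2] at h

/-- Coordinates on a cyclic subgroup. -/
structure Coord (P : Subgroup G) (n : ℕ) where
  el : ZMod n → G
  mem : ∀ x, el x ∈ P
  add : ∀ x y, el (x + y) = el x * el y
  inj : Function.Injective el
  surj : ∀ v ∈ P, ∃ x, el x = v

theorem Coord.zero {n : ℕ} (E : Coord P n) : E.el 0 = 1 := by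
  have h := E.add 0 0
  rw [add_zero] at h
  exact left_eq_mul.1 h

theorem Coord.ne_one {n : ℕ} (E : Coord P n) {x : ZMod n} (hx : x ≠ 0) : E.el x ≠ 1 :=
  fun h => hx (E.inj (h.trans E.zero.symm))

theorem exists_coord (hcyc : IsCyclic P) : Nonempty (Coord P (Nat.card P)) := by
  let φ := zmodCyclicMulEquiv hcyc
  exact ⟨{
    el := fun x => (φ (Multiplicative.ofAdd x) : G)
    mem := fun x => SetLike.coe_mem _
    add := fun x y => by rw [ofAdd_add, map_mul, Subgroup.coe_mul]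
    inj := fun x y h => Multiplicative.ofAdd.injective (φ.injective (Subtype.ext h))
    surj := fun v hv => ⟨Multiplicative.toAdd (φ.symm ⟨v, hv⟩), by simp⟩ }⟩

variable {n : ℕ} [NeZero n]

set_option maxHeartbeats 1000000 in
/-- The parts as transforms of multiplicities, with conjugation by the stabilizer twisting them
by a linear character. -/
theorem exists_mult (hpM : (p : AlgInt) ∈ M) (D : MaxData p B P e) (E : Coord P n)
    (hn : Nat.card P = n) {C : Subgroup G} (hPC : P ≤ C)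
    (hCP : Subgroup.centralizer (P : Set G) ≤ C)
    (hcen : ∀ v ∈ P, v ≠ 1 → cz v ≤ C)
    (hstabC : stab P e ⊓ C ≤ Subgroup.centralizer (P : Set G))
    (hnormC : ∀ t ∈ stab P e, t ∈ Subgroup.normalizer (C : Set G))
    (hrank : ∀ v ∈ P, v ≠ 1 → ∀ [Fintype (cz v)],
      blockRank p (blkSet (M := M) v (locB p P e v)) = 1) :
    ∃ (m : IrrCharacter G → ZMod n → ℤ) (S₀ : ZMod n → G → ℂ),
      (∀ χ : IrrCharacter G, ∀ x : ZMod n, x ≠ 0 → ∀ s ∈ cz (E.el x), ¬ p ∣ orderOf s →
        sec (χ : G → ℂ) (E.el x) (locB p P e (E.el x)) s = hatF (m χ) x * S₀ x s) ∧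
      (∀ χ ψ : IrrCharacter G, ∀ x : ZMod n, x ≠ 0 →
        (n : ℂ) * conP p P e (χ : G → ℂ) (ψ : G → ℂ) (E.el x) =
          hatF (m χ) x * conj (hatF (m ψ) x)) ∧
      (∀ t ∈ stab P e, ∀ r : ZMod n, (∀ x, t * E.el x * t⁻¹ = E.el (r * x)) →
        ∃ j : ZMod n, ∀ χ : IrrCharacter G, ∀ x : ZMod n, x ≠ 0 →
          hatF (m χ) x = ZMod.stdAddChar (j * x) * hatF (m χ) (r * x)) ∧
      ∀ x : ZMod n, x ≠ 0 → ∀ s ∈ cz (E.el x), ¬ p ∣ orderOf s →
        MemLocalRing M (S₀ x s) ∧ MemLocalRing M ((n : ℂ) * S₀ x s /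
          (Nat.card (Subgroup.centralizer ({E.el x * s} : Set G)) : ℂ)) := by
  classical
  haveI := charP_res (p := p) hpM
  letI : Fintype C := Fintype.ofFinite C
  obtain ⟨P', e', B', SP, D', -⟩ := exists_subPair hpM D.pmax hPC hCP
  letI : Fintype P' := Fintype.ofFinite P'
  letI : ∀ v : C, Fintype (cz v) := fun v => Fintype.ofFinite _
  letI : ∀ v : G, Fintype (cz v) := fun v => Fintype.ofFinite _
  have hcomm : ∀ x ∈ P, ∀ y ∈ P, x * y = y * x := fun x hx y hy => by
    obtain ⟨a, rfl⟩ := E.surj x hx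
    obtain ⟨b, rfl⟩ := E.surj y hy
    rw [← E.add, ← E.add, add_comm]
  have hcomm' : ∀ x ∈ P', ∀ y ∈ P', x * y = y * x := fun x hx y hy =>
    Subtype.ext (hcomm _ (SP.mem_iff.1 hx) _ (SP.mem_iff.1 hy))
  have hnil : IsNilB p (idemG M B') := by
    rw [isNilB_iff_abelian D'.pmax (isBlk_idemG hpM D'.blk) D'.ofB hcomm']
    intro t ht
    refine Subgroup.mem_centralizer_iff.2 fun y hy => Subtype.ext ?_
    exact Subgroup.mem_centralizer_iff.1 (hstabC ⟨SP.mem_stab.1 ht, t.2⟩) _ (SP.mem_iff.1 hy)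
  obtain ⟨θ, hθ, hθ0⟩ := exists_height_zero (p := p) D'.blk
  -- the elements of the group in the subgroup
  set el : ZMod n → C := fun x => ⟨E.el x, hPC (E.mem x)⟩ with hel
  have helP : ∀ x, el x ∈ P' := fun x => SP.mem_iff.2 (E.mem x)
  have helsurj : ∀ v ∈ P', ∃ x, el x = v := fun v hv => by
    obtain ⟨x, hx⟩ := E.surj _ (SP.mem_iff.1 hv)
    exact ⟨x, Subtype.ext hx⟩
  let φ : Multiplicative (ZMod n) ≃* P' := MulEquiv.mk' (Equiv.ofBijective
    (fun x => (⟨el (Multiplicative.toAdd x), helP _⟩ : P'))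
    ⟨fun x y h => Multiplicative.toAdd.injective
      (E.inj (congrArg (fun w : P' => ((w : C) : G)) h)),
      fun v => by
        obtain ⟨x, hx⟩ := helsurj v v.2
        exact ⟨Multiplicative.ofAdd x, Subtype.ext hx⟩⟩)
    fun x y => Subtype.ext (Subtype.ext (E.add _ _))
  have hP'n : Nat.card P' = n := by
    rw [← Nat.card_congr φ.toEquiv]; simp
  -- linear characters
  let lam : ZMod n → P' → ℂ := fun i v =>
    ZMod.stdAddChar (i * Multiplicative.toAdd (φ.symm v))
  have hlam : ∀ i x, lam i ⟨el x, helP x⟩ = ZMod.stdAddChar (i * x) := fun i x => by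
    have : φ.symm ⟨el x, helP x⟩ = Multiplicative.ofAdd x := φ.symm_apply_eq.2 rfl
    simp [lam, this]
  have hlamirr : ∀ i, IsIrrCharacter P' (lam i) := fun i => by
    let ψ : P' →* ℂˣ :=
      (MonoidHom.toHomUnits
        ((AddChar.mulShift ZMod.stdAddChar i).toMonoidHom.comp φ.symm.toMonoidHom))
    exact Chars.isIrrCharacter_hom ψ
  -- the characters of the block
  have hθi : ∀ i, ∃ ψ : IrrCharacter C, ψ ∈ B' ∧
      (ψ : C → ℂ) = starP p P' e' (θ : C → ℂ) (extP P' (lam i)) := fun i => by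
    obtain ⟨ψ, h1, h2, -⟩ := exists_starP_irr hpM D' hnil hθ hθ0 ⟨lam i, hlamirr i⟩
    exact ⟨ψ, h1, h2⟩
  choose θi hθiB hθi using hθi
  have hinj : Function.Injective θi := by
    intro i j h
    have hcl : IsClassFunction P' (fun v => lam i v * conj (lam j v)) := fun a b => by
      show lam i (b * a * b⁻¹) * conj (lam j (b * a * b⁻¹)) = _
      rw [show b * a * b⁻¹ = a by
        rw [mul_inv_eq_iff_eq_mul]; exact Subtype.ext (hcomm' _ b.2 _ a.2)]
    have h1 : classInner (θi i : C → ℂ) (θi j : C → ℂ) = 1 := by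
      rw [h, Chars.classInner_irrCharacter, if_pos rfl]
    rw [hθi, hθi, classInner_starP_mul hpM, extP_mul,
      classInner_starP_eq hpM D' hnil hθ hθ0 hcl] at h1
    have h2 := Chars.classInner_irrCharacter (⟨_, hlamirr i⟩ : IrrCharacter P') ⟨_, hlamirr j⟩
    rw [Chars.classInner_def] at h1 h2
    simp only [map_one, mul_one] at h1
    change (Nat.card P' : ℂ)⁻¹ * ∑ v, lam i v * conj (lam j v) = _ at h2
    rw [h1] at h2
    by_contra hne
    rw [if_neg] at h2
    · exact one_ne_zero h2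
    · intro hh
      refine hne ?_
      have := congrFun (congrArg Subtype.val hh) ⟨el 1, helP 1⟩
      simp only [hlam, mul_one] at this
      exact ZMod.injective_stdAddChar this
  have hcardB : Nat.card B' = n := by
    obtain ⟨Φ, -⟩ := exists_equiv_of_nilpotent hpM D' hnil hθ hθ0
    rw [Nat.card_congr Φ, Chars.card_irr_eq_card_conjClasses, ← hP'n]
    refine (Nat.card_eq_of_bijective ConjClasses.mk ⟨fun a b hab => ?_,
      ConjClasses.mk_surjective⟩).symm
    obtain ⟨c, hc⟩ := isConj_iff.1 (ConjClasses.mk_eq_mk_iff_isConj.1 hab)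
    rw [← hc, mul_inv_eq_iff_eq_mul.2 (Subtype.ext (hcomm' _ c.2 _ a.2))]
  have himg : bf B' = Finset.univ.image θi := by
    refine (Finset.eq_of_subset_of_card_le ?_ ?_).symm
    · intro ψ hψ
      obtain ⟨i, -, rfl⟩ := Finset.mem_image.1 hψ
      exact mem_bf.2 (hθiB i)
    · rw [Finset.card_image_of_injective _ hinj, ← card_bf, hcardB, Finset.card_univ, ZMod.card]
  -- the local blocks
  have hloc : ∀ x, x ≠ 0 →
      emb (Res M) C (locB p P' e' (el x)) = locB p P e (E.el x) := by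
    intro x hx
    have hv := E.mem x
    have hcz := hcen _ hv (E.ne_one hx)
    have hle := locB_spec hpM D' (helP x)
    have hβ : IsBlk (cz (el x)) (locB p P' e' (el x)) := (hle.isPair_left D'.pmax.pair).blk
    have hle2 := locB_spec hpM D hv
    have hβ2 : IsBlk (cz (E.el x)) (locB p P e (E.el x)) := (hle2.isPair_left D.pmax.pair).blk
    have hPcz : P ≤ cz (E.el x) := fun w hw => mem_cz.2 (hcomm _ hv w hw)
    have hCcz : Subgroup.centralizer (P : Set G) ≤ cz (E.el x) := fun w hw =>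
      mem_cz.2 (Subgroup.mem_centralizer_iff.1 hw _ hv)
    have hPcz' : P' ≤ cz (el x) := fun w hw => mem_cz.2 (hcomm' _ (helP x) w hw)
    refine (existsUnique_ofBlock_in D.pmax.pair hPcz hCcz).unique
      ⟨(cz_map (v := el x) hcz) ▸ (isBlk_emb_iff _ _).2 hβ, ?_⟩ ⟨hβ2, ?_⟩
    · show br P (emb (Res M) C _) * e = e
      rw [← SP.map_eq, ← SP.emb_eq, ← emb_br, ← map_mul]
      refine congrArg _ ((hle.ofBlock_iff_in hPcz' le_rfl hβ).mp ?_)
      show br _ _ * _ = _
      rw [br_eq_self hβ.supp, hβ.idem]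
    · refine (hle2.ofBlock_iff_in hPcz le_rfl hβ2).mp ?_
      show br _ _ * _ = _
      rw [br_eq_self hβ2.supp, hβ2.idem]
  set S₀ : ZMod n → G → ℂ := fun x s =>
    sec (extP C (θ : C → ℂ)) (E.el x) (locB p P e (E.el x)) s with hS₀
  -- parts of the characters of the subgroup
  have hsecθ : ∀ x, x ≠ 0 → ∀ s : C, (s : G) ∈ cz (E.el x) → ¬ p ∣ orderOf s → ∀ i,
      sec (θi i : C → ℂ) (el x) (locB p P' e' (el x)) s =
        ZMod.stdAddChar (i * x) * sec (θ : C → ℂ) (el x) (locB p P' e' (el x)) s := by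
    intro x hx s hs hsr i
    have hle := locB_spec hpM D' (helP x)
    have hvp := orderOf_of_mem D'.pmax.pair.pgroup (helP x)
    have hβ : IsBlk (cz (el x)) (locB p P' e' (el x)) := (hle.isPair_left D'.pmax.pair).blk
    have hcl : IsClassFunction P' (lam i) := Chars.isClassFunction_irr ⟨_, hlamirr i⟩
    rw [sec_of_star hpM θ (θi i) (Φ := phiOf p P' e' (extP P' (lam i))) (hθi i) hvp hβ
      (mem_cz.2 (Subtype.ext (mem_cz.1 hs).eq)) hsr]
    congr 1
    have hbel : Below p P' e' 1 (el x) (locB p P' e' (el x)) := by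
      unfold Below
      rw [one_mul, inv_one, mul_one, cj_one]
      exact hle
    rw [phiOf_eq (isStable_of_nilpotent hpM D' hnil hcl) hbel, one_mul, inv_one, mul_one,
      extP_mem _ (helP x), hlam]
  have hsec0 : ∀ x, x ≠ 0 → ∀ s : C, S₀ x (s : G) =
      sec (θ : C → ℂ) (el x) (locB p P' e' (el x)) s := by
    intro x hx s
    have hle := locB_spec hpM D' (helP x)
    have h := sec_subgroup hpM (v := el x) (hcen _ (E.mem x) (E.ne_one hx))
      (hle.isPair_left D'.pmax.pair).blk (extP C (θ : C → ℂ)) s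
    rw [hloc x hx] at h
    simp only [extP_coe] at h
    exact h
  have hres : ∀ χ : IrrCharacter G, ∀ ψ : IrrCharacter C, ∃ k : ℕ,
      classInner (fun c : C => (χ : G → ℂ) c) (ψ : C → ℂ) = k := fun χ ψ =>
    Chars.exists_classInner_eq_nat (Chars.isCharacter_restrict (Chars.irr_isCharacter χ) C)
      (Chars.irr_isCharacter ψ)
  choose k hk using hres
  set m : IrrCharacter G → ZMod n → ℤ := fun χ i => (k χ (θi i) : ℤ) with hm
  have hsecχ : ∀ χ : IrrCharacter G, ∀ x : ZMod n, x ≠ 0 → ∀ s : C, (s : G) ∈ cz (E.el x) →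
      ¬ p ∣ orderOf s →
      sec (χ : G → ℂ) (E.el x) (locB p P e (E.el x)) (s : G) = hatF (m χ) x * S₀ x (s : G) := by
    intro χ x hx s hs hsr
    have hle := locB_spec hpM D' (helP x)
    have hvp := orderOf_of_mem D'.pmax.pair.pgroup (helP x)
    have hβ : IsBlk (cz (el x)) (locB p P' e' (el x)) := (hle.isPair_left D'.pmax.pair).blk
    have hexp : (fun c : C => (χ : G → ℂ) c) =
        fun c => ∑ ψ : IrrCharacter C, (k χ ψ : ℂ) * (ψ : C → ℂ) c := by
      funext c
      have h := congrFun (Chars.eq_sum_classInner (f := fun c : C => (χ : G → ℂ) c)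
        (Chars.isClassFunction_of_isGen (Chars.isGen_of_isCharacter
          (Chars.isCharacter_restrict (Chars.irr_isCharacter χ) C)))) c
      rw [Finset.sum_apply] at h
      simp only [hk] at h
      exact h
    rw [← hloc x hx, sec_subgroup hpM (v := el x) (hcen _ (E.mem x) (E.ne_one hx)) hβ, hexp, sec_sum,
      ← Finset.sum_subset (Finset.subset_univ (bf B')) fun ψ _ hψ => ?_, himg,
      Finset.sum_image hinj.injOn, hsec0 x hx, hatF, Finset.sum_mul]
    · refine Finset.sum_congr rfl fun i _ => ?_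
      rw [hsecθ x hx s hs hsr i, hm]
      push_cast
      ring
    · obtain ⟨Bψ, hBψ, hψB⟩ : ∃ Bψ, IsPBlock M Bψ ∧ ψ ∈ Bψ :=
        ⟨_, isPBlock_blockOf ψ, mem_blockOf_self ψ⟩
      rw [sec_eq_zero hpM hBψ hψB hvp hβ (fun ho => hψ (mem_bf.2 ?_))
        (mem_cz.2 (Subtype.ext (mem_cz.1 hs).eq)) hsr, mul_zero]
      rwa [← (idemG_inj hpM hBψ D'.blk).mp ((existsUnique_ofBlock (p := p)
        (⟨isPGroup_zpowers_of hvp, hβ⟩ : IsPair p _ _)).unique ⟨isBlk_idemG hpM hBψ, ho⟩
        ⟨isBlk_idemG hpM D'.blk, (hle.ofBlock_iff (isBlk_idemG hpM D'.blk)).mpr D'.ofB⟩)]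
  have hrk : ∀ x, x ≠ 0 →
      blockRank p (blkSet (M := M) (el x) (locB p P' e' (el x))) = 1 := fun x hx => by
    rw [rk_cz hpM D' hcomm' (helP x), SP.rk_map hpM D'.pmax.pair D.pmax.pair hCP
      (fun w hw => mem_cz.2 (hcomm' _ (helP x) w hw))
      (fun w hw => mem_cz.2 (Subgroup.mem_centralizer_iff.1 hw _ (helP x))),
      cz_map (v := el x) (hcen _ (E.mem x) (E.ne_one hx)),
      ← rk_cz hpM D hcomm (E.mem x), hrank _ (E.mem x) (E.ne_one hx)]
  have hloc' : ∀ x, x ≠ 0 → ∀ s ∈ cz (E.el x), ¬ p ∣ orderOf s →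
      MemLocalRing M (S₀ x s) ∧ MemLocalRing M ((n : ℂ) * S₀ x s /
        (Nat.card (Subgroup.centralizer ({E.el x * s} : Set G)) : ℂ)) := by
    intro x hx g hg hgr
    obtain ⟨s, rfl⟩ : ∃ s : C, (s : G) = g :=
      ⟨⟨g, hcen _ (E.mem x) (E.ne_one hx) hg⟩, rfl⟩
    have hsr : ¬ p ∣ orderOf s := by rwa [Subgroup.orderOf_coe] at hgr
    have h := CyclicSecLocal.sec_local hpM D' hcomm' (helP x) (hrk x hx) θ s
      (mem_cz.2 (Subtype.ext (mem_cz.1 hg).eq)) hsr
    rw [← hsec0 x hx s, hP'n] at h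
    refine ⟨h.1, ?_⟩
    have hle : Subgroup.centralizer ({E.el x * (s : G)} : Set G) ≤ C := by
      rw [CyclicSecLocal.centralizer_mul_eq
        (orderOf_of_mem D.pmax.pair.pgroup (E.mem x)) hg hgr]
      exact inf_le_left.trans (hcen _ (E.mem x) (E.ne_one hx))
    have hc : Nat.card (Subgroup.centralizer ({el x * s} : Set C)) =
        Nat.card (Subgroup.centralizer ({E.el x * (s : G)} : Set G)) := by
      rw [← Nat.card_congr (Subgroup.subgroupOfEquivOfLe hle).toEquiv]
      refine congrArg (fun X : Subgroup C => Nat.card X) ?_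
      ext c
      simp only [Subgroup.mem_subgroupOf, Subgroup.mem_centralizer_singleton_iff,
        Subtype.ext_iff, Subgroup.coe_mul, hel]
    rw [← hc]
    exact h.2
  have hnorm : ∀ x, x ≠ 0 → (n : ℂ) * ((Nat.card (cz (E.el x)) : ℂ)⁻¹ *
      ∑ s ∈ regs p (cz (E.el x)), S₀ x (s : G) * conj (S₀ x (s : G))) = 1 := by
    intro x hx
    have hcz := hcen _ (E.mem x) (E.ne_one hx)
    have hmap := cz_map (v := el x) hcz
    have hd := sum_conP_diag hpM D' (helP x)
    have hr : blockRank p (blkSet (M := M) (el x) (locB p P' e' (el x))) = 1 := by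
      rw [rk_cz hpM D' hcomm' (helP x), SP.rk_map hpM D'.pmax.pair D.pmax.pair hCP
        (fun w hw => mem_cz.2 (hcomm' _ (helP x) w hw))
        (fun w hw => mem_cz.2 (Subgroup.mem_centralizer_iff.1 hw _ (helP x))), hmap,
        ← rk_cz hpM D hcomm (E.mem x), hrank _ (E.mem x) (E.ne_one hx)]
    rw [hr, Nat.cast_one, himg, Finset.sum_image hinj.injOn] at hd
    have hcard : Nat.card (cz (el x)) = Nat.card (cz (E.el x)) := by
      rw [← hmap]
      exact (Nat.card_congr ((cz (el x)).equivMapOfInjective C.subtype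
        C.subtype_injective).toEquiv)
    have hterm : ∀ i, conP p P' e' (θi i : C → ℂ) (θi i : C → ℂ) (el x) =
        (Nat.card (cz (E.el x)) : ℂ)⁻¹ *
          ∑ s ∈ regs p (cz (E.el x)), S₀ x (s : G) * conj (S₀ x (s : G)) := by
      intro i
      rw [conP, hcard, m2_eq_filter,
        sum_regs_cz (E.el x) fun g => S₀ x g * conj (S₀ x g)]
      congr 1
      refine Finset.sum_bij (fun (s : C) _ => (s : G)) ?_ ?_ ?_ ?_
      · intro s hs
        obtain ⟨-, h1, h2⟩ := Finset.mem_filter.1 hs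
        refine Finset.mem_filter.2 ⟨Finset.mem_univ _, hmap.le ⟨s, h1, rfl⟩, ?_⟩
        rwa [Subgroup.orderOf_coe]
      · exact fun a _ b _ h => Subtype.ext h
      · intro g hg
        obtain ⟨-, h1, h2⟩ := Finset.mem_filter.1 hg
        obtain ⟨c, hc, rfl⟩ := hmap.ge h1
        exact ⟨c, Finset.mem_filter.2 ⟨Finset.mem_univ _, hc, by
          rwa [Subgroup.coe_subtype, Subgroup.orderOf_coe] at h2⟩, rfl⟩
      · intro s hs
        obtain ⟨-, h1, h2⟩ := Finset.mem_filter.1 hs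
        rw [hsecθ x hx s (hmap.le ⟨s, h1, rfl⟩) h2 i, hsec0 x hx, map_mul (starRingEnd ℂ),
          mul_mul_mul_comm, ← AddChar.map_neg_eq_conj, ← AddChar.map_add_eq_mul, add_neg_cancel,
          AddChar.map_zero_eq_one, one_mul]
    rw [Finset.sum_congr rfl fun i _ => hterm i, Finset.sum_const, Finset.card_univ, ZMod.card,
      nsmul_eq_mul] at hd
    exact hd
  refine ⟨m, S₀, fun χ x hx s hs hsr => ?_, fun χ ψ x hx => ?_, fun t ht r hr => ?_, hloc'⟩
  · have hsC : s ∈ C := hcen _ (E.mem x) (E.ne_one hx) hs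
    exact hsecχ χ x hx ⟨s, hsC⟩ hs (by rwa [← Subgroup.orderOf_coe])
  · have hm2 : m2 p (χ : G → ℂ) (ψ : G → ℂ) (E.el x) (locB p P e (E.el x)) =
        (hatF (m χ) x * conj (hatF (m ψ) x)) *
          ∑ s ∈ regs p (cz (E.el x)), S₀ x (s : G) * conj (S₀ x (s : G)) := by
      rw [m2_eq_filter, ← sum_regs_cz (E.el x) (fun g => sec (χ : G → ℂ) (E.el x)
        (locB p P e (E.el x)) g * conj (sec (ψ : G → ℂ) (E.el x) (locB p P e (E.el x)) g)),
        Finset.mul_sum]
      refine Finset.sum_congr rfl fun s hs => ?_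
      have hsC : (s : G) ∈ C := hcen _ (E.mem x) (E.ne_one hx) s.2
      have hsr : ¬ p ∣ orderOf (⟨(s : G), hsC⟩ : C) := by
        rw [← Subgroup.orderOf_coe, Subgroup.coe_mk, Subgroup.orderOf_coe]; exact mem_regs.1 hs
      rw [hsecχ χ x hx ⟨s, hsC⟩ s.2 hsr, hsecχ ψ x hx ⟨s, hsC⟩ s.2 hsr, map_mul (starRingEnd ℂ)]
      ring
    rw [conP, hm2, ← mul_assoc (n : ℂ)]
    calc _ = (hatF (m χ) x * conj (hatF (m ψ) x)) * ((n : ℂ) * ((Nat.card (cz (E.el x)) : ℂ)⁻¹ *
          ∑ s ∈ regs p (cz (E.el x)), S₀ x (s : G) * conj (S₀ x (s : G)))) := by ring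
      _ = _ := by rw [hnorm x hx, mul_one]
  · by_cases hn1 : ∀ x : ZMod n, x = 0
    · exact ⟨0, fun χ x hx => absurd (hn1 x) hx⟩
    push Not at hn1
    obtain ⟨x0, hx0⟩ := hn1
    have h10 : (1 : ZMod n) ≠ 0 := fun h => hx0 (by rw [← mul_one x0, h, mul_zero])
    have hrx : ∀ x : ZMod n, x ≠ 0 → r * x ≠ 0 := by
      intro x hx h
      have := hr x
      rw [h, E.zero, conj_eq_one_iff] at this
      exact E.ne_one hx this
    let τ : C ≃* C := normEquiv (hnormC t ht)
    have hτ : ∀ c : C, ((τ c : C) : G) = t * (c : G) * t⁻¹ := fun c => coe_normEquiv (hnormC t ht) c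
    let ψi : ZMod n → IrrCharacter C := fun i => irrEquiv τ (θi i)
    have hψi : ∀ i c, (ψi i : C → ℂ) c = (θi i : C → ℂ) (τ c) := fun i c => irrEquiv_apply τ _ c
    have hne : ∀ x, x ≠ 0 → ∃ s : C, (s : G) ∈ cz (E.el x) ∧ ¬ p ∣ orderOf s ∧
        S₀ x (s : G) ≠ 0 := by
      intro x hx
      by_contra hno
      push Not at hno
      have h := hnorm x hx
      rw [Finset.sum_eq_zero fun (s : cz (E.el x)) hs => by
        rw [hno ⟨s, hcen _ (E.mem x) (E.ne_one hx) s.2⟩ s.2 (by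
          rw [← Subgroup.orderOf_coe, Subgroup.coe_mk, Subgroup.orderOf_coe]; exact mem_regs.1 hs),
          zero_mul], mul_zero, mul_zero] at h
      exact zero_ne_one h
    have hsecψ : ∀ i x, x ≠ 0 → ∀ s : C, (s : G) ∈ cz (E.el x) → ¬ p ∣ orderOf s →
        (τ s : G) ∈ cz (E.el (r * x)) ∧ ¬ p ∣ orderOf (τ s) ∧
        sec (ψi i : C → ℂ) (el x) (locB p P' e' (el x)) s =
          ZMod.stdAddChar (i * (r * x)) * S₀ (r * x) (τ s : G) := by
      intro i x hx s hs hsr
      have hle := locB_spec hpM D' (helP x)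
      have hle' := locB_spec hpM D' (helP (r * x))
      have hle2 := locB_spec hpM D (E.mem x)
      have h2 : (τ s : G) ∈ cz (E.el (r * x)) := by
        rw [hτ, ← hr, ← conjS_cz, mem_conjS]
        simpa [mul_assoc] using hs
      have h3 : ¬ p ∣ orderOf (τ s) := by rwa [MulEquiv.orderOf_eq]
      refine ⟨h2, h3, ?_⟩
      have e1 := sec_subgroup hpM (v := el x) (hcen _ (E.mem x) (E.ne_one hx))
        (hle.isPair_left D'.pmax.pair).blk (fun g => extP C (θi i : C → ℂ) (t * g * t⁻¹)) s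
      rw [hloc x hx, sec_conjFun hpM (extP C (θi i : C → ℂ)) t (hle2.isPair_left D.pmax.pair).blk,
        cj_locB hpM D ht (E.mem x), hr, ← hτ] at e1
      have e2 := sec_subgroup hpM (v := el (r * x)) (hcen _ (E.mem _) (E.ne_one (hrx x hx)))
        (hle'.isPair_left D'.pmax.pair).blk (extP C (θi i : C → ℂ)) (τ s)
      rw [hloc _ (hrx x hx)] at e2
      simp only [extP_coe] at e2
      rw [show (fun c : C => extP C (θi i : C → ℂ) (t * (c : G) * t⁻¹)) = (ψi i : C → ℂ) from
        funext fun c => by rw [← hτ, extP_coe, hψi]] at e1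
      rw [← e1, hsec0 (r * x) (hrx x hx), ← hsecθ (r * x) (hrx x hx) (τ s) h2 h3]
      exact e2
    have hψB : ∀ i, ψi i ∈ B' := by
      intro i
      by_contra hnot
      obtain ⟨s, hs, hsr, hS⟩ := hne (r * 1) (hrx 1 h10)
      obtain ⟨s, rfl⟩ := τ.surjective s
      have hs1 : (s : G) ∈ cz (E.el 1) := by
        rw [hτ, ← hr, ← conjS_cz, mem_conjS] at hs
        simpa [mul_assoc] using hs
      have hsr1 : ¬ p ∣ orderOf s := by rwa [MulEquiv.orderOf_eq] at hsr
      obtain ⟨-, -, h⟩ := hsecψ i 1 h10 s hs1 hsr1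
      have hle := locB_spec hpM D' (helP 1)
      have hvp := orderOf_of_mem D'.pmax.pair.pgroup (helP 1)
      have hβ : IsBlk (cz (el 1)) (locB p P' e' (el 1)) := (hle.isPair_left D'.pmax.pair).blk
      obtain ⟨Bψ, hBψ, hψB⟩ : ∃ Bψ, IsPBlock M Bψ ∧ ψi i ∈ Bψ :=
        ⟨_, isPBlock_blockOf _, mem_blockOf_self _⟩
      rw [sec_eq_zero hpM hBψ hψB hvp hβ (fun ho => hnot ?_)
        (mem_cz.2 (Subtype.ext (mem_cz.1 hs1).eq)) hsr1] at h
      · exact (mul_ne_zero (AddChar.val_isUnit _ _).ne_zero hS) h.symm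
      · rwa [← (idemG_inj hpM hBψ D'.blk).mp ((existsUnique_ofBlock (p := p)
          (⟨isPGroup_zpowers_of hvp, hβ⟩ : IsPair p _ _)).unique ⟨isBlk_idemG hpM hBψ, ho⟩
          ⟨isBlk_idemG hpM D'.blk, (hle.ofBlock_iff (isBlk_idemG hpM D'.blk)).mpr D'.ofB⟩)]
    have hπ : ∀ i, ∃ a, θi a = ψi i := fun i => by
      have h := himg ▸ mem_bf.2 (hψB i)
      obtain ⟨a, -, ha⟩ := Finset.mem_image.1 h
      exact ⟨a, ha⟩
    choose π hπ using hπ
    have hS : ∀ i x, x ≠ 0 → ∀ s : C, (s : G) ∈ cz (E.el x) → ¬ p ∣ orderOf s →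
        ZMod.stdAddChar (π i * x) * S₀ x (s : G) =
          ZMod.stdAddChar (i * (r * x)) * S₀ (r * x) (τ s : G) := by
      intro i x hx s hs hsr
      rw [← (hsecψ i x hx s hs hsr).2.2, ← hπ, hsecθ x hx s hs hsr, hsec0 x hx]
    have hπi : ∀ i, π i = i * r + π 0 := by
      intro i
      obtain ⟨s, hs, hsr, hne1⟩ := hne 1 h10
      have e1 := hS i 1 h10 s hs hsr
      have e2 := hS 0 1 h10 s hs hsr
      rw [zero_mul, AddChar.map_zero_eq_one, one_mul] at e2
      rw [← e2, ← mul_assoc, ← AddChar.map_add_eq_mul] at e1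
      have := ZMod.injective_stdAddChar (mul_right_cancel₀ hne1 e1)
      linear_combination this
    have hπinj : Function.Injective π := fun a b hab => by
      have : ψi a = ψi b := by rw [← hπ, ← hπ, hab]
      exact hinj ((irrEquiv τ).injective this)
    refine ⟨π 0, fun χ x hx => ?_⟩
    have hk' : ∀ i, k χ (θi (π i)) = k χ (θi i) := by
      intro i
      apply Nat.cast_injective (R := ℂ)
      rw [← hk, ← hk, hπ, Chars.classInner_def, Chars.classInner_def]
      congr 1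
      refine Fintype.sum_equiv τ.toEquiv _ _ fun c => ?_
      rw [hψi, MulEquiv.toEquiv_eq_coe, EquivLike.coe_coe, hτ, Chars.isClassFunction_irr χ]
    rw [hatF, hatF, Finset.mul_sum,
      ← (Equiv.ofBijective π (Finite.injective_iff_bijective.1 hπinj)).sum_comp]
    refine Finset.sum_congr rfl fun i _ => ?_
    show ((m χ (π i) : ℤ) : ℂ) * ZMod.stdAddChar (π i * x) = _
    rw [show m χ (π i) = m χ i by simp only [hm, hk'], hπi,
      show (i * r + π 0) * x = π 0 * x + i * (r * x) by ring, AddChar.map_add_eq_mul]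
    ring

end Cfsg.Agent.Blocks.CyclicSections
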