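import Cfsg.Agent.Blocks.SemiUniserial
import Cfsg.Agent.BlockChar.GroupLift

/-!
The twisting element of a block stable in a group with cyclic quotient.
-/

namespace Cfsg.Agent.Blocks.SemiUniserial

open scoped MonoidAlgebra
open Cfsg.Agent.BlockChar

set_option autoImplicit false
set_option linter.unusedSectionVars false
set_option linter.style.haveILetI false

universe u v

variable {k : Type v} [Field k] {G : Type u} [Group G] [Fintype G]

/-- The structure of the block of the normal subgroup. -/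
structure RData (N : Subgroup G) (n q : ℕ) [NeZero n] where
  β : k[G]
  x : k[G]
  E : Fin n → Fin n → k[G]
  E_mul : ∀ i j a b, E i j * E a b = if j = a then E i b else 0
  E_sum : ∑ i, E i i = β
  E_supp : ∀ i j, SupportedIn N (E i j)
  x_β : x * β = x
  x_cen : CentralIn N x
  β_cen : CentralIn N β
  β_fix : Fixed (⊤ : Subgroup G) β
  x_pow : x ^ q = 0
  x_ne : x ^ (q - 1) * E 0 0 ≠ 0
  two_le : 2 ≤ q
  span_N : ∀ g ∈ N, MonoidAlgebra.single g 1 * β ∈
    Submodule.span k (Set.range fun w : ℕ × Fin n × Fin n => x ^ w.1 * E w.2.1 w.2.2)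

theorem SupportedIn.pow {N : Subgroup G} {z : k[G]} (hz : SupportedIn N z) (l : ℕ) :
    SupportedIn N (z ^ l) := by
  induction l with
  | zero => rw [pow_zero]; exact supportedIn_one N
  | succ l ih => rw [pow_succ]; exact ih.mul hz

theorem SupportedIn.sum {N : Subgroup G} {ι : Type*} (s : Finset ι) (f : ι → k[G])
    (h : ∀ i ∈ s, SupportedIn N (f i)) : SupportedIn N (∑ i ∈ s, f i) :=
  Finset.sum_induction f _ (fun _ _ => SupportedIn.add) (supportedIn_zero N) h

theorem supportedIn_single {N : Subgroup G} {g : G} (hg : g ∈ N) (c : k) :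
    SupportedIn N (MonoidAlgebra.single g c) := fun h hh => by
  classical
  rw [MonoidAlgebra.coeff_single, Finsupp.single_apply, if_neg]
  rintro rfl; exact hh hg

namespace RData

variable {N : Subgroup G} {n q : ℕ} [NeZero n] (R : RData (k := k) N n q)

theorem β_E (i j : Fin n) : R.β * R.E i j = R.E i j := by
  rw [← R.E_sum, Finset.sum_mul, Finset.sum_eq_single i (fun a _ h => by simp [R.E_mul, h])
    (fun h => absurd (Finset.mem_univ _) h), R.E_mul, if_pos rfl]

theorem E_β (i j : Fin n) : R.E i j * R.β = R.E i j := by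
  rw [← R.E_sum, Finset.mul_sum, Finset.sum_eq_single j
    (fun a _ h => by simp [R.E_mul, Ne.symm h])
    (fun h => absurd (Finset.mem_univ _) h), R.E_mul, if_pos rfl]

theorem β_idem : R.β * R.β = R.β := by
  conv_lhs => arg 2; rw [← R.E_sum]
  rw [Finset.mul_sum]
  simp only [R.β_E, R.E_sum]

theorem comm_x {z : k[G]} (hz : SupportedIn N z) (l : ℕ) : R.x ^ l * z = z * R.x ^ l :=
  (Commute.pow_left (R.x_cen.comm hz) l).eq

theorem β_comm (z : k[G]) : R.β * z = z * R.β :=
  (CentralIn.comm (H := (⊤ : Subgroup G)) ⟨fun g hg => absurd (Subgroup.mem_top g) hg, R.β_fix⟩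
    fun g hg => absurd (Subgroup.mem_top g) hg)

theorem β_x : R.β * R.x = R.x := by rw [R.β_comm, R.x_β]

theorem xpow_β {l : ℕ} (hl : 1 ≤ l) : R.x ^ l * R.β = R.x ^ l := by
  obtain ⟨m, rfl⟩ : ∃ m, l = m + 1 := ⟨l - 1, by omega⟩
  rw [pow_succ, mul_assoc, R.x_β]

theorem xpow_zero {l : ℕ} (h : q ≤ l) : R.x ^ l = 0 := by
  rw [← Nat.sub_add_cancel h, pow_add, R.x_pow, mul_zero]

noncomputable abbrev loc : Submodule k k[G] :=
  Submodule.span k (Set.range fun w : ℕ × Fin n × Fin n => R.x ^ w.1 * R.E w.2.1 w.2.2)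

theorem mem_loc {z : k[G]} (hz : SupportedIn N z) : z * R.β ∈ R.loc := by
  rw [← MonoidAlgebra.sum_coeff_single z, Finsupp.sum, Finset.sum_mul]
  refine Submodule.sum_mem _ fun g hg => ?_
  rw [show MonoidAlgebra.single g (z.coeff g) = z.coeff g • MonoidAlgebra.single g (1 : k) by
    rw [MonoidAlgebra.smul_single, smul_eq_mul, mul_one], smul_mul_assoc]
  exact Submodule.smul_mem _ _ (R.span_N g (not_not.1 fun hn =>
    Finsupp.mem_support_iff.1 hg (hz g hn)))

theorem corner {z : k[G]} (hz : z ∈ R.loc) :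
    ∃ c : ℕ → k, R.E 0 0 * z * R.E 0 0 = ∑ l ∈ Finset.range q, c l • (R.x ^ l * R.E 0 0) := by
  classical
  induction hz using Submodule.span_induction with
  | mem y hy =>
    obtain ⟨⟨l, a, b⟩, rfl⟩ := hy
    have h1 : R.E 0 0 * (R.x ^ l * R.E a b) * R.E 0 0 =
        (if (0 : Fin n) = a ∧ b = 0 then (1 : k) else 0) • (R.x ^ l * R.E 0 0) := by
      rw [← mul_assoc, ← R.comm_x (R.E_supp 0 0), mul_assoc (R.x ^ l), R.E_mul]
      by_cases ha : (0 : Fin n) = a
      · rw [if_pos ha, mul_assoc, R.E_mul]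
        by_cases hb : b = 0
        · rw [if_pos hb, if_pos ⟨ha, hb⟩, one_smul]
        · rw [if_neg hb, if_neg (fun h => hb h.2), mul_zero, zero_smul]
      · rw [if_neg ha, if_neg (fun h => ha h.1), mul_zero, zero_mul, zero_smul]
    simp only at h1 ⊢
    rw [h1]
    by_cases hl : l < q
    · refine ⟨fun r => if r = l then (if (0 : Fin n) = a ∧ b = 0 then (1 : k) else 0) else 0, ?_⟩
      rw [Finset.sum_eq_single l (fun r _ hr => by beta_reduce; rw [if_neg hr, zero_smul])
        (fun h => absurd (Finset.mem_range.2 hl) h)]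
      simp
    · exact ⟨0, by simp [R.xpow_zero (not_lt.1 hl)]⟩
  | zero => exact ⟨0, by simp⟩
  | add u w _ _ hu hw =>
    obtain ⟨c, hc⟩ := hu
    obtain ⟨d, hd⟩ := hw
    exact ⟨c + d, by simp [mul_add, add_mul, hc, hd, add_smul, Finset.sum_add_distrib]⟩
  | smul t u _ hu =>
    obtain ⟨c, hc⟩ := hu
    exact ⟨t • c, by simp [hc, Finset.smul_sum, smul_smul]⟩

/-- The centre of the block. -/
theorem exists_poly {z : k[G]} (hz : SupportedIn N z) (hzβ : z * R.β = z)
    (hc : ∀ i j, z * R.E i j = R.E i j * z) :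
    ∃ c : ℕ → k, z = ∑ l ∈ Finset.range q, c l • (R.x ^ l * R.β) := by
  classical
  have hmem := R.mem_loc hz
  rw [hzβ] at hmem
  obtain ⟨c, hc'⟩ := R.corner hmem
  have h00 : z * R.E 0 0 = ∑ l ∈ Finset.range q, c l • (R.x ^ l * R.E 0 0) := by
    rw [← hc', ← hc, mul_assoc, R.E_mul, if_pos rfl]
  refine ⟨c, ?_⟩
  have hi : ∀ i, z * R.E i i = ∑ l ∈ Finset.range q, c l • (R.x ^ l * R.E i i) := by
    intro i
    have h1 : R.E i i = R.E i 0 * R.E 0 0 * R.E 0 i := by
      rw [R.E_mul, if_pos rfl, R.E_mul, if_pos rfl]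
    rw [h1, ← mul_assoc, ← mul_assoc, hc, mul_assoc (R.E i 0), h00, Finset.mul_sum, Finset.sum_mul]
    refine Finset.sum_congr rfl fun l _ => ?_
    rw [mul_smul_comm, smul_mul_assoc, ← mul_assoc (R.E i 0) (R.x ^ l), ← R.comm_x (R.E_supp i 0)]
    simp only [mul_assoc]
  calc z = z * R.β := hzβ.symm
    _ = ∑ i, z * R.E i i := by rw [← R.E_sum, Finset.mul_sum]
    _ = _ := by
      rw [Finset.sum_congr rfl fun i _ => hi i, Finset.sum_comm]
      refine Finset.sum_congr rfl fun l _ => ?_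
      rw [← Finset.smul_sum, ← Finset.mul_sum, R.E_sum]

/-- Reduction modulo `x`. -/
theorem reduce {z : k[G]} (hz : z ∈ R.loc) :
    ∃ (c : Fin n → Fin n → k) (r : k[G]),
      SupportedIn N r ∧ z = (∑ a, ∑ b, c a b • R.E a b) + R.x * r := by
  classical
  induction hz using Submodule.span_induction with
  | mem y hy =>
    obtain ⟨⟨l, a, b⟩, rfl⟩ := hy
    rcases Nat.eq_zero_or_pos l with rfl | hl
    · refine ⟨fun i j => if i = a ∧ j = b then 1 else 0, 0, supportedIn_zero N, ?_⟩
      rw [mul_zero, add_zero, Finset.sum_eq_single a (fun i _ hi => Finset.sum_eq_zero fun j _ => by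
          beta_reduce; rw [if_neg fun h => hi h.1, zero_smul])
          (fun h => absurd (Finset.mem_univ _) h),
        Finset.sum_eq_single b (fun j _ hj => by beta_reduce; rw [if_neg fun h => hj h.2, zero_smul])
          (fun h => absurd (Finset.mem_univ _) h)]
      simp
    · obtain ⟨l, rfl⟩ : ∃ r, l = r + 1 := ⟨l - 1, by omega⟩
      exact ⟨0, R.x ^ l * R.E a b, (SupportedIn.pow R.x_cen.supp l).mul (R.E_supp a b),
        by simp [pow_succ', mul_assoc]⟩
  | zero => exact ⟨0, 0, supportedIn_zero N, by simp⟩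
  | add u w _ _ hu hw =>
    obtain ⟨c, r, hr, rfl⟩ := hu
    obtain ⟨c', r', hr', rfl⟩ := hw
    refine ⟨c + c', r + r', hr.add hr', ?_⟩
    simp only [Pi.add_apply, add_smul, Finset.sum_add_distrib, mul_add]
    abel
  | smul t u _ hu =>
    obtain ⟨c, r, hr, rfl⟩ := hu
    exact ⟨fun a b => t * c a b, t • r, hr.smul t, by simp [smul_add, Finset.smul_sum, smul_smul]⟩

theorem poly_supp (s : Finset ℕ) (c : ℕ → k) :
    SupportedIn N (∑ l ∈ s, c l • (R.x ^ l * R.β)) :=
  SupportedIn.sum _ _ fun _ _ => ((SupportedIn.pow R.x_cen.supp _).mul R.β_cen.supp).smul _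

theorem poly_ne {c : ℕ → k} (h : ∑ l ∈ Finset.range q, c l • (R.x ^ l * R.β) = 0) :
    ∀ l < q, c l = 0 := by
  intro l
  induction l using Nat.strong_induction_on with
  | _ l ih =>
    intro hl
    have h1 := congrArg (fun y => R.x ^ (q - 1 - l) * y * R.E 0 0) h
    simp only [mul_zero, zero_mul, Finset.mul_sum, Finset.sum_mul] at h1
    rw [Finset.sum_eq_single l (fun r hr hrl => ?_)
      (fun hh => absurd (Finset.mem_range.2 hl) hh)] at h1
    · rw [mul_smul_comm, smul_mul_assoc, ← mul_assoc, ← pow_add, mul_assoc, R.β_E,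
        show q - 1 - l + l = q - 1 by omega] at h1
      exact (smul_eq_zero.1 h1).resolve_right R.x_ne
    · rcases Nat.lt_or_ge r l with hr' | hr'
      · rw [ih r hr' (by omega), zero_smul, mul_zero, zero_mul]
      · rw [mul_smul_comm, smul_mul_assoc, ← mul_assoc, ← pow_add,
          R.xpow_zero (show q ≤ q - 1 - l + r by omega), zero_mul, zero_mul, smul_zero]

theorem split_poly (c : ℕ → k) :
    ∃ y : ℕ → k, ∑ l ∈ Finset.range q, c l • (R.x ^ l * R.β) =
      c 0 • R.β + R.x * ∑ l ∈ Finset.range q, y l • (R.x ^ l * R.β) := by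
  refine ⟨fun l => if l + 1 < q then c (l + 1) else 0, ?_⟩
  obtain ⟨m, hm⟩ : ∃ m, q = m + 1 := ⟨q - 1, by have := R.two_le; omega⟩
  subst hm
  rw [Finset.sum_range_succ' (fun l => c l • (R.x ^ l * R.β)), Finset.sum_range_succ, add_comm,
    pow_zero, one_mul]
  simp only [lt_self_iff_false, if_false, zero_smul, add_zero, Finset.mul_sum]
  congr 1
  refine Finset.sum_congr rfl fun l hl => ?_
  rw [Finset.mem_range] at hl
  rw [if_pos (by omega), mul_smul_comm, ← mul_assoc, ← pow_succ']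

end RData

set_option maxHeartbeats 1000000 in
/-- The data of the block of the whole group. -/
theorem exists_sdata [IsAlgClosed k] (p : ℕ) [Fact p.Prime] [CharP k p] {N : Subgroup G}
    [hN : N.Normal] {n q : ℕ} [NeZero n] (R : RData (k := k) N n q) {e : ℕ} (t : G)
    (hgen : ∀ g : G, ∃ m < e, (t ^ m)⁻¹ * g ∈ N) (hte : t ^ e ∈ N)
    (hsep : ∀ m, 0 < m → m < e → t ^ m ∉ N) (hidx : N.index = e) (he : (e : k) ≠ 0) :
    ∃ S : SData (k := k) N n q e, S.β = R.β ∧ SupportedIn N S.β ∧
      (∀ ζ : k, ζ ^ e = 1 →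
        (∑ m ∈ Finset.range e, (ζ ^ m)⁻¹ • (S.τ ^ m * (S.E 0 0 * S.x ^ (q - 1)))) ≠ 0) := by
  classical
  have hepos : 0 < e := Nat.pos_of_ne_zero fun h => he (by rw [h, Nat.cast_zero])
  have hq := R.two_le
  have hconjN : ∀ (g : G) {z : k[G]}, SupportedIn N z → SupportedIn N (cj g z) := by
    intro g z hz h hh
    rw [coeff_cj]
    exact hz _ fun hc => hh (by
      have := hN.conj_mem _ hc g
      rwa [show g * (g⁻¹ * h * g) * g⁻¹ = h by group] at this)
  have hβt : ∀ g, cj g R.β = R.β := fun g => R.β_fix g (Subgroup.mem_top g)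
  -- the eigenvalue
  set y0 := cj t R.x with hy0
  have hy0c : CentralIn N y0 := by
    refine ⟨hconjN t R.x_cen.supp, fun h hh => ?_⟩
    rw [hy0, ← cj_mul, show h * t = t * (t⁻¹ * h * t) by group, cj_mul, R.x_cen.fixed _ ?_]
    have := hN.conj_mem _ hh t⁻¹
    simpa using this
  have hy0β : y0 * R.β = y0 := by
    conv_lhs => arg 2; rw [← hβt t]
    rw [hy0, ← map_mul, R.x_β]
  obtain ⟨c, hc⟩ := R.exists_poly hy0c.supp hy0β fun i j => hy0c.comm (R.E_supp i j)
  obtain ⟨y, hy⟩ := R.split_poly c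
  have hc0 : c 0 = 0 := by
    by_contra hc0
    have h1 : y0 ^ q = 0 := by rw [hy0, ← map_pow, R.x_pow, map_zero]
    have h2 : R.x ^ (q - 1) * y0 * R.E 0 0 = c 0 • (R.x ^ (q - 1) * R.E 0 0) := by
      rw [hc, hy, mul_add, add_mul, ← mul_assoc (R.x ^ (q - 1)) R.x, ← pow_succ,
        R.xpow_zero (show q ≤ q - 1 + 1 by omega), zero_mul, zero_mul, add_zero, mul_smul_comm,
        smul_mul_assoc, mul_assoc, R.β_E]
    have h3 : ∀ r, R.x ^ (q - 1) * y0 ^ r * R.E 0 0 = c 0 ^ r • (R.x ^ (q - 1) * R.E 0 0) := by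
      intro r
      induction r with
      | zero => simp
      | succ r ih =>
        rw [pow_succ', ← mul_assoc (R.x ^ (q - 1)), mul_assoc (R.x ^ (q - 1) * y0),
          (Commute.pow_left (hy0c.comm (R.E_supp 0 0)) r).eq, ← mul_assoc, h2, smul_mul_assoc,
          mul_assoc, ← (Commute.pow_left (hy0c.comm (R.E_supp 0 0)) r).eq, ← mul_assoc, ih,
          smul_smul, ← pow_succ']
    have h4 := h3 q
    rw [h1, mul_zero, zero_mul] at h4
    exact (smul_ne_zero (pow_ne_zero q hc0) R.x_ne) h4.symm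
  rw [hc0, zero_smul, zero_add] at hy
  set α := y 0 with hαdef
  obtain ⟨y', hy'⟩ := R.split_poly y
  have hy0eq : ∃ r, SupportedIn N r ∧ y0 = α • R.x + R.x ^ 2 * r := by
    refine ⟨∑ l ∈ Finset.range q, y' l • (R.x ^ l * R.β), R.poly_supp _ _, ?_⟩
    rw [hc, hy, hy', mul_add, mul_smul_comm, R.x_β, ← mul_assoc, pow_two]
  obtain ⟨ry, hrys, hry⟩ := hy0eq
  -- iterates
  have hiter : ∀ m, ∃ r, SupportedIn N r ∧ cj (t ^ m) R.x = α ^ m • R.x + R.x ^ 2 * r := by
    intro m
    induction m with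
    | zero => exact ⟨0, supportedIn_zero N, by simp⟩
    | succ m ih =>
      obtain ⟨r, hr, he1⟩ := ih
      refine ⟨α ^ m • ry + (α • 1 + R.x * ry) ^ 2 * cj t r, (hrys.smul _).add
        ((SupportedIn.pow (((supportedIn_one N).smul α).add (R.x_cen.supp.mul hrys)) 2).mul
          (hconjN t hr)), ?_⟩
      rw [pow_succ', cj_mul, he1, map_add, map_smul, map_mul, map_pow, ← hy0, hry]
      have hx2 : (α • R.x + R.x ^ 2 * ry) ^ 2 = R.x ^ 2 * (α • 1 + R.x * ry) ^ 2 := by
        have h5 : α • R.x + R.x ^ 2 * ry = R.x * (α • 1 + R.x * ry) := by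
          rw [mul_add, mul_smul_comm, mul_one, pow_two, mul_assoc]
        have hcm : Commute R.x (α • 1 + R.x * ry) :=
          R.x_cen.comm (((supportedIn_one N).smul α).add (R.x_cen.supp.mul hrys))
        rw [h5, hcm.mul_pow]
      rw [hx2, smul_add, smul_smul, ← pow_succ, mul_add, mul_smul_comm, ← mul_assoc (R.x ^ 2)]
      abel
  have hαe : α ^ e = 1 := by
    obtain ⟨r, hr, he1⟩ := hiter e
    rw [R.x_cen.fixed _ hte] at he1
    have h1 : R.x ^ (q - 2) * R.x * R.E 0 0 =
        R.x ^ (q - 2) * (α ^ e • R.x + R.x ^ 2 * r) * R.E 0 0 := by rw [← he1]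
    rw [mul_add, add_mul, ← mul_assoc (R.x ^ (q - 2)) (R.x ^ 2), ← pow_add, Nat.sub_add_cancel hq,
      R.x_pow, zero_mul, zero_mul, add_zero, mul_smul_comm, smul_mul_assoc, ← pow_succ,
      show q - 2 + 1 = q - 1 by omega] at h1
    exact sub_eq_zero.1 ((smul_eq_zero.1 (show (α ^ e - 1) • (R.x ^ (q - 1) * R.E 0 0) = 0 by
      rw [sub_smul, one_smul, ← h1, sub_self])).resolve_right R.x_ne)
  have hα0 : α ≠ 0 := fun h => by
    rw [h, zero_pow (Nat.ne_of_gt hepos)] at hαe; exact zero_ne_one hαe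
  -- averaging
  set x := (e : k)⁻¹ • ∑ m ∈ Finset.range e, (α ^ m)⁻¹ • cj (t ^ m) R.x with hxdef
  have hxcj : cj t x = α • x := by
    rw [hxdef, map_smul, map_sum, smul_comm]
    congr 1
    rw [Finset.smul_sum]
    set F : ℕ → k[G] := fun m => (α ^ m)⁻¹ • cj (t ^ m) R.x with hF
    have h1 : ∀ m, cj t ((α ^ m)⁻¹ • cj (t ^ m) R.x) = α • F (m + 1) := fun m => by
      simp only [hF]
      rw [map_smul, ← cj_mul, ← pow_succ', smul_smul]
      congr 1
      field_simp
      ring
    rw [Finset.sum_congr rfl fun m _ => h1 m, ← Finset.smul_sum]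
    rw [← Finset.smul_sum]
    congr 1
    have ha := Finset.sum_range_succ F e
    have hb := Finset.sum_range_succ' F e
    have hFe : F e = F 0 := by simp [hF, hαe, R.x_cen.fixed _ hte]
    rw [hFe, hb] at ha
    exact add_right_cancel ha
  choose rr hrr hrre using hiter
  have hxeq : ∃ r, SupportedIn N r ∧ x = R.x + R.x ^ 2 * r := by
    refine ⟨(e : k)⁻¹ • ∑ m ∈ Finset.range e, (α ^ m)⁻¹ • rr m,
      (SupportedIn.sum _ _ fun m _ => (hrr m).smul _).smul _, ?_⟩
    rw [hxdef, mul_smul_comm, Finset.mul_sum]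
    simp only [hrre, smul_add, smul_smul, mul_smul_comm, Finset.sum_add_distrib,
      inv_mul_cancel₀ (pow_ne_zero _ hα0), one_smul, Finset.sum_const, Finset.card_range]
    rw [← Nat.cast_smul_eq_nsmul k, smul_smul, inv_mul_cancel₀ he, one_smul]
  obtain ⟨rx, hrxs, hxR⟩ := hxeq
  have hxc : CentralIn N x := by
    rw [hxdef]
    refine CentralIn.smul _ (CentralIn.sum fun m _ => CentralIn.smul _
      ⟨hconjN _ R.x_cen.supp, fun h hh => ?_⟩)
    rw [← cj_mul, show h * t ^ m = t ^ m * ((t ^ m)⁻¹ * h * t ^ m) by group, cj_mul,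
      R.x_cen.fixed _ ?_]
    have := hN.conj_mem _ hh (t ^ m)⁻¹
    simpa using this
  have hxβ : x * R.β = x := by
    rw [hxdef, smul_mul_assoc, Finset.sum_mul]
    congr 1
    refine Finset.sum_congr rfl fun m _ => ?_
    rw [smul_mul_assoc]
    congr 1
    conv_lhs => arg 2; rw [← hβt (t ^ m)]
    rw [← map_mul, R.x_β]
  have hxu : x = R.x * (1 + R.x * rx) := by rw [hxR, mul_add, mul_one, pow_two, mul_assoc]
  have hxpow : ∀ l, x ^ l = R.x ^ l * (1 + R.x * rx) ^ l := fun l => by
    have hcm : Commute R.x (1 + R.x * rx) :=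
      R.x_cen.comm ((supportedIn_one N).add (R.x_cen.supp.mul hrxs))
    rw [hxu, hcm.mul_pow]
  have hxq : x ^ q = 0 := by rw [hxpow, R.x_pow, zero_mul]
  have hxtop : x ^ (q - 1) = R.x ^ (q - 1) := by
    rw [hxpow]
    have : ∀ l, R.x ^ (q - 1) * (1 + R.x * rx) ^ l = R.x ^ (q - 1) := by
      intro l
      induction l with
      | zero => simp
      | succ l ih =>
        rw [pow_succ, ← mul_assoc, ih, mul_add, mul_one, ← mul_assoc, ← pow_succ,
          R.xpow_zero (show q ≤ q - 1 + 1 by omega), zero_mul, add_zero]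
    exact this _
  have hexp : ∀ l, ∃ r, SupportedIn N r ∧ x ^ l = R.x ^ l + R.x ^ (l + 1) * r := by
    intro l
    have : ∀ r, ∃ w, SupportedIn N w ∧ (1 + R.x * rx) ^ r = 1 + R.x * w := by
      intro r
      induction r with
      | zero => exact ⟨0, supportedIn_zero N, by simp⟩
      | succ r ih =>
        obtain ⟨w, hw, he1⟩ := ih
        refine ⟨w + rx + w * (R.x * rx), (hw.add hrxs).add (hw.mul (R.x_cen.supp.mul hrxs)), ?_⟩
        rw [pow_succ, he1]
        simp only [add_mul, mul_add, one_mul, mul_one, mul_assoc]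
        abel
    obtain ⟨w, hw, he1⟩ := this l
    exact ⟨w, hw, by rw [hxpow, he1, mul_add, mul_one, ← mul_assoc, ← pow_succ]⟩
  -- the new local span
  have hspan : ∀ g ∈ N, MonoidAlgebra.single g (1 : k) * R.β ∈
      Submodule.span k (Set.range fun w : ℕ × Fin n × Fin n => x ^ w.1 * R.E w.2.1 w.2.2) := by
    have key : ∀ (d l : ℕ) (a b : Fin n), q ≤ l + d → R.x ^ l * R.E a b ∈
        Submodule.span k (Set.range fun w : ℕ × Fin n × Fin n => x ^ w.1 * R.E w.2.1 w.2.2) := by
      intro d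
      induction d with
      | zero => intro l a b h; rw [R.xpow_zero (by omega), zero_mul]; exact Submodule.zero_mem _
      | succ d ih =>
        intro l a b h
        obtain ⟨r, hr, he1⟩ := hexp l
        have h2 : R.x ^ l * R.E a b = x ^ l * R.E a b - R.x ^ (l + 1) * (r * R.E a b * R.β) := by
          rw [he1, add_mul, mul_assoc r, R.E_β, mul_assoc (R.x ^ (l + 1)), add_sub_cancel_right]
        rw [h2]
        refine Submodule.sub_mem _ (Submodule.subset_span ⟨(l, a, b), rfl⟩) ?_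
        have h3 := R.mem_loc (hr.mul (R.E_supp a b))
        generalize r * R.E a b * R.β = w at h3 ⊢
        induction h3 using Submodule.span_induction with
        | mem z hz =>
          obtain ⟨⟨l', a', b'⟩, rfl⟩ := hz
          rw [← mul_assoc, ← pow_add]
          exact ih _ a' b' (by simp only; omega)
        | zero => rw [mul_zero]; exact Submodule.zero_mem _
        | add u w _ _ hu hw => rw [mul_add]; exact Submodule.add_mem _ hu hw
        | smul c u _ hu => rw [mul_smul_comm]; exact Submodule.smul_mem _ _ hu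
    intro g hg
    refine Submodule.span_le.2 ?_ (R.span_N g hg)
    rintro _ ⟨⟨l, a, b⟩, rfl⟩
    exact key q l a b (by omega)
  clear_value x
  let R1 : RData (k := k) N n q :=
    { β := R.β, x := x, E := R.E, E_mul := R.E_mul, E_sum := R.E_sum, E_supp := R.E_supp,
      x_β := hxβ, x_cen := hxc, β_cen := R.β_cen, β_fix := R.β_fix, x_pow := hxq,
      x_ne := by rw [hxtop]; exact R.x_ne
      two_le := hq, span_N := hspan }
  -- the twisting element
  set T := MonoidAlgebra.single t (1 : k)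
  set F := fun i j => cj t (R.E i j) with hFdef
  have hFm : ∀ i j a b, F i j * F a b = if j = a then F i b else 0 := by
    intro i j a b
    simp only [hFdef, ← map_mul, R.E_mul]
    split_ifs <;> simp
  have hFs : ∀ i j, SupportedIn N (F i j) := fun i j => hconjN t (R.E_supp i j)
  have hFβ : ∀ i j, F i j * R.β = F i j := fun i j => by
    simp only [hFdef]
    conv_lhs => arg 2; rw [← hβt t]
    rw [← map_mul, R.E_β]
  have hβF : ∀ i j, R.β * F i j = F i j := fun i j => by rw [R.β_comm, hFβ]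
  have hTF : ∀ i j, T * R.E i j = F i j * T := fun i j => by
    show T * R.E i j = cj t (R.E i j) * T
    rw [cj_eq_conj, mul_assoc, MonoidAlgebra.single_mul_single, inv_mul_cancel, one_mul,
      ← MonoidAlgebra.one_def, mul_one]
  have hTx : T * x = α • (x * T) := by
    have h1 : cj t x * T = T * x := by
      rw [cj_eq_conj, mul_assoc, MonoidAlgebra.single_mul_single, inv_mul_cancel, one_mul,
        ← MonoidAlgebra.one_def, mul_one]
    rw [← h1, hxcj, smul_mul_assoc]
  have hF00 : F 0 0 ∈ R1.loc := by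
    have := R1.mem_loc (hFs 0 0)
    rwa [show R1.β = R.β from rfl, hFβ] at this
  obtain ⟨cc, r0, hr0, hF0⟩ := R1.reduce hF00
  obtain ⟨l0, m0, hlm⟩ : ∃ l0 m0, cc l0 m0 ≠ 0 := by
    by_contra hcc
    push Not at hcc
    have h1 : F 0 0 = x * r0 := by rw [hF0]; simp [hcc]; rfl
    have h2 : F 0 0 ^ q = 0 := by
      have hcm : Commute x r0 := hxc.comm hr0
      rw [h1, hcm.mul_pow, hxq, zero_mul]
    have h3 : F 0 0 = 0 := by
      rw [← h2]; exact (IsIdempotentElem.pow_eq (by
        show F 0 0 * F 0 0 = F 0 0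
        rw [hFm, if_pos rfl]) (by omega : q ≠ 0)).symm
    have h4 : R.E 0 0 = 0 := (map_eq_zero_iff _ (AlgEquiv.injective (cj t))).1 h3
    exact R.x_ne (by rw [h4, mul_zero])
  set W := ∑ i, R.E i 0 * (R.E 0 l0 * F 0 0) * F 0 i with hW
  set W' := ∑ i, F i 0 * (F 0 0 * R.E m0 0) * R.E 0 i with hW'
  have hWs : SupportedIn N W := SupportedIn.sum _ _ fun i _ =>
    ((R.E_supp i 0).mul ((R.E_supp 0 l0).mul (hFs 0 0))).mul (hFs 0 i)
  have hW's : SupportedIn N W' := SupportedIn.sum _ _ fun i _ =>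
    ((hFs i 0).mul ((hFs 0 0).mul (R.E_supp m0 0))).mul (R.E_supp 0 i)
  have hWint : ∀ a b, W * F a b = R.E a b * W := by
    intro a b
    rw [hW, Finset.sum_mul, Finset.mul_sum, Finset.sum_eq_single a (fun i _ hi => by
        rw [mul_assoc, hFm, if_neg hi, mul_zero]) (fun h => absurd (Finset.mem_univ _) h),
      Finset.sum_eq_single b (fun i _ hi => by
        rw [← mul_assoc, ← mul_assoc (R.E a b), R.E_mul, if_neg (Ne.symm hi), zero_mul, zero_mul])
        (fun h => absurd (Finset.mem_univ _) h),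
      mul_assoc _ (F 0 a), hFm, if_pos rfl, ← mul_assoc (R.E a b), ← mul_assoc (R.E a b), R.E_mul,
      if_pos rfl]
  have hWβ : W * R.β = W := by
    rw [hW, Finset.sum_mul]
    exact Finset.sum_congr rfl fun i _ => by rw [mul_assoc, hFβ]
  set sc := cc l0 m0
  obtain ⟨y1, hy1s, hy1β, hWW'⟩ : ∃ y1, SupportedIn N y1 ∧ y1 * R.β = y1 ∧
      W * W' = sc • R.β + x * y1 := by
    refine ⟨∑ i, R.E i 0 * (R.E 0 l0 * r0 * R.E m0 0) * R.E 0 i, SupportedIn.sum _ _ fun i _ =>
      ((R.E_supp i 0).mul (((R.E_supp 0 l0).mul hr0).mul (R.E_supp m0 0))).mul (R.E_supp 0 i), ?_, ?_⟩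
    · rw [Finset.sum_mul]
      exact Finset.sum_congr rfl fun i _ => by rw [mul_assoc, R.E_β]
    have hmid : R.E 0 l0 * F 0 0 * R.E m0 0 =
        sc • R.E 0 0 + x * (R.E 0 l0 * r0 * R.E m0 0) := by
      rw [hF0, mul_add, add_mul]
      congr 1
      · simp only [Finset.mul_sum, Finset.sum_mul, mul_smul_comm, smul_mul_assoc]
        rw [Finset.sum_eq_single l0 (fun i _ hi => Finset.sum_eq_zero fun j _ => by
            show cc i j • (R.E 0 l0 * R.E i j * R.E m0 0) = 0
            rw [R.E_mul, if_neg (Ne.symm hi), zero_mul, smul_zero])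
            (fun h => absurd (Finset.mem_univ _) h),
          Finset.sum_eq_single m0 (fun j _ hj => by
            show cc l0 j • (R.E 0 l0 * R.E l0 j * R.E m0 0) = 0
            rw [R.E_mul, if_pos rfl, R.E_mul, if_neg hj, smul_zero])
            (fun h => absurd (Finset.mem_univ _) h)]
        show sc • (R.E 0 l0 * R.E l0 m0 * R.E m0 0) = _
        rw [R.E_mul, if_pos rfl, R.E_mul, if_pos rfl]
      · show R.E 0 l0 * (x * r0) * R.E m0 0 = _
        rw [← mul_assoc, ← hxc.comm (R.E_supp 0 l0)]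
        simp only [mul_assoc]
    rw [hW, hW', Finset.sum_mul]
    simp only [Finset.mul_sum]
    rw [Finset.sum_congr rfl fun i _ => Finset.sum_eq_single i (fun j _ hj => by
      rw [mul_assoc _ (F 0 i), ← mul_assoc (F 0 i), ← mul_assoc (F 0 i), hFm, if_neg (Ne.symm hj),
        zero_mul, zero_mul, mul_zero]) (fun h => absurd (Finset.mem_univ _) h)]
    have hterm : ∀ i, R.E i 0 * (R.E 0 l0 * F 0 0) * F 0 i * (F i 0 * (F 0 0 * R.E m0 0) * R.E 0 i) =
        sc • R.E i i + x * (R.E i 0 * (R.E 0 l0 * r0 * R.E m0 0) * R.E 0 i) := by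
      intro i
      have h5 : R.E 0 l0 * F 0 0 * F 0 i * (F i 0 * (F 0 0 * R.E m0 0)) =
          R.E 0 l0 * F 0 0 * R.E m0 0 := by
        simp only [← mul_assoc]
        rw [mul_assoc _ (F 0 0) (F 0 i), hFm, if_pos rfl, mul_assoc _ (F 0 i) (F i 0), hFm,
          if_pos rfl, mul_assoc _ (F 0 0) (F 0 0), hFm, if_pos rfl]
      have h6 : R.E i 0 * (R.E 0 l0 * F 0 0) * F 0 i * (F i 0 * (F 0 0 * R.E m0 0) * R.E 0 i) =
          R.E i 0 * (R.E 0 l0 * F 0 0 * F 0 i * (F i 0 * (F 0 0 * R.E m0 0))) * R.E 0 i := by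
        simp only [mul_assoc]
      rw [h6, h5, hmid, mul_add, add_mul, mul_smul_comm, smul_mul_assoc, R.E_mul, if_pos rfl,
        R.E_mul, if_pos rfl, ← mul_assoc (R.E i 0) x, ← hxc.comm (R.E_supp i 0)]
      simp only [mul_assoc]
    rw [Finset.sum_congr rfl fun i _ => hterm i, Finset.sum_add_distrib, ← Finset.smul_sum,
      R.E_sum]
  -- inverse in the corner
  have hs0 : sc ≠ 0 := hlm
  set u := -(sc⁻¹ • (x * y1)) with hu
  have huq : u ^ q = 0 := by
    have hcm : Commute x y1 := hxc.comm hy1s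
    rw [hu, neg_pow, smul_pow, hcm.mul_pow, hxq, zero_mul, smul_zero, mul_zero]
  have hus : SupportedIn N u := by
    rw [hu, ← neg_one_smul k]; exact ((hxc.supp.mul hy1s).smul _).smul _
  set W2 := sc⁻¹ • (W' * ∑ l ∈ Finset.range q, u ^ l) * R.β with hW2
  have hW2s : SupportedIn N W2 :=
    ((hW's.mul (SupportedIn.sum _ _ fun l _ => SupportedIn.pow hus l)).smul _).mul R.β_cen.supp
  have hWW2 : W * W2 = R.β := by
    have h1 : W * W' = (sc • R.β) * (1 - u) := by
      rw [hWW', hu, sub_neg_eq_add, mul_add, mul_one, smul_mul_assoc, mul_smul_comm, smul_smul,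
        mul_inv_cancel₀ hs0, one_smul, R.β_comm, mul_assoc, hy1β]
    have h2 : (1 - u) * ∑ l ∈ Finset.range q, u ^ l = 1 := by
      rw [mul_neg_geom_sum, huq, sub_zero]
    rw [hW2, ← mul_assoc, mul_smul_comm, ← mul_assoc, h1, mul_assoc (sc • R.β), h2, mul_one,
      smul_smul, inv_mul_cancel₀ hs0, one_smul, R.β_idem]
  have hW2β : W2 * R.β = W2 := by rw [hW2, mul_assoc, R.β_idem]
  have hW2W : W2 * W = R.β := by
    have h1 : (W + (1 - R.β)) * (W2 + (1 - R.β)) = 1 := by
      have ha : W * (1 - R.β) = 0 := by rw [mul_sub, mul_one, hWβ, sub_self]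
      have hb : (1 - R.β) * W2 = 0 := by rw [sub_mul, one_mul, R.β_comm, hW2β, sub_self]
      have hcc' : (1 - R.β) * (1 - R.β) = 1 - R.β := by
        rw [mul_sub, mul_one, sub_mul, one_mul, R.β_idem, sub_self, sub_zero]
      rw [add_mul, mul_add, mul_add, hWW2, ha, hb, hcc', add_zero, zero_add, add_sub_cancel]
    have hinj : Function.Injective (LinearMap.mulLeft k (W2 + (1 - R.β))) := fun a b h => by
      have := congrArg (fun z => (W + (1 - R.β)) * z) h
      simp only [LinearMap.mulLeft_apply, ← mul_assoc, h1, one_mul] at this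
      exact this
    obtain ⟨v, hv⟩ := LinearMap.injective_iff_surjective.1 hinj 1
    rw [LinearMap.mulLeft_apply] at hv
    have h2 : v = W + (1 - R.β) := by
      calc v = (W + (1 - R.β)) * (W2 + (1 - R.β)) * v := by rw [h1, one_mul]
        _ = _ := by rw [mul_assoc, hv, mul_one]
    rw [h2] at hv
    have ha : W2 * (1 - R.β) = 0 := by rw [mul_sub, mul_one, hW2β, sub_self]
    have hb : (1 - R.β) * W = 0 := by rw [sub_mul, one_mul, R.β_comm, hWβ, sub_self]
    have hcc' : (1 - R.β) * (1 - R.β) = 1 - R.β := by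
      rw [mul_sub, mul_one, sub_mul, one_mul, R.β_idem, sub_self, sub_zero]
    rw [add_mul, mul_add, mul_add, ha, hb, hcc', add_zero, zero_add] at hv
    exact add_right_cancel (hv.trans (add_sub_cancel R.β 1).symm)
  set τ0 := W * T with hτ0
  have hTβ : T * R.β = R.β * T := (R.β_comm T).symm
  have hτ0β : τ0 * R.β = τ0 := by rw [hτ0, mul_assoc, hTβ, ← mul_assoc, hWβ]
  have hτ0E : ∀ a b, τ0 * R.E a b = R.E a b * τ0 := fun a b => by
    rw [hτ0, mul_assoc, hTF, ← mul_assoc, hWint, mul_assoc]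
  have hτ0x : τ0 * x = α • (x * τ0) := by
    rw [hτ0, mul_assoc, hTx, mul_smul_comm, ← mul_assoc, ← hxc.comm hWs, mul_assoc]
  have hTW2 : T * R.β = W2 * τ0 := by rw [hτ0, ← mul_assoc, hW2W, hTβ]
  have hcoset : ∀ m, ∀ g, (τ0 ^ m).coeff g ≠ 0 → (t ^ m)⁻¹ * g ∈ N := by
    intro m
    induction m with
    | zero =>
      intro g hg
      rw [pow_zero, MonoidAlgebra.one_def, MonoidAlgebra.coeff_single] at hg
      by_cases hg1 : g = 1
      · rw [hg1]; simp
      · exact absurd (Finsupp.single_eq_of_ne hg1) hg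
    | succ m ih =>
      intro g hg
      rw [pow_succ', hτ0, mul_assoc, coeff_mul_sum] at hg
      obtain ⟨a, -, ha⟩ := Finset.exists_ne_zero_of_sum_ne_zero hg
      have haN : a ∈ N := not_not.1 fun h => ha (by rw [hWs a h, zero_mul])
      rw [MonoidAlgebra.coeff_single_mul_apply, one_mul] at ha
      have h2 := ih _ (right_ne_zero_of_mul ha)
      have h3 : (t ^ (m + 1))⁻¹ * g = (t ^ (m + 1))⁻¹ * a * t ^ (m + 1) *
          ((t ^ m)⁻¹ * (t⁻¹ * (a⁻¹ * g))) := by
        rw [pow_succ']; group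
      rw [h3]
      exact N.mul_mem (by simpa using hN.conj_mem _ haN (t ^ (m + 1))⁻¹) h2
  have hτ0e : SupportedIn N (τ0 ^ e) := fun g hg => not_not.1 fun h => hg (by
    have := N.mul_mem hte (hcoset e g h)
    rwa [mul_inv_cancel_left] at this)
  have hτpowE : ∀ m a b, τ0 ^ m * R.E a b = R.E a b * τ0 ^ m := fun m a b =>
    (Commute.pow_left (hτ0E a b) m).eq
  have hτβpow : ∀ m, 0 < m → τ0 ^ m * R.β = τ0 ^ m := by
    intro m hm
    obtain ⟨r, rfl⟩ : ∃ r, m = r + 1 := ⟨m - 1, by omega⟩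
    rw [pow_succ, mul_assoc, hτ0β]
  obtain ⟨ce, hce⟩ := R1.exists_poly hτ0e (hτβpow e hepos) (hτpowE e)
  obtain ⟨ye, hye⟩ := R1.split_poly ce
  have hce0 : ce 0 ≠ 0 := by
    intro h0
    rw [h0, zero_smul, zero_add] at hye
    have hnil : τ0 ^ (e * q) = 0 := by
      have hcm : Commute x (∑ l ∈ Finset.range q, ye l • (x ^ l * R.β)) :=
        hxc.comm (R1.poly_supp _ _)
      rw [pow_mul, hce, hye]
      show (x * ∑ l ∈ Finset.range q, ye l • (x ^ l * R.β)) ^ q = 0
      rw [hcm.mul_pow, hxq, zero_mul]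
    set Ri := MonoidAlgebra.single t⁻¹ (1 : k) * W2 with hRi
    have hTR : τ0 * Ri = R.β := by
      rw [hτ0, hRi, mul_assoc, ← mul_assoc T, MonoidAlgebra.single_mul_single, mul_inv_cancel,
        one_mul, ← MonoidAlgebra.one_def, one_mul, hWW2]
    have hall : ∀ m, 0 < m → τ0 ^ m * Ri ^ m = R.β := by
      intro m hm
      induction m with
      | zero => omega
      | succ m ih =>
        rcases Nat.eq_zero_or_pos m with rfl | hm'
        · simp [hTR]
        rw [pow_succ τ0, pow_succ' Ri, mul_assoc, ← mul_assoc τ0, hTR, ← mul_assoc, hτβpow m hm',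
          ih hm']
    have := hall (e * q) (Nat.mul_pos hepos (by omega))
    rw [hnil, zero_mul] at this
    exact R.x_ne (by rw [← R.β_E 0 0, ← this, zero_mul, mul_zero])
  -- normalising
  obtain ⟨c1, hc1⟩ := IsAlgClosed.exists_pow_nat_eq (ce 0)⁻¹ hepos
  have hc10 : c1 ≠ 0 := fun h => by
    rw [h, zero_pow (Nat.ne_of_gt hepos)] at hc1; exact inv_ne_zero hce0 hc1.symm
  set τ1 := c1 • τ0 with hτ1
  set z := τ1 ^ e with hz
  obtain ⟨yz, hyzs, hzeq⟩ : ∃ yz, SupportedIn N yz ∧ z = R.β + x * yz := by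
    refine ⟨(ce 0)⁻¹ • ∑ l ∈ Finset.range q, ye l • (x ^ l * R.β),
      (R1.poly_supp _ _).smul _, ?_⟩
    rw [hz, hτ1, smul_pow, hc1, hce, hye, smul_add, smul_smul, inv_mul_cancel₀ hce0, one_smul,
      mul_smul_comm]
  haveI : CharP k[G] p :=
    charP_of_injective_algebraMap (algebraMap k k[G]).injective p
  obtain ⟨r, hr⟩ : ∃ r, q ≤ p ^ r := ⟨q, (Nat.lt_pow_self (Fact.out : p.Prime).one_lt).le⟩
  have hzp : z ^ p ^ r = R.β := by
    have hcm : Commute R.β (x * yz) := R.β_comm _
    have hcm2 : Commute x yz := hxc.comm hyzs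
    rw [hzeq, add_pow_char_pow_of_commute p r hcm, hcm2.mul_pow,
      R1.xpow_zero hr, zero_mul, add_zero]
    exact IsIdempotentElem.pow_eq R.β_idem (pow_ne_zero r (Fact.out : p.Prime).ne_zero)
  have hcop : Nat.Coprime (p ^ r) e := by
    refine Nat.Coprime.pow_left r ((Fact.out : p.Prime).coprime_iff_not_dvd.2 fun h => he ?_)
    exact (CharP.cast_eq_zero_iff k p e).2 h
  obtain ⟨i, j, hij⟩ : ∃ i j : ℕ, p ^ r * i = 1 + e * j ∧ 0 < i := by
    rcases eq_or_lt_of_le (Nat.succ_le_of_lt hepos) with he1 | he1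
    · exact ⟨1, p ^ r - 1, by
        have hpp := pow_pos (Fact.out : p.Prime).pos r
        rw [← he1]; simp; omega, Nat.one_pos⟩
    obtain ⟨i, hi, hi'⟩ := Nat.exists_mul_mod_eq_one_of_coprime hcop he1
    refine ⟨i, p ^ r * i / e, ?_, ?_⟩
    · conv_lhs => rw [← Nat.div_add_mod (p ^ r * i) e, hi']
      rw [Nat.add_comm]
    · by_contra h0
      rw [show i = 0 by omega, mul_zero, Nat.zero_mod] at hi'
      omega
  obtain ⟨hij, hipos⟩ := hij
  set τ := τ1 ^ (p ^ r * i) with hτ
  have hτe : τ ^ e = R.β := by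
    rw [hτ, ← pow_mul, mul_comm, pow_mul, ← hz, pow_mul, hzp]
    exact IsIdempotentElem.pow_eq R.β_idem (by omega)
  have hMpos : 0 < p ^ r * i := by omega
  have hτ1β : ∀ m, 0 < m → τ1 ^ m * R.β = τ1 ^ m := fun m hm => by
    rw [hτ1, smul_pow, smul_mul_assoc, hτβpow m hm]
  have hτ1x : ∀ m, τ1 ^ m * x = α ^ m • (x * τ1 ^ m) := by
    intro m
    induction m with
    | zero => simp
    | succ m ih =>
      have h1 : τ1 * x = α • (x * τ1) := by
        rw [hτ1, smul_mul_assoc, hτ0x, mul_smul_comm, smul_comm]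
      rw [pow_succ, mul_assoc, h1, mul_smul_comm, ← mul_assoc, ih, smul_mul_assoc, smul_smul,
        mul_assoc, ← pow_succ']
  have hτx : τ * x = α • (x * τ) := by
    rw [hτ, hτ1x, hij, pow_add, pow_mul, hαe, one_pow, mul_one, pow_one]
  have hτE : ∀ a b, τ * R.E a b = R.E a b * τ := fun a b => by
    rw [hτ, hτ1, smul_pow, smul_mul_assoc, mul_smul_comm, hτpowE]
  -- the span
  set Sp := Submodule.span k
    (Set.range fun w : ℕ × Fin n × Fin n × ℕ => x ^ w.1 * R.E w.2.1 w.2.2.1 * τ ^ w.2.2.2)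
  have hτxl : ∀ m l, τ ^ m * x ^ l = α ^ (m * l) • (x ^ l * τ ^ m) := by
    intro m
    have h1 : τ ^ m * x = α ^ m • (x * τ ^ m) := by
      induction m with
      | zero => simp
      | succ m ih =>
        rw [pow_succ, mul_assoc, hτx, mul_smul_comm, ← mul_assoc, ih, smul_mul_assoc, smul_smul,
          mul_assoc, ← pow_succ']
    intro l
    induction l with
    | zero => simp
    | succ l ih =>
      rw [pow_succ, ← mul_assoc, ih, smul_mul_assoc, mul_assoc, h1, mul_smul_comm, smul_smul,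
        ← mul_assoc, ← pow_succ, ← pow_add, Nat.mul_succ]
  have hmul : ∀ a ∈ Sp, ∀ b ∈ Sp, a * b ∈ Sp := by
    intro a ha b hb
    induction ha using Submodule.span_induction with
    | mem y hy =>
      obtain ⟨⟨l, a', b', m⟩, rfl⟩ := hy
      induction hb using Submodule.span_induction with
      | mem y' hy' =>
        obtain ⟨⟨l', a'', b'', m'⟩, rfl⟩ := hy'
        simp only
        have h1 : x ^ l * R.E a' b' * τ ^ m * (x ^ l' * R.E a'' b'' * τ ^ m') =
            α ^ (m * l') • (x ^ (l + l') * (R.E a' b' * R.E a'' b'') * τ ^ (m + m')) := by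
          have h2 : τ ^ m * R.E a'' b'' = R.E a'' b'' * τ ^ m :=
            (Commute.pow_left (hτE a'' b'') m).eq
          have h3 : R.E a' b' * x ^ l' = x ^ l' * R.E a' b' := (R1.comm_x (R.E_supp a' b') l').symm
          rw [mul_assoc (x ^ l * R.E a' b'), ← mul_assoc (τ ^ m), ← mul_assoc (τ ^ m), hτxl,
            smul_mul_assoc, smul_mul_assoc, mul_smul_comm]
          congr 1
          rw [mul_assoc (x ^ l') (τ ^ m), h2, pow_add, pow_add]
          calc x ^ l * R.E a' b' * (x ^ l' * (R.E a'' b'' * τ ^ m) * τ ^ m')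
              = x ^ l * (R.E a' b' * x ^ l') * (R.E a'' b'' * (τ ^ m * τ ^ m')) := by
                simp only [mul_assoc]
            _ = _ := by rw [h3]; simp only [mul_assoc]
        rw [h1, R.E_mul]
        split_ifs
        · exact Submodule.smul_mem _ _ (Submodule.subset_span ⟨(l + l', a', b'', m + m'), rfl⟩)
        · simp
      | zero => simp
      | add u w _ _ hu hw => rw [mul_add]; exact Submodule.add_mem _ hu hw
      | smul c u _ hu => rw [mul_smul_comm]; exact Submodule.smul_mem _ _ hu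
    | zero => simp
    | add u w _ _ hu hw => rw [add_mul]; exact Submodule.add_mem _ hu hw
    | smul c u _ hu => rw [smul_mul_assoc]; exact Submodule.smul_mem _ _ hu
  have hloc : ∀ w, SupportedIn N w → w * R.β ∈ Sp := by
    intro w hw
    refine Submodule.span_le.2 ?_ (R1.mem_loc hw)
    rintro _ ⟨⟨l, a, b⟩, rfl⟩
    exact Submodule.subset_span ⟨(l, a, b, 0), by simp; rfl⟩
  have hβSp : R.β ∈ Sp := by
    have := hloc _ (supportedIn_one N)
    rwa [one_mul] at this
  have hτSp : τ ∈ Sp := by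
    rw [show τ = R.β * τ by rw [R.β_comm, hτ, hτ1β _ hMpos]]
    rw [← R.E_sum, Finset.sum_mul]
    exact Submodule.sum_mem _ fun a _ => Submodule.subset_span ⟨(0, a, a, 1), by simp⟩
  have hTSp : T * R.β ∈ Sp := by
    have hzs : ∀ m, z ^ m * R.β ∈ Sp := fun m => hloc _ (SupportedIn.pow (by
      rw [hzeq]; exact R.β_cen.supp.add (hxc.supp.mul hyzs)) m)
    have h1 : τ1 = τ * (z ^ ((p ^ r - 1) * j) * R.β) := by
      have hτz : τ = τ1 * z ^ j := by rw [hτ, hij, pow_add, pow_one, pow_mul]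
      rw [← mul_assoc, hτz, mul_assoc τ1, ← pow_add]
      have : j + (p ^ r - 1) * j = p ^ r * j := by
        have hpp := pow_pos (Fact.out : p.Prime).pos r
        conv_rhs => rw [← Nat.sub_add_cancel hpp, add_mul]
        ring
      rw [this, pow_mul, hzp]
      rcases Nat.eq_zero_or_pos j with hj | hj
      · rw [hj, pow_zero, mul_one]
        simpa using (hτ1β 1 one_pos).symm
      · rw [IsIdempotentElem.pow_eq R.β_idem (Nat.ne_of_gt hj), mul_assoc, R.β_idem]
        simpa using (hτ1β 1 one_pos).symm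
    rw [hTW2, show τ0 = c1⁻¹ • τ1 by rw [hτ1, smul_smul, inv_mul_cancel₀ hc10, one_smul],
      mul_smul_comm, ← hW2β, h1]
    exact Submodule.smul_mem _ _ (hmul _ (hloc _ hW2s) _ (hmul _ hτSp _ (hzs _)))
  have hTm : ∀ m, MonoidAlgebra.single (t ^ m) (1 : k) * R.β ∈ Sp := by
    intro m
    induction m with
    | zero => rw [pow_zero, ← MonoidAlgebra.one_def, one_mul]; exact hβSp
    | succ m ih =>
      have := hmul _ ih _ hTSp
      rwa [mul_assoc, ← mul_assoc R.β, R.β_comm, mul_assoc T, R.β_idem, ← mul_assoc,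
        MonoidAlgebra.single_mul_single, one_mul, ← pow_succ] at this
  refine ⟨{ β := R.β, x := x, τ := τ, E := R.E, α := α, E_mul := R.E_mul, E_sum := R.E_sum,
            x_β := hxβ, x_E := fun i j => hxc.comm (R.E_supp i j), x_pow := hxq,
            x_ne := by rw [hxtop]; exact R.x_ne
            two_le := hq, τ_β := by rw [hτ, hτ1β _ hMpos], τ_E := hτE, τ_x := hτx, α_ne := hα0,
            τ_pow := hτe, e_pos := hepos, e_ne := he, idx_ne := by rw [hidx]; exact he
            x_supp := fun g hg => not_not.1 fun h => hg (hxc.supp g h)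
            E_supp := fun i j g hg => not_not.1 fun h => hg (R.E_supp i j g h)
            span_N := hspan
            span_G := ?_ }, rfl, R.β_cen.supp, ?_⟩
  · intro g
    obtain ⟨m, -, hmN⟩ := hgen g
    have h1 : MonoidAlgebra.single g (1 : k) * R.β =
        (MonoidAlgebra.single (t ^ m) 1 * R.β) * (MonoidAlgebra.single ((t ^ m)⁻¹ * g) 1 * R.β) := by
      rw [mul_assoc, ← mul_assoc R.β, R.β_comm, mul_assoc _ R.β R.β, R.β_idem, ← mul_assoc,
        MonoidAlgebra.single_mul_single, one_mul, mul_inv_cancel_left]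
    rw [h1]
    exact hmul _ (hTm m) _ (hloc _ (supportedIn_single hmN 1))
  · intro ζ hζ hzero
    simp only at hzero
    set v0 := R.E 0 0 * x ^ (q - 1) with hv0
    have hv0s : SupportedIn N v0 := (R.E_supp 0 0).mul (SupportedIn.pow hxc.supp _)
    have hv0ne : v0 ≠ 0 := by
      rw [hv0, ← R1.comm_x (R.E_supp 0 0), hxtop]
      exact R.x_ne
    obtain ⟨g, hg⟩ : ∃ g, v0.coeff g ≠ 0 := by
      by_contra h
      push Not at h
      exact hv0ne (by ext g; simp [h g])
    have hgN : g ∈ N := not_not.1 fun h => hg (hv0s g h)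
    have h1 := congrArg (fun w => MonoidAlgebra.coeff w g) hzero
    simp only [MonoidAlgebra.coeff_sum, Finsupp.finsetSum_apply, MonoidAlgebra.coeff_smul,
      Finsupp.smul_apply, MonoidAlgebra.coeff_zero, Finsupp.coe_zero, Pi.zero_apply] at h1
    rw [Finset.sum_eq_single 0 (fun m hm hm0 => ?_)
      (fun h => absurd (Finset.mem_range.2 hepos) h)] at h1
    · exact hg (by simpa using h1)
    · rw [Finset.mem_range] at hm
      suffices h : (τ ^ m * v0).coeff g = 0 by rw [h, smul_zero]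
      rw [coeff_mul_sum]
      refine Finset.sum_eq_zero fun a _ => ?_
      by_contra hne
      have ha : (τ ^ m).coeff a ≠ 0 := left_ne_zero_of_mul hne
      have hb : a⁻¹ * g ∈ N := not_not.1 fun h => (right_ne_zero_of_mul hne) (hv0s _ h)
      have haN : a ∈ N := by
        have := N.mul_mem hgN (N.inv_mem hb)
        rwa [mul_inv_rev, inv_inv, mul_inv_cancel_left] at this
      rw [hτ, hτ1, ← pow_mul, smul_pow, MonoidAlgebra.coeff_smul, Finsupp.smul_apply,
        smul_eq_mul] at ha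
      have h2 := hcoset _ a (right_ne_zero_of_mul ha)
      have h3 : t ^ (p ^ r * i * m) ∈ N := by
        have := N.mul_mem haN (N.inv_mem h2)
        rwa [mul_inv_rev, inv_inv, mul_inv_cancel_left] at this
      rw [hij, add_mul, one_mul, pow_add, mul_assoc, pow_mul] at h3
      have h4 : (t ^ e) ^ (j * m) ∈ N := N.pow_mem hte _
      exact hsep m (Nat.pos_of_ne_zero hm0) hm ((Subgroup.mul_mem_cancel_right N h4).1 h3)

end Cfsg.Agent.Blocks.SemiUniserial
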