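import Cfsg.Agent.Blocks.StableLocal
import Cfsg.Agent.Blocks.SemiDerive
import Cfsg.Agent.Blocks.BlockSimple
import Cfsg.Agent.Blocks.CyclicLayers

/-!
At least as many simple modules in a block as eigenvalues on the socles of its stable restriction.
-/

namespace Cfsg.Agent.Blocks.CyclicSimples

open Cfsg Cfsg.Agent Cfsg.Agent.BlockChar Cfsg.Agent.Blocks
open StableTr StableLocal SemiUniserial CyclicLayers
open scoped MonoidAlgebra Classical

set_option autoImplicit false
set_option linter.unusedSectionVars false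
set_option linter.style.haveILetI false
set_option linter.style.openClassical false

universe u v

variable {k : Type v} [Field k] {G : Type u} [Group G] [Fintype G]

theorem asAlgebraHom_emb {V : Type*} [AddCommGroup V] [Module k V] (ρ : Representation k G V)
    {H : Subgroup G} [Fintype H] (z : k[H]) (v : V) :
    ρ.asAlgebraHom (emb k H z) v = Representation.asAlgebraHom (ρ.comp H.subtype) z v := by
  induction z using MonoidAlgebra.induction_on with
  | of g =>
    rw [Representation.asAlgebraHom_of, MonoidAlgebra.of_apply,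
      show emb k H (MonoidAlgebra.single g 1) = MonoidAlgebra.single (g : G) (1 : k) by simp [emb],
      Representation.asAlgebraHom_single_one]
    rfl
  | add a b ha hb => rw [map_add, map_add, map_add, LinearMap.add_apply, LinearMap.add_apply, ha, hb]
  | smul r a ha =>
    rw [show emb k H (r • a) = r • emb k H a by simp [emb], map_smul, map_smul,
      LinearMap.smul_apply, LinearMap.smul_apply, ha]

variable {p : ℕ} [Fact p.Prime] [CharP k p]

/-- The restriction of coefficients to a subgroup. -/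
noncomputable def rst (H : Subgroup G) [Fintype H] : k[G] →ₗ[k] k[H] where
  toFun z := MonoidAlgebra.ofCoeff (Finsupp.equivFunOnFinite.symm fun h : H => z.coeff (h : G))
  map_add' a b := by ext h; simp
  map_smul' c a := by ext h; simp

theorem coeff_rst (H : Subgroup G) [Fintype H] (z : k[G]) (h : H) :
    (rst (k := k) H z).coeff h = z.coeff (h : G) := by simp [rst]

theorem rst_mul_emb (H : Subgroup G) [Fintype H] (z : k[G]) (w : k[H]) :
    rst (k := k) H (z * emb k H w) = rst H z * w := by
  induction w using MonoidAlgebra.induction_on with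
  | of g =>
    ext h
    rw [coeff_rst, MonoidAlgebra.of_apply,
      show emb k H (MonoidAlgebra.single g 1) = MonoidAlgebra.single (g : G) (1 : k) by simp [emb],
      MonoidAlgebra.coeff_mul_single_apply, MonoidAlgebra.coeff_mul_single_apply, coeff_rst]
    rfl
  | add a b ha hb => rw [map_add, mul_add, map_add, ha, hb, mul_add]
  | smul r a ha =>
    rw [show emb k H (r • a) = r • emb k H a by simp [emb], mul_smul_comm, map_smul, ha,
      mul_smul_comm]

variable {H' : Subgroup G} [Fintype H'] {N : Subgroup H'} {n q e : ℕ} [NeZero n]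
  (S : SData (k := k) N n q e)

/-- The socle generator for an eigenvalue. -/
noncomputable def socGen (ζ : k) : k[H'] :=
  ∑ m ∈ Finset.range e, (ζ ^ m)⁻¹ • (S.τ ^ m * (S.E 0 0 * S.x ^ (q - 1)))

theorem socGen_props {ζ : k} (hζ : ζ ^ e = 1) :
    S.E 0 0 * socGen S ζ = socGen S ζ ∧ S.x * socGen S ζ = 0 ∧
      S.τ * socGen S ζ = ζ • socGen S ζ := by
  have hζ0 : ζ ≠ 0 := fun h => by
    rw [h, zero_pow (Nat.ne_of_gt S.e_pos)] at hζ; exact zero_ne_one hζ
  refine ⟨?_, ?_, ?_⟩
  · rw [socGen, Finset.mul_sum]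
    refine Finset.sum_congr rfl fun m _ => ?_
    rw [mul_smul_comm, ← mul_assoc,
      (Commute.pow_left (show Commute S.τ (S.E 0 0) from S.τ_E 0 0) m).symm.eq, mul_assoc,
      ← mul_assoc (S.E 0 0), S.E_mul, if_pos rfl]
  · rw [socGen, Finset.mul_sum]
    refine Finset.sum_eq_zero fun m _ => ?_
    have hc : ∀ m, S.x * S.τ ^ m = (S.α ^ m)⁻¹ • (S.τ ^ m * S.x) := by
      intro m
      induction m with
      | zero => simp
      | succ m ih =>
        rw [pow_succ, ← mul_assoc, ih, smul_mul_assoc, mul_assoc, mul_assoc (S.τ ^ m) S.τ,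
          S.τ_x, mul_smul_comm, smul_smul]
        congr 1
        have := S.α_ne
        field_simp
        rw [pow_succ]
    rw [mul_smul_comm, ← mul_assoc, hc, smul_mul_assoc, mul_assoc, ← mul_assoc S.x, S.x_E,
      mul_assoc (S.E 0 0), ← pow_succ', S.xpow_eq_zero (by have := S.two_le; omega), mul_zero,
      mul_zero, smul_zero, smul_zero]
  · rw [socGen, Finset.mul_sum, Finset.smul_sum]
    set F : ℕ → k[H'] := fun m => (ζ ^ m)⁻¹ • (S.τ ^ m * (S.E 0 0 * S.x ^ (q - 1))) with hF
    have h1 : ∀ m, S.τ * ((ζ ^ m)⁻¹ • (S.τ ^ m * (S.E 0 0 * S.x ^ (q - 1)))) = ζ • F (m + 1) := by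
      intro m
      simp only [hF]
      rw [mul_smul_comm, ← mul_assoc, ← pow_succ', smul_smul]
      congr 1
      rw [pow_succ, mul_inv_rev, ← mul_assoc, mul_inv_cancel₀ hζ0, one_mul]
    rw [Finset.sum_congr rfl fun m _ => h1 m, ← Finset.smul_sum, ← Finset.smul_sum]
    congr 1
    have ha := Finset.sum_range_succ F e
    have hb := Finset.sum_range_succ' F e
    have hFe : F e = F 0 := by
      simp only [hF, hζ, S.τ_pow, pow_zero]
      rw [← mul_assoc, S.E_β_left, one_mul]
    rw [hFe, hb] at ha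
    exact add_right_cancel ha

/-- The simple module of an eigenvalue, as a left ideal. -/
noncomputable def socMod (ζ : k) : Submodule k k[H'] :=
  Submodule.span k (Set.range fun i : Fin n => S.E i 0 * socGen S ζ)

theorem socMod_props {ζ : k} (hζ : ζ ^ e = 1) :
    (∀ g, ∀ w ∈ socMod S ζ, regL k H' g w ∈ socMod S ζ) ∧
      (∀ w ∈ socMod S ζ, S.β * w = w) ∧ (∀ w ∈ socMod S ζ, S.x * w = 0) ∧
      socGen S ζ ∈ socMod S ζ := by
  obtain ⟨hE, hx, hτ⟩ := socGen_props S hζ
  have hmem : ∀ i, S.E i 0 * socGen S ζ ∈ socMod S ζ := fun i => Submodule.subset_span ⟨i, rfl⟩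
  have hβ : ∀ w ∈ socMod S ζ, S.β * w = w := by
    intro w hw
    induction hw using Submodule.span_induction with
    | mem y hy => obtain ⟨i, rfl⟩ := hy; rw [← mul_assoc, S.E_β_left]
    | zero => simp
    | add a b _ _ ha hb => rw [mul_add, ha, hb]
    | smul c a _ ha => rw [mul_smul_comm, ha]
  have hx0 : ∀ w ∈ socMod S ζ, S.x * w = 0 := by
    intro w hw
    induction hw using Submodule.span_induction with
    | mem y hy => obtain ⟨i, rfl⟩ := hy; rw [← mul_assoc, S.x_E, mul_assoc, hx, mul_zero]
    | zero => simp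
    | add a b _ _ ha hb => rw [mul_add, ha, hb, add_zero]
    | smul c a _ ha => rw [mul_smul_comm, ha, smul_zero]
  have hτp : ∀ m : ℕ, S.τ ^ m * socGen S ζ = ζ ^ m • socGen S ζ := by
    intro m
    induction m with
    | zero => simp
    | succ m ih => rw [pow_succ, mul_assoc, hτ, mul_smul_comm, ih, smul_smul, ← pow_succ']
  have hgen : ∀ z ∈ Submodule.span k (Set.range fun w : ℕ × Fin n × Fin n × ℕ =>
      S.x ^ w.1 * S.E w.2.1 w.2.2.1 * S.τ ^ w.2.2.2), ∀ i,
      z * (S.E i 0 * socGen S ζ) ∈ socMod S ζ := by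
    intro z hz
    induction hz using Submodule.span_induction with
    | mem y hy =>
      obtain ⟨⟨l, a, b, m⟩, rfl⟩ := hy
      intro i
      simp only
      rw [mul_assoc, ← mul_assoc (S.τ ^ m),
        (Commute.pow_left (show Commute S.τ (S.E i 0) from S.τ_E i 0) m).eq, mul_assoc (S.E i 0),
        hτp, mul_smul_comm, mul_smul_comm, mul_assoc (S.x ^ l), ← mul_assoc (S.E a b), S.E_mul]
      refine Submodule.smul_mem _ _ ?_
      split_ifs
      · rcases Nat.eq_zero_or_pos l with rfl | hl
        · rw [pow_zero, one_mul]; exact hmem a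
        · obtain ⟨l, rfl⟩ : ∃ r, l = r + 1 := ⟨l - 1, by omega⟩
          rw [pow_succ, mul_assoc, hx0 _ (hmem a), mul_zero]
          exact Submodule.zero_mem _
      · simp
    | zero => intro i; simp
    | add a b _ _ ha hb => intro i; rw [add_mul]; exact Submodule.add_mem _ (ha i) (hb i)
    | smul c a _ ha => intro i; rw [smul_mul_assoc]; exact Submodule.smul_mem _ _ (ha i)
  refine ⟨fun g w hw => ?_, hβ, hx0, ?_⟩
  · rw [regL_apply]
    conv => arg 2; rw [← hβ w hw, ← mul_assoc]
    clear hβ hx0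
    induction hw using Submodule.span_induction with
    | mem y hy => obtain ⟨i, rfl⟩ := hy; exact hgen _ (S.span_G g) i
    | zero => simp
    | add a b _ _ ha hb => rw [mul_add]; exact Submodule.add_mem _ ha hb
    | smul c a _ ha => rw [mul_smul_comm]; exact Submodule.smul_mem _ _ ha
  · rw [← hE]; exact hmem 0

variable {V : Type*} [AddCommGroup V] [Module k V] [FiniteDimensional k V]

/-- The eigenvalues with maps to a module with scalar endomorphisms agree. -/
theorem unique_eig [IsAlgClosed k] (X : Ctx k G) (hXH : X.H' = H') (hβ : emb k H' S.β = X.β)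
    (ρ : Representation k G V) (hsch : ∀ g : V →ₗ[k] V, Eqv ρ ρ g → ∃ a : k, g = a • LinearMap.id) :
    ∃ ζ₀ : k, ∀ (ζ : k), ζ ^ e = 1 → ζ ≠ ζ₀ →
      ∀ (hT : ∀ g, ∀ w ∈ socMod S ζ, regL k H' g w ∈ socMod S ζ) (h : socMod S ζ →ₗ[k] V),
        Eqv (StableTr.sub (regL k H') (socMod S ζ) hT) (ρ.comp H'.subtype) h →
        (∀ w, ρ.asAlgebraHom X.β (h w) = h w) →
        St (StableTr.sub (regL k H') (socMod S ζ) hT) (ρ.comp H'.subtype) h := by
  subst hXH
  set σ : Representation k X.H' V := ρ.comp X.H'.subtype with hσdef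
  set Bl := ρ.asAlgebraHom X.β with hBl
  have hBle : Eqv σ σ Bl := X.eqv_β
  have hidem : ∀ v, Bl (Bl v) = Bl v := fun v => by
    rw [hBl, ← Module.End.mul_apply, ← map_mul, X.β_idem]
  set U := LinearMap.range Bl
  set F := StableTr.sub σ U (range_stable hBle) with hF
  have hFb : S.InBlock F := fun w => Subtype.ext (by
    obtain ⟨v, hv⟩ := w.2
    have h1 := asAlgebraHom_eqv (eqv_subtype U (range_stable hBle)) S.β w
    simp only [Submodule.subtype_apply] at h1
    rw [← h1, ← asAlgebraHom_emb, hβ, ← hv]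
    exact hidem v)
  set c := Bl.codRestrict U (fun v => LinearMap.mem_range_self Bl v) with hc
  have hce : Eqv σ F c := eqv_codRestrict hBle _
  have hcU : ∀ w : U, c (w : V) = w := fun w => Subtype.ext (by
    obtain ⟨v, hv⟩ := w.2
    show Bl (w : V) = w
    rw [← hv, hidem])
  have hse : Eqv F σ U.subtype := eqv_subtype _ _
  have hfact : ∀ {T : Type (max u v)} [AddCommGroup T] [Module k T] (h : T →ₗ[k] V),
      (∀ w, Bl (h w) = h w) → h = U.subtype.comp (c.comp h) := fun h hh =>
    LinearMap.ext fun w => (hh w).symm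
  rcases S.dichotomy hFb _ LinearMap.id eqv_id (LinearMap.id_comp _) rfl with hid |
      ⟨π0, h0, j, ζ', w, hππ, hj, hv⟩
  · refine ⟨0, fun ζ hζ _ hT h he hfix => ?_⟩
    have := St.comp_left hse (St.comp_right hid (hce.comp he))
    rwa [LinearMap.id_comp, ← hfact h hfix] at this
  set σY := StableTr.sub F (LinearMap.range π0) (range_stable h0) with hσY
  have hYb : S.InBlock σY := S.inBlock_sub hFb _
  obtain ⟨lam, ϖ, hϖ, hϖe, hϖm, hϖf⟩ := S.exists_retraction hYb hv
  set c0 := π0.codRestrict (LinearMap.range π0) (fun u => LinearMap.mem_range_self π0 u) with hc0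
  have hc0e : Eqv F σY c0 := eqv_codRestrict h0 _
  have hc0Y : ∀ y : (LinearMap.range π0), c0 (y : U) = y := fun y => Subtype.ext (by
    obtain ⟨u, hu⟩ := y.2
    show π0 (y : U) = y
    rw [← hu]; exact LinearMap.congr_fun hππ u)
  set π1 : U →ₗ[k] U := (LinearMap.range π0).subtype.comp (ϖ.comp c0) with hπ1
  have hπ1e : Eqv F F π1 := (eqv_subtype _ _).comp (hϖe.comp hc0e)
  have h11 : π1.comp π1 = π1 := LinearMap.ext fun u => by
    simp only [hπ1, LinearMap.comp_apply, Submodule.subtype_apply, hc0Y, hϖf _ (hϖm _)]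
  -- lift
  set f : V →ₗ[k] V := U.subtype.comp (π1.comp c) with hf
  have hfe : Eqv σ σ f := hse.comp (hπ1e.comp hce)
  have hfl : Bl.comp f = f := LinearMap.ext fun v => by
    show Bl (π1 (c v) : V) = _
    exact congrArg Subtype.val (hcU _)
  have hfr : f.comp Bl = f := LinearMap.ext fun v => by
    show ((π1 (c (Bl v)) : U) : V) = (π1 (c v) : V)
    rw [show c (Bl v) = c v from Subtype.ext (hidem v)]
  obtain ⟨g, hg, hgSt⟩ := X.exists_lift hfe hfl hfr
  obtain ⟨a, rfl⟩ := hsch g hg
  have hD : St F F (a • LinearMap.id - π1) := by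
    have h1 := St.comp_left hce (St.comp_right hgSt hse)
    convert h1 using 1
    refine LinearMap.ext fun u => ?_
    simp only [LinearMap.comp_apply, LinearMap.sub_apply, LinearMap.smul_apply, LinearMap.id_apply,
      map_sub, map_smul, Submodule.subtype_apply, hf]
    rw [show Bl (u : V) = u from congrArg Subtype.val (hcU u),
      show ρ.asAlgebraHom X.β (u : V) = u from congrArg Subtype.val (hcU u), hcU, hcU]
  have ha : a = 1 := by
    by_contra ha
    have h2 : St F F ((a - 1) • π1) := by
      convert St.comp_left hπ1e hD using 1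
      refine LinearMap.ext fun u => ?_
      have := LinearMap.congr_fun h11 u
      simp only [LinearMap.comp_apply, LinearMap.sub_apply, LinearMap.smul_apply,
        LinearMap.id_apply, map_sub, map_smul, sub_smul, one_smul] at this ⊢
      rw [this]
    have h3 := h2.smul (a - 1)⁻¹
    rw [smul_smul, inv_mul_cancel₀ (sub_ne_zero.2 ha), one_smul] at h3
    have h4 := St.comp_left hc0e (St.comp_right h3 (eqv_subtype (LinearMap.range π0) (range_stable h0)))
    have h5 : c0.comp (π1.comp (LinearMap.range π0).subtype) = ϖ := LinearMap.ext fun y => by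
      simp only [hπ1, LinearMap.comp_apply, Submodule.subtype_apply, hc0Y]
    rw [h5] at h4
    have hvc : ϖ w = w := hϖf w (by
      have h := S.cyc_mem (ρ := σY) 0 0 w
      rw [pow_zero, one_mul, hv.E_v] at h
      exact h)
    refine hv.not_mem S (hvc ▸ S.st_mem_range hYb hYb h4 (fun y => ?_) w)
    obtain ⟨d, hd⟩ := Nat.exists_eq_add_of_le (show j ≤ q - 1 by omega)
    rw [hd, add_comm, pow_add, map_mul, Module.End.mul_apply, hv.kill, map_zero]
  subst ha
  rw [one_smul] at hD
  refine ⟨S.α ^ (j - 1) * ζ', fun ζ hζ hne hT h he hfix => ?_⟩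
  obtain ⟨hTs, hTβ, hTx, hTy⟩ := socMod_props S hζ
  obtain ⟨hgE, hgx, hgτ⟩ := socGen_props S hζ
  set R := StableTr.sub (regL k X.H') (socMod S ζ) hT with hR
  have hRap : ∀ (z : k[X.H']) (u : socMod S ζ), ((R.asAlgebraHom z u : socMod S ζ) : k[X.H']) =
      z * (u : k[X.H']) := by
    intro z u
    have h1 := asAlgebraHom_eqv (eqv_subtype (socMod S ζ) hT) z u
    simp only [Submodule.subtype_apply] at h1
    rw [← h1, regL_asAlgebraHom]
  set hT1 : socMod S ζ →ₗ[k] U := c.comp h with hT1def
  have hT1e : Eqv R F hT1 := hce.comp he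
  -- the projection part vanishes
  set φ := (ϖ.comp c0).comp hT1
  have hφe : Eqv R σY φ := (hϖe.comp hc0e).comp hT1e
  have hzero : φ = 0 := by
    set y : socMod S ζ := ⟨socGen S ζ, hTy⟩
    have hy0 : φ y = 0 := by
      have e1 : σY.asAlgebraHom (S.E 0 0) (φ y) = φ y := by
        rw [asAlgebraHom_eqv hφe]; congr 1; exact Subtype.ext ((hRap _ _).trans hgE)
      have e2 : σY.asAlgebraHom S.x (φ y) = 0 := by
        rw [asAlgebraHom_eqv hφe, show R.asAlgebraHom S.x y = 0 from
          Subtype.ext ((hRap _ _).trans hgx), map_zero]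
      have e3 : σY.asAlgebraHom S.τ (φ y) = ζ • φ y := by
        rw [asAlgebraHom_eqv hφe, show R.asAlgebraHom S.τ y = ζ • y from
          Subtype.ext ((hRap _ _).trans hgτ), map_smul]
      obtain ⟨d, hd⟩ := S.socle hYb hv (hϖm _) e1 e2
      have e4 : σY.asAlgebraHom S.τ (σY.asAlgebraHom (S.x ^ (j - 1)) w) =
          (S.α ^ (j - 1) * ζ') • σY.asAlgebraHom (S.x ^ (j - 1)) w := by
        rw [← Module.End.mul_apply, ← map_mul, S.τ_xpow, map_smul, LinearMap.smul_apply, map_mul,
          Module.End.mul_apply, hv.τ_v, map_smul, smul_smul]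
      rw [show φ y = ϖ (c0 (hT1 y)) from rfl, hd, map_smul, e4, smul_smul, smul_smul] at e3
      have h6 : ((d * (S.α ^ (j - 1) * ζ')) - ζ * d) • σY.asAlgebraHom (S.x ^ (j - 1)) w = 0 := by
        exact (sub_smul (R := k) (d * (S.α ^ (j - 1) * ζ')) (ζ * d) _).trans (sub_eq_zero.2 e3)
      have h7 := (smul_eq_zero.1 h6).resolve_right hv.ne
      have h8 : d = 0 := by
        by_contra hd0
        refine hne (mul_left_cancel₀ hd0 ?_)
        linear_combination -h7
      show ϖ (c0 (hT1 y)) = 0
      rw [hd, h8, zero_smul]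
    refine LinearMap.ext fun u => ?_
    obtain ⟨u, hu⟩ := u
    suffices hgen : ∀ u, ∀ hu : u ∈ socMod S ζ, φ ⟨u, hu⟩ = 0 from hgen u hu
    intro u hu
    induction hu using Submodule.span_induction with
    | mem z hz =>
      obtain ⟨i, rfl⟩ := hz
      have e5 : (⟨S.E i 0 * socGen S ζ, Submodule.subset_span ⟨i, rfl⟩⟩ : socMod S ζ) =
          R.asAlgebraHom (S.E i 0) y := Subtype.ext (hRap _ y).symm
      exact (congrArg φ e5).trans (by rw [← asAlgebraHom_eqv hφe, hy0, map_zero])
    | zero => exact map_zero φ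
    | add a b ha hb iha ihb =>
      rw [show (⟨a + b, _⟩ : socMod S ζ) = ⟨a, ha⟩ + ⟨b, hb⟩ from rfl, map_add, iha, ihb, add_zero]
    | smul r a ha iha =>
      rw [show (⟨r • a, _⟩ : socMod S ζ) = r • ⟨a, ha⟩ from rfl, map_smul, iha, smul_zero]
  have h9 := St.comp_left hse (St.comp_right hD hT1e)
  convert h9 using 1
  refine LinearMap.ext fun u => ?_
  have h10 : π1 (hT1 u) = 0 := by
    show ((ϖ (c0 (hT1 u)) : (LinearMap.range π0)) : U) = 0
    rw [show ϖ (c0 (hT1 u)) = φ u from rfl, hzero]; rfl
  simp only [LinearMap.comp_apply, LinearMap.sub_apply, LinearMap.id_apply, h10, sub_zero,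
    Submodule.subtype_apply]
  exact (hfix u).symm

end Cfsg.Agent.Blocks.CyclicSimples
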