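import Mathlib

/-! Centralizers on the abelianisation of a normal subgroup of prime index. -/

namespace Cfsg.Agent.Blocks.IndexP

open Subgroup
open scoped commutatorElement

universe u

variable {P : Type u} [Group P] [Finite P]

/-- For `P = ⟨x⟩ N`, the fixed points of `x` on `N/N'` measure `P'`. -/
theorem card_fixed_mul (N : Subgroup P) [N.Normal] (x : P) (hgen : N ⊔ zpowers x = ⊤) :
    Nat.card {n : N // x * n * x⁻¹ * (n : P)⁻¹ ∈ (commutator N).map N.subtype} *
        Nat.card (commutator P) = Nat.card N * Nat.card (commutator N) := by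
  classical
  set D := commutator N with hD
  let π : N →* N ⧸ D := QuotientGroup.mk' D
  have hcomm : ∀ a b : N ⧸ D, a * b = b * a := by
    intro a b
    obtain ⟨a, rfl⟩ := QuotientGroup.mk'_surjective D a
    obtain ⟨b, rfl⟩ := QuotientGroup.mk'_surjective D b
    rw [← map_mul, ← map_mul]
    refine QuotientGroup.eq.2 ?_
    rw [show (a * b)⁻¹ * (b * a) = ⁅b⁻¹, a⁻¹⁆ by simp only [commutatorElement_def]; group]
    exact commutator_mem_commutator (mem_top _) (mem_top _)
  let c : N → N := fun n => ⟨x * n * x⁻¹ * (n : P)⁻¹,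
    N.mul_mem ((inferInstance : N.Normal).conj_mem _ n.2 x) (N.inv_mem n.2)⟩
  have hc1 : ∀ a b : N, c (a * b) = c a * (a * c b * a⁻¹) := fun a b => Subtype.ext (by
    simp only [c, Subgroup.coe_mul, Subgroup.coe_inv]; group)
  let φ : N →* N ⧸ D := MonoidHom.mk' (fun n => π (c n)) fun a b => by
    rw [hc1, map_mul, map_mul, map_mul, hcomm (π a), mul_assoc (π (c b)), ← map_mul π a,
      mul_inv_cancel, map_one, mul_one]
  have hfix : Nat.card {n : N // x * n * x⁻¹ * (n : P)⁻¹ ∈ (commutator N).map N.subtype} =
      Nat.card φ.ker := by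
    refine Nat.card_congr (Equiv.subtypeEquivRight fun n => ?_)
    rw [MonoidHom.mem_ker]
    show _ ↔ QuotientGroup.mk' D (c n) = 1
    rw [QuotientGroup.mk'_apply, QuotientGroup.eq_one_iff]
    exact ⟨fun ⟨m, hm, hme⟩ => (Subtype.ext hme : m = c n) ▸ hm, fun h => ⟨c n, h, rfl⟩⟩
  set R := (φ.range.comap π).map N.subtype with hR
  have hRN : R ≤ N := map_subtype_le _
  have hcP : ∀ n : N, ((c n : N) : P) ∈ commutator P := fun n => by
    show x * (n : P) * x⁻¹ * (n : P)⁻¹ ∈ commutator P
    exact commutator_mem_commutator (mem_top x) (mem_top (n : P))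
  have hDP : D.map N.subtype ≤ commutator P := by
    rw [hD, _root_.commutator_def, map_commutator, _root_.commutator_def]; exact commutator_mono le_top le_top
  have hmemR : ∀ n : N, ((c n : N) : P) ∈ R := fun n => ⟨c n, ⟨n, rfl⟩, rfl⟩
  have hDR : D.map N.subtype ≤ R := map_mono fun d hd => ⟨1, by
    rw [map_one]; exact ((QuotientGroup.eq_one_iff d).2 hd).symm⟩
  have hRP : R = commutator P := by
    refine le_antisymm ?_ ?_
    · rintro _ ⟨r, ⟨n, hn⟩, rfl⟩
      have h1 : (c n)⁻¹ * r ∈ D := QuotientGroup.eq.1 hn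
      have h2 : ((c n : N) : P)⁻¹ * (r : P) ∈ commutator P := hDP ⟨_, h1, rfl⟩
      have h3 := mul_mem (hcP n) h2
      rwa [mul_inv_cancel_left] at h3
    · have hRn : R.Normal := by
        rw [← normalizer_eq_top_iff, eq_top_iff, ← hgen, sup_le_iff, zpowers_le]
        refine ⟨fun a ha => ?_, ?_⟩
        · rw [mem_normalizer_iff]
          intro y
          have key : ∀ (a : N) (r : P), r ∈ R → (a : P) * r * (a : P)⁻¹ ∈ R := by
            rintro a _ ⟨r, hr, rfl⟩
            refine ⟨a * r * a⁻¹, ?_, rfl⟩
            show π (a * r * a⁻¹) ∈ φ.range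
            rw [map_mul, map_mul, hcomm (π a), mul_assoc, ← map_mul π a, mul_inv_cancel, map_one,
              mul_one]
            exact hr
          refine ⟨key ⟨a, ha⟩ y, fun h => ?_⟩
          have := key ⟨a⁻¹, N.inv_mem ha⟩ _ h
          simpa [mul_assoc] using this
        · have key : ∀ r ∈ R, x * r * x⁻¹ ∈ R := by
            rintro _ ⟨r, ⟨n, hn⟩, rfl⟩
            have h1 : (c n)⁻¹ * r ∈ D := QuotientGroup.eq.1 hn
            let xn : N := ⟨x * n * x⁻¹, (inferInstance : N.Normal).conj_mem _ n.2 x⟩
            have hcx : ((c xn : N) : P) = x * ((c n : N) : P) * x⁻¹ := by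
              simp only [c, xn]; group
            have hd : x * ((((c n)⁻¹ * r : N)) : P) * x⁻¹ ∈ D.map N.subtype := by
              have hn : (D.map N.subtype).Normal := inferInstance
              exact hn.conj_mem _ ⟨_, h1, rfl⟩ x
            have := mul_mem (hcx ▸ hmemR xn) (hDR hd)
            simpa [mul_assoc] using this
          rw [Subgroup.mem_normalizer_iff]
          intro r
          refine ⟨key r, fun h => ?_⟩
          let f : R → R := fun r => ⟨x * r * x⁻¹, key r r.2⟩
          have hinj : Function.Injective f := fun a b hab => Subtype.ext (by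
            simpa [f] using congrArg Subtype.val hab)
          obtain ⟨⟨r', hr'⟩, he⟩ := (Finite.injective_iff_surjective.1 hinj) ⟨_, h⟩
          have he' : x * r' * x⁻¹ = x * r * x⁻¹ := congrArg Subtype.val he
          exact (mul_left_cancel (mul_right_cancel he') : r' = r) ▸ hr'
      haveI := hRn
      refine (Subgroup.Normal.quotient_commutative_iff_commutator_le).1 ?_
      let q : P →* P ⧸ R := QuotientGroup.mk' R
      have hq : ∀ a ∈ N, ∀ b ∈ N, q a * q b = q b * q a := by
        intro a ha b hb
        rw [← map_mul, ← map_mul]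
        refine QuotientGroup.eq.2 (hDR ⟨(⟨a, ha⟩ * ⟨b, hb⟩)⁻¹ * (⟨b, hb⟩ * ⟨a, ha⟩), ?_, rfl⟩)
        rw [show ((⟨a, ha⟩ : N) * ⟨b, hb⟩)⁻¹ * (⟨b, hb⟩ * ⟨a, ha⟩) = ⁅(⟨b, hb⟩ : N)⁻¹, (⟨a, ha⟩ : N)⁻¹⁆ by
          simp only [commutatorElement_def]; group]
        exact commutator_mem_commutator (mem_top _) (mem_top _)
      have hx : ∀ a ∈ N, q a * q x = q x * q a := by
        intro a ha
        rw [← map_mul, ← map_mul]
        refine (QuotientGroup.eq.2 ?_).symm
        have h := hRn.conj_mem _ (R.inv_mem (hmemR ⟨a, ha⟩)) (x * a)⁻¹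
        convert h using 1
        simp only [c]; group
      have hall : ∀ g h : P, q g * q h = q h * q g := by
        have hcl : N ⊔ zpowers x = closure ((N : Set P) ∪ {x}) := by
          rw [Subgroup.closure_union, Subgroup.closure_eq, zpowers_eq_closure]
        intro g h
        have h1 : q '' ((N : Set P) ∪ {x}) ⊆ centralizer (q '' ((N : Set P) ∪ {x})) := by
          rintro _ ⟨a, ha, rfl⟩
          rw [SetLike.mem_coe, mem_centralizer_iff]
          rintro _ ⟨b, hb, rfl⟩
          rcases ha with ha | rfl <;> rcases hb with hb | rfl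
          · exact hq b hb a ha
          · exact (hx a ha).symm
          · exact hx b hb
          · rfl
        have h2 : closure (q '' ((N : Set P) ∪ {x})) = ⊤ := by
          rw [← MonoidHom.map_closure, ← hcl, hgen, ← MonoidHom.range_eq_map,
            MonoidHom.range_eq_top.2 (QuotientGroup.mk'_surjective R)]
        have h3 : (⊤ : Subgroup (P ⧸ R)) ≤ centralizer ((⊤ : Subgroup (P ⧸ R)) : Set (P ⧸ R)) := by
          conv_rhs => rw [← h2, centralizer_closure]
          rw [← h2, closure_le]
          exact h1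
        exact (mem_centralizer_iff.1 (h3 (mem_top (q g))) (q h) (mem_top _)).symm
      exact ⟨⟨fun a b => by
        obtain ⟨a, rfl⟩ := QuotientGroup.mk'_surjective R a
        obtain ⟨b, rfl⟩ := QuotientGroup.mk'_surjective R b
        exact hall a b⟩⟩
  have h1 : Nat.card R = Nat.card φ.range * Nat.card D := by
    rw [hR, Nat.card_congr (equivMapOfInjective _ _ N.subtype_injective).toEquiv.symm]
    have hker : (φ.range.comap π).subgroupOf (φ.range.comap π) = ⊤ := subgroupOf_self _
    have hi : (φ.range.comap π).index = φ.range.index :=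
      φ.range.index_comap_of_surjective (QuotientGroup.mk'_surjective D)
    have e1 := (φ.range.comap π).card_mul_index
    have e2 := φ.range.card_mul_index
    have e3 := D.card_mul_index
    rw [← D.index_eq_card] at e2
    rw [hi] at e1
    have hne : 0 < φ.range.index := Nat.pos_of_ne_zero index_ne_zero_of_finite
    refine Nat.eq_of_mul_eq_mul_right hne ?_
    rw [e1, ← e3, ← e2]; ring
  have h2 : Nat.card φ.ker * Nat.card φ.range = Nat.card N := by
    rw [← φ.ker.card_mul_index, index_ker]
  rw [hfix, ← hRP, h1, ← mul_assoc, h2]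

end Cfsg.Agent.Blocks.IndexP
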