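import Cfsg.Agent.Blocks.ZStarFinal
import Cfsg.Agent.Core.Cores

/-!
Automorphisms of `2`-power order centralizing an abelian Sylow `2`-subgroup are inner
(centre and odd core trivial), via the Z*-theorem.
-/

set_option autoImplicit false
open Cfsg

namespace Cfsg.Agent.Blocks

universe u

/-- Abelian Sylow subgroup `S` supplementing a normal `I`, only `1 ∈ S` fixed by `N(S)`:
then `I = ⊤`. -/
theorem normal_eq_top_of_fixed_bot {X : Type u} [Group X] [Finite X] (S : Sylow 2 X)
    (hab : ∀ a ∈ (S : Subgroup X), ∀ b ∈ (S : Subgroup X), a * b = b * a)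
    (hfix : ∀ s ∈ (S : Subgroup X),
      (∀ n ∈ Subgroup.normalizer ((S : Subgroup X) : Set X), n * s * n⁻¹ = s) → s = 1)
    (I : Subgroup X) [I.Normal] (hsup : I ⊔ (S : Subgroup X) = ⊤) : I = ⊤ := by
  classical
  have hSle : (S : Subgroup X) ≤ I := by
    intro s hs
    let K := Subgroup.normalizer ((S : Subgroup X) : Set X)
    let S' := (S : Subgroup X).subgroupOf K
    letI : CommGroup ↥(S : Subgroup X) :=
      { (inferInstance : Group ↥(S : Subgroup X)) with
        mul_comm := fun a b => Subtype.ext (hab a a.2 b b.2) }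
    let f : K → ↥(S : Subgroup X) := fun n =>
      ⟨(n : X) * s * (n : X)⁻¹, (Subgroup.mem_normalizer_iff.1 n.2 s).1 hs⟩
    have hfS : ∀ (n : K) (t : K), t ∈ S' → f (n * t) = f n := by
      intro n t ht
      have ht' : (t : X) ∈ (S : Subgroup X) := ht
      apply Subtype.ext
      simp only [f, Subgroup.coe_mul, mul_inv_rev]
      have h := hab _ ht' _ hs
      calc (n : X) * (t : X) * s * ((t : X)⁻¹ * (n : X)⁻¹)
          = (n : X) * ((t : X) * s) * (t : X)⁻¹ * (n : X)⁻¹ := by group
        _ = (n : X) * (s * (t : X)) * (t : X)⁻¹ * (n : X)⁻¹ := by rw [h]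
        _ = (n : X) * s * (n : X)⁻¹ := by group
    have hwd : ∀ a b : K, (QuotientGroup.mk a : K ⧸ S') = QuotientGroup.mk b → f a = f b := by
      intro a b hab'
      have h := QuotientGroup.eq.1 hab'
      have := hfS a _ h
      rw [mul_inv_cancel_left] at this
      exact this.symm
    haveI : Fintype (K ⧸ S') := Fintype.ofFinite _
    let t : ↥(S : Subgroup X) := ∏ q : K ⧸ S', f q.out
    have htfix : ∀ n ∈ K, n * (t : X) * n⁻¹ = (t : X) := by
      intro n hn
      let c : ↥(S : Subgroup X) →* X :=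
        ((MulAut.conj n).toMonoidHom).comp (S : Subgroup X).subtype
      let cS : ↥(S : Subgroup X) →* ↥(S : Subgroup X) :=
        c.codRestrict _ (fun a => (Subgroup.mem_normalizer_iff.1 hn a).1 a.2)
      have h1 : cS t = t := by
        simp only [t, map_prod]
        apply Finset.prod_equiv (MulAction.toPerm (⟨n, hn⟩ : K))
        · simp
        · intro q _
          have h2 : f ((MulAction.toPerm (⟨n, hn⟩ : K) q).out) = f (⟨n, hn⟩ * q.out) := by
            apply hwd
            rw [QuotientGroup.out_eq']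
            conv_lhs => rw [MulAction.toPerm_apply, ← QuotientGroup.out_eq' q]
            exact MulAction.Quotient.smul_mk _ _ _
          rw [h2]
          apply Subtype.ext
          simp [cS, c, f, MulAut.conj_apply, mul_assoc]
      have := congrArg Subtype.val h1
      simpa [cS, c, MulAut.conj_apply] using this
    have ht1 : t = 1 := Subtype.ext (hfix t t.2 htfix)
    let ψ : ↥(S : Subgroup X) →* X ⧸ I := (QuotientGroup.mk' I).comp (S : Subgroup X).subtype
    have hψ : ∀ n : K, ψ (f n) = (QuotientGroup.mk' I) s := by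
      intro n
      have hn : (n : X) ∈ I ⊔ (S : Subgroup X) := by rw [hsup]; trivial
      rw [sup_comm] at hn
      obtain ⟨s', hs', i, hi, hsi⟩ := Subgroup.mem_sup_of_normal_right.1 hn
      have e : (QuotientGroup.mk' I) (n : X) = (QuotientGroup.mk' I) s' := by
        rw [← hsi, map_mul]
        have : (QuotientGroup.mk' I) i = 1 := (QuotientGroup.eq_one_iff i).2 hi
        rw [this, mul_one]
      show (QuotientGroup.mk' I) ((n : X) * s * (n : X)⁻¹) = _
      rw [map_mul, map_mul, map_inv, e, ← map_inv, ← map_mul, ← map_mul, hab _ hs' _ hs]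
      simp
    have hm : ((QuotientGroup.mk' I) s) ^ Fintype.card (K ⧸ S') = 1 := by
      have h : (∏ q : K ⧸ S', f q.out * (⟨s, hs⟩ : ↥(S : Subgroup X))⁻¹) ∈
          I.subgroupOf (S : Subgroup X) := by
        refine Subgroup.prod_mem _ fun q _ => ?_
        rw [Subgroup.mem_subgroupOf, ← QuotientGroup.eq_one_iff]
        simp only [Subgroup.coe_mul, Subgroup.coe_inv]
        show (QuotientGroup.mk' I) ((f q.out : X) * s⁻¹) = 1
        have h' := hψ q.out
        simp only [ψ, MonoidHom.coe_comp, Function.comp_apply, Subgroup.coe_subtype] at h'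
        rw [map_mul, h', map_inv, mul_inv_cancel]
      rw [Finset.prod_mul_distrib, Finset.prod_const, Finset.card_univ] at h
      change t * _ ∈ _ at h
      rw [ht1, one_mul, inv_pow, Subgroup.inv_mem_iff, Subgroup.mem_subgroupOf] at h
      rw [← map_pow]
      exact (QuotientGroup.eq_one_iff _).2 (by simpa using h)
    have hodd : Nat.Coprime 2 (Fintype.card (K ⧸ S')) := by
      rw [Fintype.card_eq_nat_card, Nat.prime_two.coprime_iff_not_dvd]
      intro h
      have h1 : S'.index ∣ (S : Subgroup X).index :=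
        ⟨K.index, (Subgroup.relIndex_mul_index
          (Subgroup.le_normalizer : (S : Subgroup X) ≤ K)).symm⟩
      exact S.not_dvd_index (dvd_trans h h1)
    obtain ⟨k, hk⟩ := S.isPGroup' ⟨s, hs⟩
    have hk' : ((QuotientGroup.mk' I) s) ^ (2 ^ k) = 1 := by
      rw [← map_pow]
      have := congrArg Subtype.val hk
      simp at this
      rw [this, map_one]
    have := pow_gcd_eq_one.2 ⟨hk', hm⟩
    rw [(hodd.pow_left k).gcd_eq_one, pow_one] at this
    exact (QuotientGroup.eq_one_iff s).1 this
  rw [sup_eq_left.2 hSle] at hsup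
  exact hsup

/-- An automorphism of 2-power order fixing an abelian Sylow 2-subgroup pointwise is inner. -/
theorem exists_conj_of_fix_sylow {G : Type u} [Group G] [Finite G]
    (hZ : Subgroup.center G = ⊥) (hcore : Cfsg.pPrimeCore 2 G = ⊥) (P : Sylow 2 G)
    (hab : IsMulCommutative (P : Subgroup G))
    (α : MulAut G) (h2 : ∃ j : ℕ, orderOf α = 2 ^ j) (hfix : ∀ x ∈ (P : Subgroup G), α x = x) :
    ∃ g : G, ∀ x : G, α x = g * x * g⁻¹ := by
  classical
  haveI : Fact (Nat.Prime 2) := ⟨Nat.prime_two⟩
  haveI : Finite (MulAut G) := Finite.of_injective (fun e : MulAut G => (e : G → G))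
    DFunLike.coe_injective
  let φ : G →* MulAut G := MulAut.conj
  have hφ : Function.Injective φ := by
    rw [injective_iff_map_eq_one]
    intro g hg
    have : g ∈ Subgroup.center G := by
      rw [Subgroup.mem_center_iff]
      intro x
      have h := congrArg (fun e : MulAut G => e x) hg
      simp [φ, MulAut.conj_apply] at h
      rw [mul_inv_eq_iff_eq_mul] at h
      exact h.symm
    rwa [hZ, Subgroup.mem_bot] at this
  have hαconj : ∀ g : G, α * φ g * α⁻¹ = φ (α g) := by
    intro g; ext x; simp [φ, MulAut.conj_apply]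
  let X : Subgroup (MulAut G) := φ.range ⊔ Subgroup.zpowers α
  let φ' : G →* X := φ.codRestrict X (fun g => Subgroup.mem_sup_left ⟨g, rfl⟩)
  have hφ' : Function.Injective φ' := fun a b h => hφ (congrArg Subtype.val h)
  let a : X := ⟨α, Subgroup.mem_sup_right (Subgroup.mem_zpowers α)⟩
  haveI hnR : (φ.range).Normal := ⟨by
    rintro _ ⟨g, rfl⟩ β
    refine ⟨β g, ?_⟩
    ext x; simp [φ, MulAut.conj_apply]⟩
  have hrange : φ'.range = φ.range.subgroupOf X := by
    ext x
    constructor
    · rintro ⟨g, rfl⟩; exact ⟨g, rfl⟩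
    · rintro ⟨g, hg⟩; exact ⟨g, Subtype.ext hg⟩
  haveI hnI : (φ'.range).Normal := hrange ▸ hnR.subgroupOf X
  let Q : Subgroup X := (P : Subgroup G).map φ'
  let S : Subgroup X := Q ⊔ Subgroup.zpowers a
  have hQQ : Q ≤ Subgroup.centralizer (Q : Set X) := by
    rintro _ ⟨x, hx, rfl⟩
    rw [Subgroup.mem_centralizer_iff]
    rintro _ ⟨y, hy, rfl⟩
    rw [← map_mul, ← map_mul]
    congr 1
    exact congrArg Subtype.val (hab.is_comm.comm ⟨y, hy⟩ ⟨x, hx⟩)
  have haQ : Subgroup.zpowers a ≤ Subgroup.centralizer (Q : Set X) := by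
    rw [Subgroup.zpowers_le, Subgroup.mem_centralizer_iff]
    rintro _ ⟨x, hx, rfl⟩
    apply Subtype.ext
    show φ x * α = α * φ x
    have := hαconj x
    rw [hfix x hx, mul_inv_eq_iff_eq_mul] at this
    exact this.symm
  have hSS : S ≤ Subgroup.centralizer (S : Set X) := by
    refine sup_le ?_ ?_
    · exact Subgroup.le_centralizer_iff.1 (sup_le hQQ haQ)
    · refine Subgroup.le_centralizer_iff.1 (sup_le ?_ ?_)
      · exact Subgroup.le_centralizer_iff.1 haQ
      · exact Subgroup.le_centralizer (Subgroup.zpowers a)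
  have habS : ∀ x ∈ S, ∀ y ∈ S, x * y = y * x := fun x hx y hy =>
    (Subgroup.mem_centralizer_iff.1 (hSS hy) x hx)
  have hQp : IsPGroup 2 Q := P.isPGroup'.map φ'
  have hap : IsPGroup 2 (Subgroup.zpowers a) := by
    obtain ⟨j, hj⟩ := h2
    refine IsPGroup.of_card (n := j) ?_
    rw [Nat.card_zpowers, ← hj]
    exact (orderOf_injective X.subtype (Subgroup.subtype_injective X) a).symm
  have hSp : IsPGroup 2 S := by
    refine hQp.to_sup_of_normal_left' hap ?_
    exact le_trans haQ (Subgroup.centralizer_le_normalizer _)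
  have hX : φ'.range ⊔ S = ⊤ := by
    rw [eq_top_iff]
    rintro ⟨x, hx⟩ -
    have hle : X ≤ (φ'.range ⊔ S).map X.subtype := by
      refine sup_le ?_ ?_
      · rintro _ ⟨g, rfl⟩
        exact ⟨φ' g, Subgroup.mem_sup_left ⟨g, rfl⟩, rfl⟩
      · rw [Subgroup.zpowers_le]
        exact ⟨a, Subgroup.mem_sup_right (Subgroup.mem_sup_right (Subgroup.mem_zpowers a)), rfl⟩
    obtain ⟨y, hy, hyx⟩ := hle hx
    have : y = ⟨x, hx⟩ := Subtype.ext hyx
    rwa [← this]
  have hidx : ¬ 2 ∣ S.index := by
    have h1 : S.index * Nat.card S = Nat.card X := by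
      rw [mul_comm]; exact Subgroup.card_mul_index S
    have h2' : Nat.card φ'.range * φ'.range.index = Nat.card X := Subgroup.card_mul_index _
    have h3 : φ'.range.index = φ'.range.relIndex S := by
      rw [← Subgroup.relIndex_top_right, ← hX, sup_comm, Subgroup.relIndex_sup_right]
    have h4 : Nat.card (φ'.range ⊓ S : Subgroup X) * φ'.range.relIndex S = Nat.card S := by
      have := Subgroup.relIndex_mul_relIndex (⊥ : Subgroup X) (φ'.range ⊓ S) S bot_le inf_le_right
      rwa [Subgroup.inf_relIndex_right, Subgroup.relIndex_bot_left, Subgroup.relIndex_bot_left] at this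
    have h5 : S.index * Nat.card (φ'.range ⊓ S : Subgroup X) = Nat.card φ'.range := by
      have hpos : 0 < φ'.range.relIndex S := Nat.pos_of_ne_zero (by
        rw [← h3]; exact Subgroup.index_ne_zero_of_finite)
      apply Nat.eq_of_mul_eq_mul_right hpos
      rw [mul_assoc, h4, h1, ← h2', h3]
    have h6 : Nat.card Q ∣ Nat.card (φ'.range ⊓ S : Subgroup X) :=
      Subgroup.card_dvd_of_le (le_inf (Subgroup.map_le_range φ' _) le_sup_left)
    obtain ⟨c, hc⟩ := h6
    rw [hc, Nat.card_congr (MonoidHom.ofInjective hφ').toEquiv.symm,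
      show Nat.card Q = Nat.card (P : Subgroup G) from
        (Nat.card_congr ((P : Subgroup G).equivMapOfInjective φ' hφ').toEquiv).symm,
      ← Subgroup.card_mul_index (P : Subgroup G)] at h5
    intro hd
    apply P.not_dvd_index
    have : (P : Subgroup G).index = S.index * c := by
      apply Nat.eq_of_mul_eq_mul_left (Nat.card_pos (α := (P : Subgroup G)))
      rw [← h5]; ring
    rw [this]; exact dvd_mul_of_dvd_left hd c
  let T : Sylow 2 X := hSp.toSylow hidx
  have hTS : (T : Subgroup X) = S := IsPGroup.toSylow_coe hSp hidx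
  have hcomm : IsMulCommutative (T : Subgroup X) := ⟨⟨fun x y => Subtype.ext
    (habS x (hTS ▸ x.2) y (hTS ▸ y.2))⟩⟩
  -- no fixed involution
  have hinv : ∀ u ∈ (T : Subgroup X), orderOf u = 2 →
      (∀ n ∈ Subgroup.normalizer ((T : Subgroup X) : Set X), n * u * n⁻¹ = u) → False := by
    intro u huT hu hun
    obtain ⟨N, hNn, hNodd, hNc⟩ := zstar_sylow brauerSuzukiProp T u hu (fun g hg => by
      obtain ⟨n, hn, hne⟩ := T.conj_eq_normalizer_conj_of_mem u g⁻¹ huT (by simpa using hg)
      have h := hun n⁻¹ (inv_mem hn)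
      simp only [inv_inv] at h hne
      rw [hne, h])
    haveI := hNn
    have hbot : ∀ g : G, φ' g ∈ N → g = 1 := by
      intro g hg
      have hle := Core.le_pPrimeCore (p := 2) (N := N.comap φ') inferInstance (by
        have hd : Nat.card (N.comap φ') ∣ Nat.card N :=
          Subgroup.card_dvd_of_injective (φ'.subgroupComap N)
            (fun x y h => Subtype.ext (hφ' (congrArg Subtype.val h)))
        exact Nat.Coprime.coprime_dvd_left hd (Nat.coprime_two_right.2 hNodd))
      rw [hcore] at hle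
      exact Subgroup.mem_bot.1 (hle hg)
    have hcen : ∀ g : G, u * φ' g * u⁻¹ = φ' g := by
      intro g
      obtain ⟨h, hh⟩ : u * φ' g * u⁻¹ ∈ φ'.range := hnI.conj_mem _ ⟨g, rfl⟩ u
      have hm : φ' (h * g⁻¹) ∈ N := by
        rw [map_mul, map_inv, hh]; exact hNc (φ' g)
      have := mul_inv_eq_one.1 (hbot _ hm)
      rw [← hh, this]
    have : u = 1 := by
      apply Subtype.ext
      ext g
      show (u : MulAut G) g = g
      apply hφ
      have h := congrArg Subtype.val (hcen g)
      calc φ ((u : MulAut G) g) = (u : MulAut G) * φ g * (u : MulAut G)⁻¹ := by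
            ext x; simp [φ, MulAut.conj_apply]
        _ = φ g := h
    rw [this, orderOf_one] at hu
    exact absurd hu (by norm_num)
  have hfixT : ∀ s ∈ (T : Subgroup X),
      (∀ n ∈ Subgroup.normalizer ((T : Subgroup X) : Set X), n * s * n⁻¹ = s) → s = 1 := by
    intro s hs hn
    by_contra hne
    obtain ⟨k, hk⟩ := T.isPGroup' ⟨s, hs⟩
    have hdvd : orderOf s ∣ 2 ^ k := orderOf_dvd_of_pow_eq_one (by
      simpa using congrArg Subtype.val hk)
    obtain ⟨l, -, hl⟩ := (Nat.dvd_prime_pow Nat.prime_two).1 hdvd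
    have hl0 : l ≠ 0 := by
      rintro rfl; exact hne (orderOf_eq_one_iff.1 (by simpa using hl))
    refine hinv (s ^ 2 ^ (l - 1)) (pow_mem hs _) ?_ ?_
    · obtain ⟨l, rfl⟩ := Nat.exists_eq_succ_of_ne_zero hl0
      rw [orderOf_pow' _ (pow_ne_zero _ two_ne_zero), hl, Nat.succ_eq_add_one, Nat.add_sub_cancel,
        Nat.gcd_eq_right (pow_dvd_pow 2 (Nat.le_succ l)), pow_succ,
        Nat.mul_div_cancel_left _ (pow_pos two_pos l)]
    · intro n hn'
      rw [← conj_pow, hn n hn']
  have htop := normal_eq_top_of_fixed_bot T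
    (fun x hx y hy => habS x (hTS ▸ hx) y (hTS ▸ hy)) hfixT φ'.range (by rw [hTS]; exact hX)
  obtain ⟨g, hg⟩ : a ∈ φ'.range := by rw [htop]; trivial
  exact ⟨g, fun x => (congrArg (fun e : X => (e : MulAut G) x) hg).symm⟩

end Cfsg.Agent.Blocks
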