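import Cfsg.Agent.BlockChar.InducedApps
import Cfsg.Agent.Blocks.Height

/-! Külshammer's formula for the principal block idempotent. -/

set_option autoImplicit false
set_option linter.style.haveILetI false
set_option linter.unusedSectionVars false

namespace Cfsg.Agent.Blocks

open Cfsg Cfsg.Agent Cfsg.Agent.BlockChar
open scoped MonoidAlgebra ComplexConjugate

universe u v

section frob

variable {k : Type v} [Field k] {G : Type u} [Group G] [Fintype G] [DecidableEq G] {p : ℕ}
  [Fact p.Prime] [CharP k p]

theorem coeff_pow_sum (a : k[G]) : ∀ (m : ℕ) (g : G), (a ^ m).coeff g =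
    ∑ v : Fin m → G, if (List.ofFn v).prod = g then ∏ i, a.coeff (v i) else 0 := by
  intro m
  induction m with
  | zero =>
    intro g
    rw [pow_zero, MonoidAlgebra.one_def, MonoidAlgebra.coeff_single_apply]
    simp [Fintype.univ_ofSubsingleton]
  | succ m ih =>
    intro g
    rw [pow_succ', coeff_mul_sum, ← (Fin.consEquiv fun _ : Fin (m + 1) => G).sum_comp,
      Fintype.sum_prod_type]
    refine Finset.sum_congr rfl fun x _ => ?_
    rw [ih, Finset.mul_sum]
    refine Finset.sum_congr rfl fun v _ => ?_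
    have e : (List.ofFn ((Fin.consEquiv fun _ : Fin (m + 1) => G) (x, v))).prod =
        x * (List.ofFn v).prod := by simp [Fin.consEquiv, List.ofFn_succ]
    have e2 : ∏ i, a.coeff (((Fin.consEquiv fun _ : Fin (m + 1) => G) (x, v)) i) =
        a.coeff x * ∏ i, a.coeff (v i) := by simp [Fin.consEquiv, Fin.prod_univ_succ]
    rw [e, e2]
    by_cases h : (List.ofFn v).prod = x⁻¹ * g
    · rw [if_pos h, if_pos (by rw [h, mul_inv_cancel_left])]
    · rw [if_neg h, if_neg (fun h' => h (by rw [← h', inv_mul_cancel_left])), mul_zero]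

theorem prod_rotate {m : ℕ} (v : Fin (m + 1) → G) :
    (List.ofFn (v ∘ finRotate (m + 1))).prod = (v 0)⁻¹ * (List.ofFn v).prod * v 0 := by
  conv_lhs => rw [List.ofFn_succ', List.concat_eq_append, List.prod_append, List.prod_singleton]
  conv_rhs => rw [List.ofFn_succ, List.prod_cons, inv_mul_cancel_left]
  congr 1
  · congr 1
    refine congrArg List.ofFn (funext fun i => ?_)
    simp [finRotate_apply, Fin.coeSucc_eq_succ]
  · simp

theorem finRotate_pow_self (m : ℕ) : finRotate (m + 1) ^ (m + 1) = 1 := by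
  ext i
  have hh : ∀ (j : ℕ) (i : Fin (m + 1)), (finRotate (m + 1) ^ j) i = i + j • (1 : Fin (m + 1)) := by
    intro j
    induction j with
    | zero => intro i; simp
    | succ j ih =>
      intro i
      rw [pow_succ', Equiv.Perm.mul_apply, ih, finRotate_apply, succ_nsmul, add_assoc]
  have h0 : (m + 1) • (1 : Fin (m + 1)) = 0 := by
    simpa using card_nsmul_eq_zero' (G := Fin (m + 1)) (x := 1)
  rw [hh, h0, add_zero, Equiv.Perm.one_apply]

/-- The coefficient at `1` of a `p`-power of an element of the group algebra. -/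
theorem coeff_pow_ppow (a : k[G]) (n : ℕ) :
    (a ^ p ^ n).coeff 1 =
      (∑ x ∈ Finset.univ.filter (fun x : G => x ^ p ^ n = 1), a.coeff x) ^ p ^ n := by
  classical
  have hp := (Fact.out : p.Prime)
  obtain ⟨m, hm⟩ : ∃ m, p ^ n = m + 1 :=
    Nat.exists_eq_add_of_le' (Nat.one_le_pow _ _ hp.pos)
  rw [sum_pow_char_pow, coeff_pow_sum, ← Finset.sum_filter, hm]
  set T := {v : Fin (m + 1) → G // (List.ofFn v).prod = 1}
  rw [Finset.sum_subtype (p := fun v : Fin (m + 1) → G => (List.ofFn v).prod = 1)
    (Finset.univ.filter fun v : Fin (m + 1) → G => (List.ofFn v).prod = 1) (fun v => by simp)]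
  let σ : Equiv.Perm T :=
    { toFun := fun v => ⟨v.1 ∘ finRotate (m + 1), by rw [prod_rotate, v.2]; simp⟩
      invFun := fun v => ⟨v.1 ∘ (finRotate (m + 1)).symm, by
        have h := prod_rotate (v.1 ∘ (finRotate (m + 1)).symm)
        rw [Function.comp_assoc, Equiv.symm_comp_self, Function.comp_id, v.2] at h
        have h2 := congrArg (fun z => (v.1 ∘ (finRotate (m + 1)).symm) 0 * z *
          ((v.1 ∘ (finRotate (m + 1)).symm) 0)⁻¹) h
        simpa [mul_assoc] using h2.symm⟩
      left_inv := fun v => Subtype.ext (by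
        simp [Function.comp_assoc])
      right_inv := fun v => Subtype.ext (by
        simp [Function.comp_assoc]) }
  have hσ : ∀ (j : ℕ) (v : T), ((σ ^ j) v).1 = v.1 ∘ (finRotate (m + 1) ^ j : Equiv.Perm _) := by
    intro j
    induction j with
    | zero => intro v; rfl
    | succ j ih =>
      intro v
      rw [pow_succ, Equiv.Perm.mul_apply, ih]
      funext i
      show v.1 (finRotate (m + 1) ((finRotate (m + 1) ^ j : Equiv.Perm _) i)) = _
      rw [← Equiv.Perm.mul_apply, ← pow_succ']
      rfl
  have hσq : σ ^ p ^ n = 1 := by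
    ext v
    rw [hσ, hm, finRotate_pow_self]
    rfl
  have hP : IsPGroup p (Subgroup.zpowers σ) := by
    obtain ⟨i, -, hi⟩ := (Nat.dvd_prime_pow hp).1 (orderOf_dvd_of_pow_eq_one hσq)
    exact IsPGroup.of_card (n := i) (by rw [Nat.card_zpowers, hi])
  let F : T → k := fun v => ∏ i, a.coeff (v.1 i)
  have hF : ∀ (q : Subgroup.zpowers σ) (v : T), F (q • v) = F v := by
    rintro ⟨q, hq⟩ v
    rw [IsOfFinOrder.mem_zpowers_iff_mem_range_orderOf (isOfFinOrder_of_finite σ)] at hq
    obtain ⟨j, -, rfl⟩ := Finset.mem_image.1 hq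
    show ∏ i, a.coeff (((σ ^ j) v).1 i) = _
    rw [hσ]
    exact Equiv.prod_comp (finRotate (m + 1) ^ j : Equiv.Perm _) (fun i => a.coeff (v.1 i))
  rw [Cfsg.Agent.Blocks.sum_eq_sum_fixed (p := p) hP
    (fun c => by rw [nsmul_eq_mul, CharP.cast_eq_zero, zero_mul]) F hF]
  refine Finset.sum_bij' (fun v _ => v.1 0) (fun x hx => ⟨fun _ => x, by
      rw [List.ofFn_const, List.prod_replicate]; exact (Finset.mem_filter.1 hx).2⟩) ?_ ?_ ?_ ?_ ?_
  all_goals
    intro v hv
    obtain ⟨-, hv'⟩ := Finset.mem_filter.1 hv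
  · have hconst : ∀ i, v.1 i = v.1 0 := by
      have hfix : ∀ i, v.1 (finRotate (m + 1) i) = v.1 i := fun i =>
        congrFun (congrArg Subtype.val (hv' ⟨σ, Subgroup.mem_zpowers σ⟩)) i
      intro i
      induction i using Fin.induction with
      | zero => rfl
      | succ i ih =>
        rw [← ih, ← hfix i.castSucc]
        congr 1
        rw [finRotate_succ_apply, Fin.coeSucc_eq_succ]
    refine Finset.mem_filter.2 ⟨Finset.mem_univ _, ?_⟩
    have h := v.2
    rwa [show v.1 = fun _ => v.1 0 from funext hconst, List.ofFn_const, List.prod_replicate] at h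
  · refine Finset.mem_filter.2 ⟨Finset.mem_univ _, fun q => ?_⟩
    obtain ⟨q, hq⟩ := q
    rw [IsOfFinOrder.mem_zpowers_iff_mem_range_orderOf (isOfFinOrder_of_finite σ)] at hq
    obtain ⟨j, -, rfl⟩ := Finset.mem_image.1 hq
    refine Subtype.ext ?_
    show ((σ ^ j) _).1 = _
    rw [hσ]
    rfl
  · refine Subtype.ext (funext fun i => ?_)
    have hfix : ∀ i, v.1 (finRotate (m + 1) i) = v.1 i := fun i =>
      congrFun (congrArg Subtype.val (hv' ⟨σ, Subgroup.mem_zpowers σ⟩)) i
    show v.1 0 = v.1 i
    induction i using Fin.induction with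
    | zero => rfl
    | succ i ih =>
      rw [ih, ← hfix i.castSucc]
      congr 1
      rw [finRotate_succ_apply, Fin.coeSucc_eq_succ]
  · rfl
  · have hfix : ∀ i, v.1 (finRotate (m + 1) i) = v.1 i := fun i =>
      congrFun (congrArg Subtype.val (hv' ⟨σ, Subgroup.mem_zpowers σ⟩)) i
    have hconst : ∀ i, v.1 i = v.1 0 := by
      intro i
      induction i using Fin.induction with
      | zero => rfl
      | succ i ih =>
        rw [← ih, ← hfix i.castSucc]
        congr 1
        rw [finRotate_succ_apply, Fin.coeSucc_eq_succ]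
    show ∏ i, a.coeff (v.1 i) = _
    rw [Finset.prod_congr rfl (fun i _ => by rw [hconst i]), Finset.prod_const, Finset.card_univ,
      Fintype.card_fin]

open scoped Classical in
/-- Külshammer's lemma on central idempotents modulo nilpotents. -/
theorem sum_coeff_shift {e z : k[G]} (he : e * e = e) (hec : ∀ h : G, e.coeff (h * 1 * h⁻¹) = e.coeff 1)
    (hz : IsNilpotent (z - e)) (hze : Commute e z) {g : G} (hg : ¬ p ∣ orderOf g)
    (hzg : Commute z (MonoidAlgebra.single g⁻¹ 1)) :
    ∑ x ∈ Finset.univ.filter (fun x : G => ∃ j, orderOf x = p ^ j), z.coeff (x * g) = e.coeff g := by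
  classical
  have hp := (Fact.out : p.Prime)
  obtain ⟨N, hN⟩ := hz
  set o := orderOf g with ho
  set k₀ := (N + (Nat.card G).factorization p + 1) * Nat.totient o with hk₀
  have hopos : 0 < o := orderOf_pos g
  have hk : N + (Nat.card G).factorization p + 1 ≤ k₀ := Nat.le_mul_of_pos_right _ (Nat.totient_pos.2 hopos)
  set S := ∑ x ∈ Finset.univ.filter (fun x : G => ∃ j, orderOf x = p ^ j), z.coeff (x * g) with hS
  have key : ∀ t : ℕ, 0 < t → S ^ p ^ (k₀ * t) = e.coeff g := by
    intro t ht
    set n := k₀ * t with hn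
    have hn' : N + (Nat.card G).factorization p + 1 ≤ n := hk.trans (Nat.le_mul_of_pos_right _ ht)
    set a := z * MonoidAlgebra.single g⁻¹ (1 : k) with ha
    have hfil : Finset.univ.filter (fun x : G => x ^ p ^ n = 1) =
        Finset.univ.filter (fun x : G => ∃ j, orderOf x = p ^ j) := by
      refine Finset.filter_congr fun x _ => ?_
      rw [← orderOf_dvd_iff_pow_eq_one, Nat.dvd_prime_pow hp]
      constructor
      · rintro ⟨j, -, hj⟩; exact ⟨j, hj⟩
      · rintro ⟨j, hj⟩
        refine ⟨j, ?_, hj⟩
        have h1 : p ^ j ∣ Nat.card G := hj ▸ orderOf_dvd_natCard x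
        exact ((hp.pow_dvd_iff_le_factorization Nat.card_pos.ne').1 h1).trans (by omega)
    have hcoef : ∀ (w : k[G]) (x : G), (w * MonoidAlgebra.single g⁻¹ (1 : k)).coeff x = w.coeff (x * g) := by
      intro w x
      rw [coeff_mul_sum, Finset.sum_eq_single (x * g)]
      · rw [MonoidAlgebra.coeff_single_apply, if_pos (by group), mul_one]
      · intro y _ hy
        rw [MonoidAlgebra.coeff_single_apply, if_neg (fun h => hy ?_), mul_zero]
        have := congrArg (fun w => y * w * g) h.symm
        simpa [mul_assoc] using this.symm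
      · simp
    have h1 := coeff_pow_ppow (p := p) a n
    rw [hfil, Finset.sum_congr rfl (fun x _ => hcoef z x)] at h1
    rw [hS, ← h1, ha, hzg.mul_pow]
    have hzq : z ^ p ^ n = e := by
      have hcom : Commute e (z - e) := hze.sub_right (Commute.refl e)
      have hpow : ∀ i : ℕ, 0 < i → e ^ i = e := by
        intro i hi
        induction i with
        | zero => omega
        | succ i ih =>
          rcases Nat.eq_zero_or_pos i with rfl | h
          · rw [pow_one]
          · rw [pow_succ, ih h, he]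
      haveI : CharP k[G] p := charP_of_injective_ringHom
        (f := (MonoidAlgebra.singleOneRingHom : k →+* k[G])) (fun a b h => by simpa using h) p
      have hNle : N ≤ p ^ n := (Nat.lt_pow_self hp.one_lt).le.trans (Nat.pow_le_pow_right hp.pos (by omega))
      conv_lhs => rw [show z = e + (z - e) by abel]
      rw [add_pow_char_pow_of_commute (p := p) (h := hcom), hpow _ (Nat.pos_of_ne_zero (pow_ne_zero _ hp.ne_zero)),
        pow_eq_zero_of_le hNle hN, add_zero]
    have hgq : g⁻¹ ^ p ^ n = g⁻¹ := by
      have hcop : Nat.Coprime p o := hp.coprime_iff_not_dvd.2 hg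
      have h2 : p ^ n ≡ 1 [MOD o] := by
        rw [hn, hk₀, show (N + (Nat.card G).factorization p + 1) * Nat.totient o * t =
          Nat.totient o * ((N + (Nat.card G).factorization p + 1) * t) by ring, pow_mul]
        simpa using (Nat.ModEq.pow_totient hcop).pow _
      conv_rhs => rw [← pow_one g⁻¹]
      exact pow_eq_pow_iff_modEq.2 (by rw [orderOf_inv, ← ho]; exact h2)
    rw [MonoidAlgebra.single_pow, one_pow, hgq, hzq, hcoef, one_mul]
  have h1 := key 1 one_pos
  have h2 := key 2 two_pos
  rw [mul_one] at h1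
  rw [show k₀ * 2 = k₀ + k₀ by ring, pow_add, pow_mul, h1] at h2
  have h3 : (S ^ p ^ k₀ - S) ^ p ^ k₀ = 0 := by
    rw [sub_pow_char_pow, h1, h2, sub_self]
  exact ((sub_eq_zero.1 ((pow_eq_zero_iff (pow_ne_zero _ hp.ne_zero)).1 h3)).symm.trans h1)

end frob

variable {G : Type u} [Group G] [Fintype G] {p : ℕ} [Fact p.Prime] {M : Ideal AlgInt} [M.IsMaximal]

/-- Külshammer's formula. -/
theorem kulshammer (hpM : (p : AlgInt) ∈ M) {g : G} (hg : ¬ p ∣ orderOf g) :
    MemLocalIdeal M (blockCoeff (principalBlock M G) g -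
      (Nat.card {xy : G × G // (∃ k : ℕ, orderOf xy.1 = p ^ k) ∧ ¬ p ∣ orderOf xy.2 ∧ xy.1 * xy.2 = g} : ℂ) /
        (Nat.card {y : G // ¬ p ∣ orderOf y} : ℂ)) := by
  classical
  haveI := charP_res (p := p) hpM
  set B := principalBlock M G with hB
  set f := regConj p ((oneChar G : IrrCharacter G) : G → ℂ) with hf
  have hf' : ∀ x, f x = if ¬ p ∣ orderOf x then 1 else 0 := fun x => by
    rw [hf, regConj_apply, coe_oneChar]; simp
  set R := Nat.card {y : G // ¬ p ∣ orderOf y} with hR
  have hω1 : omega ((oneChar G : IrrCharacter G) : G → ℂ) f = (R : ℂ) := by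
    rw [omega, coe_oneChar, div_one]
    simp only [hf', mul_one, Finset.sum_boole]
    rw [hR, Nat.card_eq_fintype_card, Fintype.card_subtype]
  have hRu : ¬ p ∣ R := fun h => by
    refine not_memI_omega_regConj hpM (isPBlock_principal (M := M)) one_mem_principal
      (blockHeight_oneChar (p := p) B) one_mem_principal ?_
    rw [← hf, hω1]
    exact (memI_natCast_iff hpM R).2 h
  have hfc : IsClassFunction G f := isClassFunction_regConj (Chars.isClassFunction_irr _)
  set c := (R : ℂ)⁻¹ • f with hc
  have hcc : IsClassFunction G c := Chars.isClassFunction_smul _ hfc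
  have hcR : RFun M c := rFun_smul (memR_inv_natCast hpM hRu) (rFun_regConj _)
  have heR := rFun_blockCoeff hpM (isPBlock_principal (G := G) (M := M))
  have hnil : IsNilpotent (red M (MonoidHom.id G) c - idemG M B) := by
    show IsNilpotent (red M (MonoidHom.id G) c - red M (MonoidHom.id G) (blockCoeff B))
    rw [← red_sub Function.injective_id hcR heR]
    refine isNilpotent_red Function.injective_id hpM
      (Chars.isClassFunction_sub hcc (isClassFunction_blockCoeff B)) (rFun_sub hcR heR) fun χ => ?_
    rw [omega_sub, hc, omega_smul, omega_blockCoeff]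
    split_ifs with h
    · have h1 := omega_congr (M := M) (χ := χ) (ψ := oneChar G)
        (fun x => by have := memI_neg (h x); simpa [coe_oneChar] using this) hfc (rFun_regConj _)
      rw [hω1] at h1
      have hR0 : (R : ℂ) ≠ 0 := Nat.cast_ne_zero.2 fun h => hRu (h ▸ dvd_zero p)
      rw [show (R : ℂ)⁻¹ * omega (χ : G → ℂ) f - 1 = (R : ℂ)⁻¹ * (omega (χ : G → ℂ) f - R) by
        field_simp]
      exact memI_mul_left (memR_inv_natCast hpM hRu) h1
    · rw [sub_zero]
      refine memI_mul_left (memR_inv_natCast hpM hRu) ?_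
      rw [omega_regConj_of_not_sameBlock hpM fun hs => h fun x => by
        have := memI_neg (hs x); simpa [coe_oneChar] using this]
      exact memI_zero
  have hcent : CentralIn (⊤ : Subgroup G) (red M (MonoidHom.id G) c) := by
    have := centralIn_red (M := M) (ι := MonoidHom.id G) Function.injective_id hcc
    rwa [range_id] at this
  have hblk := isBlk_idemG hpM (isPBlock_principal (G := G) (M := M))
  have hsupp : ∀ w : (Res M)[G], SupportedIn (⊤ : Subgroup G) w := fun w x hx => absurd (Subgroup.mem_top x) hx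
  have key := sum_coeff_shift (p := p) (e := idemG M B) (z := red M (MonoidHom.id G) c)
    hblk.idem (fun h => by rw [mul_one, mul_inv_cancel]) hnil
    ((hcent.comm (hsupp _)).symm) hg (hcent.comm (hsupp _))
  rw [coeff_idemG] at key
  have hco : ∀ x : G, (red M (MonoidHom.id G) c).coeff x = res M (c x) :=
    fun x => coeff_red (M := M) (ι := MonoidHom.id G) Function.injective_id c x
  simp only [hco] at key
  rw [← res_sum _ _ fun x _ => hcR (x * g)] at key
  have h := (res_eq_iff (memR_sum _ _ fun x _ => hcR (x * g)) (heR g)).mp key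
  have hNsum : ∑ x ∈ Finset.univ.filter (fun x : G => ∃ j, orderOf x = p ^ j), c (x * g) =
      (Nat.card {xy : G × G // (∃ k : ℕ, orderOf xy.1 = p ^ k) ∧ ¬ p ∣ orderOf xy.2 ∧ xy.1 * xy.2 = g} : ℂ) / (R : ℂ) := by
    simp only [hc, Pi.smul_apply, smul_eq_mul, ← Finset.mul_sum, hf', Finset.sum_boole]
    rw [div_eq_inv_mul]
    congr 2
    rw [Finset.filter_filter, ← Fintype.card_subtype, ← Nat.card_eq_fintype_card]
    exact Nat.card_congr
      { toFun := fun x => ⟨(x.1⁻¹, x.1 * g), by rw [orderOf_inv]; exact x.2.1, x.2.2, inv_mul_cancel_left _ _⟩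
        invFun := fun xy => ⟨xy.1.1⁻¹, by rw [orderOf_inv]; exact xy.2.1, by
          have h : xy.1.1⁻¹ * g = xy.1.2 := inv_mul_eq_of_eq_mul xy.2.2.2.symm
          rw [h]; exact xy.2.2.1⟩
        left_inv := fun x => Subtype.ext (inv_inv _)
        right_inv := fun xy => Subtype.ext (Prod.ext (inv_inv _) (by
          show xy.1.1⁻¹ * g = xy.1.2
          exact inv_mul_eq_of_eq_mul xy.2.2.2.symm)) }
  rw [hNsum] at h
  simpa using memI_neg h

end Cfsg.Agent.Blocks
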