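import Cfsg.Agent.Blocks.RootAverage
import Cfsg.Agent.OddChar.GaloisAut

/-!
The counting argument for a contribution matrix of small trace.
-/

set_option autoImplicit false

namespace Cfsg.Agent.Blocks.RootAvg

open scoped ComplexConjugate
open Finset

variable {ι : Type*} [Fintype ι]

/-- The matrix applied to a vector. -/
def mulA (A : ι → ι → ℤ) (v : ι → ℤ) (ψ : ι) : ℤ := ∑ φ, A ψ φ * v φ

/-- The bilinear form of the matrix. -/
def qf (A : ι → ι → ℤ) (v w : ι → ℤ) : ℤ := ∑ φ, v φ * mulA A w φ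

variable {A : ι → ι → ℤ} {D : ℤ}

theorem mulA_sub (v w : ι → ℤ) (ψ : ι) :
    mulA A (fun φ => v φ - w φ) ψ = mulA A v ψ - mulA A w ψ := by
  simp only [mulA, mul_sub, sum_sub_distrib]

theorem qf_comm (hsym : ∀ a b, A a b = A b a) (v w : ι → ℤ) : qf A v w = qf A w v := by
  simp only [qf, mulA, mul_sum]
  rw [sum_comm]
  exact sum_congr rfl fun a _ => sum_congr rfl fun b _ => by rw [hsym b a]; ring

theorem sum_mulA_mul (hsym : ∀ a b, A a b = A b a)
    (hsq : ∀ a b, ∑ c, A a c * A c b = D * A a b) (v w : ι → ℤ) :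
    ∑ ψ, mulA A v ψ * mulA A w ψ = D * qf A v w := by
  simp only [qf, mulA]
  rw [sum_congr rfl fun ψ _ => sum_mul_sum _ _ _ _]
  simp only [mul_sum]
  rw [sum_comm]
  refine sum_congr rfl fun a _ => ?_
  rw [sum_comm]
  refine sum_congr rfl fun b _ => ?_
  calc ∑ c, A c a * v a * (A c b * w b) = (∑ c, A a c * A c b) * (v a * w b) := by
        rw [sum_mul]; exact sum_congr rfl fun c _ => by rw [hsym c a]; ring
    _ = _ := by rw [hsq]; ring

/-- The counting argument. -/
theorem card_le_of_trace {X : Type*} [Fintype X] {p k : ℕ} (hp : p.Prime) (hD : 0 < D)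
    (hsym : ∀ a b, A a b = A b a) (hsq : ∀ a b, ∑ c, A a c * A c b = D * A a b)
    (htr : ∑ a, A a a ≤ 2 * D)
    (e : ι → ℕ) (he : ∀ φ, e φ < p * p ^ k) (n : X → ι → ℤ) {ω : ℂ}
    (hω : IsPrimitiveRoot ω (p * p ^ k))
    (hnorm : ∀ u : ι → ℤ,
      ∑ x, (∑ φ, ((n x φ * mulA A u φ : ℤ) : ℂ) * ω ^ e φ) *
          conj (∑ φ, ((n x φ * mulA A u φ : ℤ) : ℂ) * ω ^ e φ) =
        ((∑ φ, mulA A u φ ^ 2 : ℤ) : ℂ))
    (hmod : ∀ u w : ι → ℤ, (p : ℤ) ∣ qf A u u * qf A w w - qf A u w * qf A w u)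
    (good : X → Prop) (hex : ∃ η, good η)
    (hne : ∀ x η, good η → ∑ φ, ∑ φ', (n x φ : ℂ) * n η φ' * A φ φ' *
      (ω ^ e φ * conj (ω ^ e φ')) ≠ 0)
    (hpos : ∀ x, ¬ good x → (p : ℤ) ∣ qf A (n x) (n x)) :
    (Fintype.card X : ℤ) ≤ D := by
  classical
  set P := p ^ k with hP
  have hP0 : 0 < P := pow_pos hp.pos k
  have hp2 : (2 : ℤ) ≤ p := by exact_mod_cast hp.two_le
  -- the totals
  have htot : ∀ u : ι → ℤ, ∑ x, pairSum e p P (fun φ => n x φ * mulA A u φ) =
      2 * ((p : ℤ) - 1) * ∑ φ, mulA A u φ ^ 2 := by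
    intro u
    set c : ℤ := ∑ φ, mulA A u φ ^ 2 with hc
    have hj : ∀ j ∈ (range (p * P)).filter (fun j => ¬ p ∣ j),
        ∑ x, (∑ φ, ((n x φ * mulA A u φ : ℤ) : ℂ) * (ω ^ j) ^ e φ) *
          conj (∑ φ, ((n x φ * mulA A u φ : ℤ) : ℂ) * (ω ^ j) ^ e φ) = (c : ℂ) := by
      intro j hj
      rw [mem_filter] at hj
      have hcop : j.Coprime (p * P) := by
        rw [hP, ← pow_succ']
        exact Nat.Coprime.pow_right _ ((hp.coprime_iff_not_dvd.2 hj.2).symm)
      obtain ⟨σ, hσ⟩ := OddChar.exists_aut_pow (Nat.mul_pos hp.pos hP0).ne' hcop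
      have hroot : ∀ z : ℂ, z ^ (p * P) = 1 → conj z = z⁻¹ := fun z hz =>
        (Complex.inv_eq_conj (Complex.norm_eq_one_of_pow_eq_one hz
          (Nat.mul_pos hp.pos hP0).ne')).symm
      have hσω : σ ω = ω ^ j := hσ ω hω.pow_eq_one
      have hconj1 : conj ω = ω⁻¹ := hroot ω hω.pow_eq_one
      have hconj2 : conj (ω ^ j) = (ω ^ j)⁻¹ := hroot _ (by
        rw [← pow_mul, mul_comm, pow_mul, hω.pow_eq_one, one_pow])
      have h := congrArg σ (hnorm u)
      simp only [map_sum, map_mul, map_pow, map_intCast, hconj1, map_inv₀, hσω] at h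
      simpa only [map_sum, map_mul, map_pow, map_intCast, hconj2] using h
    have hcard : ((range (p * P)).filter (fun j => ¬ p ∣ j)).card + P = p * P := by
      have h1 := card_filter_add_card_filter_not (s := range (p * P)) fun j => ¬ p ∣ j
      have h2 : ((range (p * P)).filter (fun j => ¬¬ p ∣ j)).card = P := by
        symm
        rw [← card_range P]
        refine card_nbij (fun i => p * i) (fun i hi => ?_) (fun i _ i' _ h => ?_) (fun j hj => ?_)
        · simp only [coe_range, Set.mem_Iio] at hi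
          simp only [card_range, mem_coe, mem_filter, mem_range, not_not]
          exact ⟨Nat.mul_lt_mul_of_pos_left hi hp.pos, dvd_mul_right p i⟩
        · exact Nat.eq_of_mul_eq_mul_left hp.pos h
        · simp only [card_range, mem_coe, mem_filter, mem_range, not_not] at hj
          obtain ⟨i, rfl⟩ := hj.2
          exact ⟨i, mem_coe.2 (mem_range.2 (Nat.lt_of_mul_lt_mul_left hj.1)), rfl⟩
      rw [h2, card_range] at h1
      exact h1
    have key : (P : ℂ) * ((∑ x, pairSum e p P (fun φ => n x φ * mulA A u φ) : ℤ) : ℂ) =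
        2 * (((range (p * P)).filter (fun j => ¬ p ∣ j)).card : ℂ) * (c : ℂ) := by
      rw [Int.cast_sum, mul_sum]
      simp only [← galois_sum hp.pos hP0 he hω]
      rw [← mul_sum, sum_comm, sum_congr rfl hj, sum_const, nsmul_eq_mul, mul_assoc]
    have keyZ : (P : ℤ) * ∑ x, pairSum e p P (fun φ => n x φ * mulA A u φ) =
        2 * (((range (p * P)).filter (fun j => ¬ p ∣ j)).card : ℤ) * c := by exact_mod_cast key
    have hcardZ : (((range (p * P)).filter (fun j => ¬ p ∣ j)).card : ℤ) =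
        (P : ℤ) * ((p : ℤ) - 1) := by
      have : (((range (p * P)).filter (fun j => ¬ p ∣ j)).card : ℤ) + P = p * P := by
        exact_mod_cast hcard
      linarith
    rw [hcardZ] at keyZ
    refine mul_left_cancel₀ (Int.natCast_ne_zero.2 hP0.ne') (keyZ.trans ?_)
    ring
  -- the vectors of differences
  let dv : X → ℕ → ℕ → ℕ → ι → ℤ := fun x r t t' φ =>
    ((if e φ = r + P * t then (1 : ℤ) else 0) - (if e φ = r + P * t' then 1 else 0)) * n x φ
  have hdiff : ∀ (x : X) (c : ι → ℤ) (r t t' : ℕ),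
      cls e P (fun φ => n x φ * c φ) r t - cls e P (fun φ => n x φ * c φ) r t' =
        ∑ φ, c φ * dv x r t t' φ := fun x c r t t' => cls_diff e P (n x) c r t t'
  let QS : X → ℤ := fun x => ∑ r ∈ range P, ∑ t ∈ range p, ∑ t' ∈ range p,
    qf A (dv x r t t') (dv x r t t')
  have hq0 : ∀ v, 0 ≤ qf A v v := fun v => by
    have h := sum_mulA_mul hsym hsq v v
    have : (0 : ℤ) ≤ D * qf A v v := by
      rw [← h]; exact sum_nonneg fun ψ _ => mul_self_nonneg _
    exact nonneg_of_mul_nonneg_right this hD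
  have hqne : ∀ v ψ, mulA A v ψ ≠ 0 → 0 < qf A v v := fun v ψ hψ => by
    have h := sum_mulA_mul hsym hsq v v
    have : (0 : ℤ) < D * qf A v v := by
      rw [← h]
      exact sum_pos' (fun a _ => mul_self_nonneg _) ⟨ψ, mem_univ _, mul_self_pos.2 hψ⟩
    exact pos_of_mul_pos_right this hD.le
  have hQS : D * ∑ x, QS x ≤ 4 * ((p : ℤ) - 1) * D ^ 2 := by
    have h1 : ∀ x, D * QS x = ∑ ψ, pairSum e p P (fun φ => n x φ * A ψ φ) := fun x => by
      simp only [QS, mul_sum, pairSum]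
      rw [sum_comm (s := (univ : Finset ι))]
      refine sum_congr rfl fun r _ => ?_
      rw [sum_comm (s := (univ : Finset ι))]
      refine sum_congr rfl fun t _ => ?_
      rw [sum_comm (s := (univ : Finset ι))]
      refine sum_congr rfl fun t' _ => ?_
      rw [← sum_mulA_mul hsym hsq]
      exact sum_congr rfl fun ψ _ => by rw [hdiff, sq]; rfl
    rw [mul_sum, sum_congr rfl fun x _ => h1 x, sum_comm]
    have h2 : ∀ ψ, ∑ x, pairSum e p P (fun φ => n x φ * A ψ φ) =
        2 * ((p : ℤ) - 1) * (D * A ψ ψ) := fun ψ => by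
      have h3 : ∀ φ, mulA A (fun a => if a = ψ then 1 else 0) φ = A ψ φ := fun φ => by
        simp only [mulA, mul_ite, mul_one, mul_zero, sum_ite_eq', mem_univ, if_true]
        exact hsym φ ψ
      have h := htot fun a => if a = ψ then 1 else 0
      simp only [h3] at h
      rw [h, ← hsq ψ ψ]
      congr 1
      exact sum_congr rfl fun φ _ => by rw [hsym φ ψ, sq]
    rw [sum_congr rfl fun ψ _ => h2 ψ, ← mul_sum, ← mul_sum]
    calc 2 * ((p : ℤ) - 1) * (D * ∑ i, A i i) ≤ 2 * ((p : ℤ) - 1) * (D * (2 * D)) := by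
          gcongr
          linarith
      _ = _ := by ring
  have finish : (∀ x, 4 * ((p : ℤ) - 1) ≤ QS x) → (Fintype.card X : ℤ) ≤ D := by
    intro h
    have h1 := card_nsmul_le_sum univ QS _ fun x _ => h x
    rw [nsmul_eq_mul, card_univ] at h1
    have h2 : ∑ x, QS x ≤ 4 * ((p : ℤ) - 1) * D := by
      refine le_of_mul_le_mul_left (hQS.trans ?_) hD
      rw [sq]; linarith
    exact le_of_mul_le_mul_right (h1.trans (le_of_le_of_eq h2 (mul_comm _ _))) (by linarith)
  -- a pair of unequal sums gives the bound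
  have big : ∀ (x : X) (R : ι → ι → ℤ), (∀ v ψ, ∑ φ, R ψ φ * v φ ≠ 0 → 2 ≤ qf A v v) →
      ∀ ψ, ∑ φ, ((n x φ * R ψ φ : ℤ) : ℂ) * ω ^ e φ ≠ 0 → 4 * ((p : ℤ) - 1) ≤ QS x := by
    intro x R hR ψ hψ
    obtain ⟨r, hr, t, ht, t', ht', h⟩ := exists_cls_ne hp.one_lt hP0 he hω hψ
    refine le_trans ?_ (single_le_sum
      (fun r _ => sum_nonneg fun _ _ => sum_nonneg fun _ _ => hq0 _) hr)
    refine le_trans (by linarith) (le_sum_pairs
      (fun t a => cls e P (fun φ => n x φ * R a φ) r t) (fun t t' => qf A (dv x r t t') (dv x r t t'))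
      2 zero_le_two (fun _ _ _ _ => hq0 _) (fun s _ s' _ hss => ?_) ht ht'
      (fun hh => h (congrFun hh ψ)))
    obtain ⟨a, ha⟩ := Function.ne_iff.1 hss
    refine hR _ a ?_
    rw [← hdiff]
    exact sub_ne_zero.2 ha
  have hQne : ∀ (x η : X), good η → ∃ ψ, ∑ φ, ((n x φ * A ψ φ : ℤ) : ℂ) * ω ^ e φ ≠ 0 := by
    intro x η hη
    by_contra hcon
    push Not at hcon
    refine hne x η hη ?_
    rw [sum_comm]
    refine sum_eq_zero fun ψ _ => ?_
    calc _ = (n η ψ : ℂ) * conj (ω ^ e ψ) * ∑ φ, ((n x φ * A ψ φ : ℤ) : ℂ) * ω ^ e φ := by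
          rw [mul_sum]
          refine sum_congr rfl fun φ _ => ?_
          rw [hsym ψ φ, Int.cast_mul]
          ring
      _ = 0 := by rw [hcon ψ, mul_zero]
  by_cases hu : ∃ u, qf A u u = 1
  swap
  · push Not at hu
    refine finish fun x => ?_
    obtain ⟨η, hη⟩ := hex
    obtain ⟨ψ, hψ⟩ := hQne x η hη
    refine big x A (fun v a ha => ?_) ψ hψ
    have h1 := hqne v a ha
    have h2 := hu v
    omega
  obtain ⟨u, hu⟩ := hu
  set a : ι → ℤ := mulA A u with ha
  let R : ι → ι → ℤ := fun ψ φ => A ψ φ - a ψ * a φ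
  let qr : (ι → ℤ) → ℤ := fun v => qf A v v - qf A v u ^ 2
  have haq : ∀ v, ∑ φ, a φ * v φ = qf A v u := fun v => sum_congr rfl fun φ _ => mul_comm _ _
  have hR : ∀ v ψ, ∑ φ, R ψ φ * v φ = mulA A v ψ - a ψ * qf A v u := fun v ψ => by
    simp only [R, sub_mul, sum_sub_distrib, mul_assoc, ← mul_sum, haq]; rfl
  have hqr : ∀ v, ∑ ψ, (∑ φ, R ψ φ * v φ) ^ 2 = D * qr v := fun v => by
    have h1 := sum_mulA_mul hsym hsq v v
    have h2 := sum_mulA_mul hsym hsq v u
    have h3 := sum_mulA_mul hsym hsq u u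
    rw [hu, ← ha] at h3
    rw [← ha] at h2
    simp only [hR, sub_sq, sum_add_distrib, sum_sub_distrib, mul_pow, ← sum_mul]
    rw [sum_congr rfl fun ψ _ => sq (a ψ), h3,
      sum_congr rfl fun ψ _ => sq (mulA A v ψ), h1]
    rw [show ∑ ψ, 2 * mulA A v ψ * (a ψ * qf A v u) = 2 * (D * qf A v u) * qf A v u by
      rw [← h2]; simp only [mul_sum, sum_mul]; exact sum_congr rfl fun ψ _ => by ring]
    simp only [qr]
    ring
  have hqr0 : ∀ v, 0 ≤ qr v := fun v => by
    refine nonneg_of_mul_nonneg_right ?_ hD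
    rw [← hqr]
    exact sum_nonneg fun ψ _ => sq_nonneg _
  have hqrp : ∀ v, (p : ℤ) ∣ qr v := fun v => by
    have h := hmod u v
    rwa [hu, one_mul, qf_comm hsym u v, ← sq] at h
  have hR2 : ∀ v ψ, ∑ φ, R ψ φ * v φ ≠ 0 → 2 ≤ qf A v v := fun v ψ hψ => by
    have h1 : 0 < qr v := by
      refine pos_of_mul_pos_right ?_ hD.le
      rw [← hqr]
      exact sum_pos' (fun _ _ => sq_nonneg _) ⟨ψ, mem_univ _, by positivity⟩
    have h2 := Int.le_of_dvd h1 (hqrp v)
    have h3 : qr v ≤ qf A v v := sub_le_self _ (sq_nonneg _)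
    linarith
  let Sa : X → ℂ := fun x => ∑ φ, ((n x φ * a φ : ℤ) : ℂ) * ω ^ e φ
  let Sr : X → ι → ℂ := fun x ψ => ∑ φ, ((n x φ * R ψ φ : ℤ) : ℂ) * ω ^ e φ
  have hsplit : ∀ x η, ∑ φ, ∑ φ', (n x φ : ℂ) * n η φ' * A φ φ' * (ω ^ e φ * conj (ω ^ e φ')) =
      Sa x * conj (Sa η) + ∑ φ', (n η φ' : ℂ) * conj (ω ^ e φ') * Sr x φ' := by
    intro x η
    simp only [Sa, Sr, map_sum, mul_sum, sum_mul, map_mul, map_intCast]
    rw [sum_comm, ← sum_add_distrib]
    refine sum_congr rfl fun φ' _ => ?_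
    rw [← sum_add_distrib]
    refine sum_congr rfl fun φ _ => ?_
    simp only [R]
    rw [hsym φ φ']
    push_cast [map_mul, map_intCast, map_pow]
    ring
  by_cases h1 : ∃ η, good η ∧ ∀ ψ, Sr η ψ = 0
  · obtain ⟨η, hη, hSr⟩ := h1
    have hlow : ∀ x, 2 * ((p : ℤ) - 1) ≤ pairSum e p P (fun φ => n x φ * mulA A u φ) := by
      intro x
      have hx : Sa x ≠ 0 := by
        intro h0
        have hc : ∑ φ, ∑ φ', (n η φ : ℂ) * n x φ' * A φ φ' * (ω ^ e φ * conj (ω ^ e φ')) = 0 := by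
          rw [hsplit η x, h0, map_zero, mul_zero, zero_add]
          exact sum_eq_zero fun φ' _ => by rw [hSr φ', mul_zero]
        refine hne x η hη ?_
        have hc' := congrArg conj hc
        rw [map_zero] at hc'
        rw [← hc']
        simp only [map_sum, map_mul, map_intCast, Complex.conj_conj]
        rw [sum_comm]
        exact sum_congr rfl fun φ _ => sum_congr rfl fun φ' _ => by rw [hsym φ φ']; ring
      obtain ⟨r, hr, t, ht, t', ht', h⟩ := exists_cls_ne hp.one_lt hP0 he hω hx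
      refine le_trans ?_ (single_le_sum (fun r _ => sum_nonneg fun _ _ =>
        sum_nonneg fun _ _ => sq_nonneg _) hr)
      refine le_trans (by linarith) (le_sum_pairs (cls e P (fun φ => n x φ * mulA A u φ) r)
        (fun t t' => (cls e P (fun φ => n x φ * mulA A u φ) r t -
          cls e P (fun φ => n x φ * mulA A u φ) r t') ^ 2)
        1 zero_le_one (fun _ _ _ _ => sq_nonneg _) (fun s _ s' _ hss => ?_) ht ht' h)
      have : 0 < (cls e P (fun φ => n x φ * mulA A u φ) r s -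
          cls e P (fun φ => n x φ * mulA A u φ) r s') ^ 2 := by
        have := sub_ne_zero.2 hss
        positivity
      omega
    have h2 := card_nsmul_le_sum univ _ _ fun x _ => hlow x
    rw [nsmul_eq_mul, card_univ, htot u] at h2
    have h3 := sum_mulA_mul hsym hsq u u
    rw [hu, mul_one] at h3
    simp only [sq, h3] at h2
    exact le_of_mul_le_mul_right (h2.trans_eq (mul_comm _ _)) (by linarith)
  push Not at h1
  refine finish fun x => ?_
  by_cases hx : ∃ ψ, Sr x ψ ≠ 0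
  · obtain ⟨ψ, hψ⟩ := hx
    exact big x R hR2 ψ hψ
  push Not at hx
  have hgx : ¬ good x := fun h => by
    obtain ⟨ψ, hψ⟩ := h1 x h
    exact hψ (hx ψ)
  have hSa : Sa x ≠ 0 := by
    intro h0
    obtain ⟨η, hη⟩ := hex
    refine hne x η hη ?_
    rw [hsplit, h0, zero_mul, zero_add]
    exact sum_eq_zero fun φ' _ => by rw [hx φ', mul_zero]
  have hdvd : (p : ℤ) ∣ ∑ φ, n x φ * a φ := by
    have h2 : (p : ℤ) ∣ qf A (n x) u ^ 2 := by
      have := dvd_sub (hpos x hgx) (hqrp (n x))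
      simpa [qr] using this
    have h3 := (Nat.prime_iff_prime_int.1 hp).dvd_of_dvd_pow h2
    rw [← haq] at h3
    simpa only [mul_comm] using h3
  obtain ⟨r, hr, t, ht, t', ht', h⟩ := exists_cls_ne hp.one_lt hP0 he hω hSa
  refine le_trans (four_le_pairSum he hdvd hr ht ht' h) ?_
  refine sum_le_sum fun r _ => sum_le_sum fun t _ => sum_le_sum fun t' _ => ?_
  rw [hdiff, haq]
  have := hqr0 (dv x r t t')
  simp only [qr] at this
  linarith

end Cfsg.Agent.Blocks.RootAvg
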