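import Cfsg.Agent.Blocks.MajorSection
import Cfsg.Agent.Blocks.RootLattice

/-!
A major subsection of rank at most two bounds the number of characters by the defect.
-/

namespace Cfsg.Agent.Blocks

open Cfsg Cfsg.Agent Cfsg.Agent.BlockChar
open scoped ComplexConjugate

set_option linter.unusedSectionVars false
set_option linter.style.haveILetI false
set_option maxHeartbeats 400000

universe u

variable {G : Type u} [Group G] [Fintype G] {p : ℕ} [Fact p.Prime] {M : Ideal AlgInt}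
  [M.IsMaximal] {y : G} {H : Subgroup G} [Fintype H]

/-- A major subsection of rank at most two. -/
theorem card_le_of_rank_le_two (hpM : (p : AlgInt) ∈ M) {B : Set (IrrCharacter G)}
    (hH : H = Subgroup.centralizer ({y} : Set G)) (hy : ∃ k : ℕ, orderOf y = p ^ k)
    {b : Set (IrrCharacter H)} (hind : IsInducedBlock M H b B)
    (hd : blockDefect p b = blockDefect p B) (hl : blockRank p b ≤ 2) :
    Nat.card B ≤ p ^ blockDefect p B := by
  classical
  obtain ⟨k, hk⟩ := hy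
  have hu : ∃ k : ℕ, orderOf y = p ^ k := ⟨k, hk⟩
  have hp : p.Prime := Fact.out
  have hyH : y ∈ H := hH ▸ Subgroup.mem_centralizer_singleton_iff.2 rfl
  have hyk : (⟨y, hyH⟩ : H) ^ p ^ (k + 1) = 1 := Subtype.ext (by
    show y ^ p ^ (k + 1) = 1
    rw [pow_succ, pow_mul, ← hk, pow_orderOf_eq_one, one_pow])
  have hc : ∀ c : H, (⟨y, hyH⟩ : H) * c = c * ⟨y, hyH⟩ := fun c =>
    Subtype.ext (commute_sec hH c).eq
  choose ζ hζk hζ using fun φ : IrrCharacter H => exists_central_scalar hpM hyk hc φ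
  have hp0 : p ^ (k + 1) ≠ 0 := pow_ne_zero _ hp.ne_zero
  haveI : NeZero (p ^ (k + 1)) := ⟨hp0⟩
  obtain ⟨ω, hω⟩ : ∃ ω : ℂ, IsPrimitiveRoot ω (p ^ (k + 1)) :=
    ⟨_, Complex.isPrimitiveRoot_exp _ hp0⟩
  choose e he heζ using fun φ => hω.eq_pow_of_pow_eq_one (hζk φ)
  have hres : ∀ χ : IrrCharacter G, IsCharacter H (fun h : H => (χ : G → ℂ) h) := fun χ =>
    Chars.isCharacter_restrict (Chars.irr_isCharacter χ) H
  choose n hn using fun (χ : IrrCharacter G) (φ : IrrCharacter H) =>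
    Chars.exists_classInner_eq_nat (hres χ) (Chars.irr_isCharacter φ)
  have hζ0 : ∀ φ, ζ φ ≠ 0 := fun φ h => by simpa [h, zero_pow hp0] using hζk φ
  have ha : ∀ (χ : IrrCharacter G) (φ : IrrCharacter H),
      classInner (fun c : H => (χ : G → ℂ) (y * (c : G))) (φ : H → ℂ) = (n χ φ : ℂ) * ζ φ := by
    intro χ φ
    rw [← hn χ φ, Chars.classInner_def, Chars.classInner_def, mul_assoc, Finset.sum_mul]
    congr 1
    refine Fintype.sum_equiv (Equiv.mulLeft (⟨y, hyH⟩ : H)) _ _ fun c => ?_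
    show (χ : G → ℂ) (y * (c : G)) * conj ((φ : H → ℂ) c) =
      (χ : G → ℂ) (y * (c : G)) * conj ((φ : H → ℂ) ((⟨y, hyH⟩ : H) * c)) * ζ φ
    rw [hζ φ, map_mul, ← Complex.inv_eq_conj (Complex.norm_eq_one_of_pow_eq_one (hζk φ) hp0)]
    field_simp [hζ0 φ]
  have hsec : ∀ (χ : IrrCharacter G) (s : H), secPart y b χ s =
      ∑ φ ∈ bf b, (n χ φ : ℂ) * ζ φ * (φ : H → ℂ) s := fun χ s => by
    rw [secPart, blockPart, finsum_mem_bf]
    refine Finset.sum_congr rfl fun φ _ => ?_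
    rw [← ha χ φ]
    congr 1
    exact congrArg (fun i => @classInner _ _ i _ _) (Subsingleton.elim _ _)
  obtain ⟨A, hA, hsym, -, -⟩ := exists_contribution hpM hind.1
  set d := blockDefect p b with hbd
  have hNH : (Nat.card H : ℂ) ≠ 0 := Chars.card_ne_zero
  obtain ⟨η, hη, hη0, r, hrR, hrη, hcongr, hrel⟩ := exists_congr_rank_one hpM hind.1 hA hsym
  set κ : IrrCharacter H → ℂ := fun φ => omega (η : H → ℂ) (regConj p (φ : H → ℂ)) with hκ
  have hκR : ∀ φ, MemLocalRing M (κ φ) := fun φ =>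
    omega_memR hpM η.2 (isClassFunction_regConj (Chars.isClassFunction_irr φ)) (rFun_regConj φ)
  -- the data of the lattice argument
  let ι := {φ // φ ∈ bf b}
  let A' : ι → ι → ℤ := fun φ ψ => A φ.1 ψ.1
  let n' : {χ // χ ∈ bf B} → ι → ℤ := fun χ φ => n χ.1 φ.1
  have hsum : ∀ {T : Type} [AddCommMonoid T] (f : IrrCharacter H → T),
      ∑ φ : ι, f φ.1 = ∑ φ ∈ bf b, f φ := fun f => Finset.sum_coe_sort (bf b) f
  have hA' : ∀ φ ψ : ι, (A' φ ψ : ℂ) =
      (p : ℂ) ^ d * regInner p (φ.1 : H → ℂ) (ψ.1 : H → ℂ) :=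
    fun φ ψ => hA φ.1 (mem_bf.1 φ.2) ψ.1
  have hsq : ∀ φ ψ : ι, ∑ c : ι, A' φ c * A' c ψ = (p : ℤ) ^ d * A' φ ψ := by
    intro φ ψ
    apply Int.cast_injective (α := ℂ)
    push_cast
    simp only [hA']
    rw [hsum (fun c => (p : ℂ) ^ d * regInner p (φ.1 : H → ℂ) (c : H → ℂ) *
      ((p : ℂ) ^ d * regInner p (c : H → ℂ) (ψ.1 : H → ℂ))),
      ← regInner_trans hpM hind.1 (φ := ψ.1) (mem_bf.1 φ.2)]
    simp only [Finset.mul_sum]
    exact Finset.sum_congr rfl fun c _ => by ring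
  have htr : ∑ φ : ι, A' φ φ ≤ 2 * (p : ℤ) ^ d := by
    have h1 : ((∑ φ : ι, A' φ φ : ℤ) : ℂ) = (p : ℂ) ^ d * (blockRank p b : ℂ) := by
      push_cast
      simp only [hA']
      rw [hsum (fun φ => (p : ℂ) ^ d * regInner p (φ : H → ℂ) (φ : H → ℂ)), ← Finset.mul_sum]
      congr 1
      refine mul_left_cancel₀ hNH ?_
      rw [card_mul_blockRank hpM hind.1, Finset.mul_sum]
      simp only [regInner, mul_inv_cancel_left₀ hNH, kerB]
      exact Finset.sum_comm
    have h2 : ∑ φ : ι, A' φ φ = (p : ℤ) ^ d * (blockRank p b : ℤ) := by exact_mod_cast h1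
    rw [h2, mul_comm (2 : ℤ)]
    exact mul_le_mul_of_nonneg_left (by exact_mod_cast hl) (by positivity)
  have hω' : IsPrimitiveRoot ω (p * p ^ k) := by rw [← pow_succ']; exact hω
  have hnorm : ∀ u : ι → ℤ,
      ∑ χ : {χ // χ ∈ bf B}, (∑ φ : ι, ((n' χ φ * RootAvg.mulA A' u φ : ℤ) : ℂ) * ω ^ e φ.1) *
          conj (∑ φ : ι, ((n' χ φ * RootAvg.mulA A' u φ : ℤ) : ℂ) * ω ^ e φ.1) =
        ((∑ φ : ι, RootAvg.mulA A' u φ ^ 2 : ℤ) : ℂ) := by
    intro u
    let W : H → ℂ := fun s => (p : ℂ) ^ d * (Nat.card H : ℂ)⁻¹ *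
      ∑ φ' : ι, (u φ' : ℂ) * conj ((φ'.1 : H → ℂ) s)
    have hc' : ∀ φ : ι, (RootAvg.mulA A' u φ : ℂ) = ∑ s ∈ regs p H, W s * (φ.1 : H → ℂ) s := by
      intro φ
      simp only [RootAvg.mulA, Int.cast_sum, Int.cast_mul, hA', regInner, W, Finset.mul_sum,
        Finset.sum_mul]
      rw [Finset.sum_comm]
      exact Finset.sum_congr rfl fun s _ => Finset.sum_congr rfl fun φ' _ => by ring
    have hS : ∀ χ : IrrCharacter G,
        ∑ φ : ι, ((n χ φ.1 : ℤ) : ℂ) * (RootAvg.mulA A' u φ : ℂ) * ω ^ e φ.1 =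
          ∑ s ∈ regs p H, W s * secPart y b χ s := by
      intro χ
      simp only [hc', hsec, Finset.mul_sum, Finset.sum_mul, ← hsum, heζ, Int.cast_natCast]
      rw [Finset.sum_comm]
      exact Finset.sum_congr rfl fun s _ => Finset.sum_congr rfl fun φ _ => by ring
    simp only [n', Int.cast_mul, hS]
    rw [Finset.sum_coe_sort (bf B) (fun χ => (∑ s ∈ regs p H, W s * secPart y b χ s) *
      conj (∑ s ∈ regs p H, W s * secPart y b χ s))]
    simp only [map_sum, map_mul, Finset.sum_mul_sum]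
    rw [Finset.sum_comm]
    push_cast
    simp only [sq]
    have hconjc : ∀ φ : ι, (RootAvg.mulA A' u φ : ℂ) * (RootAvg.mulA A' u φ : ℂ) =
        (∑ s ∈ regs p H, W s * (φ.1 : H → ℂ) s) *
          ∑ t ∈ regs p H, conj (W t) * conj ((φ.1 : H → ℂ) t) := fun φ => by
      nth_rw 2 [← map_intCast (starRingEnd ℂ) (RootAvg.mulA A' u φ)]
      rw [hc', map_sum]
      simp only [map_mul]
    simp only [hconjc, Finset.sum_mul_sum]
    rw [Finset.sum_comm (s := (Finset.univ : Finset ι))]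
    refine Finset.sum_congr rfl fun s hs => ?_
    rw [Finset.sum_comm, Finset.sum_comm (s := (Finset.univ : Finset ι))]
    refine Finset.sum_congr rfl fun t ht => ?_
    have h := sum_sec_block hH hu hpM hind hind.1 (mem_regs.1 hs) (mem_regs.1 ht)
    rw [if_pos rfl, kerB] at h
    rw [hsum (fun φ => W s * (φ : H → ℂ) s * (conj (W t) * conj ((φ : H → ℂ) t)))]
    calc _ = W s * conj (W t) * ∑ χ ∈ bf B, secPart y b χ s * conj (secPart y b χ t) := by
          rw [Finset.mul_sum]; exact Finset.sum_congr rfl fun χ _ => by ring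
      _ = _ := by rw [h, Finset.mul_sum]; exact Finset.sum_congr rfl fun φ _ => by ring
  -- the congruence to rank one
  let R : (ι → ℤ) → ℂ := fun v => ∑ φ : ι, (v φ : ℂ) * r φ.1
  let K : (ι → ℤ) → ℂ := fun v => ∑ φ : ι, (v φ : ℂ) * κ φ.1
  have hRR : ∀ v, MemLocalRing M (R v) := fun v => memR_sum _ _ fun φ _ =>
    memR_mul (memR_intCast _) (hrR φ.1 (mem_bf.1 φ.2))
  have hKR : ∀ v, MemLocalRing M (K v) := fun v => memR_sum _ _ fun φ _ =>
    memR_mul (memR_intCast _) (hκR φ.1)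
  have hrank : ∀ v w, MemLocalIdeal M ((RootAvg.qf A' v w : ℂ) - R v * K w) := by
    intro v w
    simp only [RootAvg.qf, RootAvg.mulA, R, K]
    rw [Finset.sum_mul_sum]
    simp only [Int.cast_sum, Int.cast_mul, Finset.mul_sum, ← Finset.sum_sub_distrib]
    refine memI_sum _ _ fun φ _ => memI_sum _ _ fun ψ _ => ?_
    have he' := memI_mul_left (memR_mul (memR_intCast (M := M) (v φ)) (memR_intCast (w ψ)))
      (hcongr φ.1 (mem_bf.1 φ.2) ψ.1 (mem_bf.1 ψ.2))
    convert he' using 1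
    simp only [A']
    ring
  have hmod : ∀ v w : ι → ℤ, (p : ℤ) ∣ RootAvg.qf A' v v * RootAvg.qf A' w w -
      RootAvg.qf A' v w * RootAvg.qf A' w v := by
    intro v w
    rw [← memI_intCast_iff hpM]
    have h1 := memI_add (memI_mul_left (memR_intCast (M := M) (RootAvg.qf A' w w)) (hrank v v))
      (memI_mul_left (memR_mul (hRR v) (hKR v)) (hrank w w))
    have h2 := memI_add (memI_mul_left (memR_intCast (M := M) (RootAvg.qf A' w v)) (hrank v w))
      (memI_mul_left (memR_mul (hRR v) (hKR w)) (hrank w v))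
    have h3 := memI_sub h1 h2
    convert h3 using 1
    push_cast
    ring
  have hpos : ∀ χ : {χ // χ ∈ bf B}, ¬ blockHeight p B (χ.1 : G → ℂ) = 0 →
      (p : ℤ) ∣ RootAvg.qf A' (n' χ) (n' χ) := by
    rintro ⟨χ, hχ⟩ h0
    rw [mem_bf] at hχ
    rw [← memI_intCast_iff hpM]
    refine (memI_iff_of_sub (hrank _ _)).2 (memI_mul_left (hRR _) ?_)
    have hstep := (memI_iff_of_sub (isInducedBlock_apply H hpM hind hη hχ
        (isClassFunction_regConj (Chars.isClassFunction_irr χ)) (rFun_regConj χ))).2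
      (memI_omega_regConj hpM hind.2.1 hχ h0 χ)
    have hsum' : resFun H (regConj p (χ : G → ℂ)) =
        ∑ φ : IrrCharacter H, (n χ φ : ℂ) • regConj p (φ : H → ℂ) := by
      funext c
      rw [resFun_regConj, Finset.sum_apply]
      have h2 : (χ : G → ℂ) c = ∑ φ : IrrCharacter H, (n χ φ : ℂ) * (φ : H → ℂ) c := by
        refine (congrFun (Chars.eq_sum_classInner
          (Chars.isClassFunction_of_isCharacter (hres χ))) c).trans ?_
        rw [Finset.sum_apply]
        exact Finset.sum_congr rfl fun φ _ => by rw [hn χ φ]; rfl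
      simp only [regConj_apply, resFun, Pi.smul_apply, smul_eq_mul]
      split_ifs
      · simp
      · rw [h2, map_sum]
        exact Finset.sum_congr rfl fun φ _ => by rw [map_mul, map_natCast]
    rw [hsum', omega_sum] at hstep
    simp only [omega_smul] at hstep
    rw [← Finset.sum_subset (Finset.subset_univ (bf b)) fun φ _ hφ => by
      rw [omega_regConj_of_not_sameBlock hpM
        (fun h => hφ (mem_bf.2 (mem_of_sameBlock hind.1 hη h))), mul_zero]] at hstep
    simp only [K, n', Int.cast_natCast]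
    rw [hsum (fun φ => (n χ φ : ℂ) * κ φ)]
    exact hstep
  have hne : ∀ χ ξ : {χ // χ ∈ bf B}, blockHeight p B (ξ.1 : G → ℂ) = 0 →
      ∑ φ : ι, ∑ φ' : ι, (n' χ φ : ℂ) * n' ξ φ' * A' φ φ' *
        (ω ^ e φ.1 * conj (ω ^ e φ'.1)) ≠ 0 := by
    intro χ ξ h0
    have hS := secInner_ne_zero hpM hH hu hind hd (mem_bf.1 χ.2) (mem_bf.1 ξ.2) h0
    have hpd : (p : ℂ) ^ d * (Nat.card H : ℂ)⁻¹ ≠ 0 :=
      mul_ne_zero (pow_ne_zero _ (Nat.cast_ne_zero.2 hp.ne_zero)) (inv_ne_zero hNH)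
    convert mul_ne_zero hpd hS using 1
    simp only [hA', regInner, hsec, ← hsum, n', heζ, Int.cast_natCast, map_sum, map_mul,
      map_natCast, Finset.mul_sum, Finset.sum_mul]
    rw [Finset.sum_comm_cycle]
    refine Finset.sum_congr rfl fun s _ => ?_
    rw [Finset.sum_comm]
    exact Finset.sum_congr rfl fun φ' _ => Finset.sum_congr rfl fun φ _ => by ring
  obtain ⟨ξ, hξ, hξ0⟩ := exists_height_zero (p := p) hind.2.1
  have hmain := RootAvg.card_le_of_trace (A := A') hp (pow_pos (Nat.cast_pos.2 hp.pos) d)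
    (fun φ ψ => hsym φ.1 (mem_bf.1 φ.2) ψ.1 (mem_bf.1 ψ.2)) hsq htr (fun φ => e φ.1)
    (fun φ => by rw [← pow_succ']; exact he φ.1) n' hω' hnorm hmod
    (fun χ => blockHeight p B (χ.1 : G → ℂ) = 0) ⟨⟨ξ, mem_bf.2 hξ⟩, hξ0⟩ hne hpos
  rw [Fintype.card_coe, ← card_bf, hd] at hmain
  exact_mod_cast hmain

end Cfsg.Agent.Blocks
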