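import Cfsg.Agent.Chars2.InduceTower
import Cfsg.Agent.Chars2.Correspondence
import Cfsg.Agent.Chars.Linear
import Cfsg.Agent.Chars.Brauer
import Cfsg.Agent.BlockChar.BrauerMap
import Cfsg.Agent.Core.MinimalNormal


/-!
Odd-degree characters induced from 2-power linear characters of overgroups of a Sylow 2-subgroup:
basic operations.
-/

set_option autoImplicit false
set_option linter.style.haveILetI false
set_option linter.unusedSectionVars false

namespace Cfsg.Agent.Blocks.OddLin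

open scoped ComplexConjugate
open Cfsg Cfsg.Agent

universe u

section general

variable {A B : Type u} [Group A] [Group B] [Fintype A] [Fintype B]

theorem sum_comp_surj (π : A →* B) (hπ : Function.Surjective π) (F : B → ℂ) :
    ∑ a, F (π a) = (Nat.card π.ker : ℂ) * ∑ b, F b := by
  classical
  rw [← Finset.sum_fiberwise Finset.univ π, Finset.mul_sum]
  refine Finset.sum_congr rfl fun b _ => ?_
  rw [Finset.sum_congr rfl (g := fun _ => F b) fun a ha => by rw [(Finset.mem_filter.1 ha).2],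
    Finset.sum_const, nsmul_eq_mul]
  congr 2
  obtain ⟨a₀, rfl⟩ := hπ b
  rw [← Fintype.card_subtype, ← Nat.card_eq_fintype_card]
  exact Nat.card_congr
    ⟨fun a => ⟨a₀⁻¹ * a.1, by simp [MonoidHom.mem_ker, a.2]⟩,
     fun k => ⟨a₀ * k.1, by simp [show π k.1 = 1 from k.2]⟩,
     fun a => by simp, fun k => by simp⟩

theorem card_eq_ker_mul (π : A →* B) (hπ : Function.Surjective π) :
    (Nat.card A : ℂ) = (Nat.card π.ker : ℂ) * Nat.card B := by
  have h := sum_comp_surj π hπ (fun _ => (1 : ℂ))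
  simpa [Nat.card_eq_fintype_card] using h

theorem classInner_comp_surj (π : A →* B) (hπ : Function.Surjective π) (f g : B → ℂ) :
    classInner (fun a => f (π a)) (fun a => g (π a)) = classInner f g := by
  rw [Chars.classInner_def, Chars.classInner_def, sum_comp_surj π hπ (fun b => f b * conj (g b)),
    card_eq_ker_mul π hπ]
  have : (Nat.card π.ker : ℂ) ≠ 0 := Chars.subgroup_card_ne_zero π.ker
  field_simp

theorem indFun_comp_surj (π : A →* B) (hπ : Function.Surjective π) (T : Subgroup B) (ν : T → ℂ) :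
    indFun (T.comap π) (fun t => ν ⟨π t, t.2⟩) = fun a => indFun T ν (π a) := by
  classical
  funext a
  rw [Chars.indFun_apply, Chars.indFun_apply]
  have h1 : ∀ y : A, extendByZero (T.comap π) (fun t => ν ⟨π t, t.2⟩) y =
      extendByZero T ν (π y) := by
    intro y
    by_cases hy : π y ∈ T
    · rw [Chars.extendByZero_of_mem _ _ (show y ∈ T.comap π from hy),
        Chars.extendByZero_of_mem _ _ hy]
    · rw [Chars.extendByZero_of_not_mem _ _ (show y ∉ T.comap π from hy),
        Chars.extendByZero_of_not_mem _ _ hy]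
  simp only [h1, map_mul, map_inv]
  rw [sum_comp_surj π hπ (fun b => extendByZero T ν (b⁻¹ * π a * b))]
  haveI : Fintype (T.comap π) := Fintype.ofFinite _
  haveI : Fintype T := Fintype.ofFinite _
  have hsub : Function.Surjective (π.subgroupComap T) :=
    fun b => by obtain ⟨x, hx⟩ := hπ b; exact ⟨⟨x, by rw [Subgroup.mem_comap, hx]; exact b.2⟩,
      Subtype.ext hx⟩
  have h2 : Nat.card (π.subgroupComap T).ker = Nat.card π.ker := Nat.card_congr
    ⟨fun t => ⟨(t.1 : A), (congrArg Subtype.val t.2 : π (t.1 : A) = 1)⟩,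
     fun k => ⟨⟨k.1, by rw [Subgroup.mem_comap, show π k.1 = 1 from k.2]; exact T.one_mem⟩,
       by apply Subtype.ext; exact k.2⟩,
     fun t => rfl, fun k => rfl⟩
  rw [card_eq_ker_mul _ hsub, h2]
  have : (Nat.card π.ker : ℂ) ≠ 0 := Chars.subgroup_card_ne_zero π.ker
  field_simp

theorem apply_one_le_of_constituent {f : A → ℂ} (hf : IsCharacter A f) {η : A → ℂ}
    (hη : IsIrrCharacter A η) (h : classInner f η ≠ 0) :
    ∃ n k : ℕ, η 1 = n ∧ f 1 = k ∧ n ≤ k := by
  classical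
  obtain ⟨c, hc⟩ := Chars2.exists_multiplicities hf
  choose d hd0 hd using fun φ : IrrCharacter A => Chars.exists_irr_apply_one_eq φ.2
  refine ⟨d ⟨η, hη⟩, ∑ φ, c φ * d φ, hd ⟨η, hη⟩, ?_, ?_⟩
  · rw [Chars2.apply_eq_sum (Chars.isClassFunction_of_isCharacter hf) 1]
    simp only [hc, hd, Nat.cast_sum, Nat.cast_mul]
  · refine le_trans (Nat.le_mul_of_pos_left _ (Nat.pos_of_ne_zero fun h0 => h ?_))
      (Finset.single_le_sum (f := fun φ => c φ * d φ) (fun _ _ => Nat.zero_le _)
        (Finset.mem_univ (⟨η, hη⟩ : IrrCharacter A)))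
    rw [show η = ((⟨η, hη⟩ : IrrCharacter A) : A → ℂ) from rfl, hc, h0, Nat.cast_zero]

theorem exists_constituent {f : A → ℂ} (hf : IsCharacter A f) (h1 : f 1 ≠ 0) :
    ∃ η : IrrCharacter A, classInner f (η : A → ℂ) ≠ 0 := by
  by_contra hc
  push Not at hc
  exact h1 (by rw [Chars2.apply_eq_sum (Chars.isClassFunction_of_isCharacter hf) 1]; simp [hc])

theorem classInner_ne_zero_symm {f g : A → ℂ} (h : classInner f g ≠ 0) : classInner g f ≠ 0 :=
  fun h' => h (by rw [← Chars.classInner_conj_symm, h', map_zero])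

theorem classInner_conj_conj (f g : A → ℂ) :
    classInner (fun a => conj (f a)) (fun a => conj (g a)) = conj (classInner f g) := by
  simp [Chars.classInner_def, map_sum]

end general

section oddLinear

variable {G : Type u} [Group G]

/-- A linear character, of 2-power values, of the subgroup `P`, as a function on the group. -/
def Lin2 (P : Subgroup G) (f : G → ℂ) : Prop :=
  (∀ x ∈ P, ∀ y ∈ P, f (x * y) = f x * f y) ∧ ∀ x ∈ P, ∃ k : ℕ, f x ^ 2 ^ k = 1

/-- A homomorphism with values roots of unity of 2-power order. -/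
def TwoVal {H : Type u} [Group H] (ν : H →* ℂˣ) : Prop := ∀ t, ∃ k : ℕ, ν t ^ 2 ^ k = 1

theorem Lin2.map_one {P : Subgroup G} {f : G → ℂ} (hf : Lin2 P f) : f 1 = 1 := by
  obtain ⟨k, hk⟩ := hf.2 1 P.one_mem
  have hne : f 1 ≠ 0 := fun h => by
    rw [h, zero_pow (pow_ne_zero _ two_ne_zero)] at hk; exact zero_ne_one hk
  have h := hf.1 1 P.one_mem 1 P.one_mem
  rw [one_mul] at h
  exact (mul_eq_left₀ hne).1 h.symm

theorem Lin2.ne_zero {P : Subgroup G} {f : G → ℂ} (hf : Lin2 P f) {x : G} (hx : x ∈ P) :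
    f x ≠ 0 := fun h => by
  obtain ⟨k, hk⟩ := hf.2 x hx
  rw [h, zero_pow (pow_ne_zero _ two_ne_zero)] at hk; exact zero_ne_one hk

theorem Lin2.map_inv {P : Subgroup G} {f : G → ℂ} (hf : Lin2 P f) {x : G} (hx : x ∈ P) :
    f x⁻¹ = (f x)⁻¹ := by
  refine eq_inv_of_mul_eq_one_left ?_
  rw [← hf.1 _ (P.inv_mem hx) _ hx, inv_mul_cancel, hf.map_one]

theorem Lin2.conj_apply {P : Subgroup G} {f : G → ℂ} (hf : Lin2 P f) {x y : G} (hx : x ∈ P)
    (hy : y ∈ P) : f (x * y * x⁻¹) = f y := by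
  rw [hf.1 _ (P.mul_mem hx hy) _ (P.inv_mem hx), hf.1 _ hx _ hy, hf.map_inv hx]
  field_simp [hf.ne_zero hx]

/-- The homomorphism of a 2-power linear character. -/
noncomputable def Lin2.toHom {P : Subgroup G} {f : G → ℂ} (hf : Lin2 P f) : P →* ℂˣ where
  toFun x := Units.mk0 (f x) (hf.ne_zero x.2)
  map_one' := Units.ext hf.map_one
  map_mul' x y := Units.ext (hf.1 _ x.2 _ y.2)

@[simp] theorem Lin2.toHom_apply {P : Subgroup G} {f : G → ℂ} (hf : Lin2 P f) (x : P) :
    (hf.toHom x : ℂ) = f x := rfl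

theorem Lin2.twoVal {P : Subgroup G} {f : G → ℂ} (hf : Lin2 P f) : TwoVal hf.toHom := fun x => by
  obtain ⟨k, hk⟩ := hf.2 x x.2
  exact ⟨k, Units.ext (by simpa using hk)⟩

theorem twoVal_pow_index {P : Subgroup G} {ν : G →* ℂˣ} (hν : TwoVal ν)
    (hP : ∀ x ∈ P, ν x = 1) (Q : Sylow 2 G) (hQ : (Q : Subgroup G) = P) [Finite G] (g : G) :
    ν g = 1 := by
  haveI : Fact (Nat.Prime 2) := ⟨Nat.prime_two⟩
  obtain ⟨k, hk⟩ := hν g
  -- every 2-subgroup is killed
  have hker : IsPGroup 2 ν.range := by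
    rintro ⟨_, t, rfl⟩
    obtain ⟨k, hk⟩ := hν t
    exact ⟨k, Subtype.ext (by simpa using hk)⟩
  haveI : Finite ν.range := Finite.of_surjective ν.rangeRestrict ν.rangeRestrict_surjective
  obtain ⟨m, hm⟩ := hker.exists_card_eq
  have hle : P ≤ ν.ker := fun x hx => hP x hx
  have hidx : ν.ker.index = 2 ^ m := by rw [Subgroup.index_ker, hm]
  have hd : ν.ker.index ∣ (Q : Subgroup G).index := by
    rw [hQ]; exact Subgroup.index_dvd_of_le hle
  have h1 : ν.ker.index = 1 := by
    rcases Nat.eq_zero_or_pos m with rfl | hm0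
    · simpa using hidx
    · exact absurd (dvd_trans (hidx ▸ dvd_pow_self 2 hm0.ne') hd) Q.not_dvd_index
  rw [Subgroup.index_eq_one] at h1
  exact MonoidHom.mem_ker.1 (h1 ▸ Subgroup.mem_top g)

variable [Fintype G]

/-- `χ` is irreducible, induced from a 2-power linear extension of `f` to an overgroup of `P`. -/
def Good (P : Subgroup G) (f χ : G → ℂ) : Prop :=
  ∃ T : Subgroup G, P ≤ T ∧ ∃ ν : T →* ℂˣ, TwoVal ν ∧
    (∀ t : T, (t : G) ∈ P → (ν t : ℂ) = f t) ∧ indFun T (fun t => (ν t : ℂ)) = χ ∧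
      IsIrrCharacter G χ

theorem Good.irr {P : Subgroup G} {f χ : G → ℂ} (h : Good P f χ) : IsIrrCharacter G χ := by
  obtain ⟨T, -, ν, -, -, -, hi⟩ := h; exact hi

theorem Good.congr_fun {P : Subgroup G} {f f' χ : G → ℂ} (h : Good P f χ)
    (he : ∀ x ∈ P, f x = f' x) : Good P f' χ := by
  obtain ⟨T, hPT, ν, hν, hνf, hχ, hi⟩ := h
  exact ⟨T, hPT, ν, hν, fun t ht => (hνf t ht).trans (he _ ht), hχ, hi⟩

theorem Good.lin {P : Subgroup G} {f χ : G → ℂ} (h : Good P f χ) : Lin2 P f := by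
  obtain ⟨T, hPT, ν, hν, hνf, -, -⟩ := h
  refine ⟨fun x hx y hy => ?_, fun x hx => ?_⟩
  · have e := hνf (⟨x, hPT hx⟩ * ⟨y, hPT hy⟩) (P.mul_mem hx hy)
    rw [map_mul, Units.val_mul, hνf _ hx, hνf _ hy] at e
    exact e.symm
  · obtain ⟨k, hk⟩ := hν ⟨x, hPT hx⟩
    exact ⟨k, by rw [← hνf ⟨x, hPT hx⟩ hx, ← Units.val_pow_eq_pow_val, hk, Units.val_one]⟩

theorem Good.odd_degree {P : Sylow 2 G} {f χ : G → ℂ} (h : Good (P : Subgroup G) f χ) :
    Odd (charDegree χ) := by
  obtain ⟨T, hPT, ν, -, -, hχ, -⟩ := h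
  haveI : Fact (Nat.Prime 2) := ⟨Nat.prime_two⟩
  have h1 : χ 1 = (T.index : ℂ) := by rw [← hχ, Chars.indFun_apply_one]; simp
  rw [charDegree, h1, Complex.natCast_re, Nat.floor_natCast, Nat.odd_iff, ← Nat.two_dvd_ne_zero]
  exact fun hd => P.not_dvd_index (dvd_trans hd (Subgroup.index_dvd_of_le hPT))

/-- Twisting by a 2-power linear character of the group. -/
theorem Good.twist {P : Subgroup G} {f χ : G → ℂ} (h : Good P f χ) {δ : G →* ℂˣ}
    (hδ : TwoVal δ) : Good P (fun x => f x * δ x) (fun x => χ x * δ x) := by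
  obtain ⟨T, hPT, ν, hν, hνf, hχ, hi⟩ := h
  refine ⟨T, hPT, ν * δ.comp T.subtype, fun t => ?_, fun t ht => ?_, ?_, ?_⟩
  · obtain ⟨a, ha⟩ := hν t
    obtain ⟨b, hb⟩ := hδ t
    refine ⟨a + b, ?_⟩
    rw [MonoidHom.mul_apply, mul_pow, pow_add, pow_mul, ha, one_pow, one_mul, mul_comm (2 ^ a),
      pow_mul]
    show (δ (t : G) ^ 2 ^ b) ^ 2 ^ a = 1
    rw [hb, one_pow]
  · simp [hνf t ht]
  · have hc := Chars.mul_indFun T (fun t => (ν t : ℂ)) (χ := fun g => (δ g : ℂ))
      (Chars.isClassFunction_of_isCharacter (Chars.isCharacter_hom δ))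
    rw [hχ] at hc
    funext x
    have := congrFun hc x
    simp only [Pi.mul_apply] at this
    rw [mul_comm, this]
    congr 1
    funext t; simp [mul_comm]
  · have := Chars.isIrrCharacter_mul_hom hi δ
    simpa [mul_comm] using this

/-- Complex conjugation. -/
theorem Good.star {P : Subgroup G} {f χ : G → ℂ} (h : Good P f χ) :
    Good P (fun x => conj (f x)) (fun x => conj (χ x)) := by
  obtain ⟨T, hPT, ν, hν, hνf, hχ, hi⟩ := h
  refine ⟨T, hPT, (Units.map (starRingEnd ℂ).toMonoidHom).comp ν, fun t => ?_, fun t ht => ?_, ?_,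
    ?_⟩
  · obtain ⟨k, hk⟩ := hν t
    exact ⟨k, by rw [MonoidHom.comp_apply, ← map_pow, hk, map_one]⟩
  · simp [hνf t ht]
  · funext x
    rw [← hχ]
    simp only [Chars.indFun_apply, map_mul, map_inv₀, map_natCast, map_sum]
    congr 1
    refine Finset.sum_congr rfl fun y _ => ?_
    by_cases hy : y⁻¹ * x * y ∈ T
    · rw [Chars.extendByZero_of_mem _ _ hy, Chars.extendByZero_of_mem _ _ hy]; simp
    · rw [Chars.extendByZero_of_not_mem _ _ hy, Chars.extendByZero_of_not_mem _ _ hy, map_zero]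
  · refine Chars.isIrrCharacter_of_norm_one
      (Chars.isCharacter_star (Chars.isCharacter_of_isIrr hi)) ?_
    rw [classInner_conj_conj, Chars.classInner_self_irr hi, map_one]

theorem indFun_conj_sub (T : Subgroup G) (ν : T → ℂ) (n : G) :
    indFun (T.comap (MulAut.conj n).toMonoidHom) (fun t => ν ⟨MulAut.conj n t, t.2⟩) =
      indFun T ν := by
  funext g
  refine (congrFun (indFun_comp_surj (MulAut.conj n).toMonoidHom (MulAut.conj n).surjective T ν) g).trans ?_
  exact Chars.isClassFunction_indFun T ν g n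

/-- Conjugation by a normalizing element. -/
theorem Good.conj_normalizer {P : Subgroup G} {f χ : G → ℂ} (h : Good P f χ) {n : G}
    (hn : n ∈ Subgroup.normalizer (P : Set G)) :
    Good P (fun x => f (n * x * n⁻¹)) χ := by
  obtain ⟨T, hPT, ν, hν, hνf, hχ, hi⟩ := h
  refine ⟨T.comap (MulAut.conj n).toMonoidHom, fun x hx => hPT ((Subgroup.mem_normalizer_iff.1 hn x).1 hx),
    ν.comp ((MulAut.conj n).toMonoidHom.subgroupComap T), fun t => hν _, fun t ht => ?_, ?_, hi⟩
  · exact hνf _ ((Subgroup.mem_normalizer_iff.1 hn _).1 ht)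
  · rw [← hχ, ← indFun_conj_sub T (fun t => (ν t : ℂ)) n]
    rfl

/-- Inflation from a quotient. -/
theorem Good.inflate {H : Type u} [Group H] [Fintype H] (π : G →* H) (hπ : Function.Surjective π)
    {P : Subgroup G} {fb χb : H → ℂ} {f : G → ℂ} (h : Good (P.map π) fb χb)
    (hf : ∀ x ∈ P, fb (π x) = f x) : Good P f (fun g => χb (π g)) := by
  obtain ⟨T, hPT, ν, hν, hνf, hχ, hi⟩ := h
  refine ⟨T.comap π, fun x hx => hPT ⟨x, hx, rfl⟩, ν.comp (π.subgroupComap T), fun t => hν _,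
    fun t ht => ?_, ?_, Chars.isIrrCharacter_comp_surjective hi π hπ⟩
  · rw [← hf _ ht]
    exact hνf _ ⟨_, ht, rfl⟩
  · rw [← hχ, ← indFun_comp_surj π hπ T]
    rfl

/-- Deflation to a quotient by a normal subgroup in the kernel. -/
theorem Good.deflate {H : Type u} [Group H] [Fintype H] (π : G →* H) (hπ : Function.Surjective π)
    {P : Subgroup G} {f χ : G → ℂ} (h : Good P f χ)
    (hker : ∀ (T : Subgroup G) (ν : T →* ℂˣ), P ≤ T → TwoVal ν →
      (∀ t : T, (t : G) ∈ P → (ν t : ℂ) = f t) → ∀ t : T, π t = 1 → ν t = 1)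
    {fb : H → ℂ} (hfb : ∀ x ∈ P, fb (π x) = f x) :
    ∃ χb : H → ℂ, Good (P.map π) fb χb ∧ χ = fun g => χb (π g) := by
  classical
  obtain ⟨T, hPT, ν, hν, hνf, hχ, hi⟩ := h
  let Tb := T.map π
  let r : T →* Tb := π.subgroupMap T
  have hr : Function.Surjective r := π.subgroupMap_surjective T
  have hk : r.ker ≤ ν.ker := fun t ht => hker T ν hPT hν hνf t (congrArg Subtype.val ht)
  let νb : Tb →* ℂˣ := r.liftOfRightInverse (Function.surjInv hr) (Function.rightInverse_surjInv hr)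
    ⟨ν, hk⟩
  have hνb : ∀ t : T, νb (r t) = ν t := fun t =>
    MonoidHom.liftOfRightInverse_comp_apply r _ (Function.rightInverse_surjInv hr) ⟨ν, hk⟩ t
  haveI : Fintype T := Fintype.ofFinite _
  haveI : Fintype Tb := Fintype.ofFinite _
  set X := indFun Tb (fun t => (νb t : ℂ)) with hX
  have hXc : IsCharacter H X := Chars.isCharacter_indFun Tb (Chars.isCharacter_hom νb)
  have hX1 : X 1 = (Tb.index : ℂ) := by rw [hX, Chars.indFun_apply_one]; simp
  obtain ⟨η, hη⟩ := exists_constituent hXc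
    (by rw [hX1]; exact_mod_cast Subgroup.index_ne_zero_of_finite)
  have hηG : IsIrrCharacter G (fun g => (η : H → ℂ) (π g)) :=
    Chars.isIrrCharacter_comp_surjective η.2 π hπ
  have hη' := hη
  rw [hX, Chars.classInner_indFun Tb _ (Chars.isClassFunction_irr η)] at hη'
  have e1 : classInner (fun t : T => (ν t : ℂ)) (fun t : T => (η : H → ℂ) (π t)) ≠ 0 := by
    have := classInner_comp_surj r hr (fun t => (νb t : ℂ)) (fun t => (η : H → ℂ) t)
    simp only [hνb] at this
    rw [← this] at hη'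
    exact hη'
  rw [← Chars.classInner_indFun T (fun t : T => (ν t : ℂ)) (χ := fun g => (η : H → ℂ) (π g))
    (Chars.isClassFunction_irr (⟨_, hηG⟩ : IrrCharacter G)), hχ] at e1
  have e2 : χ = fun g => (η : H → ℂ) (π g) := by
    by_contra hne
    exact e1 (Chars.classInner_irr_of_ne hi hηG hne)
  obtain ⟨n, k, hn, hk1, hnk⟩ := apply_one_le_of_constituent hXc η.2 hη
  have hdeg : T.index ≤ Tb.index := by
    have h1 : (T.index : ℂ) = (n : ℂ) := by
      have := congrFun hχ 1
      rw [Chars.indFun_apply_one, e2] at this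
      simpa [map_one, hn] using this
    have h2 : (Tb.index : ℂ) = (k : ℂ) := hX1.symm.trans hk1
    have h1' : T.index = n := by exact_mod_cast h1
    have h2' : Tb.index = k := by exact_mod_cast h2
    omega
  have hTT : T = Tb.comap π := by
    have hle : T ≤ Tb.comap π := Subgroup.le_comap_map π T
    refine le_antisymm hle ?_
    have h3 : (Tb.comap π).index = Tb.index := Subgroup.index_comap_of_surjective Tb hπ
    have h4 := Subgroup.relIndex_mul_index hle
    rw [h3] at h4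
    have hpos : 0 < Tb.index := Nat.pos_of_ne_zero Subgroup.index_ne_zero_of_finite
    have hpos2 : 0 < T.relIndex (Tb.comap π) := Nat.pos_of_ne_zero (fun h0 => by
      rw [h0, zero_mul] at h4; exact Subgroup.index_ne_zero_of_finite h4.symm)
    have : T.relIndex (Tb.comap π) = 1 := by
      rcases Nat.lt_or_ge 1 (T.relIndex (Tb.comap π)) with hlt | hge
      · exfalso
        have : 2 * Tb.index ≤ T.relIndex (Tb.comap π) * Tb.index :=
          Nat.mul_le_mul_right _ hlt
        omega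
      · omega
    exact Subgroup.relIndex_eq_one.1 this
  have hXχ : χ = fun g => X (π g) := by
    rw [← hχ, hX, ← indFun_comp_surj π hπ Tb]
    clear_value X
    have key : ∀ (S : Subgroup G) (hS : S = T) (F : S → ℂ),
        (∀ s : S, F s = (ν ⟨(s : G), hS ▸ s.2⟩ : ℂ)) →
        indFun T (fun t => (ν t : ℂ)) = indFun S F := by
      intro S hS F hF
      subst hS
      congr 1
      funext s
      exact (hF s).symm
    exact key (Tb.comap π) hTT.symm _ fun s =>
      congrArg Units.val (hνb ⟨(s : G), hTT.symm ▸ s.2⟩)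
  have hXη : X = (η : H → ℂ) := by
    funext y
    obtain ⟨g, rfl⟩ := hπ y
    exact (congrFun hXχ g).symm.trans (congrFun e2 g)
  refine ⟨X, ⟨Tb, Subgroup.map_mono hPT, νb, fun t => ?_, fun t ht => ?_, rfl, hXη ▸ η.2⟩, hXχ⟩
  · obtain ⟨t, rfl⟩ := hr t
    rw [hνb]; exact hν t
  · obtain ⟨t', rfl⟩ := hr t
    obtain ⟨x, hx, hxt⟩ := ht
    rw [hνb]
    have hdiff : ν (t' * (⟨x, hPT hx⟩ : T)⁻¹) = 1 := hker T ν hPT hν hνf _ (by
      show π ((t' : G) * x⁻¹) = 1
      rw [map_mul, map_inv, hxt]; exact mul_inv_cancel _)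
    rw [map_mul, map_inv, mul_inv_eq_one] at hdiff
    rw [hdiff, hνf ⟨x, hPT hx⟩ hx, ← hfb x hx, hxt]


/-- Going up from an inertia group. -/
theorem Good.induce {P M T₀ : Subgroup G} [M.Normal] [Fintype M] [Fintype T₀] (hMP : M ≤ P)
    (hPT : P ≤ T₀) {μ : M → ℂ} (hμ : IsIrrCharacter M μ) (hT : T₀ = Chars2.inertiaSub μ)
    {f : G → ℂ} {ψ : T₀ → ℂ}
    (h : Good (P.subgroupOf T₀) (fun t : T₀ => f t) ψ)
    (hover : classInner (Chars2.resSub M T₀ (hMP.trans hPT) ψ) μ ≠ 0) :
    Good P f (indFun T₀ ψ) := by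
  obtain ⟨T, hPT', ν, hν, hνf, hψ, hi⟩ := h
  refine ⟨T.map T₀.subtype, fun x hx => ⟨⟨x, hPT hx⟩, hPT' hx, rfl⟩,
    ν.comp (T.equivMapOfInjective T₀.subtype T₀.subtype_injective).symm.toMonoidHom,
    fun t => hν _, fun t ht => ?_, ?_, ?_⟩
  · obtain ⟨s, hs⟩ := (T.equivMapOfInjective T₀.subtype T₀.subtype_injective).surjective t
    subst hs
    rw [MonoidHom.comp_apply, MulEquiv.coe_toMonoidHom, MulEquiv.symm_apply_apply]
    exact hνf s ht
  · rw [← hψ]
    exact Chars2.indFun_pushFun T₀ T (fun t => (ν t : ℂ))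
  · exact Chars2.isIrr_indFun_of_inertia (hMP.trans hPT) hμ hT hi hover

end oddLinear

end Cfsg.Agent.Blocks.OddLin
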