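import Cfsg.Agent.Blocks.OddLinearSurj
import Cfsg.Agent.FGS3.PGroupFrattini

/-!
Real odd-degree characters of a solvable group and the fusion classes of sign characters of a
Sylow 2-subgroup.
-/

set_option autoImplicit false
set_option linter.style.haveILetI false
set_option linter.unusedSectionVars false

namespace Cfsg.Agent.Blocks.OddLin

open scoped ComplexConjugate
open Cfsg Cfsg.Agent

universe u

variable {G : Type u} [Group G] [Fintype G]

theorem conj_eq_self_iff {z : ℂ} : conj z = z ↔ z.im = 0 := Complex.conj_eq_iff_im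

theorem real_of_sq [Group.IsSolvable G] (P : Sylow 2 G) {f χ : G → ℂ} (h : Good (P : Subgroup G) f χ)
    (h2 : ∀ x ∈ (P : Subgroup G), f x ^ 2 = 1) (g : G) : conj (χ g) = χ g := by
  have h' : Good (P : Subgroup G) f (fun x => conj (χ x)) := h.star.congr_fun fun x hx => by
    rcases sq_eq_one_iff.1 (h2 x hx) with e | e <;> simp [e]
  exact congrFun ((good_unique _ G rfl P).1 f _ _ h' h) g

theorem sq_of_real [Group.IsSolvable G] (P : Sylow 2 G) {f χ : G → ℂ} (h : Good (P : Subgroup G) f χ)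
    (hr : ∀ g, conj (χ g) = χ g) {x : G} (hx : x ∈ (P : Subgroup G)) : f x ^ 2 = 1 := by
  haveI : Fact (Nat.Prime 2) := ⟨Nat.prime_two⟩
  have h' : Good (P : Subgroup G) (fun x => conj (f x)) χ := by
    have := h.star
    rwa [show (fun x => conj (χ x)) = χ from funext hr] at this
  obtain ⟨n, hn, hnf⟩ := (good_unique _ G rfl P).2 f _ χ h h'
  have hlin := h.lin
  have hmem : ∀ y ∈ (P : Subgroup G), n * y * n⁻¹ ∈ (P : Subgroup G) := fun y hy =>
    (Subgroup.mem_normalizer_iff.1 hn y).1 hy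
  -- iterate
  have hit : ∀ k : ℕ, ∀ y ∈ (P : Subgroup G),
      f (n ^ k * y * (n ^ k)⁻¹) = if Even k then f y else conj (f y) := by
    intro k
    induction k with
    | zero => intro y _; simp
    | succ k ih =>
      intro y hy
      have e : n ^ (k + 1) * y * (n ^ (k + 1))⁻¹ = n ^ k * (n * y * n⁻¹) * (n ^ k)⁻¹ := by
        rw [pow_succ]; group
      rw [e, ih _ (hmem y hy), ← hnf y hy, Complex.conj_conj]
      by_cases hk : Even k <;> simp [Nat.even_add_one, hk]
  let K := Subgroup.normalizer ((P : Subgroup G) : Set G)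
  haveI : ((P : Subgroup G).subgroupOf K).Normal := Subgroup.normal_in_normalizer
  let m := ((P : Subgroup G).subgroupOf K).index
  have hm : Odd m := by
    rw [← Nat.not_even_iff_odd]
    intro he
    exact P.not_dvd_index (dvd_trans he.two_dvd ⟨K.index,
      (Subgroup.relIndex_mul_index (Subgroup.le_normalizer : (P : Subgroup G) ≤ K)).symm⟩)
  have hnP : n ^ m ∈ (P : Subgroup G) :=
    Subgroup.pow_index_mem ((P : Subgroup G).subgroupOf K) (⟨n, hn⟩ : K)
  have := hit m x hx
  rw [hlin.conj_apply hnP hx, if_neg (Nat.not_even_iff_odd.2 hm)] at this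
  obtain ⟨j, hj⟩ := hlin.2 x hx
  have hn1 : ‖f x‖ = 1 := Complex.norm_eq_one_of_pow_eq_one hj (pow_ne_zero _ two_ne_zero)
  have h1 := Complex.mul_conj' (f x)
  rw [← this, hn1] at h1
  rw [sq, h1]; norm_num

/-- If all odd-degree characters are real, the Sylow 2-subgroup is self-normalizing. -/
theorem normalizer_le_of_all_real (N : ℕ) : ∀ (G : Type u) [Group G] [Fintype G]
    [Group.IsSolvable G], Nat.card G = N → ∀ (P : Sylow 2 G),
      (∀ χ : G → ℂ, IsIrrCharacter G χ → Odd (charDegree χ) → ∀ g, conj (χ g) = χ g) →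
      Subgroup.normalizer ((P : Subgroup G) : Set G) ≤ (P : Subgroup G) := by
  induction N using Nat.strong_induction_on with
  | _ N ih =>
  intro G _ _ _ hN P hall n hn
  classical
  haveI : Fact (Nat.Prime 2) := ⟨Nat.prime_two⟩
  rcases subsingleton_or_nontrivial G with hs | hnt
  · rw [Subsingleton.elim n 1]; exact Subgroup.one_mem _
  obtain ⟨M, hMn, hM1, hMc, hcase⟩ := exists_normal_cases P
  haveI := hMn
  haveI : Fintype (G ⧸ M) := Fintype.ofFinite _
  haveI : Fintype M := Fintype.ofFinite _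
  have hπ := QuotientGroup.mk'_surjective M
  set π := QuotientGroup.mk' M with hπdef
  have hlt : Nat.card (G ⧸ M) < N := by
    rw [← hN, M.card_eq_card_quotient_mul_card_subgroup]
    exact lt_mul_of_one_lt_right Nat.card_pos (M.one_lt_card_iff_ne_bot.2 hM1)
  have hq := ih _ hlt (G ⧸ M) rfl (P.mapSurjective hπ) (fun χ hχ ho y => by
    obtain ⟨g, rfl⟩ := hπ y
    exact hall _ (Chars.isIrrCharacter_comp_surjective hχ π hπ)
      (by simpa [charDegree, Function.comp_apply, map_one] using ho) g)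
  obtain ⟨x, hx, hxn⟩ := hq (map_mem_normalizer π hn)
  have hmM : x⁻¹ * n ∈ M := by
    rw [← QuotientGroup.eq]
    exact hxn
  set m := x⁻¹ * n with hm
  have hnxm : n = x * m := by rw [hm, mul_inv_cancel_left]
  rcases hcase with ho | ⟨hMP, -⟩
  swap
  · rw [hnxm]; exact Subgroup.mul_mem _ hx (hMP hmM)
  -- odd `M`
  suffices hm1 : m = 1 by rw [hnxm, hm1, mul_one]; exact hx
  by_contra hm1
  have hmN : m ∈ Subgroup.normalizer ((P : Subgroup G) : Set G) :=
    Subgroup.mul_mem _ (Subgroup.inv_mem _ (Subgroup.le_normalizer hx)) hn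
  have hcomm : ∀ y ∈ (P : Subgroup G), Commute y m := by
    intro y hy
    have h1 : y * m * y⁻¹ * m⁻¹ ∈ M := M.mul_mem (hMn.conj_mem m hmM y) (M.inv_mem hmM)
    have h2 : y * m * y⁻¹ * m⁻¹ ∈ (P : Subgroup G) := by
      have := (Subgroup.mem_normalizer_iff.1 hmN _).1 (Subgroup.inv_mem _ hy)
      rw [show y * m * y⁻¹ * m⁻¹ = y * (m * y⁻¹ * m⁻¹) by group]
      exact Subgroup.mul_mem _ hy this
    obtain ⟨j, hj⟩ := P.isPGroup' ⟨_, h2⟩
    have e1 : (y * m * y⁻¹ * m⁻¹) ^ 2 ^ j = 1 := by simpa using congrArg Subtype.val hj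
    have e2 : (y * m * y⁻¹ * m⁻¹) ^ Nat.card M = 1 :=
      congrArg Subtype.val (pow_card_eq_one' (x := (⟨_, h1⟩ : M)))
    have := pow_gcd_eq_one.2 ⟨e1, e2⟩
    rw [((Nat.coprime_two_left.2 ho).pow_left j).gcd_eq_one, pow_one, mul_inv_eq_one,
      mul_inv_eq_iff_eq_mul] at this
    exact this
  let C := Subgroup.zpowers m
  have hC : ∀ (a : (P : Subgroup G)) (b : C), Commute (a : G) (b : G) := by
    rintro a ⟨b, k, rfl⟩
    exact (hcomm a a.2).zpow_right k
  let ι := MonoidHom.noncommCoprod (P : Subgroup G).subtype C.subtype hC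
  have hι : Function.Injective ι := by
    rw [injective_iff_map_eq_one]
    rintro ⟨a, b⟩ hab
    have hab' : (a : G) * (b : G) = 1 := hab
    have hbM : (b : G) ∈ M := (Subgroup.zpowers_le.2 hmM) b.2
    have haM : (a : G) ∈ M := by rw [eq_inv_of_mul_eq_one_left hab']; exact M.inv_mem hbM
    obtain ⟨j, hj⟩ := P.isPGroup' a
    have e1 : (a : G) ^ 2 ^ j = 1 := by simpa using congrArg Subtype.val hj
    have e2 : (a : G) ^ Nat.card M = 1 :=
      congrArg Subtype.val (pow_card_eq_one' (x := (⟨_, haM⟩ : M)))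
    have ha := pow_gcd_eq_one.2 ⟨e1, e2⟩
    rw [((Nat.coprime_two_left.2 ho).pow_left j).gcd_eq_one, pow_one] at ha
    rw [ha, one_mul] at hab'
    exact Prod.ext (Subtype.ext ha) (Subtype.ext hab')
  letI : CommGroup C := { (inferInstance : Group C) with
    mul_comm := fun a b => by
      obtain ⟨_, i, rfl⟩ := a
      obtain ⟨_, j, rfl⟩ := b
      exact Subtype.ext (zpow_mul_comm m i j) }
  have hmC : (⟨m, Subgroup.mem_zpowers m⟩ : C) ≠ 1 := fun h => hm1 (congrArg Subtype.val h)
  obtain ⟨l, hl⟩ := CommGroup.exists_apply_ne_one_of_hasEnoughRootsOfUnity C ℂ hmC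
  let e := MonoidHom.ofInjective hι
  let ν : ι.range →* ℂˣ := (l.comp (MonoidHom.snd _ _)).comp e.symm.toMonoidHom
  haveI : Fintype ι.range := Fintype.ofFinite _
  have hmK : m ∈ ι.range := ⟨(1, ⟨m, Subgroup.mem_zpowers m⟩), one_mul m⟩
  have hνm : ν ⟨m, hmK⟩ ≠ 1 := by
    have he : e.symm ⟨m, hmK⟩ = (1, ⟨m, Subgroup.mem_zpowers m⟩) := by
      rw [MulEquiv.symm_apply_eq]
      exact Subtype.ext (one_mul m).symm
    simpa [ν, he] using hl
  have hPK : (P : Subgroup G) ≤ ι.range := fun a ha => ⟨(⟨a, ha⟩, 1), mul_one a⟩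
  set X := indFun ι.range (fun t => (ν t : ℂ)) with hX
  have hX1 : X 1 = (ι.range.index : ℂ) := by rw [hX, Chars.indFun_apply_one]; simp
  have hodd : Odd ι.range.index := by
    rw [← Nat.not_even_iff_odd]
    exact fun he => P.not_dvd_index (dvd_trans he.two_dvd (Subgroup.index_dvd_of_le hPK))
  obtain ⟨c, d, hc, hd, hs⟩ := parity_sum
    (Chars.isCharacter_indFun ι.range (Chars.isCharacter_hom ν)) hX1 hodd
  obtain ⟨θ, -, hne⟩ := Finset.exists_ne_zero_of_sum_ne_zero (by rw [hs]; exact one_ne_zero)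
  rw [Ne, ZMod.natCast_eq_zero_iff_even, Nat.not_even_iff_odd, Nat.odd_mul] at hne
  have hθodd : Odd (charDegree (θ : G → ℂ)) := by rw [charDegree_eq (hd θ)]; exact hne.2
  have htriv := trivial_on_odd P hMc ho θ.2 (hd θ) hne.2 (Or.inl (hall _ θ.2 hθodd))
  obtain ⟨θb, hθb⟩ := exists_descend θ.2 htriv
  have hmul : ∀ g : G, (θ : G → ℂ) (g * m) = (θ : G → ℂ) g := fun g => by
    rw [hθb, Function.comp_apply, Function.comp_apply, QuotientGroup.mk_mul,
      (QuotientGroup.eq_one_iff m).2 hmM, mul_one]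
  have h0 : classInner X (θ : G → ℂ) ≠ 0 := by rw [hc θ]; exact_mod_cast hne.1.pos.ne'
  apply h0
  rw [hX, Chars.classInner_indFun ι.range _ (Chars.isClassFunction_irr θ), Chars.classInner_def]
  set S := ∑ t : ι.range, (ν t : ℂ) * conj ((θ : G → ℂ) (t : G)) with hS
  have key : (ν ⟨m, hmK⟩ : ℂ) * S = S := by
    rw [hS, Finset.mul_sum]
    refine Fintype.sum_equiv (Equiv.mulRight (⟨m, hmK⟩ : ι.range)) _ _ fun t => ?_
    simp only [Equiv.coe_mulRight, map_mul, Units.val_mul, Subgroup.coe_mul, hmul]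
    ring
  have : S = 0 := by
    by_contra hS0
    exact hνm (Units.ext ((mul_eq_right₀ hS0).1 key))
  rw [this, mul_zero]

/-- Fusion is reflexive. -/
theorem Eqv.refl (P : Subgroup G) (f : G → ℂ) : Eqv P f f :=
  ⟨1, Subgroup.one_mem _, fun x _ => by simp⟩

/-- Sign characters of `P`. -/
abbrev SignChar (P : Subgroup G) : Type u := {f : P →* ℂˣ // ∀ x, f x ^ 2 = 1}

/-- Extension by zero. -/
noncomputable def ext0 (P : Subgroup G) (f : P →* ℂˣ) : G → ℂ :=
  open Classical in fun g => if h : g ∈ P then (f ⟨g, h⟩ : ℂ) else 0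

theorem ext0_coe (P : Subgroup G) (f : P →* ℂˣ) (x : P) : ext0 P f x = (f x : ℂ) := dif_pos x.2

theorem ext0_mem (P : Subgroup G) (f : P →* ℂˣ) {x : G} (hx : x ∈ P) :
    ext0 P f x = (f ⟨x, hx⟩ : ℂ) := dif_pos hx

theorem lin_ext0 (P : Subgroup G) (f : SignChar P) : Lin2 P (ext0 P f.1) := by
  refine ⟨fun x hx y hy => ?_, fun x hx => ⟨1, ?_⟩⟩
  · rw [ext0_mem P _ (P.mul_mem hx hy), ext0_mem P _ hx, ext0_mem P _ hy, ← Units.val_mul, ← map_mul]
    rfl
  · rw [ext0_mem P _ hx, pow_one, ← Units.val_pow_eq_pow_val, f.2, Units.val_one]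

/-- Fusion of sign characters. -/
def signRel (P : Subgroup G) (f f' : SignChar P) : Prop := Eqv P (ext0 P f.1) (ext0 P f'.1)

/-- Real odd-degree characters correspond to the fusion classes of sign characters. -/
theorem card_real_odd [Group.IsSolvable G] (P : Sylow 2 G) :
    Nat.card {χ : IrrCharacter G // (∀ g : G, ((χ : G → ℂ) g).im = 0) ∧
      Odd (charDegree (χ : G → ℂ))} = Nat.card (Quot (signRel (P : Subgroup G))) := by
  classical
  choose F hF using fun f : SignChar (P : Subgroup G) =>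
    exists_good _ G rfl P _ (lin_ext0 (P : Subgroup G) f)
  have hreal : ∀ f, ∀ g, (F f g).im = 0 := fun f g =>
    conj_eq_self_iff.1 (real_of_sq P (hF f) (fun x hx => by
      rw [ext0_mem _ _ hx, ← Units.val_pow_eq_pow_val, f.2, Units.val_one]) g)
  have hwd : ∀ f f', signRel (P : Subgroup G) f f' →
      (⟨⟨F f, (hF f).irr⟩, hreal f, (hF f).odd_degree⟩ :
        {χ : IrrCharacter G // (∀ g : G, ((χ : G → ℂ) g).im = 0) ∧ Odd (charDegree (χ : G → ℂ))}) =
      ⟨⟨F f', (hF f').irr⟩, hreal f', (hF f').odd_degree⟩ := by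
    rintro f f' ⟨n, hn, hnf⟩
    apply Subtype.ext; apply Subtype.ext
    exact (good_unique _ G rfl P).1 _ _ _ (((hF f).conj_normalizer hn).congr_fun
      fun x hx => (hnf x hx).symm) (hF f')
  refine (Nat.card_congr (Equiv.ofBijective (Quot.lift
    (fun f => (⟨⟨F f, (hF f).irr⟩, hreal f, (hF f).odd_degree⟩ :
        {χ : IrrCharacter G // (∀ g : G, ((χ : G → ℂ) g).im = 0) ∧ Odd (charDegree (χ : G → ℂ))}))
    hwd) ⟨?_, ?_⟩)).symm
  · intro a b hab
    induction a using Quot.ind with | _ f => ?_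
    induction b using Quot.ind with | _ f' => ?_
    have e : F f = F f' := congrArg (fun z => ((z.1 : IrrCharacter G) : G → ℂ)) hab
    exact Quot.sound ((good_unique _ G rfl P).2 _ _ (F f) (hF f) (e ▸ hF f'))
  · rintro ⟨χ, hr, ho⟩
    have hr' : ∀ g, conj ((χ : G → ℂ) g) = (χ : G → ℂ) g := fun g => conj_eq_self_iff.2 (hr g)
    obtain ⟨f, hf⟩ := exists_good_of_odd _ G rfl P χ χ.2 ho (Or.inl hr')
    let φ : SignChar (P : Subgroup G) := ⟨hf.lin.toHom, fun x => Units.ext (by
      simpa using sq_of_real P hf hr' x.2)⟩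
    refine ⟨Quot.mk _ φ, ?_⟩
    apply Subtype.ext; apply Subtype.ext
    exact (good_unique _ G rfl P).1 _ _ _ (hF φ)
      (hf.congr_fun fun x hx => by rw [ext0_mem _ _ hx]; rfl)

/-- The normalizer has the same fusion classes of sign characters. -/
theorem card_signRel_normalizer (P : Sylow 2 G)
    [Fintype (Subgroup.normalizer ((P : Subgroup G) : Set G))] :
    Nat.card (Quot (signRel ((P.subtype Subgroup.le_normalizer :
      Sylow 2 (Subgroup.normalizer ((P : Subgroup G) : Set G))) :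
        Subgroup (Subgroup.normalizer ((P : Subgroup G) : Set G))))) =
      Nat.card (Quot (signRel (P : Subgroup G))) := by
  classical
  set N := Subgroup.normalizer ((P : Subgroup G) : Set G)
  set PN : Subgroup N := (P : Subgroup G).subgroupOf N
  have hle : (P : Subgroup G) ≤ N := Subgroup.le_normalizer
  let e : PN ≃* (P : Subgroup G) := Subgroup.subgroupOfEquivOfLe hle
  let E : SignChar (P : Subgroup G) ≃ SignChar PN :=
    { toFun := fun f => ⟨f.1.comp e.toMonoidHom, fun x => f.2 _⟩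
      invFun := fun f => ⟨f.1.comp e.symm.toMonoidHom, fun x => f.2 _⟩
      left_inv := fun f => Subtype.ext (MonoidHom.ext fun x => by simp)
      right_inv := fun f => Subtype.ext (MonoidHom.ext fun x => by simp) }
  have hext : ∀ (f : SignChar (P : Subgroup G)) (x : N), (x : G) ∈ (P : Subgroup G) →
      ext0 PN (E f).1 x = ext0 (P : Subgroup G) f.1 (x : G) := fun f x hx => by
    rw [ext0_mem PN _ (show x ∈ PN from hx), ext0_mem _ _ hx]
    rfl
  show Nat.card (Quot (signRel PN)) = _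
  refine (Nat.card_congr (Quot.congr E fun f f' => ?_)).symm
  haveI : PN.Normal := Subgroup.normal_in_normalizer
  constructor
  · rintro ⟨n, hn, hnf⟩
    refine ⟨⟨n, hn⟩, by rw [Subgroup.normalizer_eq_top]; trivial, fun x hx => ?_⟩
    have h1 : ((⟨n, hn⟩ * x * (⟨n, hn⟩ : N)⁻¹ : N) : G) ∈ (P : Subgroup G) :=
      (Subgroup.mem_normalizer_iff.1 hn _).1 hx
    exact (hext f' x hx).trans ((hnf _ hx).trans (hext f _ h1).symm)
  · rintro ⟨n, -, hnf⟩
    refine ⟨(n : G), n.2, fun x hx => ?_⟩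
    have h1 : ((n * (⟨x, hle hx⟩ : N) * n⁻¹ : N) : G) ∈ (P : Subgroup G) :=
      (Subgroup.mem_normalizer_iff.1 n.2 _).1 hx
    rw [← hext f' ⟨x, hle hx⟩ hx, hnf ⟨x, hle hx⟩ hx, hext f _ h1]
    rfl

/-- Squares lie in the commutator subgroup of `P` when all odd-degree characters are real. -/
theorem commutator_eq_frattini_of_all_real [Group.IsSolvable G] (P : Sylow 2 G)
    (hall : ∀ χ : G → ℂ, IsIrrCharacter G χ → Odd (charDegree χ) → ∀ g, conj (χ g) = χ g) :
    commutator (P : Subgroup G) = frattini (P : Subgroup G) := by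
  classical
  haveI : Fact (Nat.Prime 2) := ⟨Nat.prime_two⟩
  refine le_antisymm (FGS3.commutator_le_frattini P.isPGroup') ?_
  refine FGS3.frattini_le_of_elementary (p := 2) le_rfl fun a => ?_
  by_contra ha
  rw [← Abelianization.ker_of, MonoidHom.mem_ker] at ha
  obtain ⟨l, hl⟩ := CommGroup.exists_apply_ne_one_of_hasEnoughRootsOfUnity
    (Abelianization (P : Subgroup G)) ℂ ha
  let φ : (P : Subgroup G) →* ℂˣ := l.comp Abelianization.of
  obtain ⟨k, hk⟩ := P.isPGroup'.exists_card_eq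
  have hlin : Lin2 (P : Subgroup G) (ext0 (P : Subgroup G) φ) := by
    refine ⟨fun x hx y hy => ?_, fun x hx => ⟨k, ?_⟩⟩
    · rw [ext0_mem _ _ (Subgroup.mul_mem _ hx hy), ext0_mem _ _ hx, ext0_mem _ _ hy,
        ← Units.val_mul, ← map_mul]
      rfl
    · rw [ext0_mem _ _ hx, ← Units.val_pow_eq_pow_val, ← map_pow, ← hk, pow_card_eq_one', map_one,
        Units.val_one]
  obtain ⟨χ, hχ⟩ := exists_good _ G rfl P _ hlin
  have := sq_of_real P hχ (hall χ hχ.irr hχ.odd_degree) a.2
  rw [ext0_coe, ← Units.val_pow_eq_pow_val, ← map_pow, Units.val_eq_one] at this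
  exact hl this

/-- Odd-degree characters are real when the Sylow 2-subgroup is self-normalizing with elementary
abelianization. -/
theorem all_real_of_frattini [Group.IsSolvable G] (P : Sylow 2 G)
    (hc : commutator (P : Subgroup G) = frattini (P : Subgroup G))
    (hN : Subgroup.normalizer ((P : Subgroup G) : Set G) = (P : Subgroup G))
    {χ : G → ℂ} (hχ : IsIrrCharacter G χ) (ho : Odd (charDegree χ)) (g : G) :
    conj (χ g) = χ g := by
  haveI : Fact (Nat.Prime 2) := ⟨Nat.prime_two⟩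
  obtain ⟨f, hf⟩ := exists_good_of_odd _ G rfl P χ hχ ho (Or.inr hN.le)
  refine real_of_sq P hf (fun x hx => ?_) g
  have h := FGS3.pow_mem_frattini (p := 2) P.isPGroup' (⟨x, hx⟩ : (P : Subgroup G))
  rw [← hc] at h
  have h1 := Abelianization.commutator_subset_ker hf.lin.toHom h
  rw [MonoidHom.mem_ker, map_pow] at h1
  simpa using congrArg Units.val h1

end Cfsg.Agent.Blocks.OddLin
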