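import Cfsg.Agent.Blocks.OddLinearTools

/-!
The characters induced from maximal extensions of linear characters of a Sylow 2-subgroup of a
solvable group: existence, uniqueness and surjectivity.
-/

set_option autoImplicit false
set_option linter.style.haveILetI false
set_option linter.unusedSectionVars false

namespace Cfsg.Agent.Blocks.OddLin

open scoped ComplexConjugate
open Cfsg Cfsg.Agent

universe u

variable {G : Type u} [Group G] [Fintype G]

/-- Fused linear characters of `P`. -/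
def Eqv (P : Subgroup G) (f f' : G → ℂ) : Prop :=
  ∃ n ∈ Subgroup.normalizer (P : Set G), ∀ x ∈ P, f' x = f (n * x * n⁻¹)

/-- Linear characters killed on `M` by every 2-power extension. -/
theorem kills_of (P : Subgroup G) {M : Subgroup G} [M.Normal] {f : G → ℂ}
    (h : Odd (Nat.card M) ∨ (M ≤ P ∧ ∀ m ∈ M, f m = 1)) (T : Subgroup G) (ν : T →* ℂˣ)
    (hν : TwoVal ν) (hνf : ∀ t : T, (t : G) ∈ P → (ν t : ℂ) = f t) (t : T)
    (ht : QuotientGroup.mk' M (t : G) = 1) : ν t = 1 := by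
  rw [QuotientGroup.mk'_apply, QuotientGroup.eq_one_iff] at ht
  rcases h with ho | ⟨hMP, hf1⟩
  · obtain ⟨k, hk⟩ := hν t
    have h1 : (t : G) ^ Nat.card M = 1 := by
      have := pow_card_eq_one' (x := (⟨(t : G), ht⟩ : M))
      exact congrArg Subtype.val this
    have h2 : ν t ^ Nat.card M = 1 := by
      rw [← map_pow, show t ^ Nat.card M = 1 from Subtype.ext h1, map_one]
    have := pow_gcd_eq_one.2 ⟨hk, h2⟩
    rwa [((Nat.coprime_two_left.2 ho).pow_left k).gcd_eq_one, pow_one] at this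
  · exact Units.ext (by rw [hνf t (hMP ht), hf1 _ ht, Units.val_one])

/-- `f` is trivial on the part of `P` in `M`. -/
theorem trivial_on_inf {P : Sylow 2 G} {M : Subgroup G} [M.Normal] {f : G → ℂ}
    (hf : Lin2 (P : Subgroup G) f)
    (h : Odd (Nat.card M) ∨ (M ≤ (P : Subgroup G) ∧ ∀ m ∈ M, f m = 1)) :
    ∀ x ∈ (P : Subgroup G), QuotientGroup.mk' M x = 1 → f x = 1 := by
  intro x hx hxM
  have := kills_of (P : Subgroup G) h (P : Subgroup G) hf.toHom hf.twoVal (fun t _ => rfl) ⟨x, hx⟩ hxM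
  simpa using congrArg Units.val this

section inertia

variable (P : Sylow 2 G) {M : Subgroup G} [M.Normal] (hMP : M ≤ (P : Subgroup G))

/-- The restriction to `M` as a function. -/
def resM (M : Subgroup G) (f : G → ℂ) : M → ℂ := fun m => f m

include hMP in
theorem resM_irr {f : G → ℂ} (hf : Lin2 (P : Subgroup G) f) : IsIrrCharacter M (resM M f) :=
  Chars.isIrrCharacter_hom (hf.toHom.comp (Subgroup.inclusion hMP))

theorem mem_inertia_resM {f : G → ℂ} {g : G} :
    g ∈ Chars2.inertiaSub (resM M f) ↔ ∀ m ∈ M, f (g⁻¹ * m * g) = f m := by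
  rw [Chars2.mem_inertiaSub, funext_iff]
  constructor
  · intro h m hm
    have := h ⟨m, hm⟩
    rw [Chars2.conjFun_apply] at this
    simpa [resM] using this
  · intro h m
    rw [Chars2.conjFun_apply]
    simpa [resM] using h m m.2

theorem le_inertia {f : G → ℂ} (hf : Lin2 (P : Subgroup G) f) (hMP : M ≤ (P : Subgroup G)) :
    (P : Subgroup G) ≤ Chars2.inertiaSub (resM M f) := by
  intro x hx
  rw [mem_inertia_resM]
  intro m hm
  have := hf.conj_apply (Subgroup.inv_mem _ hx) (hMP hm)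
  rwa [inv_inv] at this

/-- The piece of an induced character in the inertia group. -/
theorem Good.down (hMP : M ≤ (P : Subgroup G)) {f χ : G → ℂ} (h : Good (P : Subgroup G) f χ)
    {T₀ : Subgroup G} (hT : T₀ = Chars2.inertiaSub (resM M f)) [Fintype T₀] [Fintype M]
    (hPT : (P : Subgroup G) ≤ T₀) :
    ∃ ψ : T₀ → ℂ, Good ((P : Subgroup G).subgroupOf T₀) (fun t : T₀ => f t) ψ ∧
      indFun T₀ ψ = χ ∧ classInner (Chars2.resSub M T₀ (hMP.trans hPT) ψ) (resM M f) ≠ 0 := by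
  obtain ⟨T, hPT', ν, hν, hνf, hχ, hi⟩ := h
  have hf : Lin2 (P : Subgroup G) f := Good.lin ⟨T, hPT', ν, hν, hνf, hχ, hi⟩
  have hMT : ∀ m ∈ M, m ∈ T := fun m hm => hPT' (hMP hm)
  have hTT : T ≤ T₀ := by
    intro t ht
    rw [hT, mem_inertia_resM]
    intro m hm
    have hm' : t⁻¹ * m * t ∈ M := by
      have := (‹M.Normal›).conj_mem m hm t⁻¹
      rwa [inv_inv] at this
    rw [← hνf ⟨_, hMT _ hm'⟩ (hMP hm'), ← hνf ⟨_, hMT _ hm⟩ (hMP hm)]
    congr 1
    have e : (⟨t⁻¹ * m * t, hMT _ hm'⟩ : T) = (⟨t, ht⟩ : T)⁻¹ * ⟨m, hMT _ hm⟩ * ⟨t, ht⟩ := rfl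
    rw [e, map_mul, map_mul, map_inv, mul_comm, mul_inv_cancel_left]
  let T' := T.subgroupOf T₀
  let ν' : T' →* ℂˣ := ν.comp (Subgroup.subgroupOfEquivOfLe hTT).toMonoidHom
  have hν'v : ∀ t : T', ν' t = ν ⟨((t : T₀) : G), t.2⟩ := fun t => rfl
  set ψ := indFun T' (fun t => (ν' t : ℂ)) with hψ
  have hind : indFun T₀ ψ = χ := by
    rw [hψ, ← hχ, ← Chars.indFun_trans T T₀ hTT (fun t => (ν t : ℂ))]
    rfl
  have hψi : IsIrrCharacter T₀ ψ := Chars2.irr_of_indFun_irr T₀
    (Chars.isCharacter_indFun T' (Chars.isCharacter_hom ν')) (by rw [hind]; exact hi)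
  refine ⟨ψ, ⟨T', fun x hx => hPT' hx, ν', fun t => hν _, fun t ht => hνf _ ht, rfl, hψi⟩, hind, ?_⟩
  have hres : ∀ m : M, Chars2.resSub M T₀ (hMP.trans hPT) ψ m = (T'.index : ℂ) * resM M f m := by
    intro m
    show ψ ⟨(m : G), _⟩ = _
    rw [hψ, Chars.indFun_apply, Finset.sum_congr rfl (g := fun _ => f m) fun x _ => ?_]
    · rw [Finset.sum_const, Finset.card_univ, nsmul_eq_mul, ← Nat.card_eq_fintype_card,
        ← T'.card_mul_index, Nat.cast_mul, ← mul_assoc, ← mul_assoc,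
        inv_mul_cancel₀ (Chars.subgroup_card_ne_zero T'), one_mul]
      rfl
    · have hm' : ((x : T₀) : G)⁻¹ * m * x ∈ M := by
        have := (‹M.Normal›).conj_mem m m.2 (x : G)⁻¹
        rwa [inv_inv] at this
      have hmem : x⁻¹ * (⟨(m : G), (hMP.trans hPT) m.2⟩ : T₀) * x ∈ T' := hMT _ hm'
      rw [Chars.extendByZero_of_mem _ _ hmem, hν'v, hνf _ (hMP hm')]
      exact mem_inertia_resM.1 (show ((x : T₀) : G) ∈ Chars2.inertiaSub (resM M f) by
        rw [← hT]; exact x.2) m m.2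
  have hc : Chars2.resSub M T₀ (hMP.trans hPT) ψ = (T'.index : ℂ) • resM M f := funext fun m => by
    rw [hres m, Pi.smul_apply, smul_eq_mul]
  rw [hc, Chars.classInner_smul_left,
    Chars.classInner_self_irr (resM_irr P hMP hf), mul_one]
  exact_mod_cast Subgroup.index_ne_zero_of_finite

end inertia

/-- Existence. -/
theorem exists_good (N : ℕ) : ∀ (G : Type u) [Group G] [Fintype G] [Group.IsSolvable G],
    Nat.card G = N → ∀ (P : Sylow 2 G) (f : G → ℂ), Lin2 (P : Subgroup G) f →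
      ∃ χ, Good (P : Subgroup G) f χ := by
  induction N using Nat.strong_induction_on with
  | _ N ih =>
  intro G _ _ _ hN P f hf
  haveI : Fact (Nat.Prime 2) := ⟨Nat.prime_two⟩
  rcases subsingleton_or_nontrivial G with hs | hnt
  · refine ⟨fun _ => 1, ⊤, le_top, 1, fun t => ⟨0, by simp⟩, fun t _ => ?_, ?_,
      Chars.isIrrCharacter_one⟩
    · rw [Subsingleton.elim (t : G) 1, hf.map_one]; simp
    · funext g
      rw [Subsingleton.elim g 1, Chars.indFun_apply_one]
      simp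
  obtain ⟨M, hMn, hM1, hMc, hcase⟩ := exists_normal_cases P
  haveI := hMn
  haveI : Fintype (G ⧸ M) := Fintype.ofFinite _
  have hquot : ∀ f₁ : G → ℂ, Lin2 (P : Subgroup G) f₁ →
      (Odd (Nat.card M) ∨ (M ≤ (P : Subgroup G) ∧ ∀ m ∈ M, f₁ m = 1)) →
      ∃ χ, Good (P : Subgroup G) f₁ χ := by
    intro f₁ hf₁ h
    have hπ := QuotientGroup.mk'_surjective M
    obtain ⟨fb, hfb, hfbc⟩ := exists_compatible (QuotientGroup.mk' M) hf₁ (trivial_on_inf hf₁ h)
    have hlt : Nat.card (G ⧸ M) < N := by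
      have h1 := M.card_eq_card_quotient_mul_card_subgroup
      have h2 : 1 < Nat.card M := M.one_lt_card_iff_ne_bot.2 hM1
      have h3 : 0 < Nat.card (G ⧸ M) := Nat.card_pos
      rw [← hN, h1]
      exact lt_mul_of_one_lt_right h3 h2
    obtain ⟨χb, hχb⟩ := ih _ hlt (G ⧸ M) rfl (P.mapSurjective hπ) fb hfb
    exact ⟨_, Good.inflate (QuotientGroup.mk' M) hπ hχb hfbc⟩
  rcases hcase with ho | ⟨hMP, h2⟩
  · exact hquot f hf (Or.inl ho)
  haveI : Fintype M := Fintype.ofFinite _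
  by_cases htop : Chars2.inertiaSub (resM M f) = ⊤
  · have hinv : ∀ g : G, ∀ m ∈ M, f (g * m * g⁻¹) = f m := fun g m hm => by
      have := (mem_inertia_resM.1 (htop ▸ Subgroup.mem_top g⁻¹)) m hm
      rwa [inv_inv] at this
    obtain ⟨δ, hδ, hδM, -⟩ := exists_twoVal_extension P hMP h2 hf hinv
    have hδ' : TwoVal δ⁻¹ := fun t => by
      obtain ⟨k, hk⟩ := hδ t
      exact ⟨k, by rw [MonoidHom.inv_apply, inv_pow, hk, inv_one]⟩
    have hf₁ : Lin2 (P : Subgroup G) (fun x => f x * (δ⁻¹ x : ℂˣ)) := by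
      refine ⟨fun x hx y hy => ?_, fun x hx => ?_⟩
      · show f (x * y) * ((δ⁻¹ (x * y) : ℂˣ) : ℂ) = _
        rw [hf.1 x hx y hy, map_mul, Units.val_mul]; ring
      · obtain ⟨a, ha⟩ := hf.2 x hx
        obtain ⟨b, hb⟩ := hδ' x
        refine ⟨a + b, ?_⟩
        rw [mul_pow, pow_add, pow_mul, ha, one_pow, one_mul, mul_comm (2 ^ a), pow_mul,
          ← Units.val_pow_eq_pow_val, hb, Units.val_one, one_pow]
    obtain ⟨χ, hχ⟩ := hquot _ hf₁ (Or.inr ⟨hMP, fun m hm => by
      show f m * ((δ⁻¹ m : ℂˣ) : ℂ) = 1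
      rw [MonoidHom.inv_apply, Units.val_inv_eq_inv_val, hδM m hm,
        mul_inv_cancel₀ (hf.ne_zero (hMP hm))]⟩)
    exact ⟨_, (hχ.twist hδ).congr_fun fun x hx => by simp⟩
  · set T₀ := Chars2.inertiaSub (resM M f) with hT
    haveI : Fintype T₀ := Fintype.ofFinite _
    have hPT : (P : Subgroup G) ≤ T₀ := le_inertia P hf hMP
    have hlt : Nat.card T₀ < N := hN ▸ lt_of_le_of_ne (Subgroup.card_le_card_group T₀)
      (fun h => htop (Subgroup.eq_top_of_card_eq T₀ h))
    have hf₀ : Lin2 ((P.subtype hPT : Sylow 2 T₀) : Subgroup T₀) (fun t : T₀ => f t) :=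
      ⟨fun x hx y hy => hf.1 _ hx _ hy, fun x hx => hf.2 _ hx⟩
    obtain ⟨ψ, hψ⟩ := ih _ hlt T₀ rfl (P.subtype hPT) _ hf₀
    refine ⟨_, Good.induce hMP hPT (resM_irr P hMP hf) hT hψ ?_⟩
    -- the restriction to `M` is a multiple
    obtain ⟨T, hPT', ν, hν, hνf, hψe, hi⟩ := hψ
    have hres : Chars2.resSub M T₀ (hMP.trans hPT) ψ = (T.index : ℂ) • resM M f := by
      funext m
      show ψ ⟨(m : G), _⟩ = _
      rw [← hψe, Chars.indFun_apply, Finset.sum_congr rfl (g := fun _ => f m) fun x _ => ?_]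
      · rw [Finset.sum_const, Finset.card_univ, nsmul_eq_mul, ← Nat.card_eq_fintype_card,
          ← T.card_mul_index, Nat.cast_mul, ← mul_assoc, ← mul_assoc,
          inv_mul_cancel₀ (Chars.subgroup_card_ne_zero T), one_mul]
        rfl
      · have hm' : ((x : T₀) : G)⁻¹ * m * x ∈ M := by
          have := hMn.conj_mem m m.2 (x : G)⁻¹
          rwa [inv_inv] at this
        have hmem : x⁻¹ * (⟨(m : G), (hMP.trans hPT) m.2⟩ : T₀) * x ∈ T := hPT' (hMP hm')
        rw [Chars.extendByZero_of_mem _ _ hmem, hνf ⟨_, hmem⟩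
          (show ((x : T₀) : G)⁻¹ * m * x ∈ (P : Subgroup G) from hMP hm')]
        exact mem_inertia_resM.1 (show ((x : T₀) : G) ∈ Chars2.inertiaSub (resM M f) from x.2) m m.2
    rw [hres, Chars.classInner_smul_left,
      Chars.classInner_self_irr (resM_irr P hMP hf), mul_one]
    exact_mod_cast Subgroup.index_ne_zero_of_finite

theorem twist_back {P : Subgroup G} {f χ : G → ℂ} (h : Good P f χ) {δ : G →* ℂˣ} (hδ : TwoVal δ) :
    Good P (fun x => f x * (δ⁻¹ x : ℂˣ)) (fun x => χ x * (δ⁻¹ x : ℂˣ)) :=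
  h.twist (δ := δ⁻¹) fun t => by
    obtain ⟨k, hk⟩ := hδ t
    exact ⟨k, by rw [MonoidHom.inv_apply, inv_pow, hk, inv_one]⟩

/-- A linear character determines the induced character; the character determines it up to fusion. -/
theorem good_unique (N : ℕ) : ∀ (G : Type u) [Group G] [Fintype G] [Group.IsSolvable G],
    Nat.card G = N → ∀ (P : Sylow 2 G),
      (∀ f χ χ', Good (P : Subgroup G) f χ → Good (P : Subgroup G) f χ' → χ = χ') ∧
      (∀ f f' χ, Good (P : Subgroup G) f χ → Good (P : Subgroup G) f' χ →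
        Eqv (P : Subgroup G) f f') := by
  induction N using Nat.strong_induction_on with
  | _ N ih =>
  intro G _ _ _ hN P
  haveI : Fact (Nat.Prime 2) := ⟨Nat.prime_two⟩
  rcases subsingleton_or_nontrivial G with hs | hnt
  · refine ⟨fun f χ χ' h h' => ?_, fun f f' χ h h' => ⟨1, Subgroup.one_mem _, fun x _ => ?_⟩⟩
    · obtain ⟨T, -, ν, -, -, rfl, -⟩ := h
      obtain ⟨T', -, ν', -, -, rfl, -⟩ := h'
      funext g
      rw [Subsingleton.elim g 1, Chars.indFun_apply_one, Chars.indFun_apply_one,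
        Subgroup.index_eq_one.2 (Subsingleton.elim T ⊤),
        Subgroup.index_eq_one.2 (Subsingleton.elim T' ⊤)]
      simp
    · rw [Subsingleton.elim x 1, h'.lin.map_one, mul_one, mul_inv_cancel, h.lin.map_one]
  obtain ⟨M, hMn, hM1, hMc, hcase⟩ := exists_normal_cases P
  haveI := hMn
  haveI : Fintype (G ⧸ M) := Fintype.ofFinite _
  haveI : Fintype M := Fintype.ofFinite _
  have hπ := QuotientGroup.mk'_surjective M
  set π := QuotientGroup.mk' M
  have hlt : Nat.card (G ⧸ M) < N := by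
    rw [← hN, M.card_eq_card_quotient_mul_card_subgroup]
    exact lt_mul_of_one_lt_right Nat.card_pos (M.one_lt_card_iff_ne_bot.2 hM1)
  obtain ⟨ihW, ihU⟩ := ih _ hlt (G ⧸ M) rfl (P.mapSurjective hπ)
  -- in the quotient
  have hquotW : ∀ f χ χ', Good (P : Subgroup G) f χ → Good (P : Subgroup G) f χ' →
      (Odd (Nat.card M) ∨ (M ≤ (P : Subgroup G) ∧ ∀ m ∈ M, f m = 1)) → χ = χ' := by
    intro f χ χ' h h' hk
    obtain ⟨fb, -, hfbc⟩ := exists_compatible π h.lin (trivial_on_inf h.lin hk)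
    obtain ⟨χb, hχb, rfl⟩ := h.deflate π hπ (fun T ν _ hν hνf t ht => kills_of _ hk T ν hν hνf t ht) hfbc
    obtain ⟨χb', hχb', rfl⟩ := h'.deflate π hπ (fun T ν _ hν hνf t ht => kills_of _ hk T ν hν hνf t ht) hfbc
    rw [ihW fb χb χb' hχb hχb']
  have hquotU : ∀ f f' χ, Good (P : Subgroup G) f χ → Good (P : Subgroup G) f' χ →
      (Odd (Nat.card M) ∨ (M ≤ (P : Subgroup G) ∧ ∀ m ∈ M, f m = 1)) →
      (Odd (Nat.card M) ∨ (M ≤ (P : Subgroup G) ∧ ∀ m ∈ M, f' m = 1)) →
      Eqv (P : Subgroup G) f f' := by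
    intro f f' χ h h' hk hk'
    obtain ⟨fb, -, hfbc⟩ := exists_compatible π h.lin (trivial_on_inf h.lin hk)
    obtain ⟨fb', -, hfbc'⟩ := exists_compatible π h'.lin (trivial_on_inf h'.lin hk')
    obtain ⟨χb, hχb, hχe⟩ := h.deflate π hπ (fun T ν _ hν hνf t ht => kills_of _ hk T ν hν hνf t ht) hfbc
    obtain ⟨χb', hχb', hχe'⟩ := h'.deflate π hπ (fun T ν _ hν hνf t ht => kills_of _ hk' T ν hν hνf t ht) hfbc'
    have : χb' = χb := funext fun y => by
      obtain ⟨g, rfl⟩ := hπ y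
      exact (congrFun hχe' g).symm.trans (congrFun hχe g)
    obtain ⟨y, hy, hyf⟩ := ihU fb fb' χb hχb (this ▸ hχb')
    obtain ⟨n, hn, rfl⟩ := exists_normalizer_lift π hπ P hy
    refine ⟨n, hn, fun x hx => ?_⟩
    rw [← hfbc' x hx, hyf _ ⟨x, hx, rfl⟩, ← map_inv, ← map_mul, ← map_mul,
      hfbc _ ((Subgroup.mem_normalizer_iff.1 hn x).1 hx)]
  rcases hcase with ho | ⟨hMP, h2⟩
  · exact ⟨fun f χ χ' h h' => hquotW f χ χ' h h' (Or.inl ho),
      fun f f' χ h h' => hquotU f f' χ h h' (Or.inl ho) (Or.inl ho)⟩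
  have hinvdelta : ∀ f : G → ℂ, Lin2 (P : Subgroup G) f → Chars2.inertiaSub (resM M f) = ⊤ →
      ∃ δ : G →* ℂˣ, TwoVal δ ∧ (∀ m ∈ M, f m * ((δ⁻¹ m : ℂˣ) : ℂ) = 1) := by
    intro f hf htop
    obtain ⟨δ, hδ, hδM, -⟩ := exists_twoVal_extension P hMP h2 hf fun g m hm => by
      have := (mem_inertia_resM.1 (htop ▸ Subgroup.mem_top g⁻¹)) m hm
      rwa [inv_inv] at this
    exact ⟨δ, hδ, fun m hm => by
      rw [MonoidHom.inv_apply, Units.val_inv_eq_inv_val, hδM m hm,
        mul_inv_cancel₀ (hf.ne_zero (hMP hm))]⟩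
  have hcard : ∀ f : G → ℂ, Chars2.inertiaSub (resM M f) ≠ ⊤ →
      Nat.card (Chars2.inertiaSub (resM M f)) < N := fun f htop =>
    hN ▸ lt_of_le_of_ne (Subgroup.card_le_card_group _) (fun h => htop (Subgroup.eq_top_of_card_eq _ h))
  refine ⟨fun f χ χ' h h' => ?_, fun f f' χ h h' => ?_⟩
  · by_cases htop : Chars2.inertiaSub (resM M f) = ⊤
    · obtain ⟨δ, hδ, hδM⟩ := hinvdelta f h.lin htop
      have := hquotW _ _ _ (twist_back h hδ) (twist_back h' hδ) (Or.inr ⟨hMP, hδM⟩)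
      funext g
      exact mul_right_cancel₀ (Units.ne_zero _) (congrFun this g)
    · haveI : Fintype (Chars2.inertiaSub (resM M f)) := Fintype.ofFinite _
      have hPT := le_inertia P h.lin hMP
      obtain ⟨ψ, hψ, rfl, -⟩ := h.down P hMP rfl hPT
      obtain ⟨ψ', hψ', rfl, -⟩ := h'.down P hMP rfl hPT
      rw [(ih _ (hcard f htop) _ rfl (P.subtype hPT)).1 _ ψ ψ' hψ hψ']
  · -- first move `f'` so that it agrees with `f` on `M`
    haveI : Fintype (Chars2.inertiaSub (resM M f)) := Fintype.ofFinite _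
    haveI : Fintype (Chars2.inertiaSub (resM M f')) := Fintype.ofFinite _
    have hconM : ∀ {a : G → ℂ}, Good (P : Subgroup G) a χ →
        classInner (fun m : M => χ m) (resM M a) ≠ 0 := by
      intro a ha
      haveI : Fintype (Chars2.inertiaSub (resM M a)) := Fintype.ofFinite _
      have hPT := le_inertia P ha.lin hMP
      obtain ⟨ψ, hψ, hind, hover⟩ := ha.down P hMP rfl hPT
      have h1 : classInner (fun t : Chars2.inertiaSub (resM M a) => χ t) ψ ≠ 0 := by
        rw [← hind]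
        intro h0
        rw [← Chars.classInner_conj_symm, ← Chars.classInner_indFun _ ψ (Chars.isClassFunction_of_isCharacter (Chars.isCharacter_of_isIrr (hind ▸ ha.irr))), Chars.classInner_self_irr (hind ▸ ha.irr), map_one] at h0
        exact one_ne_zero h0
      rw [← (Chars2.clifford_correspondence (hMP.trans hPT) (resM_irr P hMP ha.lin) rfl ha.irr
        hψ.irr h1 hover).2.1]
      exact hover
    obtain ⟨g, hg⟩ := Chars2.clifford_constituent h.irr (resM_irr P hMP h.lin) (hconM h)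
      (resM_irr P hMP h'.lin) (hconM h')
    have hg' : ∀ m ∈ M, f' m = f (g⁻¹ * m * g) := by
      intro m hm
      have := congrFun hg ⟨m, hm⟩
      rw [Chars2.conjFun_apply] at this
      simpa [resM] using this
    -- `P` and its conjugate lie in the inertia group of `f`
    set T₀ := Chars2.inertiaSub (resM M f) with hT₀
    have hPT : (P : Subgroup G) ≤ T₀ := le_inertia P h.lin hMP
    have hgPT : ((g⁻¹ • P : Sylow 2 G) : Subgroup G) ≤ T₀ := by
      intro z hz
      rw [Sylow.smul_def] at hz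
      obtain ⟨x, hx, rfl⟩ := hz
      rw [hT₀, mem_inertia_resM]
      intro m hm
      show f ((g⁻¹ * x * g⁻¹⁻¹)⁻¹ * m * (g⁻¹ * x * g⁻¹⁻¹)) = f m
      have hm1 : g * m * g⁻¹ ∈ M := hMn.conj_mem m hm g
      have hm2 : x⁻¹ * (g * m * g⁻¹) * x ∈ M := by
        have := hMn.conj_mem _ hm1 x⁻¹
        rwa [inv_inv] at this
      have e1 := hg' _ hm2
      have e2 := hg' _ hm1
      have e3 := h'.lin.conj_apply (Subgroup.inv_mem _ hx) (hMP hm1)
      rw [inv_inv] at e3
      rw [show (g⁻¹ * x * g⁻¹⁻¹)⁻¹ * m * (g⁻¹ * x * g⁻¹⁻¹) = g⁻¹ * (x⁻¹ * (g * m * g⁻¹) * x) * g by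
        group, ← e1, e3, e2]
      congr 1; group
    obtain ⟨k, hk⟩ := MulAction.exists_smul_eq T₀ ((g⁻¹ • P).subtype hgPT) (P.subtype hPT)
    rw [Sylow.smul_subtype] at hk
    have hk' := Sylow.subtype_injective hk
    rw [Subgroup.smul_def, ← mul_smul, Sylow.smul_eq_iff_mem_normalizer] at hk'
    set n := (k : G) * g⁻¹ with hn
    -- `f` moved by `n` agrees with `f'` on `M`
    have hagree : ∀ m ∈ M, f (n * m * n⁻¹) = f' m := by
      intro m hm
      rw [hg' m hm]
      have hm3 : g⁻¹ * m * g ∈ M := by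
        have := hMn.conj_mem m hm g⁻¹
        rwa [inv_inv] at this
      have := mem_inertia_resM.1 (inv_mem k.2 : (k : G)⁻¹ ∈ T₀) _ hm3
      rw [← this, hn, inv_inv]
      congr 1; group
    have hn' := h.conj_normalizer hk'
    suffices hS : Eqv (P : Subgroup G) (fun x => f (n * x * n⁻¹)) f' by
      obtain ⟨n', hn'mem, hn'f⟩ := hS
      refine ⟨n * n', Subgroup.mul_mem _ hk' hn'mem, fun x hx => ?_⟩
      rw [hn'f x hx]
      congr 1; group
    have hres : resM M (fun x => f (n * x * n⁻¹)) = resM M f' := funext fun m => hagree m m.2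
    by_cases htop : Chars2.inertiaSub (resM M f') = ⊤
    · obtain ⟨δ, hδ, hδM⟩ := hinvdelta f' h'.lin htop
      obtain ⟨n', hn'mem, hn'f⟩ := hquotU _ _ _ (twist_back hn' hδ) (twist_back h' hδ)
        (Or.inr ⟨hMP, fun m hm => by rw [hagree m hm]; exact hδM m hm⟩) (Or.inr ⟨hMP, hδM⟩)
      refine ⟨n', hn'mem, fun x hx => ?_⟩
      have := hn'f x hx
      simp only [map_mul, map_inv, mul_inv_cancel_comm] at this
      exact mul_right_cancel₀ (Units.ne_zero _) this
    · have hPT' := le_inertia P h'.lin hMP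
      obtain ⟨ψ', hψ', hind', hover'⟩ := h'.down P hMP rfl hPT'
      obtain ⟨ψ, hψ, hind, hover⟩ := hn'.down P hMP (T₀ := Chars2.inertiaSub (resM M f'))
        (by rw [hres]) hPT'
      rw [hres] at hover
      have hψψ := Chars2.indFun_inj_of_inertia (hMP.trans hPT') (resM_irr P hMP h'.lin) rfl hψ.irr
        hψ'.irr hover hover' (hind.trans hind'.symm)
      obtain ⟨t, ht, htf⟩ := (ih _ (hcard f' htop) _ rfl (P.subtype hPT')).2 _ _ ψ' (hψψ ▸ hψ) hψ'
      refine ⟨(t : G), ?_, fun x hx => htf ⟨x, hPT' hx⟩ hx⟩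
      rw [Subgroup.mem_normalizer_iff]
      intro z
      constructor
      · intro hz
        exact (Subgroup.mem_normalizer_iff.1 ht ⟨z, hPT' hz⟩).1 hz
      · intro hz
        have hz' : z ∈ Chars2.inertiaSub (resM M f') := by
          have := Subgroup.mul_mem _ (Subgroup.mul_mem _ (inv_mem t.2) (hPT' hz)) t.2
          simpa [mul_assoc] using this
        exact (Subgroup.mem_normalizer_iff.1 ht ⟨z, hz'⟩).2 hz

end Cfsg.Agent.Blocks.OddLin
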