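import Cfsg.Agent.Blocks.OddLinearMain
import Cfsg.Agent.OddChar.FrobSetup
import Cfsg.Agent.Chars.Transport

/-!
Every real odd-degree character of a solvable group (every odd-degree one when the Sylow 2-subgroup
is self-normalizing) is induced from an extension of a linear character of the Sylow 2-subgroup.
-/

set_option autoImplicit false
set_option linter.style.haveILetI false
set_option linter.unusedSectionVars false

namespace Cfsg.Agent.Blocks.OddLin

open scoped ComplexConjugate
open Cfsg Cfsg.Agent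

universe u

variable {G : Type u} [Group G] [Fintype G]

theorem charDegree_eq {χ : G → ℂ} {n : ℕ} (h : χ 1 = n) : charDegree χ = n := by
  rw [charDegree, h, Complex.natCast_re, Nat.floor_natCast]

/-- A real odd-degree character has a real linear constituent on a 2-subgroup; any odd-degree
character has a linear one. -/
theorem exists_linear_constituent (P : Sylow 2 G) [Fintype (P : Subgroup G)] {χ : G → ℂ}
    (hχ : IsCharacter G χ) {n : ℕ} (hn : χ 1 = n) (hodd : Odd n) :
    ∃ f : G → ℂ, Lin2 (P : Subgroup G) f ∧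
      classInner (fun x : (P : Subgroup G) => χ x) (fun x : (P : Subgroup G) => f x) ≠ 0 ∧
      ((∀ g, conj (χ g) = χ g) → ∀ x ∈ (P : Subgroup G), f x ^ 2 = 1) := by
  classical
  haveI : Fact (Nat.Prime 2) := ⟨Nat.prime_two⟩
  have hres := Chars.isCharacter_restrict hχ (P : Subgroup G)
  obtain ⟨k, hk⟩ := P.isPGroup'.exists_card_eq
  -- linear constituent
  have hlin : ∀ θ : IrrCharacter (P : Subgroup G), ∀ d : ℕ, (θ : ↥(P : Subgroup G) → ℂ) 1 = d →
      Odd d → ∃ φ : (P : Subgroup G) →* ℂˣ, (θ : ↥(P : Subgroup G) → ℂ) = fun x => (φ x : ℂ) := by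
    intro θ d hd hdo
    obtain ⟨m, -, hm, hdvd⟩ := Chars.irr_degree_dvd_card θ.2
    have hdm : d = m := by exact_mod_cast hd.symm.trans hm
    subst hdm
    rw [hk] at hdvd
    obtain ⟨i, -, rfl⟩ := (Nat.dvd_prime_pow Nat.prime_two).1 hdvd
    have hi : i = 0 := by
      by_contra h0
      exact Nat.not_even_iff_odd.2 hdo ((Nat.even_pow).2 ⟨even_two, h0⟩)
    subst hi
    exact Chars.exists_hom_of_degree_one (Chars.irr_isCharacter θ) (by simpa using hd)
  have hext : ∀ φ : (P : Subgroup G) →* ℂˣ, ∃ f : G → ℂ, Lin2 (P : Subgroup G) f ∧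
      ∀ x : (P : Subgroup G), f x = (φ x : ℂ) := by
    intro φ
    let f : G → ℂ := fun g => if h : g ∈ (P : Subgroup G) then (φ ⟨g, h⟩ : ℂ) else 0
    have hf : ∀ x : (P : Subgroup G), f x = (φ x : ℂ) := fun x => dif_pos x.2
    refine ⟨f, ⟨fun x hx y hy => ?_, fun x hx => ⟨k, ?_⟩⟩, hf⟩
    · rw [show x * y = ((⟨x, hx⟩ * ⟨y, hy⟩ : (P : Subgroup G)) : G) from rfl, hf, map_mul,
        Units.val_mul, ← hf, ← hf]
    · rw [show x = ((⟨x, hx⟩ : (P : Subgroup G)) : G) from rfl, hf, ← Units.val_pow_eq_pow_val,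
        ← map_pow, ← hk, pow_card_eq_one', map_one, Units.val_one]
  by_cases hreal : ∀ g, conj (χ g) = χ g
  · obtain ⟨θ, hθ, hθr, d, hd, hdo⟩ := exists_real_constituent hres (n := n) hn hodd (fun h => hreal h)
    obtain ⟨φ, hφ⟩ := hlin θ d hd hdo
    obtain ⟨f, hf, hfφ⟩ := hext φ
    have e : (θ : ↥(P : Subgroup G) → ℂ) = fun x : (P : Subgroup G) => f x := by
      funext x; rw [hfφ, hφ]
    refine ⟨f, hf, e ▸ hθ, fun _ x hx => ?_⟩
    have hr : conj (f x) = f x := by
      have := hθr ⟨x, hx⟩
      rwa [e] at this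
    obtain ⟨j, hj⟩ := hf.2 x hx
    have hn1 : ‖f x‖ = 1 := Complex.norm_eq_one_of_pow_eq_one hj (pow_ne_zero _ two_ne_zero)
    have := Complex.mul_conj' (f x)
    rw [hr, hn1] at this
    rw [sq, this]; norm_num
  · obtain ⟨c, d, hc, hd, hs⟩ := parity_sum hres (n := n) hn hodd
    obtain ⟨θ, -, hne⟩ := Finset.exists_ne_zero_of_sum_ne_zero (by rw [hs]; exact one_ne_zero)
    rw [Ne, ZMod.natCast_eq_zero_iff_even, Nat.not_even_iff_odd, Nat.odd_mul] at hne
    obtain ⟨φ, hφ⟩ := hlin θ (d θ) (hd θ) hne.2
    obtain ⟨f, hf, hfφ⟩ := hext φ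
    have e : (θ : ↥(P : Subgroup G) → ℂ) = fun x : (P : Subgroup G) => f x := by
      funext x; rw [hfφ, hφ]
    refine ⟨f, hf, e ▸ ?_, fun h => absurd h hreal⟩
    rw [hc θ]; exact_mod_cast hne.1.pos.ne'

/-- Odd-degree characters are trivial on an abelian odd normal subgroup without fixed points. -/
theorem trivial_on_odd (P : Sylow 2 G) {M : Subgroup G} [M.Normal] [Fintype M]
    (hMc : IsMulCommutative M) (ho : Odd (Nat.card M)) {χ : G → ℂ} (hχ : IsIrrCharacter G χ)
    {n : ℕ} (hn : χ 1 = n) (hodd : Odd n)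
    (h : (∀ g, conj (χ g) = χ g) ∨
      Subgroup.normalizer ((P : Subgroup G) : Set G) ≤ (P : Subgroup G)) :
    ∀ m ∈ M, χ m = χ 1 := by
  classical
  haveI : Fact (Nat.Prime 2) := ⟨Nat.prime_two⟩
  have hχc := Chars.isCharacter_of_isIrr hχ
  have hres := Chars.isCharacter_restrict hχc M
  have hone : classInner (fun m : M => χ m) (fun _ : M => (1 : ℂ)) ≠ 0 := by
    rcases h with hr | hN
    · obtain ⟨θ, hθ, hθr, -⟩ := exists_real_constituent hres (n := n) hn hodd (fun x => hr x)
      rw [OddChar.eq_one_of_real_of_odd ho θ.2 (funext hθr)] at hθ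
      exact hθ
    · let act := Chars.conjHom M (P : Subgroup G) (fun s _ m hm => (‹M.Normal›).conj_mem m hm s)
      obtain ⟨θ, hθ, hfix⟩ := exists_fixed_constituent P.isPGroup' act hres (n := n) hn hodd
        (fun a m => by
          show χ ((a : G) * m * (a : G)⁻¹) = χ m
          exact Chars.isCharacter_conj_apply hχc m a)
      letI : CommGroup M := { (inferInstance : Group M) with mul_comm := hMc.is_comm.comm }
      obtain ⟨φ, hφ⟩ := Chars.exists_hom_of_degree_one (Chars.irr_isCharacter θ)
        (Chars.irr_apply_one_of_comm (fun a b => mul_comm a b) θ.2)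
      haveI : Fintype (P : Subgroup G) := Fintype.ofFinite _
      suffices hθ1 : (θ : M → ℂ) = fun _ => 1 by rw [hθ1] at hθ; exact hθ
      funext m
      have hprod : ∏ a : (P : Subgroup G), act a m = 1 := by
        set z := ∏ a : (P : Subgroup G), act a m with hz
        have hzfix : ∀ b : (P : Subgroup G), act b z = z := by
          intro b
          rw [hz, map_prod]
          exact Fintype.prod_equiv (Equiv.mulLeft b) _ _ fun a => by
            show act b (act a m) = act (b * a) m
            rw [map_mul]; rfl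
        have hzN : (z : G) ∈ Subgroup.normalizer ((P : Subgroup G) : Set G) := by
          refine Subgroup.centralizer_le_normalizer _ ?_
          rw [Subgroup.mem_centralizer_iff]
          intro b hb
          have := congrArg Subtype.val (hzfix ⟨b, hb⟩)
          simp only [act, Chars.conjHom_apply_coe] at this
          rw [mul_inv_eq_iff_eq_mul] at this
          exact this
        obtain ⟨j, hj⟩ := P.isPGroup' ⟨z, hN hzN⟩
        have h1 : z ^ 2 ^ j = 1 := Subtype.ext (by simpa using congrArg Subtype.val hj)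
        have h2 : z ^ Nat.card M = 1 := pow_card_eq_one'
        have := pow_gcd_eq_one.2 ⟨h1, h2⟩
        rwa [((Nat.coprime_two_left.2 ho).pow_left j).gcd_eq_one, pow_one] at this
      have h1 : φ m ^ Nat.card (P : Subgroup G) = 1 := by
        have e : ∀ a : (P : Subgroup G), φ (act a m) = φ m := fun a => Units.ext (by
          have := hfix a m; rwa [hφ] at this)
        rw [← map_one φ, ← hprod, map_prod, Finset.prod_congr rfl fun a _ => e a,
          Finset.prod_const, Finset.card_univ, Nat.card_eq_fintype_card]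
      have h2 : φ m ^ Nat.card M = 1 := by rw [← map_pow, pow_card_eq_one', map_one]
      obtain ⟨k, hk⟩ := P.isPGroup'.exists_card_eq
      rw [hk] at h1
      have := pow_gcd_eq_one.2 ⟨h1, h2⟩
      rw [((Nat.coprime_two_left.2 ho).pow_left k).gcd_eq_one, pow_one] at this
      rw [hφ]; simp [this]
  intro m hm
  have hinv : Chars2.inertiaSub (fun _ : M => (1 : ℂ)) = ⊤ :=
    Chars2.inertiaSub_eq_top fun _ _ => rfl
  have e := fun x : M => Chars2.clifford_invariant hχ Chars.isIrrCharacter_one hinv hone x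
  have e1 := e ⟨m, hm⟩
  have e2 := e 1
  simp only [OneMemClass.coe_one] at e2
  rw [e2]; exact e1

theorem mem_normalizer_of_subgroupOf {P T : Subgroup G} (hPT : P ≤ T) {t : T}
    (ht : t ∈ Subgroup.normalizer ((P.subgroupOf T : Subgroup T) : Set T)) :
    (t : G) ∈ Subgroup.normalizer (P : Set G) := by
  rw [Subgroup.mem_normalizer_iff]
  intro z
  constructor
  · intro hz
    exact (Subgroup.mem_normalizer_iff.1 ht ⟨z, hPT hz⟩).1 hz
  · intro hz
    have hz' : z ∈ T := by
      have := T.mul_mem (T.mul_mem (T.inv_mem t.2) (hPT hz)) t.2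
      simpa [mul_assoc] using this
    exact (Subgroup.mem_normalizer_iff.1 ht ⟨z, hz'⟩).2 hz

/-- Surjectivity. -/
theorem exists_good_of_odd (N : ℕ) : ∀ (G : Type u) [Group G] [Fintype G] [Group.IsSolvable G],
    Nat.card G = N → ∀ (P : Sylow 2 G) (χ : G → ℂ), IsIrrCharacter G χ → Odd (charDegree χ) →
      ((∀ g, conj (χ g) = χ g) ∨
        Subgroup.normalizer ((P : Subgroup G) : Set G) ≤ (P : Subgroup G)) →
      ∃ f, Good (P : Subgroup G) f χ := by
  induction N using Nat.strong_induction_on with
  | _ N ih =>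
  intro G _ _ _ hN P χ hχ hodd hyp
  haveI : Fact (Nat.Prime 2) := ⟨Nat.prime_two⟩
  obtain ⟨n, -, hn, hndvd⟩ := Chars.irr_degree_dvd_card hχ
  rw [charDegree_eq hn] at hodd
  rcases subsingleton_or_nontrivial G with hs | hnt
  · refine ⟨fun _ => 1, ⊤, le_top, 1, fun t => ⟨0, by simp⟩, fun t _ => by simp, ?_, hχ⟩
    funext g
    rw [Nat.card_unique, Nat.dvd_one] at hndvd
    rw [Subsingleton.elim g 1, Chars.indFun_apply_one, hn, hndvd]
    simp
  obtain ⟨M, hMn, hM1, hMc, hcase⟩ := exists_normal_cases P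
  haveI := hMn
  haveI : Fintype (G ⧸ M) := Fintype.ofFinite _
  haveI : Fintype M := Fintype.ofFinite _
  have hπ := QuotientGroup.mk'_surjective M
  set π := QuotientGroup.mk' M
  have hlt : Nat.card (G ⧸ M) < N := by
    rw [← hN, M.card_eq_card_quotient_mul_card_subgroup]
    exact lt_mul_of_one_lt_right Nat.card_pos (M.one_lt_card_iff_ne_bot.2 hM1)
  -- characters trivial on `M`
  have hquot : ∀ χ₁ : G → ℂ, IsIrrCharacter G χ₁ → χ₁ 1 = n →
      ((∀ g, conj (χ₁ g) = χ₁ g) ∨
        Subgroup.normalizer ((P : Subgroup G) : Set G) ≤ (P : Subgroup G)) →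
      (∀ m ∈ M, χ₁ m = χ₁ 1) → ∃ f, Good (P : Subgroup G) f χ₁ := by
    intro χ₁ hχ₁ hn₁ hyp₁ htriv
    obtain ⟨χb, hχb⟩ := exists_descend hχ₁ htriv
    have hb1 : (χb : G ⧸ M → ℂ) 1 = n := by
      have := congrFun hχb 1
      rw [hn₁, Function.comp_apply, QuotientGroup.mk_one] at this
      exact this.symm
    obtain ⟨fb, hfb⟩ := ih _ hlt (G ⧸ M) rfl (P.mapSurjective hπ) χb χb.2
      (by rw [charDegree_eq hb1]; exact hodd) (by
        rcases hyp₁ with hr | hP
        · left
          intro y
          obtain ⟨g, rfl⟩ := hπ y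
          have := hr g
          rw [hχb] at this
          exact this
        · right
          intro y hy
          obtain ⟨m, hm, rfl⟩ := exists_normalizer_lift π hπ P hy
          exact ⟨m, hP hm, rfl⟩)
    refine ⟨fun g => fb (π g), ?_⟩
    have := Good.inflate π hπ hfb (f := fun g => fb (π g)) (fun _ _ => rfl)
    rw [hχb]
    exact this
  rcases hcase with ho | ⟨hMP, h2⟩
  · exact hquot χ hχ hn hyp (trivial_on_odd P hMc ho hχ hn hodd hyp)
  haveI : Fintype (P : Subgroup G) := Fintype.ofFinite _
  obtain ⟨f, hf, hfχ, hfreal⟩ := exists_linear_constituent P (Chars.isCharacter_of_isIrr hχ) hn hodd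
  have hμ := resM_irr P hMP hf
  have hμreal : ∀ m : M, conj (resM M f m) = resM M f m := by
    intro m
    have : f m ^ 2 = 1 := by
      rw [sq, ← hf.1 _ (hMP m.2) _ (hMP m.2), ← sq, h2 m m.2, hf.map_one]
    rcases sq_eq_one_iff.1 this with e | e <;> simp [resM, e]
  -- `f` restricted to `M` is below `χ`
  have hover : classInner (fun m : M => χ m) (resM M f) ≠ 0 := by
    classical
    rw [Chars2.classInner_restrict_expand M (P : Subgroup G) hMP (Chars.isCharacter_of_isIrr hχ)]
    obtain ⟨c, hc⟩ := Chars2.exists_multiplicities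
      (Chars.isCharacter_restrict (Chars.isCharacter_of_isIrr hχ) (P : Subgroup G))
    choose e he using fun ψ : IrrCharacter (P : Subgroup G) => Chars.exists_classInner_eq_nat
      (Chars2.isCharacter_resSub M (P : Subgroup G) hMP (Chars.irr_isCharacter ψ))
      (Chars.isCharacter_of_isIrr hμ)
    simp only [hc, he]
    let ψ₀ : IrrCharacter (P : Subgroup G) := ⟨_, Chars.isIrrCharacter_hom hf.toHom⟩
    have h1 : c ψ₀ ≠ 0 := fun h0 => hfχ (by
      have := hc ψ₀
      rw [h0, Nat.cast_zero] at this
      exact this)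
    have h2 : e ψ₀ ≠ 0 := fun h0 => by
      have := he ψ₀
      rw [h0, Nat.cast_zero] at this
      have e1 : Chars2.resSub M (P : Subgroup G) hMP (ψ₀ : ↥(P : Subgroup G) → ℂ) = resM M f := rfl
      rw [e1, Chars.classInner_self_irr hμ] at this
      exact one_ne_zero this
    rw [← Finset.sum_congr rfl (fun ψ _ => Nat.cast_mul (c ψ) (e ψ)), ← Nat.cast_sum, Nat.cast_ne_zero]
    exact fun h0 => Nat.mul_ne_zero h1 h2 (Finset.sum_eq_zero_iff.1 h0 ψ₀ (Finset.mem_univ _))
  by_cases htop : Chars2.inertiaSub (resM M f) = ⊤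
  · have hinv : ∀ g : G, ∀ m ∈ M, f (g * m * g⁻¹) = f m := fun g m hm => by
      have := (mem_inertia_resM.1 (htop ▸ Subgroup.mem_top g⁻¹)) m hm
      rwa [inv_inv] at this
    obtain ⟨δ, hδ, hδM, hδ2⟩ := exists_twoVal_extension P hMP h2 hf hinv
    have hmul : ∀ m ∈ M, χ m = χ 1 * f m := by
      intro m hm
      have e := fun x : M => Chars2.clifford_invariant hχ hμ htop hover x
      have e1 := e ⟨m, hm⟩
      have e2 := e 1
      simp only [resM, OneMemClass.coe_one, hf.map_one, mul_one] at e1 e2
      rw [e1, e2]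
    obtain ⟨f₁, hf₁⟩ := hquot (fun g => χ g * ((δ⁻¹ g : ℂˣ) : ℂ))
      (by simpa [mul_comm] using Chars.isIrrCharacter_mul_hom hχ δ⁻¹)
      (by simp [hn])
      (by
        rcases hyp with hr | hP
        · left
          intro g
          rw [map_mul, hr g]
          congr 1
          have := hδ2 (hfreal hr) g
          have h' : ((δ g : ℂˣ) : ℂ) ^ 2 = 1 := by rw [← Units.val_pow_eq_pow_val, this, Units.val_one]
          rcases sq_eq_one_iff.1 h' with e | e <;> simp [e]
        · exact Or.inr hP)
      (fun m hm => by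
        rw [hmul m hm, map_one, Units.val_one, mul_one, MonoidHom.inv_apply,
          Units.val_inv_eq_inv_val, hδM m hm, mul_assoc, mul_inv_cancel₀ (hf.ne_zero (hMP hm)),
          mul_one])
    refine ⟨fun x => f₁ x * δ x, ?_⟩
    have := hf₁.twist hδ
    have e : (fun x => χ x * ((δ⁻¹ x : ℂˣ) : ℂ) * ((δ x : ℂˣ) : ℂ)) = χ := by funext x; simp
    rwa [e] at this
  · set T₀ := Chars2.inertiaSub (resM M f) with hT₀
    haveI : Fintype T₀ := Fintype.ofFinite _
    have hPT : (P : Subgroup G) ≤ T₀ := le_inertia P hf hMP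
    have hlt' : Nat.card T₀ < N := hN ▸ lt_of_le_of_ne (Subgroup.card_le_card_group T₀)
      (fun h => htop (Subgroup.eq_top_of_card_eq T₀ h))
    obtain ⟨ψ, hψ, hind, hψover'⟩ :=
      Chars2.exists_correspondent (hMP.trans hPT) hμ hT₀ hχ hover
    have hψover : classInner (Chars2.resSub M T₀ (hMP.trans hPT) ψ) (resM M f) ≠ 0 := by
      rw [hψover']; exact hover
    obtain ⟨k, -, hk, -⟩ := Chars.irr_degree_dvd_card hψ
    have hodd' : Odd (charDegree ψ) := by
      rw [charDegree_eq hk]
      have h1 := congrFun hind 1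
      rw [Chars.indFun_apply_one, hk, hn] at h1
      have : n = T₀.index * k := by exact_mod_cast h1.symm
      rw [this, Nat.odd_mul] at hodd
      exact hodd.2
    obtain ⟨f₀, hf₀⟩ := ih _ hlt' T₀ rfl (P.subtype hPT) ψ hψ hodd' (by
      rcases hyp with hr | hP
      · left
        have hψs : IsIrrCharacter T₀ (fun t => conj (ψ t)) :=
          Chars.isIrrCharacter_of_norm_one (Chars.isCharacter_star (Chars.isCharacter_of_isIrr hψ))
            (by rw [classInner_conj_conj, Chars.classInner_self_irr hψ, map_one])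
        have hover2 : classInner (Chars2.resSub M T₀ (hMP.trans hPT) (fun t => conj (ψ t)))
            (resM M f) ≠ 0 := by
          have e : (resM M f) = fun m => conj (resM M f m) := funext fun m => (hμreal m).symm
          rw [e]
          show classInner (fun m => conj (Chars2.resSub M T₀ (hMP.trans hPT) ψ m)) _ ≠ 0
          rw [classInner_conj_conj]
          simpa using hψover
        have hind2 : indFun T₀ (fun t => conj (ψ t)) = indFun T₀ ψ := by
          rw [hind]
          funext x
          rw [← hr x, ← hind]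
          simp only [Chars.indFun_apply, map_mul, map_inv₀, map_natCast, map_sum]
          congr 1
          refine Finset.sum_congr rfl fun y _ => ?_
          by_cases hy : y⁻¹ * x * y ∈ T₀
          · rw [Chars.extendByZero_of_mem _ _ hy, Chars.extendByZero_of_mem _ _ hy]
          · rw [Chars.extendByZero_of_not_mem _ _ hy, Chars.extendByZero_of_not_mem _ _ hy, map_zero]
        exact congrFun (Chars2.indFun_inj_of_inertia (hMP.trans hPT) hμ hT₀ hψs hψ hover2 hψover hind2)
      · right
        intro t ht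
        exact hP (mem_normalizer_of_subgroupOf hPT ht))
    classical
    refine ⟨fun g => if h : g ∈ T₀ then f₀ ⟨g, h⟩ else 0, ?_⟩
    rw [← hind]
    exact Good.induce hMP hPT hμ hT₀ (hf₀.congr_fun fun t _ => by rw [dif_pos t.2]) hψover

end Cfsg.Agent.Blocks.OddLin
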