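import Cfsg.Agent.Blocks.OddLinearBase
import Cfsg.Agent.Blocks.Covering

/-!
Tools for odd-degree characters of solvable groups: parity of constituents, fixed constituents,
transfer extensions, and normalizers in quotients.
-/

set_option autoImplicit false
set_option linter.style.haveILetI false
set_option linter.unusedSectionVars false

namespace Cfsg.Agent.Blocks.OddLin

open scoped ComplexConjugate
open Cfsg Cfsg.Agent

universe u

variable {G : Type u} [Group G] [Fintype G]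

section parity

variable {H : Type u} [Group H] [Fintype H]

theorem parity_sum {φ : H → ℂ} (hφ : IsCharacter H φ) {n : ℕ} (hn : φ 1 = n) (hodd : Odd n) :
    ∃ c d : IrrCharacter H → ℕ, (∀ θ : IrrCharacter H, classInner φ (θ : H → ℂ) = c θ) ∧
      (∀ θ : IrrCharacter H, (θ : H → ℂ) 1 = d θ) ∧
      (∑ θ : IrrCharacter H, ((c θ * d θ : ℕ) : ZMod 2)) = 1 := by
  obtain ⟨c, hc⟩ := Chars2.exists_multiplicities hφ
  choose d hd0 hd using fun θ : IrrCharacter H => Chars.exists_irr_apply_one_eq θ.2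
  refine ⟨c, d, hc, hd, ?_⟩
  have h := Chars2.apply_eq_sum (Chars.isClassFunction_of_isCharacter hφ) 1
  simp only [hn, hc, hd] at h
  have h' : n = ∑ θ : IrrCharacter H, c θ * d θ := by exact_mod_cast h
  rw [← Nat.cast_sum, ← h', ← ZMod.natCast_mod, Nat.odd_iff.1 hodd, Nat.cast_one]

theorem exists_real_constituent {φ : H → ℂ} (hφ : IsCharacter H φ) {n : ℕ} (hn : φ 1 = n)
    (hodd : Odd n) (hreal : ∀ h, conj (φ h) = φ h) :
    ∃ θ : IrrCharacter H, classInner φ (θ : H → ℂ) ≠ 0 ∧ (∀ h, conj ((θ : H → ℂ) h) = (θ : H → ℂ) h) ∧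
      ∃ d : ℕ, (θ : H → ℂ) 1 = d ∧ Odd d := by
  obtain ⟨c, d, hc, hd, hs⟩ := parity_sum hφ hn hodd
  by_contra hcon
  push Not at hcon
  have hstar : ∀ θ : IrrCharacter H, IsIrrCharacter H (fun h => conj ((θ : H → ℂ) h)) := fun θ =>
    Chars.isIrrCharacter_of_norm_one (Chars.isCharacter_star (Chars.irr_isCharacter θ))
      (by rw [classInner_conj_conj, Chars.classInner_self_irr θ.2, map_one])
  have h0 : (∑ θ : IrrCharacter H, ((c θ * d θ : ℕ) : ZMod 2)) = 0 := by
    refine Finset.sum_involution (fun θ _ => ⟨_, hstar θ⟩) (fun θ _ => ?_) (fun θ _ hne he => ?_)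
      (fun θ _ => Finset.mem_univ _) (fun θ _ => Subtype.ext (funext fun h => Complex.conj_conj _))
    · have e1 : c ⟨_, hstar θ⟩ = c θ := by
        have h1 := hc ⟨_, hstar θ⟩
        have h2 : classInner φ (fun h => conj ((θ : H → ℂ) h)) = conj (classInner φ (θ : H → ℂ)) := by
          rw [← classInner_conj_conj]; simp [hreal]
        rw [h2, hc θ, Complex.conj_natCast] at h1
        exact_mod_cast h1.symm
      have e2 : d ⟨_, hstar θ⟩ = d θ := by
        have h1 := hd ⟨_, hstar θ⟩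
        simp only [hd θ, Complex.conj_natCast] at h1
        exact_mod_cast h1.symm
      rw [e1, e2]; exact CharTwo.add_self_eq_zero _
    · have hr : ∀ h, conj ((θ : H → ℂ) h) = (θ : H → ℂ) h := fun h =>
        congrFun (congrArg Subtype.val he) h
      have hodd' : ¬ Odd (d θ) := fun ho =>
        hcon θ (fun h0 => hne (by
          rw [hc θ] at h0
          rw [show c θ = 0 by exact_mod_cast h0, zero_mul, Nat.cast_zero])) hr (d θ) (hd θ) ho
      exact hne ((ZMod.natCast_eq_zero_iff_even).2 ((Nat.not_odd_iff_even.1 hodd').mul_left _))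
  rw [h0] at hs
  exact zero_ne_one hs

theorem exists_fixed_constituent {A : Type u} [Group A] (hA : IsPGroup 2 A) (act : A →* MulAut H)
    {φ : H → ℂ} (hφ : IsCharacter H φ) {n : ℕ} (hn : φ 1 = n)
    (hodd : Odd n) (hinv : ∀ a h, φ (act a h) = φ h) :
    ∃ θ : IrrCharacter H, classInner φ (θ : H → ℂ) ≠ 0 ∧
      ∀ a h, (θ : H → ℂ) (act a h) = (θ : H → ℂ) h := by
  classical
  obtain ⟨c, d, hc, hd, hs⟩ := parity_sum hφ hn hodd
  letI : MulAction A (IrrCharacter H) :=
    { smul := fun a θ => ⟨fun h => (θ : H → ℂ) (act a⁻¹ h),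
        Chars.isIrrCharacter_comp_equiv θ.2 (act a⁻¹)⟩
      one_smul := fun θ => Subtype.ext (funext fun h => by
        show (θ : H → ℂ) (act (1 : A)⁻¹ h) = _; simp)
      mul_smul := fun a b θ => Subtype.ext (funext fun h => by
        show (θ : H → ℂ) (act (a * b)⁻¹ h) = (θ : H → ℂ) (act b⁻¹ (act a⁻¹ h)); simp) }
  haveI : Fact (Nat.Prime 2) := ⟨Nat.prime_two⟩
  have hf : ∀ (a : A) (θ : IrrCharacter H),
      ((c (a • θ) * d (a • θ) : ℕ) : ZMod 2) = ((c θ * d θ : ℕ) : ZMod 2) := by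
    intro a θ
    have e1 : c (a • θ) = c θ := by
      have h1 := hc (a • θ)
      have h2 : classInner φ ((a • θ : IrrCharacter H) : H → ℂ) = classInner φ (θ : H → ℂ) := by
        rw [← Chars.classInner_comp_equiv (act a⁻¹) φ (θ : H → ℂ)]
        simp only [hinv]
        rfl
      rw [h2, hc θ] at h1
      exact_mod_cast h1.symm
    have e2 : d (a • θ) = d θ := by
      have h1 := hd (a • θ)
      have h2 : ((a • θ : IrrCharacter H) : H → ℂ) 1 = (θ : H → ℂ) 1 := by
        show (θ : H → ℂ) (act a⁻¹ 1) = _; rw [map_one]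
      rw [h2, hd θ] at h1
      exact_mod_cast h1.symm
    rw [e1, e2]
  rw [BlockChar.sum_eq_sum_fixed hA _ hf] at hs
  obtain ⟨θ, hθ, hne⟩ := Finset.exists_ne_zero_of_sum_ne_zero (by rw [hs]; exact one_ne_zero)
  refine ⟨θ, fun h0 => hne ?_, fun a h => ?_⟩
  · rw [hc θ] at h0
    rw [show c θ = 0 by exact_mod_cast h0, zero_mul, Nat.cast_zero]
  · have := congrFun (congrArg Subtype.val ((Finset.mem_filter.1 hθ).2 a⁻¹)) h
    change (θ : H → ℂ) (act a⁻¹⁻¹ h) = _ at this
    rwa [inv_inv] at this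

end parity

/-- The two kinds of minimal normal subgroups. -/
theorem exists_normal_cases [Group.IsSolvable G] [Nontrivial G] (P : Sylow 2 G) :
    ∃ M : Subgroup G, M.Normal ∧ M ≠ ⊥ ∧ IsMulCommutative M ∧
      (Odd (Nat.card M) ∨ (M ≤ (P : Subgroup G) ∧ ∀ m ∈ M, m ^ 2 = 1)) := by
  haveI : Fact (Nat.Prime 2) := ⟨Nat.prime_two⟩
  obtain ⟨M, hM⟩ := Core.exists_isMinNormal (G := G)
  obtain ⟨hc, q, hq, hexp, hMp⟩ := Core.IsMinNormal.elementaryAbelian_of_isSolvable hM
  refine ⟨M, hM.1, hM.2.1, hc, ?_⟩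
  haveI := Fact.mk hq
  haveI := hM.1
  rcases eq_or_ne q 2 with rfl | hne
  · refine Or.inr ⟨?_, hexp⟩
    obtain ⟨Q, hQ⟩ := hMp.exists_le_sylow
    obtain ⟨g, hg⟩ := MulAction.exists_smul_eq G Q P
    intro m hm
    rw [← hg, Sylow.smul_def]
    refine ⟨g⁻¹ * m * g, hQ (by simpa using (hM.1).conj_mem m hm g⁻¹), ?_⟩
    simp [MulAut.smul_def, MulAut.conj_apply, mul_assoc]
  · obtain ⟨k, hk⟩ := hMp.exists_card_eq
    refine Or.inl ?_
    rw [hk]
    exact (hq.odd_of_ne_two hne).pow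

/-- Lifting a normalizer of the image of a Sylow subgroup. -/
theorem exists_normalizer_lift {H : Type u} [Group H] (π : G →* H) (hπ : Function.Surjective π)
    (P : Sylow 2 G) {y : H} (hy : y ∈ Subgroup.normalizer (((P : Subgroup G).map π : Subgroup H) : Set H)) :
    ∃ n ∈ Subgroup.normalizer ((P : Subgroup G) : Set G), π n = y := by
  haveI : Fact (Nat.Prime 2) := ⟨Nat.prime_two⟩
  obtain ⟨g, rfl⟩ := hπ y
  let K := ((P : Subgroup G).map π).comap π
  have hPK : (P : Subgroup G) ≤ K := Subgroup.le_comap_map π _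
  have hgK : ((g • P : Sylow 2 G) : Subgroup G) ≤ K := by
    intro z hz
    rw [Sylow.smul_def] at hz
    obtain ⟨x, hx, rfl⟩ := hz
    show π (g * x * g⁻¹) ∈ (P : Subgroup G).map π
    rw [map_mul, map_mul, map_inv]
    exact (Subgroup.mem_normalizer_iff.1 hy _).1 ⟨x, hx, rfl⟩
  obtain ⟨h, hh⟩ := MulAction.exists_smul_eq K ((g • P).subtype hgK) (P.subtype hPK)
  rw [Sylow.smul_subtype] at hh
  have hh' := Sylow.subtype_injective hh
  rw [Subgroup.smul_def, ← mul_smul, Sylow.smul_eq_iff_mem_normalizer] at hh'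
  obtain ⟨x, hx, hxh⟩ := (h.2 : π (h : G) ∈ (P : Subgroup G).map π)
  refine ⟨x⁻¹ * ((h : G) * g), Subgroup.mul_mem _
    (Subgroup.inv_mem _ (Subgroup.le_normalizer hx)) hh', ?_⟩
  rw [map_mul, map_mul, map_inv, hxh, inv_mul_cancel_left]

/-- The image of the normalizer. -/
theorem map_mem_normalizer {H : Type u} [Group H] (π : G →* H) {P : Subgroup G} {n : G}
    (hn : n ∈ Subgroup.normalizer (P : Set G)) :
    π n ∈ Subgroup.normalizer ((P.map π : Subgroup H) : Set H) :=
  (Subgroup.le_normalizer_map π) ⟨n, hn, rfl⟩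

/-- The 2-power linear character of the group agreeing with an invariant one. -/
theorem exists_twoVal_extension (P : Sylow 2 G) {M : Subgroup G} [M.Normal]
    (hMP : M ≤ (P : Subgroup G)) (h2 : ∀ m ∈ M, m ^ 2 = 1) {f : G → ℂ} (hf : Lin2 (P : Subgroup G) f)
    (hinv : ∀ (g : G), ∀ m ∈ M, f (g * m * g⁻¹) = f m) :
    ∃ δ : G →* ℂˣ, TwoVal δ ∧ (∀ m ∈ M, (δ m : ℂ) = f m) ∧
      ((∀ x ∈ (P : Subgroup G), f x ^ 2 = 1) → ∀ g, δ g ^ 2 = 1) := by
  classical
  haveI : Fact (Nat.Prime 2) := ⟨Nat.prime_two⟩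
  let δ := MonoidHom.transfer hf.toHom
  haveI := (P : Subgroup G).fintypeQuotientOfFiniteIndex
  have hsq : (∀ x ∈ (P : Subgroup G), f x ^ 2 = 1) → ∀ g, δ g ^ 2 = 1 := fun h g => by
    simp only [δ, MonoidHom.transfer_def hf.toHom default, Subgroup.leftTransversals.diff,
      ← Finset.prod_pow]
    exact Finset.prod_eq_one fun q _ => (fun x : (P : Subgroup G) => Units.ext
      (show ((hf.toHom x ^ 2 : ℂˣ) : ℂ) = ((1 : ℂˣ) : ℂ) by simpa using h x x.2)) _
  refine ⟨δ, fun g => ?_, fun m hm => ?_, hsq⟩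
  · obtain ⟨k, hk⟩ := P.isPGroup'.exists_card_eq
    refine ⟨k, ?_⟩
    simp only [δ, MonoidHom.transfer_def hf.toHom default, Subgroup.leftTransversals.diff,
      ← Finset.prod_pow]
    refine Finset.prod_eq_one fun q _ => ?_
    rw [← map_pow, ← hk, pow_card_eq_one', map_one]
  · let T : (P : Subgroup G).LeftTransversal := default
    have hval : δ m = ∏ _q : G ⧸ (P : Subgroup G), hf.toHom ⟨m, hMP hm⟩ := by
      simp only [δ, MonoidHom.transfer_def hf.toHom T, Subgroup.leftTransversals.diff]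
      refine Finset.prod_congr (by congr 1; exact Subsingleton.elim _ _) fun q _ => ?_
      apply Units.ext
      simp only [Lin2.toHom_apply]
      have hfix : m⁻¹ • q = q := by
        induction q using QuotientGroup.induction_on with
        | H a =>
          rw [MulAction.Quotient.smul_mk, QuotientGroup.eq, smul_eq_mul]
          have := (‹M.Normal›).conj_mem m hm a⁻¹
          rw [inv_inv] at this
          have e : (m⁻¹ * a)⁻¹ * a = a⁻¹ * m * a := by group
          rw [e]; exact hMP this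
      rw [Subgroup.smul_apply_eq_smul_apply_inv_smul, hfix, smul_eq_mul]
      generalize (T.2.leftQuotientEquiv q : G) = a
      have := hinv a⁻¹ m hm
      rw [inv_inv] at this
      rw [← this, mul_assoc]
    rw [hval, Finset.prod_const, Finset.card_univ, ← Nat.card_eq_fintype_card,
      ← Subgroup.index_eq_card, Units.val_pow_eq_pow_val, Lin2.toHom_apply]
    obtain ⟨i, hi⟩ := Nat.not_even_iff_odd.1 (fun he : Even (P : Subgroup G).index =>
      P.not_dvd_index he.two_dvd)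
    have hm2 : f m ^ 2 = 1 := by
      rw [sq, ← hf.1 m (hMP hm) m (hMP hm), ← sq, h2 m hm, hf.map_one]
    rw [hi, pow_succ, pow_mul, hm2, one_pow, one_mul]

/-- A compatible function on a quotient. -/
theorem exists_compatible {H : Type u} [Group H] (π : G →* H) {P : Subgroup G} {f : G → ℂ}
    (hf : Lin2 P f) (hk : ∀ x ∈ P, π x = 1 → f x = 1) :
    ∃ fb : H → ℂ, Lin2 (P.map π) fb ∧ ∀ x ∈ P, fb (π x) = f x := by
  classical
  let fb : H → ℂ := fun y => if h : ∃ x ∈ P, π x = y then f h.choose else 0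
  have hcomp : ∀ x ∈ P, fb (π x) = f x := by
    intro x hx
    have h : ∃ x' ∈ P, π x' = π x := ⟨x, hx, rfl⟩
    simp only [fb, dif_pos h]
    obtain ⟨hy, hye⟩ := h.choose_spec
    have := hk _ (P.mul_mem hy (P.inv_mem hx)) (by rw [map_mul, map_inv, hye, mul_inv_cancel])
    rw [hf.1 _ hy _ (P.inv_mem hx), hf.map_inv hx, mul_inv_eq_one₀ (hf.ne_zero hx)] at this
    exact this
  refine ⟨fb, ⟨?_, ?_⟩, hcomp⟩
  · rintro _ ⟨x, hx, rfl⟩ _ ⟨y, hy, rfl⟩
    rw [← map_mul, hcomp _ (P.mul_mem hx hy), hcomp x hx, hcomp y hy, hf.1 _ hx _ hy]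
  · rintro _ ⟨x, hx, rfl⟩
    obtain ⟨k, hk⟩ := hf.2 x hx
    exact ⟨k, by rw [hcomp x hx, hk]⟩

end Cfsg.Agent.Blocks.OddLin
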