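import Mathlib

/-!
Integer functions on `ZMod n` with the orthogonality relations of the subsections of a block with
cyclic defect group.
-/

namespace Cfsg.Agent.Blocks.OrbitLattice

open scoped ComplexConjugate

set_option autoImplicit false
set_option linter.unusedSectionVars false

variable {ι : Type*} [Fintype ι] {n : ℕ} [NeZero n]

/-- The transform of an integer function. -/
noncomputable def hatF (f : ZMod n → ℤ) (x : ZMod n) : ℂ :=
  ∑ j, (f j : ℂ) * ZMod.stdAddChar (j * x)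

/-- A function constant off zero with vanishing transform. -/
theorem hatF_eq_zero {f : ZMod n → ℤ} (hf : ∀ i, f i = f 0) {x : ZMod n} (hx : x ≠ 0) :
    hatF f x = 0 := by
  rw [hatF, Finset.sum_congr rfl fun j _ => by rw [hf j], ← Finset.mul_sum,
    AddChar.sum_mulShift x (ZMod.isPrimitive_stdAddChar n), if_neg hx, Nat.cast_zero, mul_zero]

/-- Recovering a function. -/
theorem inv_hatF (f : ZMod n → ℤ) (i : ZMod n) :
    ∑ x, hatF f x * (ZMod.stdAddChar (-(i * x)) - 1) = (n : ℂ) * ((f i : ℂ) - f 0) := by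
  simp only [hatF, Finset.sum_mul, mul_sub, mul_one]
  rw [Finset.sum_sub_distrib, Finset.sum_comm]
  conv_lhs => arg 2; rw [Finset.sum_comm]
  simp only [mul_assoc, ← Finset.mul_sum, ← AddChar.map_add_eq_mul]
  have h : ∀ j, ∑ x : ZMod n, ZMod.stdAddChar (j * x + -(i * x)) =
      if j = i then (n : ℂ) else 0 := by
    intro j
    rw [Finset.sum_congr rfl fun x _ => by
      rw [show j * x + -(i * x) = x * (j - i) by ring],
      AddChar.sum_mulShift _ (ZMod.isPrimitive_stdAddChar n), ZMod.card]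
    simp only [sub_eq_zero]
    split_ifs <;> simp
  have h0 : ∀ j, ∑ x : ZMod n, ZMod.stdAddChar (j * x) = if j = 0 then (n : ℂ) else 0 := by
    intro j
    rw [Finset.sum_congr rfl fun x _ => by rw [mul_comm j x],
      AddChar.sum_mulShift _ (ZMod.isPrimitive_stdAddChar n), ZMod.card]
    split_ifs <;> simp
  simp only [h, h0, mul_ite, mul_zero, Finset.sum_ite_eq', Finset.mem_univ, if_true]
  ring

variable {R : Finset (ZMod n)}

/-- The Gram matrix of the shifted functions. -/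
theorem gram (h1 : (1 : ZMod n) ∈ R) (hfree : ∀ r ∈ R, ∀ i : ZMod n, r * i = i → i ≠ 0 → r = 1)
    (hunit : ∀ r ∈ R, ∀ i : ZMod n, r * i = 0 → i = 0)
    (hdiv : ∀ r ∈ R, ∀ s ∈ R, ∃ u ∈ R, s = r * u)
    (m : ι → ZMod n → ℤ)
    (horth : ∀ x y : ZMod n, x ≠ 0 → y ≠ 0 →
      ∑ c, hatF (m c) x * conj (hatF (m c) y) = if y ∈ R.image (· * x) then (n : ℂ) else 0)
    {i j : ZMod n} (hi : i ≠ 0) (hj : j ≠ 0) :
    ∑ c, (m c i - m c 0) * (m c j - m c 0) =
      (if j ∈ R.image (· * i) then 1 else 0) + (R.card : ℤ) := by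
  classical
  have hn : (n : ℂ) ≠ 0 := Nat.cast_ne_zero.2 (NeZero.ne n)
  have hconj : ∀ x, conj (ZMod.stdAddChar (-(j * x)) : ℂ) = ZMod.stdAddChar (j * x) := fun x => by
    rw [← AddChar.map_neg_eq_conj, neg_neg]
  have e1 : (n : ℂ) * n * (((∑ c, (m c i - m c 0) * (m c j - m c 0) : ℤ)) : ℂ) =
      ∑ x, ∑ y, (ZMod.stdAddChar (-(i * x)) - 1) * (ZMod.stdAddChar (j * y) - 1) *
        ∑ c, hatF (m c) x * conj (hatF (m c) y) := by
    push_cast
    rw [Finset.mul_sum]
    simp only [Finset.mul_sum]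
    conv_rhs => arg 2; ext x; rw [Finset.sum_comm]
    rw [Finset.sum_comm]
    refine Finset.sum_congr rfl fun c _ => ?_
    have hb := congrArg conj (inv_hatF (m c) j)
    simp only [map_sum, map_mul, map_sub, map_one, hconj, map_natCast, map_intCast] at hb
    have ha := inv_hatF (m c) i
    rw [show (n : ℂ) * n * (((m c i : ℂ) - m c 0) * ((m c j : ℂ) - m c 0)) =
      ((n : ℂ) * ((m c i : ℂ) - m c 0)) * ((n : ℂ) * ((m c j : ℂ) - m c 0)) by ring, ← ha, ← hb,
      Finset.sum_mul_sum]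
    exact Finset.sum_congr rfl fun x _ => Finset.sum_congr rfl fun y _ => by ring
  have e2 : ∀ x : ZMod n, ∑ y, (ZMod.stdAddChar (-(i * x)) - 1) * (ZMod.stdAddChar (j * y) - 1) *
        ∑ c, hatF (m c) x * conj (hatF (m c) y) =
      ∑ r ∈ R, (n : ℂ) * ((ZMod.stdAddChar (-(i * x)) - 1) *
        (ZMod.stdAddChar (j * (r * x)) - 1)) := by
    intro x
    by_cases hx : x = 0
    · subst hx; simp
    have hinj : Set.InjOn (· * x) (R : Set (ZMod n)) := fun r hr s hs h => by
      obtain ⟨u, hu, rfl⟩ := hdiv r hr s hs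
      simp only at h
      have h2 : r * (u * x - x) = 0 := by rw [mul_sub, ← mul_assoc, ← h, sub_self]
      rw [hfree u hu x (sub_eq_zero.1 (hunit r hr _ h2)) hx, mul_one]
    rw [← Finset.sum_subset (Finset.subset_univ (R.image (· * x))) fun y _ hy => by
        by_cases hy0 : y = 0
        · subst hy0; simp
        · rw [horth x y hx hy0, if_neg hy, mul_zero],
      Finset.sum_image hinj]
    refine Finset.sum_congr rfl fun r hr => ?_
    rw [horth x (r * x) hx (fun h => hx (hunit r hr x h)),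
      if_pos (Finset.mem_image.2 ⟨r, hr, rfl⟩)]
    ring
  have e3 : ∀ r ∈ R, ∑ x : ZMod n, (n : ℂ) * ((ZMod.stdAddChar (-(i * x)) - 1) *
      (ZMod.stdAddChar (j * (r * x)) - 1)) =
      (n : ℂ) * n * ((if r * j = i then 1 else 0) + 1) := by
    intro r hr
    rw [← Finset.mul_sum]
    have : ∀ x : ZMod n, (ZMod.stdAddChar (-(i * x)) - 1 : ℂ) *
        (ZMod.stdAddChar (j * (r * x)) - 1) =
        ZMod.stdAddChar (x * (r * j - i)) - ZMod.stdAddChar (x * (-i)) -
          ZMod.stdAddChar (x * (r * j)) + 1 := by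
      intro x
      rw [show x * (r * j - i) = -(i * x) + j * (r * x) by ring, AddChar.map_add_eq_mul,
        show x * (-i) = -(i * x) by ring, show x * (r * j) = j * (r * x) by ring]
      ring
    rw [Finset.sum_congr rfl fun x _ => this x, Finset.sum_add_distrib, Finset.sum_sub_distrib,
      Finset.sum_sub_distrib, AddChar.sum_mulShift _ (ZMod.isPrimitive_stdAddChar n),
      AddChar.sum_mulShift _ (ZMod.isPrimitive_stdAddChar n),
      AddChar.sum_mulShift _ (ZMod.isPrimitive_stdAddChar n)]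
    have hrj : r * j ≠ 0 := fun h => hj (hunit r hr j h)
    simp only [Finset.sum_const, Finset.card_univ, ZMod.card, nsmul_eq_mul, mul_one, neg_eq_zero,
      hi, hrj, sub_eq_zero, if_false]
    split_ifs <;> push_cast <;> ring
  rw [Finset.sum_congr rfl fun x _ => e2 x, Finset.sum_comm, Finset.sum_congr rfl e3,
    ← Finset.mul_sum, Finset.sum_add_distrib, Finset.sum_boole, Finset.sum_const, nsmul_eq_mul,
    mul_one] at e1
  have e4 := mul_left_cancel₀ (mul_ne_zero hn hn) e1
  have e5 : (R.filter fun r => r * j = i).card = if j ∈ R.image (· * i) then 1 else 0 := by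
    split_ifs with hm
    · obtain ⟨r, hr, rfl⟩ := Finset.mem_image.1 hm
      obtain ⟨u, hu, hru⟩ := hdiv r hr 1 h1
      refine Finset.card_eq_one.2 ⟨u, ?_⟩
      ext s
      simp only [Finset.mem_filter, Finset.mem_singleton]
      constructor
      · rintro ⟨hs, hsi⟩
        obtain ⟨w, hw, rfl⟩ := hdiv u hu s hs
        have h2 : w * i = i := by
          have : r * u * w * i = i := by
            rw [show r * u * w * i = u * w * (r * i) by ring]; exact hsi
          rwa [← hru, one_mul] at this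
        rw [hfree w hw i h2 hi, mul_one]
      · intro hsu
        subst hsu
        exact ⟨hu, by rw [show s * (r * i) = r * s * i by ring, ← hru, one_mul]⟩
    · rw [Finset.card_eq_zero, Finset.filter_eq_empty_iff]
      intro r hr h
      obtain ⟨u, hu, hru⟩ := hdiv r hr 1 h1
      exact hm (Finset.mem_image.2 ⟨u, hu, by
        rw [← h, show u * (r * j) = r * u * j by ring, ← hru, one_mul]⟩)
  rw [e5] at e4
  push_cast at e4
  exact_mod_cast e4

/-- The squares and differences of a function constant on the orbits. -/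
theorem column (h1 : (1 : ZMod n) ∈ R)
    (hfree : ∀ r ∈ R, ∀ i : ZMod n, r * i = i → i ≠ 0 → r = 1)
    (hunit : ∀ r ∈ R, ∀ i : ZMod n, r * i = 0 → i = 0)
    (hdiv : ∀ r ∈ R, ∀ s ∈ R, ∃ u ∈ R, s = r * u)
    (V : ZMod n → ℤ) (hV : ∀ r ∈ R, ∀ i, V (r * i) = V i) :
    let S := (Finset.univ : Finset (ZMod n)).erase 0
    (¬ ∀ i ∈ S, ∀ j ∈ S, V i = V j) →
      2 * (R.card : ℤ) * ((S.card : ℤ) - R.card) ≤ ∑ i ∈ S, ∑ j ∈ S, (V i - V j) ^ 2 ∧
      (R.card : ℤ) ≤ ∑ i ∈ S, V i ^ 2 ∧ (∑ i ∈ S, V i ^ 2 = (R.card : ℤ) →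
        ∃ (o : ZMod n) (d : ℤ), o ≠ 0 ∧ (d = 1 ∨ d = -1) ∧
          ∀ i ∈ S, V i = if i ∈ R.image (· * o) then d else 0) := by
  classical
  intro S hne
  change ¬ ∀ i ∈ S, ∀ j ∈ S, V i = V j at hne
  have hmemS : ∀ i, i ∈ S ↔ i ≠ 0 := fun i => by simp [S]
  have hcard : ∀ i : ZMod n, i ≠ 0 → (R.image (· * i)).card = R.card := by
    intro i hi
    refine Finset.card_image_of_injOn fun r hr s hs h => ?_
    obtain ⟨u, hu, rfl⟩ := hdiv r hr s hs
    change r * i = r * u * i at h
    have h2 : r * (u * i - i) = 0 := by rw [mul_sub, ← mul_assoc, ← h, sub_self]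
    rw [hfree u hu i (sub_eq_zero.1 (hunit r hr _ h2)) hi, mul_one]
  have hsub : ∀ i : ZMod n, i ≠ 0 → R.image (· * i) ⊆ S.filter fun j => V j = V i := by
    intro i hi j hj
    obtain ⟨r, hr, rfl⟩ := Finset.mem_image.1 hj
    exact Finset.mem_filter.2 ⟨(hmemS _).2 fun h => hi (hunit r hr i h), hV r hr i⟩
  have key : ∀ i ∈ S, (R.card : ℤ) ≤ (S.filter fun j => V j = V i).card := by
    intro i hi
    rw [← hcard i ((hmemS i).1 hi)]
    exact_mod_cast Finset.card_le_card (hsub i ((hmemS i).1 hi))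
  push Not at hne
  obtain ⟨a, ha, b, hb, hab⟩ := hne
  refine ⟨?_, ?_⟩
  · set A := S.filter fun j => V j = V a
    set B := S.filter fun j => ¬ V j = V a
    have hA := key a ha
    have hB : (R.card : ℤ) ≤ B.card :=
      (key b hb).trans (by
        exact_mod_cast Finset.card_le_card fun j hj => by
          rw [Finset.mem_filter] at hj
          exact Finset.mem_filter.2 ⟨hj.1, by rw [hj.2]; exact Ne.symm hab⟩)
    have hAB : (A.card : ℤ) + B.card = S.card := by
      exact_mod_cast Finset.card_filter_add_card_filter_not (s := S) fun j => V j = V a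
    have h2 : ∀ i ∈ S, ∑ j ∈ S, (if (V i = V a) = (V j = V a) then (0 : ℤ) else 1) ≤
        ∑ j ∈ S, (V i - V j) ^ 2 := fun i _ => Finset.sum_le_sum fun j _ => by
      split_ifs with h
      · positivity
      · have : V i ≠ V j := fun hh => h (by rw [hh])
        have h3 : 0 < (V i - V j) ^ 2 := by
          have := sub_ne_zero.2 this
          positivity
        omega
    refine le_trans ?_ (Finset.sum_le_sum h2)
    rw [← Finset.sum_filter_add_sum_filter_not S (fun j => V j = V a)]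
    have hrow : ∀ i ∈ A, ∑ j ∈ S, (if (V i = V a) = (V j = V a) then (0 : ℤ) else 1) = B.card := by
      intro i hi
      rw [Finset.sum_ite, Finset.sum_const_zero, zero_add, Finset.sum_const, nsmul_eq_mul, mul_one]
      congr 2
      ext j
      simp only [B, Finset.mem_filter, (Finset.mem_filter.1 hi).2, eq_iff_iff,
        true_iff]
    have hrow' : ∀ i ∈ B, ∑ j ∈ S, (if (V i = V a) = (V j = V a) then (0 : ℤ) else 1) = A.card := by
      intro i hi
      rw [Finset.sum_ite, Finset.sum_const_zero, zero_add, Finset.sum_const, nsmul_eq_mul, mul_one]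
      congr 2
      ext j
      simp only [A, Finset.mem_filter, (Finset.mem_filter.1 hi).2, eq_iff_iff, false_iff, not_not]
    rw [Finset.sum_congr rfl hrow, Finset.sum_congr rfl hrow', Finset.sum_const, Finset.sum_const,
      nsmul_eq_mul, nsmul_eq_mul, ← hAB]
    nlinarith [mul_nonneg (sub_nonneg.2 hA) (sub_nonneg.2 hB)]
  obtain ⟨o, ho, hVo⟩ : ∃ o ∈ S, V o ≠ 0 := by
    by_cases h : V a = 0
    · exact ⟨b, hb, fun h' => hab (h.trans h'.symm)⟩
    · exact ⟨a, ha, h⟩
  set O := R.image (· * o)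
  have hOS : O ⊆ S := (hsub o ((hmemS o).1 ho)).trans (Finset.filter_subset _ _)
  have hO : ∀ j ∈ O, V j = V o := fun j hj =>
    (Finset.mem_filter.1 (hsub o ((hmemS o).1 ho) hj)).2
  have hsplit : ∑ i ∈ S, V i ^ 2 = (R.card : ℤ) * V o ^ 2 + ∑ i ∈ S \ O, V i ^ 2 := by
    rw [← Finset.sum_sdiff hOS, Finset.sum_congr (s₁ := O) (g := fun _ => V o ^ 2) rfl
        (fun j hj => by rw [hO j hj]),
      Finset.sum_const, hcard o ((hmemS o).1 ho), nsmul_eq_mul, add_comm]
  have h1o : 1 ≤ V o ^ 2 := by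
    have : 0 < V o ^ 2 := by positivity
    omega
  have hnn : 0 ≤ ∑ i ∈ S \ O, V i ^ 2 := Finset.sum_nonneg fun i _ => sq_nonneg _
  have hR : 0 < (R.card : ℤ) := by exact_mod_cast Finset.card_pos.2 ⟨1, h1⟩
  refine ⟨?_, fun heq => ⟨o, V o, (hmemS o).1 ho, ?_, fun i hi => ?_⟩⟩
  · nlinarith
  · have : V o ^ 2 = 1 := by nlinarith
    exact sq_eq_one_iff.1 this
  · split_ifs with h
    · exact hO i h
    · have h0 : ∑ i ∈ S \ O, V i ^ 2 = 0 := by nlinarith
      exact sq_eq_zero_iff.1 ((Finset.sum_eq_zero_iff_of_nonneg fun i _ => sq_nonneg _).1 h0 i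
        (Finset.mem_sdiff.2 ⟨hi, h⟩))

/-- The shape of orbit functions with these products when there are enough of them. -/
theorem shape (h1 : (1 : ZMod n) ∈ R)
    (hfree : ∀ r ∈ R, ∀ i : ZMod n, r * i = i → i ≠ 0 → r = 1)
    (hunit : ∀ r ∈ R, ∀ i : ZMod n, r * i = 0 → i = 0)
    (hdiv : ∀ r ∈ R, ∀ s ∈ R, ∃ u ∈ R, s = r * u) (hn : 2 ≤ n)
    (V : ι → ZMod n → ℤ) (hV : ∀ c, ∀ r ∈ R, ∀ i, V c (r * i) = V c i)
    (hne : ∀ c, ∃ i, i ≠ 0 ∧ V c i ≠ 0)
    (hG : ∀ i j : ZMod n, i ≠ 0 → j ≠ 0 → ∑ c, V c i * V c j =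
      (if j ∈ R.image (· * i) then 1 else 0) + (R.card : ℤ))
    (hk : R.card * R.card + (n - 1) ≤ Fintype.card ι * R.card) :
    ∃ (X Y : Finset ι) (d : ι → ℤ) (o : ι → ZMod n), Disjoint X Y ∧ (∀ c, c ∈ X ∨ c ∈ Y) ∧
      X.card = R.card ∧ Y.card * R.card = n - 1 ∧
      (∀ c, d c = 1 ∨ d c = -1) ∧
      (∀ c ∈ X, ∀ i, i ≠ 0 → V c i = d c) ∧
      (∀ c ∈ Y, o c ≠ 0 ∧ ∀ i, i ≠ 0 → V c i = if i ∈ R.image (· * o c) then d c else 0) ∧
      ∀ i : ZMod n, i ≠ 0 → ∃ c ∈ Y, i ∈ R.image (· * o c) := by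
  classical
  set S := (Finset.univ : Finset (ZMod n)).erase 0 with hS
  have hmemS : ∀ i, i ∈ S ↔ i ≠ 0 := fun i => by simp [S]
  have hN : (S.card : ℤ) = n - 1 := by
    rw [hS, Finset.card_erase_of_mem (Finset.mem_univ _), Finset.card_univ, ZMod.card]
    omega
  have hR : 0 < (R.card : ℤ) := by exact_mod_cast Finset.card_pos.2 ⟨1, h1⟩
  have hdiag : ∀ i ∈ S, ∑ c, V c i * V c i = 1 + (R.card : ℤ) := fun i hi => by
    rw [hG i i ((hmemS i).1 hi) ((hmemS i).1 hi),
      if_pos (Finset.mem_image.2 ⟨1, h1, one_mul i⟩)]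
  set sq : ι → ℤ := fun c => ∑ i ∈ S, V c i ^ 2 with hsq
  set df : ι → ℤ := fun c => ∑ i ∈ S, ∑ j ∈ S, (V c i - V c j) ^ 2 with hdf
  have htot : ∑ c, sq c = (n - 1 : ℤ) * (1 + R.card) := by
    rw [hsq, Finset.sum_comm, Finset.sum_congr rfl fun i hi => by
      rw [show ∑ c, V c i ^ 2 = 1 + (R.card : ℤ) by simp only [pow_two, hdiag i hi]],
      Finset.sum_const, nsmul_eq_mul, hN]
  have horb : ∀ i ∈ S, R.image (· * i) ⊆ S := fun i hi j hj => by
    obtain ⟨r, hr, rfl⟩ := Finset.mem_image.1 hj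
    exact (hmemS _).2 fun h => (hmemS i).1 hi (hunit r hr i h)
  have horbc : ∀ i ∈ S, (R.image (· * i)).card = R.card := by
    intro i hi
    refine Finset.card_image_of_injOn fun r hr s hs h => ?_
    obtain ⟨u, hu, rfl⟩ := hdiv r hr s hs
    change r * i = r * u * i at h
    have h2 : r * (u * i - i) = 0 := by rw [mul_sub, ← mul_assoc, ← h, sub_self]
    rw [hfree u hu i (sub_eq_zero.1 (hunit r hr _ h2)) ((hmemS i).1 hi), mul_one]
  have hdiff : ∑ c, df c = 2 * (n - 1 : ℤ) * ((n - 1) - R.card) := by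
    rw [hdf, Finset.sum_comm, Finset.sum_congr rfl fun i hi => show
      ∑ c, ∑ j ∈ S, (V c i - V c j) ^ 2 = 2 * ((n - 1 : ℤ) - R.card) by
        rw [Finset.sum_comm, Finset.sum_congr rfl fun j hj => show
          ∑ c, (V c i - V c j) ^ 2 = 2 - 2 * (if j ∈ R.image (· * i) then (1 : ℤ) else 0) by
            rw [Finset.sum_congr rfl fun c _ => show (V c i - V c j) ^ 2 =
                V c i * V c i + V c j * V c j - 2 * (V c i * V c j) by ring,
              Finset.sum_sub_distrib, Finset.sum_add_distrib, ← Finset.mul_sum, hdiag i hi,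
              hdiag j hj, hG i j ((hmemS i).1 hi) ((hmemS j).1 hj)]
            ring,
          Finset.sum_sub_distrib, ← Finset.mul_sum, Finset.sum_const, nsmul_eq_mul, Finset.sum_boole,
          show (S.filter fun j => j ∈ R.image (· * i)) = R.image (· * i) by
            rw [Finset.filter_mem_eq_inter, Finset.inter_eq_right.2 (horb i hi)],
          horbc i hi, hN]
        ring,
      Finset.sum_const, nsmul_eq_mul, hN]
    ring
  set Y0 := Finset.univ.filter fun c => ¬ ∀ i ∈ S, ∀ j ∈ S, V c i = V c j with hY0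
  set X0 := Finset.univ.filter fun c => ∀ i ∈ S, ∀ j ∈ S, V c i = V c j with hX0
  have hXY : (X0.card : ℤ) + Y0.card = Fintype.card ι := by
    exact_mod_cast Finset.card_filter_add_card_filter_not (s := (Finset.univ : Finset ι))
      fun c => ∀ i ∈ S, ∀ j ∈ S, V c i = V c j
  have hc0 : ∀ c ∈ X0, ∃ v : ℤ, v ≠ 0 ∧ ∀ i ∈ S, V c i = v := by
    intro c hc
    obtain ⟨i, hi, hvi⟩ := hne c
    exact ⟨V c i, hvi, fun j hj => (Finset.mem_filter.1 hc).2 j hj i ((hmemS i).2 hi)⟩
  have hX : ∀ c ∈ X0, (n - 1 : ℤ) ≤ sq c := by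
    intro c hc
    obtain ⟨v, hv, hVv⟩ := hc0 c hc
    show _ ≤ ∑ i ∈ S, V c i ^ 2
    rw [Finset.sum_congr rfl fun i hi => by rw [hVv i hi], Finset.sum_const, nsmul_eq_mul, hN]
    have : 0 < v ^ 2 := by positivity
    nlinarith
  have hY : ∀ c ∈ Y0, _ := fun c hc => column h1 hfree hunit hdiv (V c) (hV c) (Finset.mem_filter.1 hc).2
  have hn1 : (1 : ℤ) ≤ n - 1 := by omega
  have hRN : (R.card : ℤ) ≤ n - 1 := by
    obtain ⟨i, hi⟩ : S.Nonempty := Finset.card_pos.1 (by omega)
    rw [← hN, ← horbc i hi]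
    exact_mod_cast Finset.card_le_card (horb i hi)
  have hk' : (R.card : ℤ) * R.card + (n - 1) ≤ Fintype.card ι * R.card := by
    have := hk
    have h3 : ((R.card * R.card + (n - 1) : ℕ) : ℤ) ≤ (Fintype.card ι * R.card : ℕ) := by
      exact_mod_cast this
    rw [Nat.cast_add, Nat.cast_mul, Nat.cast_mul, Nat.cast_sub (by omega)] at h3
    simpa using h3
  have hlow : (n - 1 : ℤ) * X0.card + R.card * Y0.card ≤ ∑ c, sq c := by
    rw [← Finset.sum_filter_add_sum_filter_not Finset.univ fun c => ∀ i ∈ S, ∀ j ∈ S, V c i = V c j]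
    refine add_le_add ?_ ?_
    · rw [mul_comm, ← nsmul_eq_mul, ← Finset.sum_const]; exact Finset.sum_le_sum hX
    · rw [mul_comm, ← nsmul_eq_mul, ← Finset.sum_const]
      exact Finset.sum_le_sum fun c hc => (hY c hc).2.1
  by_cases hone : (n - 1 : ℤ) = R.card
  · -- a single orbit
    have hall : ∀ c, ∀ i ∈ S, ∀ j ∈ S, V c i = V c j := by
      intro c i hi j hj
      have : R.image (· * i) = S := Finset.eq_of_subset_of_card_le (horb i hi) (by
        rw [horbc i hi]; omega)
      obtain ⟨r, hr, rfl⟩ := Finset.mem_image.1 (this.symm ▸ hj)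
      exact (hV c r hr i).symm
    have hX0u : X0 = Finset.univ := Finset.filter_true_of_mem fun c _ => hall c
    have hY0e : Y0.card = 0 := by
      rw [Finset.card_eq_zero, hY0, Finset.filter_eq_empty_iff]
      exact fun c _ h => h (hall c)
    rw [hY0e] at hXY hlow
    rw [htot, hone] at hlow
    rw [hone] at hk'
    have hXc : (X0.card : ℤ) = R.card + 1 := by push_cast at hlow hXY; nlinarith
    have hsqX : ∀ c ∈ X0, (n - 1 : ℤ) = sq c := by
      refine (Finset.sum_eq_sum_iff_of_le hX).1 ?_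
      rw [hX0u, htot, Finset.sum_const, nsmul_eq_mul, ← hX0u, hXc]
      ring
    have hd : ∀ c, ∃ d : ℤ, (d = 1 ∨ d = -1) ∧ ∀ i ∈ S, V c i = d := by
      intro c
      obtain ⟨v, hv, hVv⟩ := hc0 c (hX0u ▸ Finset.mem_univ c)
      refine ⟨v, ?_, hVv⟩
      have h := hsqX c (hX0u ▸ Finset.mem_univ c)
      simp only [hsq] at h
      rw [Finset.sum_congr rfl fun i hi => by rw [hVv i hi], Finset.sum_const, nsmul_eq_mul,
        hN] at h
      have : v ^ 2 = 1 := by nlinarith
      exact sq_eq_one_iff.1 this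
    choose d hd hdV using hd
    obtain ⟨c0⟩ : Nonempty ι := Fintype.card_pos_iff.1 (by nlinarith)
    obtain ⟨o, ho⟩ : S.Nonempty := Finset.card_pos.1 (by omega)
    have himg : R.image (· * o) = S :=
      Finset.eq_of_subset_of_card_le (horb o ho) (by rw [horbc o ho]; omega)
    refine ⟨Finset.univ.erase c0, {c0}, d, fun _ => o,
      Finset.disjoint_singleton_right.2 (Finset.notMem_erase _ _),
      fun c => (em (c = c0)).symm.imp (by simp) (by simp), ?_, ?_, hd,
      fun c _ i hi => hdV c i ((hmemS i).2 hi),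
      fun c _ => ⟨(hmemS o).1 ho, fun i hi => ?_⟩,
      fun i hi => ⟨c0, Finset.mem_singleton_self _, himg.symm ▸ (hmemS i).2 hi⟩⟩
    · rw [Finset.card_erase_of_mem (Finset.mem_univ _), Finset.card_univ]
      rw [hX0u, Finset.card_univ] at hXc
      omega
    · rw [Finset.card_singleton, one_mul]; omega
    · rw [himg, if_pos ((hmemS i).2 hi)]
      exact hdV c i ((hmemS i).2 hi)
  · have hgt : 0 < (n - 1 : ℤ) - R.card := by omega
    have hYle : (Y0.card : ℤ) * R.card ≤ n - 1 := by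
      have h : (2 * R.card * ((n - 1 : ℤ) - R.card)) * Y0.card ≤ ∑ c, df c := by
        rw [mul_comm, ← nsmul_eq_mul, ← Finset.sum_const]
        refine (Finset.sum_le_sum fun c hc => hN ▸ (hY c hc).1).trans
          (Finset.sum_le_sum_of_subset_of_nonneg (Finset.filter_subset _ _) fun c _ _ => ?_)
        exact Finset.sum_nonneg fun i _ => Finset.sum_nonneg fun j _ => sq_nonneg _
      rw [hdiff] at h
      have h2 : 0 ≤ ((n - 1 : ℤ) - Y0.card * R.card) * ((n - 1 : ℤ) - R.card) := by nlinarith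
      exact sub_nonneg.1 ((mul_nonneg_iff_of_pos_right hgt).1 h2)
    rw [htot] at hlow
    have hYeq : (Y0.card : ℤ) * R.card = n - 1 := by
      refine le_antisymm hYle ?_
      rw [← hXY] at hk'
      have h5 := mul_le_mul_of_nonneg_left hlow hR.le
      have h6 := mul_le_mul_of_nonneg_left hk' (show (0 : ℤ) ≤ n - 1 by omega)
      have h2 : 0 ≤ (Y0.card * (R.card : ℤ) - (n - 1)) * ((n - 1 : ℤ) - R.card) := by
        linarith only [h5, h6, show (Y0.card * (R.card : ℤ) - (n - 1)) * ((n - 1 : ℤ) - R.card) =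
          Y0.card * R.card * (n - 1) - Y0.card * R.card * R.card - (n - 1) * (n - 1) +
            (n - 1) * R.card by ring]
      exact sub_nonneg.1 ((mul_nonneg_iff_of_pos_right hgt).1 h2)
    have hXc : (X0.card : ℤ) = R.card := by
      have h3 : ((n - 1 : ℤ) * X0.card) ≤ (n - 1) * R.card := by
        linarith only [hlow, show (R.card : ℤ) * Y0.card = n - 1 by rw [mul_comm]; exact hYeq]
      have h4 := le_of_mul_le_mul_left h3 (by omega)
      rw [← hXY, add_mul, hYeq] at hk'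
      exact le_antisymm h4 (le_of_mul_le_mul_right (by linarith only [hk']) hR)
    have heq : ∑ c ∈ X0, sq c = (n - 1 : ℤ) * X0.card ∧ ∑ c ∈ Y0, sq c = (R.card : ℤ) * Y0.card := by
      have hA : (n - 1 : ℤ) * X0.card ≤ ∑ c ∈ X0, sq c := by
        rw [mul_comm, ← nsmul_eq_mul, ← Finset.sum_const]; exact Finset.sum_le_sum hX
      have hB : (R.card : ℤ) * Y0.card ≤ ∑ c ∈ Y0, sq c := by
        rw [mul_comm, ← nsmul_eq_mul, ← Finset.sum_const]
        exact Finset.sum_le_sum fun c hc => (hY c hc).2.1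
      have hT : ∑ c, sq c = ∑ c ∈ X0, sq c + ∑ c ∈ Y0, sq c :=
        (Finset.sum_filter_add_sum_filter_not _ _ _).symm
      rw [htot] at hT
      have hS' : (n - 1 : ℤ) * X0.card + R.card * Y0.card = (n - 1 : ℤ) * (1 + R.card) := by
        rw [hXc, mul_comm (R.card : ℤ) (Y0.card : ℤ), hYeq]; ring
      exact ⟨le_antisymm (by linarith only [hA, hB, hT, hS']) hA,
        le_antisymm (by linarith only [hA, hB, hT, hS']) hB⟩
    have hsqX : ∀ c ∈ X0, (n - 1 : ℤ) = sq c := (Finset.sum_eq_sum_iff_of_le hX).1 (by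
      rw [Finset.sum_const, nsmul_eq_mul, heq.1, mul_comm])
    have hsqY : ∀ c ∈ Y0, (R.card : ℤ) = sq c :=
      (Finset.sum_eq_sum_iff_of_le fun c hc => (hY c hc).2.1).1 (by
        rw [Finset.sum_const, nsmul_eq_mul, heq.2, mul_comm])
    have hex : ∀ c, ∃ (d : ℤ) (o : ZMod n), (d = 1 ∨ d = -1) ∧
        (c ∈ X0 → ∀ i, i ≠ 0 → V c i = d) ∧
        (c ∈ Y0 → o ≠ 0 ∧ ∀ i, i ≠ 0 → V c i = if i ∈ R.image (· * o) then d else 0) := by
      intro c
      by_cases hc : c ∈ X0
      · obtain ⟨v, hv, hVv⟩ := hc0 c hc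
        refine ⟨v, 0, ?_, fun _ i hi => hVv i ((hmemS i).2 hi),
          fun h => absurd (Finset.mem_filter.1 hc).2 (Finset.mem_filter.1 h).2⟩
        have h := hsqX c hc
        simp only [hsq] at h
        rw [Finset.sum_congr rfl fun i hi => by rw [hVv i hi], Finset.sum_const, nsmul_eq_mul,
          hN] at h
        have : v ^ 2 = 1 := by nlinarith
        exact sq_eq_one_iff.1 this
      · have hcY : c ∈ Y0 := Finset.mem_filter.2 ⟨Finset.mem_univ c, fun h =>
          hc (Finset.mem_filter.2 ⟨Finset.mem_univ c, h⟩)⟩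
        obtain ⟨o, d, ho, hd, hVd⟩ := (hY c hcY).2.2 (hsqY c hcY).symm
        exact ⟨d, o, hd, fun h => absurd h hc, fun _ => ⟨ho, fun i hi => hVd i ((hmemS i).2 hi)⟩⟩
    choose d o hd hdX hdY using hex
    refine ⟨X0, Y0, d, o, Finset.disjoint_filter_filter_not _ _ _, fun c => ?_,
      by exact_mod_cast hXc, ?_, hd, hdX, hdY, fun i hi => ?_⟩
    · exact (em (∀ i ∈ S, ∀ j ∈ S, V c i = V c j)).imp
        (fun h => Finset.mem_filter.2 ⟨Finset.mem_univ c, h⟩)
        (fun h => Finset.mem_filter.2 ⟨Finset.mem_univ c, h⟩)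
    · zify [show 1 ≤ n by omega]; exact hYeq
    · by_contra hno
      push Not at hno
      have h := hdiag i ((hmemS i).2 hi)
      rw [← Finset.sum_filter_add_sum_filter_not Finset.univ
          (fun c => ∀ i ∈ S, ∀ j ∈ S, V c i = V c j),
        Finset.sum_congr rfl (fun c hc => show V c i * V c i = 1 by
          rw [hdX c hc i hi]; rcases hd c with h | h <;> rw [h] <;> norm_num),
        show ∑ c ∈ Y0, V c i * V c i = 0 from Finset.sum_eq_zero (fun c hc => by
          rw [(hdY c hc).2 i hi, if_neg (hno c hc), mul_zero]),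
        Finset.sum_const, nsmul_eq_mul, mul_one, add_zero] at h
      change (X0.card : ℤ) = _ at h
      omega

end Cfsg.Agent.Blocks.OrbitLattice
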