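import Cfsg.Agent.FGS3.ClassTwo
import Cfsg.Agent.OddLocal.RankTwo.SmallClass

/-! Groups of order `p ^ 4`. -/

namespace Cfsg.Agent.Blocks.PFour

open Subgroup
open scoped commutatorElement

universe u

variable {P : Type u} [Group P] [Finite P] {p : ℕ} [Fact p.Prime]

theorem index_centralizer_of_card (hc : commutator P ≤ center P) (hd : Nat.card (commutator P) = p)
    {x : P} (hx : x ∉ center P) : (centralizer ({x} : Set P)).index = p := by
  have hp := (Fact.out : p.Prime)
  set φ := FGS3.commLeftHom hc x
  have hker : φ.ker = centralizer ({x} : Set P) := by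
    ext z
    rw [MonoidHom.mem_ker, FGS3.commLeftHom_apply, commutatorElement_eq_one_iff_mul_comm,
      mem_centralizer_singleton_iff]
  have hle : φ.range ≤ commutator P := by
    rintro _ ⟨z, rfl⟩
    exact commutator_mem_commutator (mem_top _) (mem_top _)
  rw [← hker, Subgroup.index_ker]
  have h := Subgroup.card_dvd_of_le hle
  rw [hd] at h
  rcases (Nat.dvd_prime hp).1 h with h1 | h1
  · exfalso
    refine hx (mem_center_iff.2 fun z => ?_)
    have : φ z = 1 := (Subgroup.eq_bot_iff_forall _).1 (Subgroup.card_eq_one.1 h1) _ ⟨z, rfl⟩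
    exact commutatorElement_eq_one_iff_mul_comm.1 this
  · exact h1

theorem card_commutator_of_index (hP : IsPGroup p P) (hZ : (center P).index = p ^ 2) :
    Nat.card (commutator P) = p := by
  have hp := (Fact.out : p.Prime)
  have hne : center P ≠ ⊤ := fun h => by
    rw [h, index_top] at hZ
    exact absurd hZ.symm (Nat.one_lt_pow two_ne_zero hp.one_lt).ne'
  have hc : commutator P ≤ center P := by
    haveI : IsMulCommutative (P ⧸ center P) := by
      have h2 : Nat.card (P ⧸ center P) = p ^ 2 := by rw [← index_eq_card, hZ]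
      exact ⟨⟨(IsPGroup.commGroupOfCardEqPrimeSq h2).mul_comm⟩⟩
    exact (Subgroup.Normal.quotient_commutative_iff_commutator_le).1 inferInstance
  obtain ⟨a, ha⟩ : ∃ a, a ∉ center P := by
    by_contra h
    push Not at h
    exact hne (eq_top_iff.2 fun x _ => h x)
  obtain ⟨b, hb⟩ : ∃ b, ⁅b, a⁆ ≠ 1 := by
    by_contra h
    push Not at h
    exact ha (mem_center_iff.2 fun z => commutatorElement_eq_one_iff_mul_comm.1 (h z))
  have hpow : ∀ w : P, w ^ p ^ 2 ∈ center P := fun w => by
    rw [← hZ]; exact Subgroup.pow_index_mem _ w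
  -- the subgroup generated by the centre, `a` and `b` is everything
  set A := center P ⊔ zpowers a with hAdef
  have hZA : center P < A := lt_of_le_of_ne le_sup_left fun h =>
    ha (h ▸ mem_sup_right (mem_zpowers a))
  have hbA : b ∉ A := by
    intro h
    have : A ≤ centralizer ({a} : Set P) := sup_le (center_le_centralizer _)
      (zpowers_le.2 (mem_centralizer_singleton_iff.2 rfl))
    exact hb (commutatorElement_eq_one_iff_mul_comm.2 (mem_centralizer_singleton_iff.1 (this h)))
  have htop : center P ⊔ zpowers a ⊔ zpowers b = ⊤ := by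
    refine Subgroup.index_eq_one.1 ?_
    have hlt : A < A ⊔ zpowers b := lt_of_le_of_ne le_sup_left fun h =>
      hbA (h.symm ▸ mem_sup_right (mem_zpowers b))
    have h1 := Subgroup.index_strictAnti hZA
    have h2 := Subgroup.index_strictAnti hlt
    have hd1 : A.index ∣ p ^ 2 := hZ ▸ index_dvd_of_le hZA.le
    have hd2 : (A ⊔ zpowers b).index ∣ p ^ 2 := (index_dvd_of_le hlt.le).trans hd1
    obtain ⟨i, hi, hie⟩ := (Nat.dvd_prime_pow hp).1 hd1
    obtain ⟨j, hj, hje⟩ := (Nat.dvd_prime_pow hp).1 hd2
    rw [hZ, hie] at h1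
    rw [hie, hje] at h2
    have hi2 := (Nat.pow_lt_pow_iff_right hp.one_lt).1 h1
    have hj2 := (Nat.pow_lt_pow_iff_right hp.one_lt).1 h2
    rw [hje, show j = 0 by omega, pow_zero]
  set R := zpowers ⁅b, a⁆ with hR
  have hgen : ∀ y : P, ⁅a, y⁆ ∈ R → ⁅b, y⁆ ∈ R → ∀ w : P, ⁅w, y⁆ ∈ R := by
    intro y h1 h2 w
    have : (⊤ : Subgroup P) ≤ R.comap (FGS3.commLeftHom hc y) := by
      rw [← htop]
      refine sup_le (sup_le (fun z hz => ?_) (zpowers_le.2 h1)) (zpowers_le.2 h2)
      show ⁅z, y⁆ ∈ R
      rw [commutatorElement_eq_one_iff_mul_comm.2 (mem_center_iff.1 hz y).symm]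
      exact one_mem _
    exact this (mem_top w)
  have hab : ∀ w : P, ⁅w, a⁆ ∈ R ∧ ⁅w, b⁆ ∈ R := fun w =>
    ⟨hgen a (by rw [commutatorElement_self]; exact one_mem _) (mem_zpowers _) w,
     hgen b (by rw [← commutatorElement_inv]; exact inv_mem (mem_zpowers _))
       (by rw [commutatorElement_self]; exact one_mem _) w⟩
  have hall : commutator P ≤ R := by
    rw [_root_.commutator_def, Subgroup.commutator_le]
    intro w _ y _
    refine hgen y ?_ ?_ w
    · rw [← commutatorElement_inv]; exact inv_mem (hab y).1
    · rw [← commutatorElement_inv]; exact inv_mem (hab y).2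
  have hbp : ⁅b, a⁆ ^ p = 1 := by
    by_cases hbC : b ^ p ∈ center P
    · exact FGS3.commutatorElement_pow_eq_one hc b a p hbC
    · exfalso
      -- otherwise the quotient by the centre would be cyclic
      have hord : orderOf (QuotientGroup.mk' (center P) b) = p ^ 2 := by
        refine orderOf_eq_prime_pow (p := p) (n := 1) ?_ ?_
        · rw [pow_one]; exact fun h => hbC ((QuotientGroup.eq_one_iff _).1 h)
        · exact (QuotientGroup.eq_one_iff _).2 (hpow b)
      have : IsCyclic (P ⧸ center P) := isCyclic_of_orderOf_eq_card _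
        (hord.trans (by rw [← index_eq_card, hZ]))
      exact hb (commutatorElement_eq_one_iff_mul_comm.2
        (commutative_of_cyclic_center_quotient (QuotientGroup.mk' (center P))
          (by rw [QuotientGroup.ker_mk']) b a))
  have hdvd : Nat.card (commutator P) ∣ p := by
    refine (card_dvd_of_le hall).trans ?_
    rw [hR, Nat.card_zpowers]
    exact orderOf_dvd_of_pow_eq_one hbp
  rcases (Nat.dvd_prime hp).1 hdvd with h | h
  · exfalso
    exact hb ((Subgroup.eq_bot_iff_forall _).1 (Subgroup.card_eq_one.1 h) _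
      (commutator_mem_commutator (mem_top b) (mem_top a)))
  · exact h

theorem index_of_card_commutator (hP : Nat.card P = p ^ 4) (hd : Nat.card (commutator P) = p) :
    (center P).index = p ^ 2 := by
  have hp := (Fact.out : p.Prime)
  have hPp : IsPGroup p P := IsPGroup.of_card hP
  haveI := hPp.isNilpotent
  have hc : commutator P ≤ center P := by
    haveI : (commutator P).Normal := inferInstance
    have hne : commutator P ≠ ⊥ := fun h => by rw [h, card_bot] at hd; exact hp.one_lt.ne hd
    obtain ⟨w, hw, hw1, hwc⟩ := Cfsg.Agent.OddLocal.exists_ne_one_mem_center_of_normal (commutator P) hne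
    have h : zpowers w = commutator P := Subgroup.eq_of_le_of_card_ge (zpowers_le.2 hw) (by
      rw [hd, Nat.card_zpowers]
      refine Nat.le_of_dvd (orderOf_pos w) ?_
      have h1 : orderOf w ∣ p := hd ▸ (Subgroup.orderOf_coe (⟨w, hw⟩ : commutator P)) ▸ orderOf_dvd_natCard _
      rcases (Nat.dvd_prime hp).1 h1 with h1 | h1
      · exact absurd (orderOf_eq_one_iff.1 h1) hw1
      · rw [h1])
    exact h ▸ zpowers_le.2 hwc
  have hZd : (center P).index ∣ p ^ 4 := hP ▸ (center P).index_dvd_card
  obtain ⟨k, hk, hke⟩ := (Nat.dvd_prime_pow hp).1 hZd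
  have hcm := (center P).card_mul_index
  rw [hP, hke] at hcm
  rcases (show k = 0 ∨ k = 1 ∨ k = 2 ∨ k = 3 ∨ k = 4 by omega) with rfl | rfl | rfl | rfl | rfl
  · exfalso
    have : center P = ⊤ := index_eq_one.1 (by rw [hke, pow_zero])
    have hb : commutator P = ⊥ := (_root_.commutator_eq_bot_iff P).2 ⟨⟨fun a b =>
      (mem_center_iff.1 (this ▸ mem_top a) b).symm⟩⟩
    rw [hb, card_bot] at hd; exact hp.one_lt.ne hd
  · exfalso
    have : IsCyclic (P ⧸ center P) := isCyclic_of_prime_card (by rw [← index_eq_card, hke, pow_one])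
    have hb : commutator P = ⊥ := (_root_.commutator_eq_bot_iff P).2 ⟨⟨fun a b =>
      commutative_of_cyclic_center_quotient (QuotientGroup.mk' (center P))
          (by rw [QuotientGroup.ker_mk']) a b⟩⟩
    rw [hb, card_bot] at hd; exact hp.one_lt.ne hd
  · exact hke
  · exfalso
    have hcZ : Nat.card (center P) = p := by
      have : Nat.card (center P) * p ^ 3 = p * p ^ 3 := by rw [hcm]; ring
      exact Nat.eq_of_mul_eq_mul_right (pow_pos hp.pos _) this
    have hlt : center P < ⊤ := lt_top_iff_ne_top.2 fun h => by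
      rw [h, index_top] at hke; exact (Nat.one_lt_pow (by norm_num) hp.one_lt).ne hke
    obtain ⟨x, -, hx⟩ := SetLike.exists_of_lt hlt
    have hxi := index_centralizer_of_card hc hd hx
    obtain ⟨y, hy⟩ : ∃ y, y ∉ centralizer ({x} : Set P) := by
      by_contra h
      push Not at h
      exact hx (mem_center_iff.2 fun z => mem_centralizer_singleton_iff.1 (h z))
    have hyZ : y ∉ center P := fun h => hy (center_le_centralizer _ h)
    have hyi := index_centralizer_of_card hc hd hyZ
    set I := centralizer ({x} : Set P) ⊓ centralizer ({y} : Set P) with hI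
    have hIi : I.index ≤ p ^ 2 := by
      refine (index_inf_le).trans ?_
      rw [hxi, hyi, sq]
    have hIc : p ^ 2 ≤ Nat.card I := by
      by_contra hcon
      have h1 := I.card_mul_index
      rw [hP] at h1
      have : Nat.card I * I.index < p ^ 2 * p ^ 2 := by
        calc Nat.card I * I.index ≤ Nat.card I * p ^ 2 := Nat.mul_le_mul_left _ hIi
          _ < p ^ 2 * p ^ 2 := Nat.mul_lt_mul_of_pos_right (not_le.1 hcon) (pow_pos hp.pos _)
      rw [h1, ← pow_add] at this
      exact lt_irrefl _ this
    have hxI : x ∉ I := fun h => hy (mem_centralizer_singleton_iff.2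
      (mem_centralizer_singleton_iff.1 h.2).symm)
    have hcX : Nat.card (centralizer ({x} : Set P)) = p ^ 3 := by
      have h := (centralizer ({x} : Set P)).card_mul_index
      rw [hP, hxi, pow_succ] at h
      exact Nat.eq_of_mul_eq_mul_right hp.pos h
    have hltI : I < centralizer ({x} : Set P) := lt_of_le_of_ne inf_le_left fun h =>
      hxI (h ▸ mem_centralizer_singleton_iff.2 rfl)
    have hIcard : Nat.card I = p ^ 2 := by
      refine le_antisymm ?_ hIc
      have h1 : Nat.card I ∣ p ^ 3 := hcX ▸ card_dvd_of_le hltI.le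
      obtain ⟨i, hi, hie⟩ := (Nat.dvd_prime_pow hp).1 h1
      rcases Nat.lt_or_ge i 3 with h | h
      · rw [hie]; exact Nat.pow_le_pow_right hp.pos (by omega)
      · exfalso
        refine hltI.ne (Subgroup.eq_of_le_of_card_ge hltI.le ?_)
        rw [hcX, hie, show i = 3 by omega]
    have hIab : IsMulCommutative I := ⟨⟨(IsPGroup.commGroupOfCardEqPrimeSq hIcard).mul_comm⟩⟩
    have hCI : centralizer ({x} : Set P) ≤ centralizer (I : Set P) := by
      set K := centralizer ({x} : Set P) ⊓ centralizer (I : Set P) with hK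
      have hIK : I < K := by
        refine lt_of_le_of_ne (le_inf inf_le_left (Subgroup.le_centralizer I)) fun h => hxI (h ▸ ?_)
        exact ⟨mem_centralizer_singleton_iff.2 rfl, mem_centralizer_iff.2 fun w hw =>
          mem_centralizer_singleton_iff.1 (mem_inf.1 hw).1⟩
      have hKd : Nat.card K ∣ p ^ 3 := hcX ▸ card_dvd_of_le inf_le_left
      obtain ⟨i, hi, hie⟩ := (Nat.dvd_prime_pow hp).1 hKd
      have h2 := Set.Finite.card_lt_card (Set.toFinite _) (SetLike.coe_ssubset_coe.2 hIK)
      change Nat.card I < Nat.card K at h2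
      rw [hIcard, hie] at h2
      have h3 := (Nat.pow_lt_pow_iff_right hp.one_lt).1 h2
      have : K = centralizer ({x} : Set P) := Subgroup.eq_of_le_of_card_ge inf_le_left (by
        rw [hcX, hie, show i = 3 by omega])
      exact this ▸ inf_le_right
    have htop : centralizer (I : Set P) = ⊤ := by
      refine Subgroup.index_eq_one.1 ?_
      have h1 : (centralizer (I : Set P)).index ∣ p := hxi ▸ index_dvd_of_le hCI
      rcases (Nat.dvd_prime hp).1 h1 with h1 | h1
      · exact h1
      · exfalso
        have : centralizer ({x} : Set P) = centralizer (I : Set P) := by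
          refine Subgroup.eq_of_le_of_card_ge hCI ?_
          have h := (centralizer (I : Set P)).card_mul_index
          rw [hP, h1, pow_succ] at h
          rw [hcX, Nat.eq_of_mul_eq_mul_right hp.pos h]
        exact hy (this ▸ mem_centralizer_iff.2 fun w hw =>
          mem_centralizer_singleton_iff.1 (mem_inf.1 hw).2)
    have hIZ : I ≤ center P := fun w hw => mem_center_iff.2 fun z =>
      (mem_centralizer_iff.1 (htop.ge (mem_top z)) w hw).symm
    have := Nat.le_of_dvd Nat.card_pos (card_dvd_of_le hIZ)
    rw [hIcard, hcZ] at this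
    nlinarith [hp.two_le]
  · exfalso
    have h1 : Nat.card (center P) = 1 := by
      have : Nat.card (center P) * p ^ 4 = 1 * p ^ 4 := by rw [hcm, one_mul]
      exact Nat.eq_of_mul_eq_mul_right (pow_pos hp.pos _) this
    have := Subgroup.card_dvd_of_le hc
    rw [hd, h1] at this
    exact hp.one_lt.ne' (Nat.dvd_one.1 this)

end Cfsg.Agent.Blocks.PFour
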