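import Cfsg.Agent.Blocks.Kulshammer
import Cfsg.Agent.Blocks.Covering
import Cfsg.Agent.BlockChar.PrincipalKer
import Cfsg.Agent.Blocks.Orth

/-!
Characters of the principal block above an extendible character of a normal subgroup.
-/

namespace Cfsg.Agent.Blocks

open Cfsg Cfsg.Agent
open scoped ComplexConjugate

set_option linter.style.haveILetI false
set_option linter.unusedSectionVars false

universe u

variable {G : Type u} [Group G] [Fintype G] {p : ℕ} [Fact p.Prime] {M : Ideal AlgInt} [M.IsMaximal]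

/-- The number of `p`-regular elements is prime to `p`. -/
theorem not_dvd_card_pRegular (hpM : (p : AlgInt) ∈ M) :
    ¬ p ∣ Nat.card {y : G // ¬ p ∣ orderOf y} := by
  classical
  intro h
  refine not_memI_omega_regConj hpM (isPBlock_principal (G := G) (M := M)) one_mem_principal
    (blockHeight_oneChar (p := p) (principalBlock M G)) one_mem_principal ?_
  have hω1 : omega ((oneChar G : IrrCharacter G) : G → ℂ)
      (regConj p ((oneChar G : IrrCharacter G) : G → ℂ)) =
      (Nat.card {y : G // ¬ p ∣ orderOf y} : ℂ) := by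
    rw [omega, coe_oneChar, div_one]
    simp only [regConj_apply, map_one, mul_one, Finset.sum_boole]
    rw [Nat.card_eq_fintype_card, Fintype.card_subtype]
  rw [hω1]
  exact (memI_natCast_iff hpM _).2 h

theorem modEq_of_eq {a b n : ℕ} (h : a = b) : a ≡ b [MOD n] := h ▸ Nat.ModEq.refl a

/-- The `p`-regular factorizations of the regular elements of a normal subgroup, modulo `p`. -/
theorem card_factorizations_modEq (P : Sylow p G) (N : Subgroup G) [hN : N.Normal] :
    Nat.card {xy : G × G // ((∃ k : ℕ, orderOf xy.1 = p ^ k) ∧ ¬ p ∣ orderOf xy.2) ∧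
        xy.1 * xy.2 ∈ N ∧ ¬ p ∣ orderOf (xy.1 * xy.2)} ≡
      Nat.card {y : N // ¬ p ∣ orderOf y} [MOD p] := by
  classical
  have hp := (Fact.out : p.Prime)
  have hord : ∀ (a x : G), orderOf (a * x * a⁻¹) = orderOf x := fun a x => by
    rw [← MulAut.conj_apply, MulEquiv.orderOf_eq]
  let X := {xy : G × G // ((∃ k : ℕ, orderOf xy.1 = p ^ k) ∧ ¬ p ∣ orderOf xy.2) ∧
    xy.1 * xy.2 ∈ N ∧ ¬ p ∣ orderOf (xy.1 * xy.2)}
  let Y := {y : N // ¬ p ∣ orderOf y}
  letI actX : MulAction (P : Subgroup G) X :=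
    { smul := fun a xy => ⟨((a : G) * xy.1.1 * (a : G)⁻¹, (a : G) * xy.1.2 * (a : G)⁻¹), by
        have e : (a : G) * xy.1.1 * (a : G)⁻¹ * ((a : G) * xy.1.2 * (a : G)⁻¹) =
            (a : G) * (xy.1.1 * xy.1.2) * (a : G)⁻¹ := by group
        simp only [e, hord]
        exact ⟨xy.2.1, hN.conj_mem _ xy.2.2.1 _, xy.2.2.2⟩⟩
      one_smul := fun xy => Subtype.ext (Prod.ext
        (by show ((1 : (P : Subgroup G)) : G) * xy.1.1 * ((1 : (P : Subgroup G)) : G)⁻¹ = xy.1.1; simp)
        (by show ((1 : (P : Subgroup G)) : G) * xy.1.2 * ((1 : (P : Subgroup G)) : G)⁻¹ = xy.1.2; simp))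
      mul_smul := fun a b xy => Subtype.ext (Prod.ext
        (by show ((a * b : (P : Subgroup G)) : G) * xy.1.1 * ((a * b : (P : Subgroup G)) : G)⁻¹ =
              (a : G) * ((b : G) * xy.1.1 * (b : G)⁻¹) * (a : G)⁻¹
            simp [mul_assoc])
        (by show ((a * b : (P : Subgroup G)) : G) * xy.1.2 * ((a * b : (P : Subgroup G)) : G)⁻¹ =
              (a : G) * ((b : G) * xy.1.2 * (b : G)⁻¹) * (a : G)⁻¹
            simp [mul_assoc])) }
  letI actY : MulAction (P : Subgroup G) Y :=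
    { smul := fun a y => ⟨⟨(a : G) * (y.1 : G) * (a : G)⁻¹, hN.conj_mem _ y.1.2 _⟩, by
        rw [← Subgroup.orderOf_coe, hord, Subgroup.orderOf_coe]; exact y.2⟩
      one_smul := fun y => Subtype.ext (Subtype.ext (by
        show ((1 : (P : Subgroup G)) : G) * (y.1 : G) * ((1 : (P : Subgroup G)) : G)⁻¹ = y.1; simp))
      mul_smul := fun a b y => Subtype.ext (Subtype.ext (by
        show ((a * b : (P : Subgroup G)) : G) * (y.1 : G) * ((a * b : (P : Subgroup G)) : G)⁻¹ =
              (a : G) * ((b : G) * (y.1 : G) * (b : G)⁻¹) * (a : G)⁻¹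
        simp [mul_assoc])) }
  refine ((P.isPGroup'.card_modEq_card_fixedPoints X).trans ?_).trans
    (P.isPGroup'.card_modEq_card_fixedPoints Y).symm
  suffices h : ∀ xy : X, xy ∈ MulAction.fixedPoints (P : Subgroup G) X → xy.1.1 = 1 by
    refine modEq_of_eq (Nat.card_congr
      { toFun := fun xy => ⟨⟨⟨xy.1.1.2, by
          simpa [h xy.1 xy.2] using xy.1.2.2.1⟩, by
          rw [← Subgroup.orderOf_coe]; exact xy.1.2.1.2⟩, fun a => Subtype.ext (Subtype.ext
            (congrArg (fun w : X => w.1.2) (xy.2 a)))⟩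
        invFun := fun y => ⟨⟨(1, (y.1.1 : G)), ⟨⟨0, by simp⟩, by
          rw [Subgroup.orderOf_coe]; exact y.1.2⟩, by simp, by
            rw [one_mul, Subgroup.orderOf_coe]; exact y.1.2⟩, fun a => Subtype.ext (Prod.ext
            (by show (a : G) * 1 * (a : G)⁻¹ = 1; simp)
            (congrArg (fun w : Y => (w.1 : G)) (y.2 a)))⟩
        left_inv := fun xy => Subtype.ext (Subtype.ext (Prod.ext (h xy.1 xy.2).symm rfl))
        right_inv := fun y => rfl })
  intro xy hfix'
  have hfix : ∀ a : (P : Subgroup G), a • xy = xy := hfix'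
  obtain ⟨⟨x, y⟩, ⟨⟨k, hk⟩, hy⟩, _hxy, hn⟩ := xy
  have hfa : ∀ a : (P : Subgroup G), (a : G) * x * (a : G)⁻¹ = x ∧ (a : G) * y * (a : G)⁻¹ = y :=
    fun a => ⟨congrArg (fun w : X => w.1.1) (hfix a), congrArg (fun w : X => w.1.2) (hfix a)⟩
  have hxN : x ∈ Subgroup.normalizer ((P : Subgroup G) : Set G) := by
    refine Subgroup.centralizer_le_normalizer _ (Subgroup.mem_centralizer_iff.2 fun a ha => ?_)
    exact mul_inv_eq_iff_eq_mul.1 (hfa ⟨a, ha⟩).1
  have hxP : x ∈ (P : Subgroup G) := by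
    have h1 := IsPGroup.inf_normalizer_sylow
      (IsPGroup.of_card (n := k) (by rw [Nat.card_zpowers, hk])) P
    have h2 : x ∈ Subgroup.zpowers x ⊓ Subgroup.normalizer ((P : Subgroup G) : Set G) :=
      ⟨Subgroup.mem_zpowers x, hxN⟩
    exact (h1 ▸ h2 : x ∈ Subgroup.zpowers x ⊓ (P : Subgroup G)).2
  have hc : Commute x y := mul_inv_eq_iff_eq_mul.1 (hfa ⟨x, hxP⟩).2
  show x = 1
  have hc' : Commute (x * y) y⁻¹ := ((hc.mul_left (Commute.refl y))).inv_right
  have h1 : orderOf x ∣ Nat.lcm (orderOf (x * y)) (orderOf y) := by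
    have := hc'.orderOf_mul_dvd_lcm
    rwa [mul_inv_cancel_right, orderOf_inv] at this
  rcases k with _ | k
  · exact orderOf_eq_one_iff.1 (by rw [hk, pow_zero])
  · exfalso
    have h2 : p ∣ orderOf (x * y) * orderOf y :=
      ((hk ▸ dvd_pow_self p k.succ_ne_zero).trans h1).trans (Nat.lcm_dvd_mul _ _)
    exact (hp.dvd_mul.1 h2).elim hn hy

theorem principal_above (hpM : (p : AlgInt) ∈ M) (N : Subgroup G) [hN : N.Normal] [Fintype N]
    (P : Sylow p G) (θ : IrrCharacter N) (hθ : θ ∈ principalBlock M N)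
    (hdeg : ¬ p ∣ charDegree (θ : N → ℂ))
    (hext : ∃ η : IrrCharacter ↥(N ⊔ (P : Subgroup G)), ∀ n : N,
      (η : ↥(N ⊔ (P : Subgroup G)) → ℂ) (Subgroup.inclusion le_sup_left n) = (θ : N → ℂ) n) :
    ∃ χ : IrrCharacter G, χ ∈ principalBlock M G ∧ ¬ p ∣ charDegree (χ : G → ℂ) ∧
      classInner (fun n : N => (χ : G → ℂ) n) (θ : N → ℂ) ≠ 0 := by
  classical
  set H := N ⊔ (P : Subgroup G) with hH
  obtain ⟨η, hη⟩ := hext
  letI : Fintype H := Fintype.ofFinite H
  set B := principalBlock M G with hB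
  have hBb : IsPBlock M B := isPBlock_principal
  set e := blockCoeff B with he
  have hidx : ∃ k : ℕ, N.relIndex H = p ^ k := by
    obtain ⟨k, -, hk⟩ := (Nat.dvd_prime_pow (Fact.out : p.Prime)).1
      (P.card_eq_multiplicity ▸ Subgroup.index_dvd_card (N.subgroupOf (P : Subgroup G)))
    exact ⟨k, by rw [hH, sup_comm, Subgroup.relIndex_sup_right]; exact hk⟩
  -- the value on the block part of the induced character
  have hη1 : (η : H → ℂ) 1 = (θ : N → ℂ) 1 := by rw [← hη 1, map_one]
  have hS : ∀ h : H, (h : G) ∉ N → e h = 0 := by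
    intro h hh
    refine blockCoeff_eq_zero_of_dvd hpM hBb (by_contra fun hreg => hh ?_)
    obtain ⟨k, hk⟩ := hidx
    haveI : (N.subgroupOf H).Normal := inferInstance
    exact BlockChar.mem_of_isPRegular_of_index (N := N.subgroupOf H) (g := h) hk
      (by rw [IsPRegular, ← Subgroup.orderOf_coe]; exact hreg)
  have hsum : ∑ h : H, e h * (η : H → ℂ) h =
      (θ : N → ℂ) 1 * omega (θ : N → ℂ) (resFun N e) := by
    rw [omega, mul_div_cancel₀ _ (Chars.irr_apply_one_ne_zero θ.2),
      ← Finset.sum_filter_add_sum_filter_not Finset.univ (fun h : H => (h : G) ∈ N),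
      Finset.sum_eq_zero (s := Finset.univ.filter fun h : H => (h : G) ∉ N) (fun h hh => by
        rw [hS h (Finset.mem_filter.1 hh).2, zero_mul]), add_zero]
    exact Finset.sum_bij' (fun h hh => (⟨(h : G), (Finset.mem_filter.1 hh).2⟩ : N))
      (fun n _ => Subgroup.inclusion le_sup_left n) (fun _ _ => Finset.mem_univ _)
      (fun n _ => Finset.mem_filter.2 ⟨Finset.mem_univ _, n.2⟩) (fun h _ => rfl) (fun n _ => rfl)
      (fun h hh => by
        show e (h : G) * _ = e (h : G) * _
        rw [← hη]; rfl)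
  -- it is a unit
  set R := Nat.card {y : G // ¬ p ∣ orderOf y} with hR
  set RN := Nat.card {y : N // ¬ p ∣ orderOf y} with hRN
  have hunit : ¬ MemLocalIdeal M (omega (θ : N → ℂ) (resFun N e)) := by
    intro hI
    have h1 := omega_congr (M := M) (χ := oneChar N) (ψ := θ) hθ
      (isClassFunction_resFun N (isClassFunction_blockCoeff B))
      (fun n => rFun_blockCoeff hpM hBb (n : G))
    have h2 : MemLocalIdeal M (omega ((oneChar N : IrrCharacter N) : N → ℂ) (resFun N e)) := by
      have h2' := memI_add h1 hI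
      rw [he] at h2' ⊢
      rwa [sub_add_cancel] at h2'
    set cnt : G → ℕ := fun g => Nat.card {xy : G × G //
      (∃ k : ℕ, orderOf xy.1 = p ^ k) ∧ ¬ p ∣ orderOf xy.2 ∧ xy.1 * xy.2 = g} with hcnt
    have h3 : MemLocalIdeal M (omega ((oneChar N : IrrCharacter N) : N → ℂ) (resFun N e) -
        ∑ y : {y : N // ¬ p ∣ orderOf y}, (cnt ((y : N) : G) : ℂ) / (R : ℂ)) := by
      rw [omega, coe_oneChar, div_one]
      simp only [mul_one]
      rw [← Finset.sum_filter_add_sum_filter_not Finset.univ (fun n : N => ¬ p ∣ orderOf n),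
        Finset.sum_eq_zero (s := Finset.univ.filter fun n : N => ¬ ¬ p ∣ orderOf n) (fun n hn => by
          refine blockCoeff_eq_zero_of_dvd hpM hBb ?_
          rw [Subgroup.orderOf_coe]
          exact not_not.1 (Finset.mem_filter.1 hn).2), add_zero,
        Finset.sum_subtype (p := fun n : N => ¬ p ∣ orderOf n) _ (fun n => by simp),
        ← Finset.sum_sub_distrib]
      exact memI_sum _ _ fun y _ => kulshammer hpM (g := ((y : N) : G))
        (by rw [Subgroup.orderOf_coe]; exact y.2)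
    have h4 : MemLocalIdeal M ((∑ y : {y : N // ¬ p ∣ orderOf y}, cnt ((y : N) : G) : ℕ) : ℂ) := by
      have h5 := memI_sub h2 h3
      rw [sub_sub_cancel, ← Finset.sum_div, ← Nat.cast_sum] at h5
      have h6 := memI_mul_left (memR_natCast R) h5
      rwa [mul_div_cancel₀ _ (Nat.cast_ne_zero.2 fun h0 => not_dvd_card_pRegular (G := G) hpM (by rw [← hR, h0]; exact dvd_zero p) : (R : ℂ) ≠ 0)] at h6
      
    rw [memI_natCast_iff hpM] at h4
    refine not_dvd_card_pRegular (G := N) hpM ?_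
    refine ((card_factorizations_modEq P N).symm.trans ?_).dvd_iff dvd_rfl |>.2 h4
    refine modEq_of_eq ?_
    rw [← Finset.sum_congr rfl fun y _ => rfl, ← Nat.card_sigma]
    exact Nat.card_congr
      { toFun := fun xy => ⟨⟨⟨xy.1.1 * xy.1.2, xy.2.2.1⟩, by
          rw [← Subgroup.orderOf_coe]; exact xy.2.2.2⟩, ⟨xy.1, xy.2.1.1, xy.2.1.2, rfl⟩⟩
        invFun := fun z => ⟨z.2.1, ⟨z.2.2.1, z.2.2.2.1⟩, by rw [z.2.2.2.2]; exact z.1.1.2, by
          rw [z.2.2.2.2, Subgroup.orderOf_coe]; exact z.1.2⟩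
        left_inv := fun xy => rfl
        right_inv := fun z => by
          obtain ⟨⟨⟨n, hn⟩, hreg⟩, ⟨xy, h1, h2, h3⟩⟩ := z
          have h3' : xy.1 * xy.2 = n := h3
          subst h3'
          rfl }
  -- the multiplicities
  have hind := Chars.isCharacter_indFun H (Chars.irr_isCharacter η)
  choose m hm using fun χ : IrrCharacter G =>
    Chars.exists_classInner_eq_nat hind (Chars.irr_isCharacter χ)
  have htot : (∑ χ ∈ Finset.univ.filter (· ∈ B), ((charDegree (χ : G → ℂ) * m χ : ℕ) : ℂ)) =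
      (H.index : ℂ) * ∑ h : H, e h * (η : H → ℂ) h := by
    have hG : (Nat.card G : ℂ) = (Nat.card H : ℂ) * (H.index : ℂ) := by
      exact_mod_cast (Subgroup.card_mul_index H).symm
    have hHne : (Nat.card H : ℂ) ≠ 0 := Nat.cast_ne_zero.2 Nat.card_pos.ne'
    have hIne : (H.index : ℂ) ≠ 0 := Nat.cast_ne_zero.2 Subgroup.index_ne_zero_of_finite
    rw [he, blockCoeff_eq_sum]
    simp only [Finset.sum_apply, eFun, Finset.sum_mul, Finset.mul_sum]
    rw [Finset.sum_comm (s := Finset.univ (α := H))]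
    refine Finset.sum_congr rfl fun χ _ => ?_
    rw [Nat.cast_mul, ← hm χ, Chars.classInner_indFun _ _ (Chars.isClassFunction_irr χ),
      Chars.classInner_def, Finset.mul_sum, Finset.mul_sum, ← (charDegree_eq χ.2).1]
    refine Finset.sum_congr rfl fun h _ => ?_
    rw [hG]
    field_simp
  obtain ⟨χ, hχB, hχ⟩ : ∃ χ : IrrCharacter G, χ ∈ B ∧ ¬ p ∣ charDegree (χ : G → ℂ) * m χ := by
    by_contra hc
    push Not at hc
    have hI : MemLocalIdeal M (((H.index * charDegree (θ : N → ℂ) : ℕ) : ℂ) *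
        omega (θ : N → ℂ) (resFun N e)) := by
      rw [Nat.cast_mul, mul_assoc, ← (charDegree_eq θ.2).1, ← hsum, ← htot]
      exact memI_sum _ _ fun χ hχ => (memI_natCast_iff hpM _).2 (hc χ (Finset.mem_filter.1 hχ).2)
    have hp' : ¬ p ∣ H.index * charDegree (θ : N → ℂ) := (Fact.out : p.Prime).not_dvd_mul
      (fun h => P.not_dvd_index (h.trans (Subgroup.index_dvd_of_le le_sup_right))) hdeg
    apply hunit
    have h7 := memI_mul_left (memR_inv_natCast hpM hp') hI
    rwa [← mul_assoc, inv_mul_cancel₀ (Nat.cast_ne_zero.2 fun h0 => hp' (by rw [h0]; exact dvd_zero p)),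
      one_mul] at h7
  have hmχ : m χ ≠ 0 := fun h => hχ (by rw [h, mul_zero]; exact dvd_zero p)
  refine ⟨χ, hχB, fun h => hχ (dvd_mul_of_dvd_left h _), ?_⟩
  have hrH := Chars.isCharacter_restrict (Chars.irr_isCharacter χ) H
  obtain ⟨c, hc, hcs⟩ := Chars.exists_eq_sum_nsmul hrH
  have hcη : c η ≠ 0 := by
    intro h0
    have h1 := hm χ
    rw [Chars.classInner_indFun _ _ (Chars.isClassFunction_irr χ), ← Chars.classInner_conj_symm,
      hc η, h0, Nat.cast_zero, map_zero] at h1
    exact hmχ (Nat.cast_eq_zero.1 h1.symm)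
  choose d hd using fun φ : IrrCharacter H => Chars.exists_classInner_eq_nat
    (Chars.isCharacter_comp (Chars.irr_isCharacter φ) (Subgroup.inclusion (le_sup_left : N ≤ H)))
    (Chars.irr_isCharacter θ)
  have hval : classInner (fun n : N => (χ : G → ℂ) n) (θ : N → ℂ) =
      ((∑ φ : IrrCharacter H, c φ * d φ : ℕ) : ℂ) := by
    have : (fun n : N => (χ : G → ℂ) n) = ∑ φ : IrrCharacter H,
        c φ • ((φ : H → ℂ) ∘ Subgroup.inclusion (le_sup_left : N ≤ H)) := by
      funext n
      have := congrFun hcs (Subgroup.inclusion le_sup_left n)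
      simp only [Finset.sum_apply, Pi.smul_apply, Function.comp_apply] at this ⊢
      exact this
    rw [this, Chars.classInner_sum_left, Nat.cast_sum]
    refine Finset.sum_congr rfl fun φ _ => ?_
    rw [← Nat.cast_smul_eq_nsmul ℂ, Chars.classInner_smul_left, hd, Nat.cast_mul]
  rw [hval, Nat.cast_ne_zero]
  have hdη : d η = 1 := by
    have : ((η : H → ℂ) ∘ Subgroup.inclusion (le_sup_left : N ≤ H)) = (θ : N → ℂ) := funext hη
    have h1 := hd η
    rw [this, Chars.classInner_self_irr θ.2] at h1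
    exact_mod_cast h1.symm
  intro h0
  have := Finset.sum_eq_zero_iff.1 h0 η (Finset.mem_univ η)
  rw [hdη, mul_one] at this
  exact hcη this

end Cfsg.Agent.Blocks
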