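import Cfsg.Agent.Blocks.ZStarFinal
import Cfsg.Agent.Coprime.Conjugacy
import Mathlib.GroupTheory.SpecificGroups.Quaternion
import Mathlib.GroupTheory.NoncommCoprod

/-!
A group whose Sylow 2-subgroup is the direct product of a generalized quaternion group and a group
with commuting involutions has an isolated involution, hence is not simple.
-/

namespace Cfsg.Agent.Blocks

open Cfsg

set_option linter.style.haveILetI false
set_option linter.unusedSectionVars false
set_option linter.unusedVariables false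

universe u

section quaternion

variable {k : ℕ} [NeZero k]

theorem quat_add_self {i : ZMod (2 * (2 * k))} (h : i + i = 0) : i = 0 ∨ i = (2 * k : ℕ) := by
  have h2 : ((i.val + i.val : ℕ) : ZMod (2 * (2 * k))) = 0 := by push_cast; simpa using h
  rw [ZMod.natCast_eq_zero_iff] at h2
  have hlt := ZMod.val_lt i
  obtain ⟨c, hc⟩ := h2
  rcases Nat.eq_zero_or_pos c with rfl | hpos
  · left; exact (ZMod.val_eq_zero i).1 (by omega)
  · right
    have hc1 : c = 1 := by
      by_contra hne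
      have : 2 * (2 * k) * 2 ≤ 2 * (2 * k) * c := Nat.mul_le_mul_left _ (by omega)
      omega
    subst hc1
    conv_lhs => rw [← ZMod.natCast_zmod_val i]
    rw [show i.val = 2 * k by omega]

theorem quat_involution {x : QuaternionGroup (2 * k)} (h : x * x = 1) :
    x = 1 ∨ x = QuaternionGroup.a ((2 * k : ℕ) : ZMod (2 * (2 * k))) := by
  cases x with
  | a i =>
    rw [QuaternionGroup.a_mul_a, QuaternionGroup.one_def, QuaternionGroup.a.injEq] at h
    rcases quat_add_self h with rfl | rfl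
    · exact Or.inl rfl
    · exact Or.inr rfl
  | xa i =>
    have h2 := QuaternionGroup.xa_sq (n := 2 * k) i
    rw [pow_two, h, QuaternionGroup.one_def, QuaternionGroup.a.injEq, eq_comm,
      ZMod.natCast_eq_zero_iff] at h2
    have := Nat.le_of_dvd (by have := NeZero.pos k; omega) h2
    have := NeZero.pos k
    omega

theorem quat_center {x : QuaternionGroup (2 * k)} (h : ∀ y, x * y = y * x) :
    x = 1 ∨ x = QuaternionGroup.a ((2 * k : ℕ) : ZMod (2 * (2 * k))) := by
  cases x with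
  | a i =>
    have h1 := h (QuaternionGroup.xa 0)
    rw [QuaternionGroup.a_mul_xa, QuaternionGroup.xa_mul_a, QuaternionGroup.xa.injEq, zero_sub,
      zero_add] at h1
    have h2 : i + i = 0 := by nth_rewrite 1 [← h1]; exact neg_add_cancel i
    rcases quat_add_self h2 with rfl | rfl
    · exact Or.inl rfl
    · exact Or.inr rfl
  | xa i =>
    have h1 := h (QuaternionGroup.a 1)
    rw [QuaternionGroup.xa_mul_a, QuaternionGroup.a_mul_xa, QuaternionGroup.xa.injEq] at h1
    have h2 : ((2 : ℕ) : ZMod (2 * (2 * k))) = 0 := by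
      push_cast
      linear_combination h1
    rw [ZMod.natCast_eq_zero_iff] at h2
    have := Nat.le_of_dvd (by norm_num) h2
    have := NeZero.pos k
    omega

theorem quat_commutator :
    ∃ x y : QuaternionGroup (2 * k),
      x * y = QuaternionGroup.a ((2 * k : ℕ) : ZMod (2 * (2 * k))) * (y * x) := by
  refine ⟨QuaternionGroup.a (k : ZMod (2 * (2 * k))), QuaternionGroup.xa 0, ?_⟩
  rw [QuaternionGroup.a_mul_xa, QuaternionGroup.xa_mul_a, QuaternionGroup.a_mul_xa]
  congr 1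
  push_cast
  ring

theorem quat_a_ne_one : QuaternionGroup.a ((2 * k : ℕ) : ZMod (2 * (2 * k))) ≠ 1 := by
  rw [QuaternionGroup.one_def, Ne, QuaternionGroup.a.injEq, ZMod.natCast_eq_zero_iff]
  intro h
  have := Nat.le_of_dvd (by have := NeZero.pos k; omega) h
  have := NeZero.pos k
  omega

theorem quat_a_sq : (QuaternionGroup.a ((2 * k : ℕ) : ZMod (2 * (2 * k)))) *
    QuaternionGroup.a ((2 * k : ℕ) : ZMod (2 * (2 * k))) = 1 := by
  rw [QuaternionGroup.a_mul_a, QuaternionGroup.one_def, ← Nat.cast_add, ← two_mul,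
    ZMod.natCast_self]

end quaternion

variable {G : Type u} [Group G]

/-- The abstract properties of a generalized quaternion subgroup that are used. -/
structure QuatLike (Q : Subgroup G) (z : G) : Prop where
  mem : z ∈ Q
  ne : z ≠ 1
  sq : z * z = 1
  uniq : ∀ x ∈ Q, x * x = 1 → x = 1 ∨ x = z
  cent : ∀ x ∈ Q, (∀ y ∈ Q, x * y = y * x) → x = 1 ∨ x = z
  comm : ∃ x ∈ Q, ∃ y ∈ Q, x * y = z * (y * x)

theorem quatLike_of_equiv {Q : Subgroup G} {n : ℕ} (hn : 1 ≤ n)
    (e : Q ≃* QuaternionGroup (2 ^ n)) : ∃ z, QuatLike Q z := by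
  obtain ⟨m, rfl⟩ : ∃ m, n = m + 1 := ⟨n - 1, by omega⟩
  haveI : NeZero (2 ^ m) := ⟨pow_ne_zero _ two_ne_zero⟩
  rw [show 2 ^ (m + 1) = 2 * 2 ^ m by rw [pow_succ']] at e
  set w : QuaternionGroup (2 * 2 ^ m) :=
    QuaternionGroup.a ((2 * 2 ^ m : ℕ) : ZMod (2 * (2 * 2 ^ m))) with hw
  have hback : ∀ x : Q, e x = w → (x : G) = (e.symm w : G) := fun x hx => by
    rw [← hx, e.symm_apply_apply]
  refine ⟨(e.symm w : G), (e.symm w).2, fun h => ?_, ?_, fun x hx h => ?_, fun x hx h => ?_, ?_⟩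
  · apply quat_a_ne_one (k := 2 ^ m)
    rw [← hw, ← e.apply_symm_apply w, show e.symm w = 1 from Subtype.ext h, map_one]
  · rw [← Subgroup.coe_mul, ← map_mul, hw, quat_a_sq, map_one, Subgroup.coe_one]
  · rcases quat_involution (x := e ⟨x, hx⟩)
      (by rw [← map_mul, show (⟨x, hx⟩ : Q) * ⟨x, hx⟩ = 1 from Subtype.ext h, map_one]) with h1 | h1
    · exact Or.inl (congrArg Subtype.val (e.map_eq_one_iff.1 h1))
    · exact Or.inr (hback _ h1)
  · rcases quat_center (x := e ⟨x, hx⟩) (fun y => by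
      rw [← e.apply_symm_apply y, ← map_mul, ← map_mul]
      exact congrArg e (Subtype.ext (h _ (e.symm y).2))) with h1 | h1
    · exact Or.inl (congrArg Subtype.val (e.map_eq_one_iff.1 h1))
    · exact Or.inr (hback _ h1)
  · obtain ⟨a, b, hab⟩ := quat_commutator (k := 2 ^ m)
    refine ⟨(e.symm a : G), (e.symm a).2, (e.symm b : G), (e.symm b).2, ?_⟩
    have := congrArg (fun q => ((e.symm q : Q) : G)) hab
    simpa only [map_mul, Subgroup.coe_mul] using this

variable [Finite G]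

/-- In a direct product `Q × R` with `Q` quaternion, an automorphism moves the involution of `Q` either
into `R` or nowhere. -/
theorem conj_eq_or_mem {Q R : Subgroup G} {z : G} (hQ : QuatLike Q z) (hQ2 : IsPGroup 2 Q)
    (hcomm : ∀ a ∈ Q, ∀ b ∈ R, a * b = b * a) (hdis : Q ⊓ R = ⊥) {m : G}
    (hm : ∀ t, t ∈ Q ⊔ R → m * t * m⁻¹ ∈ Q ⊔ R) :
    m * z * m⁻¹ = z ∨ m * z * m⁻¹ ∈ R := by
  classical
  let f : Q × R →* G := MonoidHom.noncommCoprod Q.subtype R.subtype fun a b => hcomm a a.2 b b.2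
  have hf : Function.Injective f := by
    rw [injective_iff_map_eq_one]
    rintro ⟨a, b⟩ h
    have h' : (a : G) * b = 1 := h
    have ha : (a : G) = 1 := by
      have : (a : G) ∈ Q ⊓ R := ⟨a.2, by rw [eq_inv_of_mul_eq_one_left h']; exact R.inv_mem b.2⟩
      rwa [hdis, Subgroup.mem_bot] at this
    have hb : (b : G) = 1 := by rwa [ha, one_mul] at h'
    exact Prod.ext (Subtype.ext ha) (Subtype.ext hb)
  have hrange : ∀ t ∈ Q ⊔ R, ∃ p : Q × R, f p = t := by
    intro t ht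
    have : Q ⊔ R ≤ f.range :=
      sup_le (fun a ha => ⟨(⟨a, ha⟩, 1), mul_one a⟩) (fun b hb => ⟨(1, ⟨b, hb⟩), one_mul b⟩)
    exact this ht
  choose dec hdec using hrange
  let eT : (Q ⊔ R : Subgroup G) →* Q × R :=
    { toFun := fun t => dec t t.2
      map_one' := hf (by rw [hdec, map_one]; rfl)
      map_mul' := fun s t => hf (by rw [hdec, map_mul, hdec, hdec]; rfl) }
  have heT : ∀ t : (Q ⊔ R : Subgroup G), ((eT t).1 : G) * (eT t).2 = t := fun t => hdec t t.2
  have heinj : Function.Injective eT := fun s t h => Subtype.ext (by rw [← heT s, ← heT t, h])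
  let Q' : Subgroup (Q ⊔ R : Subgroup G) := (Q.map (MulAut.conj m).toMonoidHom).subgroupOf _
  let R' : Subgroup (Q ⊔ R : Subgroup G) := (R.map (MulAut.conj m).toMonoidHom).subgroupOf _
  let π : (Q ⊔ R : Subgroup G) →* Q := (MonoidHom.fst Q R).comp eT
  let ρ : (Q ⊔ R : Subgroup G) →* R := (MonoidHom.snd Q R).comp eT
  have hQ' : ∀ {t : (Q ⊔ R : Subgroup G)}, t ∈ Q' ↔ ∃ a ∈ Q, m * a * m⁻¹ = t := Iff.rfl
  have hR' : ∀ {t : (Q ⊔ R : Subgroup G)}, t ∈ R' ↔ ∃ a ∈ R, m * a * m⁻¹ = t := Iff.rfl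
  have hzT : m * z * m⁻¹ ∈ Q ⊔ R := hm z (Subgroup.mem_sup_left hQ.mem)
  set z' : (Q ⊔ R : Subgroup G) := ⟨_, hzT⟩ with hz'
  have hz'Q : z' ∈ Q' := hQ'.2 ⟨z, hQ.mem, rfl⟩
  by_cases hone : π z' = 1
  · right
    rw [show m * z * m⁻¹ = ((eT z').1 : G) * (eT z').2 from (heT z').symm,
      show ((eT z').1 : G) = 1 from congrArg Subtype.val hone, one_mul]
    exact (eT z').2.2
  left
  have hz'sq : z' * z' = 1 := Subtype.ext (by
    show m * z * m⁻¹ * (m * z * m⁻¹) = 1
    rw [show m * z * m⁻¹ * (m * z * m⁻¹) = m * (z * z) * m⁻¹ by group, hQ.sq]; simp)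
  have hπz : (π z' : G) = z :=
    (hQ.uniq _ (π z').2 (by rw [← Subgroup.coe_mul, ← map_mul, hz'sq, map_one, Subgroup.coe_one])).resolve_left
      fun h => hone (Subtype.ext h)
  -- the projection is injective on the image of `Q`
  have hinj : ∀ t ∈ Q', π t = 1 → t = 1 := by
    intro t ht h1
    obtain ⟨a, ha, hat⟩ := hQ'.1 ht
    by_contra hne
    have hane : (⟨a, ha⟩ : Q) ≠ 1 := fun h => hne (Subtype.ext (by
      rw [← hat, show a = 1 from congrArg Subtype.val h]; simp))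
    have hdvd : 2 ∣ orderOf (⟨a, ha⟩ : Q) ∨ ¬ 2 ∣ orderOf (⟨a, ha⟩ : Q) := em _
    rcases hdvd with h2 | h2
    · obtain ⟨j, hj⟩ := h2
      have hjpos : 0 < j := by
        have := orderOf_pos (⟨a, ha⟩ : Q); omega
      have haj : (a ^ j) * (a ^ j) = 1 := by
        rw [← pow_add, ← two_mul, ← hj, Subgroup.orderOf_mk, pow_orderOf_eq_one]
      have haj1 : a ^ j ≠ 1 := fun h => by
        have := Nat.le_of_dvd hjpos (orderOf_dvd_of_pow_eq_one h)
        rw [Subgroup.orderOf_mk] at hj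
        omega
      have hz1 : a ^ j = z := (hQ.uniq _ (Q.pow_mem ha j) haj).resolve_left haj1
      apply hone
      have : z' = t ^ j := Subtype.ext (by
        show m * z * m⁻¹ = ((t ^ j : (Q ⊔ R : Subgroup G)) : G)
        rw [SubmonoidClass.coe_pow, ← hat, conj_pow, hz1])
      rw [this, map_pow, h1, one_pow]
    · haveI : Fact (Nat.Prime 2) := ⟨Nat.prime_two⟩
      obtain ⟨j, hj⟩ := IsPGroup.iff_orderOf.1 hQ2 ⟨a, ha⟩
      rcases j with _ | j
      · exact hane (orderOf_eq_one_iff.1 (by rw [hj, pow_zero]))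
      · exact h2 (hj ▸ dvd_pow_self 2 j.succ_ne_zero)
  have hbij : ∀ q : Q, ∃ t ∈ Q', π t = q := by
    let g : Q → Q := fun a => π ⟨m * a * m⁻¹, hm a (Subgroup.mem_sup_left a.2)⟩
    have hg : Function.Injective g := by
      intro a b hab
      set ta : (Q ⊔ R : Subgroup G) := ⟨m * a * m⁻¹, hm a (Subgroup.mem_sup_left a.2)⟩
      set tb : (Q ⊔ R : Subgroup G) := ⟨m * b * m⁻¹, hm b (Subgroup.mem_sup_left b.2)⟩
      have h1 := hinj (ta * tb⁻¹) (Q'.mul_mem (hQ'.2 ⟨a, a.2, rfl⟩) (Q'.inv_mem (hQ'.2 ⟨b, b.2, rfl⟩)))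
        (by rw [map_mul, map_inv]; exact mul_inv_eq_one.2 hab)
      have h2 : m * (a : G) * m⁻¹ = m * b * m⁻¹ := congrArg Subtype.val (mul_inv_eq_one.1 h1)
      exact Subtype.ext (mul_left_cancel (mul_right_cancel h2))
    intro q
    obtain ⟨a, ha⟩ := (Finite.injective_iff_surjective.1 hg) q
    exact ⟨_, hQ'.2 ⟨a, a.2, rfl⟩, ha⟩
  have hcQR : ∀ t ∈ Q', ∀ s ∈ R', t * s = s * t := by
    intro t ht s hs
    obtain ⟨a, ha, hat⟩ := hQ'.1 ht
    obtain ⟨b, hb, hbs⟩ := hR'.1 hs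
    apply Subtype.ext
    rw [Subgroup.coe_mul, Subgroup.coe_mul, ← hat, ← hbs,
      show m * a * m⁻¹ * (m * b * m⁻¹) = m * (a * b) * m⁻¹ by group, hcomm a ha b hb]
    group
  have hπR : ∀ s ∈ R', (π s : G) = 1 ∨ (π s : G) = z := by
    intro s hs
    refine hQ.cent _ (π s).2 fun y hy => ?_
    obtain ⟨t, ht, hty⟩ := hbij ⟨y, hy⟩
    have := congrArg (fun w => (π w : G)) (hcQR t ht s hs)
    simp only [map_mul, Subgroup.coe_mul, hty] at this
    exact this.symm
  -- the other projection is abelian on the image of `Q`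
  set K := R'.map ρ with hK
  have hKc : ∀ t ∈ Q', ∀ r ∈ K, ρ t * r = r * ρ t := by
    rintro t ht _ ⟨s, hs, rfl⟩
    rw [← map_mul, ← map_mul, hcQR t ht s hs]
  have hKi : K.index ≤ 2 := by
    have hKpos : 0 < Nat.card K := Nat.card_pos
    have hR'card : Nat.card R' = Nat.card R := by
      have : R.map (MulAut.conj m).toMonoidHom ≤ Q ⊔ R := by
        rintro _ ⟨b, hb, rfl⟩; exact hm b (Subgroup.mem_sup_right hb)
      rw [Nat.card_congr (Subgroup.subgroupOfEquivOfLe this).toEquiv]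
      exact Subgroup.card_map_of_injective (MulAut.conj m).injective
    let F : R' → K × Bool := fun s => (⟨ρ s, ⟨s, s.2, rfl⟩⟩, decide ((π s : G) = 1))
    have hF : Function.Injective F := by
      intro s s' h
      have h1 : ρ s = ρ s' := congrArg Subtype.val (congrArg Prod.fst h)
      have h2 : (π s : G) = 1 ↔ (π s' : G) = 1 := by simpa [F] using congrArg Prod.snd h
      have h3 : π s = π s' := Subtype.ext (by
        rcases hπR s s.2 with a | a <;> rcases hπR s' s'.2 with b | b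
        · rw [a, b]
        · rw [a, h2.1 a]
        · rw [b, h2.2 b]
        · rw [a, b])
      exact Subtype.ext (heinj (Prod.ext h3 h1))
    have := Nat.card_le_card_of_injective F hF
    rw [Nat.card_prod, Nat.card_eq_two_iff.2 ⟨false, true, by decide, by ext b; cases b <;> simp⟩,
      hR'card, ← K.card_mul_index] at this
    exact Nat.le_of_mul_le_mul_left this hKpos
  have hρ : ∀ t ∈ Q', ∀ t' ∈ Q', ρ t * ρ t' = ρ t' * ρ t := by
    intro t ht t' ht'
    by_cases h1 : ρ t ∈ K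
    · exact (hKc t' ht' _ h1).symm
    by_cases h2 : ρ t' ∈ K
    · exact hKc t ht _ h2
    have hidx : K.index = 2 := by
      have h0 : K.index ≠ 1 := fun h => h1 (Subgroup.index_eq_one.1 h ▸ Subgroup.mem_top _)
      have h00 : K.index ≠ 0 := Subgroup.index_ne_zero_of_finite
      omega
    have h3 : (ρ t)⁻¹ * ρ t' ∈ K := by
      rw [Subgroup.mul_mem_iff_of_index_two hidx, K.inv_mem_iff]
      tauto
    have h4 := hKc t ht _ h3
    rw [mul_inv_cancel_left] at h4
    calc ρ t * ρ t' = ρ t * ((ρ t)⁻¹ * ρ t' * ρ t) := by rw [← h4]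
      _ = ρ t' * ρ t := by group
  obtain ⟨x, hx, y, hy, hxy⟩ := hQ.comm
  set tx : (Q ⊔ R : Subgroup G) := ⟨m * x * m⁻¹, hm x (Subgroup.mem_sup_left hx)⟩ with htx
  set ty : (Q ⊔ R : Subgroup G) := ⟨m * y * m⁻¹, hm y (Subgroup.mem_sup_left hy)⟩ with hty
  have he : tx * ty = z' * (ty * tx) := Subtype.ext (by
    show m * x * m⁻¹ * (m * y * m⁻¹) = m * z * m⁻¹ * (m * y * m⁻¹ * (m * x * m⁻¹))
    rw [show m * x * m⁻¹ * (m * y * m⁻¹) = m * (x * y) * m⁻¹ by group, hxy]
    group)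
  have h5 := congrArg ρ he
  simp only [map_mul] at h5
  rw [hρ tx (hQ'.2 ⟨x, hx, rfl⟩) ty (hQ'.2 ⟨y, hy, rfl⟩), right_eq_mul] at h5
  rw [show m * z * m⁻¹ = ((eT z').1 : G) * (eT z').2 from (heT z').symm,
    show ((eT z').2 : G) = 1 from congrArg Subtype.val h5, mul_one]
  exact hπz

/-- A group with such a Sylow 2-subgroup has an isolated involution. -/
theorem exists_isolated_of_quaternion_factor {S : Sylow 2 G} {Q R : Subgroup G}
    (hQS : Q ≤ (S : Subgroup G)) (hRS : R ≤ (S : Subgroup G))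
    (hcomm : ∀ a ∈ Q, ∀ b ∈ R, a * b = b * a) (hdis : Q ⊓ R = ⊥)
    (hsup : Q ⊔ R = (S : Subgroup G)) {z : G} (hQ : QuatLike Q z)
    (hR : ∀ r ∈ R, orderOf r = 2 → ∀ s ∈ R, r * s = s * r) :
    ∃ w : G, IsIsolatedInvolution w := by
  classical
  haveI : Fact (Nat.Prime 2) := ⟨Nat.prime_two⟩
  letI := Fintype.ofFinite G
  have hdec : ∀ t ∈ (S : Subgroup G), ∃ a ∈ Q, ∃ b ∈ R, t = a * b := by
    intro t ht
    rw [← hsup] at ht
    have hn : R ≤ Subgroup.normalizer (Q : Set G) := fun b hb => by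
      rw [Subgroup.mem_normalizer_iff]
      intro a
      constructor
      · intro ha; rwa [← hcomm a ha b hb, mul_inv_cancel_right]
      · intro ha
        have h2 := hcomm _ ha b hb
        have : a = b * a * b⁻¹ := by
          apply mul_left_cancel (a := b)
          calc b * a = b * a * b⁻¹ * b := by group
            _ = b * (b * a * b⁻¹) := h2
        rwa [this]
    rw [← SetLike.mem_coe, Subgroup.coe_mul_of_right_le_normalizer_left Q R hn, Set.mem_mul] at ht
    obtain ⟨a, ha, b, hb, rfl⟩ := ht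
    exact ⟨a, ha, b, hb, rfl⟩
  have hsqdec : ∀ a ∈ Q, ∀ b ∈ R, a * b * (a * b) = 1 → a * a = 1 ∧ b * b = 1 := by
    intro a ha b hb h
    have h1 : a * a * (b * b) = 1 := by
      rw [← h, mul_assoc, mul_assoc a b, ← mul_assoc b a, ← hcomm a ha b hb]; group
    have h2 : a * a = 1 := by
      have : a * a ∈ Q ⊓ R :=
        ⟨Q.mul_mem ha ha, by rw [eq_inv_of_mul_eq_one_left h1]; exact R.inv_mem (R.mul_mem hb hb)⟩
      rwa [hdis, Subgroup.mem_bot] at this
    rw [h2, one_mul] at h1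
    exact ⟨h2, h1⟩
  have hzc : ∀ a ∈ Q, a * z = z * a := by
    intro a ha
    rcases hQ.uniq (a * z * a⁻¹) (Q.mul_mem (Q.mul_mem ha hQ.mem) (Q.inv_mem ha))
      (by rw [show a * z * a⁻¹ * (a * z * a⁻¹) = a * (z * z) * a⁻¹ by group, hQ.sq]; simp) with h | h
    · exact absurd (conj_eq_one_iff.1 h) hQ.ne
    · exact mul_inv_eq_iff_eq_mul.1 h
  have hzS : ∀ t ∈ (S : Subgroup G), t * z = z * t := by
    intro t ht
    obtain ⟨a, ha, b, hb, rfl⟩ := hdec t ht
    rw [mul_assoc, ← hcomm z hQ.mem b hb, ← mul_assoc, hzc a ha, mul_assoc]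
  have hRc : ∀ b ∈ R, b * b = 1 → ∀ b' ∈ R, b * b' = b' * b := by
    intro b hb h b' hb'
    by_cases h1 : b = 1
    · simp [h1]
    · exact hR b hb (orderOf_eq_prime (by rw [pow_two]; exact h) h1) b' hb'
  -- involutions of `S` are central in `S`
  have hcentral : ∀ t ∈ (S : Subgroup G), t * t = 1 → ∀ s ∈ (S : Subgroup G), t * s = s * t := by
    intro t ht h s hs
    obtain ⟨a, ha, b, hb, rfl⟩ := hdec t ht
    obtain ⟨c, hc, d, hd, rfl⟩ := hdec s hs
    obtain ⟨ha2, hb2⟩ := hsqdec a ha b hb h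
    have e1 : a * c = c * a := by
      rcases hQ.uniq a ha ha2 with rfl | rfl
      · simp
      · exact (hzc c hc).symm
    calc a * b * (c * d) = a * (b * c) * d := by group
      _ = a * (c * b) * d := by rw [hcomm c hc b hb]
      _ = a * c * (b * d) := by group
      _ = c * a * (d * b) := by rw [e1, hRc b hb hb2 d hd]
      _ = c * (a * d) * b := by group
      _ = c * (d * a) * b := by rw [hcomm a ha d hd]
      _ = c * d * (a * b) := by group
  let E : Subgroup G :=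
    { carrier := {t | t ∈ (S : Subgroup G) ∧ t * t = 1}
      one_mem' := ⟨one_mem _, one_mul 1⟩
      mul_mem' := fun {a b} ha hb => ⟨S.mul_mem ha.1 hb.1, by
        rw [← mul_assoc, mul_assoc a b a, ← hcentral a ha.1 ha.2 b hb.1, ← mul_assoc, ha.2, one_mul,
          hb.2]⟩
      inv_mem' := fun {a} ha => ⟨S.inv_mem ha.1, by rw [← mul_inv_rev, ha.2, inv_one]⟩ }
  have hEmem : ∀ {t}, t ∈ E ↔ t ∈ (S : Subgroup G) ∧ t * t = 1 := Iff.rfl
  set M : Subgroup G := Subgroup.normalizer (E : Set G) ⊓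
    Subgroup.normalizer ((S : Subgroup G) : Set G) with hM
  -- the sum over the orbit
  set X : Finset G := (Finset.univ.filter fun m => m ∈ M).image fun m => m * z * m⁻¹ with hX
  have hSS : ∀ m ∈ M, ∀ t, t ∈ Q ⊔ R → m * t * m⁻¹ ∈ Q ⊔ R := fun m hm t ht => by
    rw [hsup] at ht ⊢; exact (Subgroup.mem_normalizer_iff.1 hm.2 t).1 ht
  have hzE : z ∈ E := ⟨hQS hQ.mem, hQ.sq⟩
  have hXE : ∀ x ∈ X, x ∈ E := by
    intro x hx
    obtain ⟨m, hm, rfl⟩ := Finset.mem_image.1 hx
    exact (Subgroup.mem_normalizer_iff.1 (Finset.mem_filter.1 hm).2.1 z).1 hzE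
  letI : CommGroup E :=
    { (inferInstance : Group E) with
      mul_comm := fun a b => Subtype.ext (hcentral a a.2.1 a.2.2 b b.2.1) }
  let w : E := ∏ x ∈ X.attach, ⟨x.1, hXE x.1 x.2⟩
  have hzX : z ∈ X := Finset.mem_image.2 ⟨1, Finset.mem_filter.2 ⟨Finset.mem_univ _, one_mem M⟩, by simp⟩
  have hwR : (w : G) ∉ R := by
    intro hw
    have hsplit : w = ⟨z, hzE⟩ * ∏ x ∈ X.attach.erase ⟨z, hzX⟩, (⟨x.1, hXE x.1 x.2⟩ : E) :=
      (Finset.mul_prod_erase X.attach (fun x : X => (⟨x.1, hXE x.1 x.2⟩ : E))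
        (Finset.mem_attach X ⟨z, hzX⟩)).symm
    have hrest : ((∏ x ∈ X.attach.erase ⟨z, hzX⟩, (⟨x.1, hXE x.1 x.2⟩ : E) : E) : G) ∈ R := by
      refine Finset.prod_induction _ (fun e : E => (e : G) ∈ R)
        (fun a b ha hb => R.mul_mem ha hb) R.one_mem fun x hx => ?_
      obtain ⟨m, hm, hmx⟩ := Finset.mem_image.1 x.2
      have hne : x.1 ≠ z := fun h => (Finset.mem_erase.1 hx).1 (Subtype.ext h)
      rcases conj_eq_or_mem hQ (S.2.to_le hQS) hcomm hdis (hSS m (Finset.mem_filter.1 hm).2) with h | h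
      · exact absurd (hmx.symm.trans h) hne
      · exact hmx ▸ h
    rw [hsplit, Subgroup.coe_mul] at hw
    have hzR : z ∈ R := (R.mul_mem_cancel_right hrest).1 hw
    have hzz : z ∈ Q ⊓ R := ⟨hQ.mem, hzR⟩
    rw [hdis, Subgroup.mem_bot] at hzz
    exact hQ.ne hzz
  have hwne : (w : G) ≠ 1 := fun h => hwR (h ▸ R.one_mem)
  have hwM : ∀ m ∈ M, m * (w : G) * m⁻¹ = w := by
    intro m hm
    let φ : E →* E :=
      { toFun := fun e => ⟨m * e * m⁻¹, (Subgroup.mem_normalizer_iff.1 hm.1 e).1 e.2⟩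
        map_one' := Subtype.ext (by simp)
        map_mul' := fun a b => Subtype.ext (by simp [mul_assoc]) }
    have hφw : φ w = w := by
      show φ (∏ x ∈ X.attach, _) = _
      rw [map_prod]
      refine Finset.prod_bij' (fun x _ => ⟨m * x.1 * m⁻¹, ?_⟩) (fun x _ => ⟨m⁻¹ * x.1 * m, ?_⟩)
        (fun x _ => Finset.mem_attach _ _) (fun x _ => Finset.mem_attach _ _) ?_ ?_ ?_
      · obtain ⟨m', hm', he⟩ := Finset.mem_image.1 x.2
        exact Finset.mem_image.2 ⟨m * m', Finset.mem_filter.2 ⟨Finset.mem_univ _,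
          M.mul_mem hm (Finset.mem_filter.1 hm').2⟩, by rw [← he]; group⟩
      · obtain ⟨m', hm', he⟩ := Finset.mem_image.1 x.2
        exact Finset.mem_image.2 ⟨m⁻¹ * m', Finset.mem_filter.2 ⟨Finset.mem_univ _,
          M.mul_mem (M.inv_mem hm) (Finset.mem_filter.1 hm').2⟩, by rw [← he]; group⟩
      · intro x _; exact Subtype.ext (by group)
      · intro x _; exact Subtype.ext (by group)
      · intro x _; rfl
    exact congrArg Subtype.val hφw
  refine ⟨w, isIsolatedInvolution_of_sylow (P := S)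
    (orderOf_eq_prime (by rw [pow_two]; exact w.2.2) hwne) fun g hg => ?_⟩
  set v := g * (w : G) * g⁻¹ with hv
  have hv2 : v * v = 1 := by
    rw [hv, show g * (w : G) * g⁻¹ * (g * (w : G) * g⁻¹) = g * ((w : G) * w) * g⁻¹ by group, w.2.2]
    simp
  -- both `S` and `g S g⁻¹` centralise `v`
  set C := Subgroup.centralizer ({v} : Set G) with hC
  set S₂ := (S : Subgroup G).map (MulAut.conj g).toMonoidHom with hS₂
  have hS₁C : (S : Subgroup G) ≤ C := fun t ht =>
    Subgroup.mem_centralizer_singleton_iff.2 (hcentral v hg hv2 t ht).symm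
  have hS₂C : S₂ ≤ C := by
    rintro _ ⟨t, ht, rfl⟩
    refine Subgroup.mem_centralizer_singleton_iff.2 ?_
    show g * t * g⁻¹ * (g * w * g⁻¹) = g * w * g⁻¹ * (g * t * g⁻¹)
    rw [show g * t * g⁻¹ * (g * (w : G) * g⁻¹) = g * (t * w) * g⁻¹ by group,
      ← hcentral w w.2.1 w.2.2 t ht]
    group
  have hri : ∀ T : Subgroup G, T ≤ C → ¬ 2 ∣ T.index → ¬ 2 ∣ T.relIndex C := fun T hT h h2 =>
    h (h2.trans (Dvd.intro _ (Subgroup.relIndex_mul_index hT)))
  have hS₂i : ¬ 2 ∣ S₂.index := by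
    rw [hS₂, Subgroup.index_map_of_injective _ (MulAut.conj g).injective,
      show (MulAut.conj g).toMonoidHom.range = ⊤ from
        MonoidHom.range_eq_top.2 (MulAut.conj g).surjective, Subgroup.index_top, mul_one]
    exact S.not_dvd_index
  obtain ⟨c, hc, hcS⟩ := Coprime.exists_conj_of_sylow (q := 2) (S.2.map _) S.2 hS₂C hS₁C
    (hri _ hS₂C hS₂i) (hri _ hS₁C S.not_dvd_index)
  have hnS : c * g ∈ Subgroup.normalizer ((S : Subgroup G) : Set G) := by
    rw [Subgroup.mem_normalizer_iff_map_conj_eq]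
    conv_rhs => rw [← hcS, Subgroup.map_map]
    congr 1
    ext x
    simp [mul_assoc]
  have hnE : c * g ∈ Subgroup.normalizer (E : Set G) := by
    rw [Subgroup.mem_normalizer_iff]
    intro t
    rw [hEmem, hEmem, ← Subgroup.mem_normalizer_iff.1 hnS t,
      show (c * g) * t * (c * g)⁻¹ * ((c * g) * t * (c * g)⁻¹) = (c * g) * (t * t) * (c * g)⁻¹ by group,
      conj_eq_one_iff]
  have := hwM _ ⟨hnE, hnS⟩
  rw [show c * g * (w : G) * (c * g)⁻¹ = c * v * c⁻¹ by rw [hv]; group,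
    Subgroup.mem_centralizer_singleton_iff.1 hc, mul_inv_cancel_right] at this
  exact this

end Cfsg.Agent.Blocks
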