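import Mathlib

/-!
An algebra projective relative to a cyclic subgroup has no pencil of extensions of its simple
module by itself.
-/

namespace Cfsg.Agent.Blocks.RepType

open Module Polynomial
open scoped DirectSum

set_option autoImplicit false
set_option linter.unusedSectionVars false
set_option linter.style.haveILetI false

variable {k A : Type*} [Field k] [Ring A] [Algebra k A] {n : ℕ}

/-- A derivation at the augmentation. -/
def IsDer (ε : A →ₐ[k] k) (δ : A →ₗ[k] k) : Prop :=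
  ∀ x y : A, δ (x * y) = ε x * δ y + δ x * ε y

theorem IsDer.one {ε : A →ₐ[k] k} {δ : A →ₗ[k] k} (h : IsDer ε δ) : δ 1 = 0 := by
  have := h 1 1
  rw [mul_one, map_one ε, one_mul, mul_one] at this
  simpa using this

abbrev V (k : Type*) [Field k] (n : ℕ) : Type _ := (Fin n → k) × (Fin n → k)

/-- The extension of the simple module by itself along a derivation. -/
def act (ε : A →ₐ[k] k) (δ : A →ₗ[k] k) (a : Matrix (Fin n) (Fin n) A) : V k n →ₗ[k] V k n :=
  LinearMap.prod ((Matrix.mulVecLin (a.map ε)).comp (LinearMap.fst k _ _))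
    ((Matrix.mulVecLin (a.map δ)).comp (LinearMap.fst k _ _) +
      (Matrix.mulVecLin (a.map ε)).comp (LinearMap.snd k _ _))

theorem act_apply (ε : A →ₐ[k] k) (δ : A →ₗ[k] k) (a : Matrix (Fin n) (Fin n) A) (v : V k n) :
    act ε δ a v = (Matrix.mulVec (a.map ε) v.1,
      Matrix.mulVec (a.map δ) v.1 + Matrix.mulVec (a.map ε) v.2) := rfl

theorem act_one {ε : A →ₐ[k] k} {δ : A →ₗ[k] k} (h : IsDer ε δ) :
    act ε δ (1 : Matrix (Fin n) (Fin n) A) = LinearMap.id := by
  refine LinearMap.ext fun v => ?_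
  have h1 : (1 : Matrix (Fin n) (Fin n) A).map δ = 0 := by
    ext i j
    by_cases hij : i = j <;> simp [Matrix.one_apply, hij, h.one]
  rw [act_apply, h1, Matrix.map_one _ (map_zero ε) (map_one ε)]
  simp

theorem act_mul {ε : A →ₐ[k] k} {δ : A →ₗ[k] k} (h : IsDer ε δ)
    (a b : Matrix (Fin n) (Fin n) A) : act ε δ (a * b) = (act ε δ a).comp (act ε δ b) := by
  refine LinearMap.ext fun v => ?_
  have h1 : (a * b).map δ = a.map ε * b.map δ + a.map δ * b.map ε := by
    ext i j
    simp [Matrix.mul_apply, map_sum, h _ _, Finset.sum_add_distrib]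
  rw [LinearMap.comp_apply, act_apply, act_apply, act_apply, h1, Matrix.map_mul,
    Matrix.add_mulVec, Matrix.mulVec_add, Matrix.mulVec_mulVec, Matrix.mulVec_mulVec,
    Matrix.mulVec_mulVec]
  refine Prod.ext rfl ?_
  simp only [Matrix.mulVec_mulVec]
  abel

theorem act_add (ε : A →ₐ[k] k) (δ : A →ₗ[k] k) (a b : Matrix (Fin n) (Fin n) A) :
    act ε δ (a + b) = act ε δ a + act ε δ b := by
  refine LinearMap.ext fun v => ?_
  simp [act_apply, Matrix.map_add, Matrix.add_mulVec]
  abel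

theorem act_smul (ε : A →ₐ[k] k) (δ : A →ₗ[k] k) (c : k) (a : Matrix (Fin n) (Fin n) A) :
    act ε δ (c • a) = c • act ε δ a := by
  refine LinearMap.ext fun v => ?_
  rw [LinearMap.smul_apply, act_apply, act_apply,
    Matrix.map_smul ε c (fun x => map_smul ε c x), Matrix.map_smul δ c (fun x => map_smul δ c x)]
  simp [Matrix.smul_mulVec, smul_add]

/-- A linear map commuting with all matrices is scalar. -/
theorem exists_scalar [NeZero n] (f : (Fin n → k) →ₗ[k] Fin n → k)
    (h : ∀ (C : Matrix (Fin n) (Fin n) k) x, f (C.mulVec x) = C.mulVec (f x)) :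
    ∃ a : k, ∀ x, f x = a • x := by
  refine ⟨f (Pi.single 0 1) 0, fun x => ?_⟩
  have h1 := h (Matrix.of fun i j => if j = 0 then x i else 0) (Pi.single 0 1)
  have h2 : (Matrix.of fun i j => if j = 0 then x i else 0).mulVec (Pi.single (0 : Fin n) (1 : k))
      = x := by
    funext i; simp
  rw [h2] at h1
  rw [h1]
  funext i
  simp [Matrix.mulVec, dotProduct, mul_comm]

/-- Intertwiners between two members of a pencil. -/
theorem intertwiner_eq [NeZero n] {ε : A →ₐ[k] k} {δ₁ δ₂ : A →ₗ[k] k} (h₁ : IsDer ε δ₁)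
    (h₂ : IsDer ε δ₂) {m₁ m₂ : A} (e₁ : ε m₁ = 0) (e₂ : ε m₂ = 0) (d11 : δ₁ m₁ = 1)
    (d12 : δ₁ m₂ = 0) (d21 : δ₂ m₁ = 0) (d22 : δ₂ m₂ = 1) {s t : k}
    {T : V k n →ₗ[k] V k n}
    (hT : ∀ a : Matrix (Fin n) (Fin n) A,
      T.comp (act ε (δ₁ + s • δ₂) a) = (act ε (δ₁ + t • δ₂) a).comp T) :
    ∃ a : k, (∀ v, (T v).1 = a • v.1) ∧ (s ≠ t → a = 0) := by
  have hC : ∀ (C : Matrix (Fin n) (Fin n) k) (v : V k n),
      T (C.mulVec v.1, C.mulVec v.2) = (C.mulVec (T v).1, C.mulVec (T v).2) := by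
    intro C v
    have hd : ∀ u : k, act ε (δ₁ + u • δ₂) (C.map (algebraMap k A)) =
        LinearMap.prodMap (Matrix.mulVecLin C) (Matrix.mulVecLin C) := by
      intro u
      refine LinearMap.ext fun w => ?_
      have h1 : (C.map (algebraMap k A)).map ε = C := by ext i j; simp
      have h2 : (C.map (algebraMap k A)).map (δ₁ + u • δ₂) = 0 := by
        ext i j
        simp [Algebra.algebraMap_eq_smul_one, h₁.one, h₂.one]
      rw [act_apply, h1, h2]
      simp
    have := LinearMap.congr_fun (hT (C.map (algebraMap k A))) v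
    rw [LinearMap.comp_apply, LinearMap.comp_apply, hd, hd] at this
    exact this
  obtain ⟨a, ha⟩ := exists_scalar ((LinearMap.fst k _ _).comp (T.comp (LinearMap.inl k _ _)))
    fun C x => by
      have := congrArg Prod.fst (hC C (x, 0))
      simpa using this
  obtain ⟨b, hb⟩ := exists_scalar ((LinearMap.fst k _ _).comp (T.comp (LinearMap.inr k _ _)))
    fun C x => by
      have := congrArg Prod.fst (hC C (0, x))
      simpa using this
  obtain ⟨d, hd⟩ := exists_scalar ((LinearMap.snd k _ _).comp (T.comp (LinearMap.inr k _ _)))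
    fun C x => by
      have := congrArg Prod.snd (hC C (0, x))
      simpa using this
  simp only [LinearMap.comp_apply, LinearMap.inl_apply, LinearMap.inr_apply,
    LinearMap.fst_apply, LinearMap.snd_apply] at ha hb hd
  have hsplit : ∀ v : V k n, (T v).1 = a • v.1 + b • v.2 := fun v => by
    rw [← ha v.1, ← hb v.2, ← Prod.fst_add, ← map_add]
    simp
  set e : Fin n → k := Pi.single 0 1 with he
  have key : ∀ m : A, ε m = 0 → (δ₁ m + s * δ₂ m) * b = 0 ∧
      (δ₁ m + s * δ₂ m) * d = (δ₁ m + t * δ₂ m) * a := by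
    intro m hm
    have hact : ∀ (u : k) (w : V k n), act ε (δ₁ + u • δ₂) (Matrix.diagonal fun _ => m) w =
        (0, (δ₁ m + u * δ₂ m) • w.1) := by
      intro u w
      have h1 : (Matrix.diagonal fun _ : Fin n => m).map ε = 0 := by
        rw [Matrix.diagonal_map (map_zero ε)]; simp [Function.comp_def, hm]
      have h2 : (Matrix.diagonal fun _ : Fin n => m).map (δ₁ + u • δ₂) =
          (δ₁ m + u * δ₂ m) • (1 : Matrix (Fin n) (Fin n) k) := by
        ext i j
        by_cases hij : i = j <;> simp [hij]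
      rw [act_apply, h1, h2]
      simp [Matrix.smul_mulVec]
    have h := LinearMap.congr_fun (hT (Matrix.diagonal fun _ => m)) ((e, 0) : V k n)
    rw [LinearMap.comp_apply, LinearMap.comp_apply, hact, hact] at h
    have h1 := congrFun (congrArg Prod.fst h) 0
    have h2 := congrFun (congrArg Prod.snd h) 0
    rw [hd] at h2
    rw [hsplit] at h1
    simp [he, hsplit] at h1 h2
    exact ⟨by rw [mul_comm]; simpa using h1, by rw [mul_comm]; simpa [mul_comm] using h2⟩
  obtain ⟨k1, k2⟩ := key m₁ e₁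
  obtain ⟨-, k4⟩ := key m₂ e₂
  rw [d11, d21, mul_zero, add_zero, one_mul] at k1
  rw [d11, d21, mul_zero, mul_zero, add_zero, one_mul, one_mul] at k2
  rw [d12, d22, mul_one, mul_one, zero_add, zero_add, k2] at k4
  refine ⟨a, fun v => by rw [hsplit, k1, zero_smul, add_zero], fun hst => ?_⟩
  by_contra ha0
  exact hst (mul_right_cancel₀ ha0 k4)

/-- A unipotent map splits into cyclic pieces of bounded length. -/
theorem exists_split (p a : ℕ) [Fact p.Prime] [CharP k p] {W : Type*} [AddCommGroup W]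
    [Module k W] [FiniteDimensional k W] (U : W →ₗ[k] W) (hU : U ^ p ^ a = 1) :
    ∃ (d : ℕ) (l : Fin d → ℕ) (π : ∀ i, W →ₗ[k] (k[X] ⧸ k[X] ∙ ((X : k[X]) - 1) ^ l i))
      (ι : ∀ i, (k[X] ⧸ k[X] ∙ ((X : k[X]) - 1) ^ l i) →ₗ[k] W),
      (∀ i, l i ≤ p ^ a) ∧ (∀ i w, π i (U w) = (X : k[X]) • π i w) ∧
        (∀ i x, ι i ((X : k[X]) • x) = U (ι i x)) ∧ (∀ w, ∑ i, ι i (π i w) = w) ∧
        ∀ i, Module.Finite k (k[X] ⧸ k[X] ∙ ((X : k[X]) - 1) ^ l i) := by
  classical
  set r : k[X] := (X : k[X]) - 1 with hr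
  have hirr : Irreducible r := by
    rw [hr, ← C_1]; exact irreducible_X_sub_C 1
  set of := AEval'.of U with hof
  have hpow : r ^ p ^ a = (X : k[X]) ^ p ^ a - 1 := by
    rw [hr, sub_pow_char_pow, one_pow]
  have hkill : ∀ w, r ^ p ^ a • of w = 0 := by
    intro w
    rw [hpow, hof, ← AEval.of_aeval_smul]
    simp [hU]
  have htor : Module.IsTorsion' (AEval' U) (Submonoid.powers r) := fun x =>
    ⟨⟨r ^ p ^ a, p ^ a, rfl⟩, by
      obtain ⟨w, rfl⟩ := of.surjective x
      exact hkill w⟩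
  obtain ⟨d, l, ⟨Θ⟩⟩ := Module.torsion_by_prime_power_decomposition hirr htor
  set π : ∀ i, W →ₗ[k] (k[X] ⧸ k[X] ∙ r ^ l i) := fun i =>
    ((DirectSum.component k[X] (Fin d) _ i).comp Θ.toLinearMap).restrictScalars k ∘ₗ
      of.toLinearMap with hπ
  set ι : ∀ i, (k[X] ⧸ k[X] ∙ r ^ l i) →ₗ[k] W := fun i =>
    of.symm.toLinearMap ∘ₗ
      (Θ.symm.toLinearMap.comp (DirectSum.lof k[X] (Fin d) _ i)).restrictScalars k with hι
  have hπs : ∀ i, Function.Surjective (π i) := fun i x =>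
    ⟨of.symm (Θ.symm (DirectSum.lof k[X] (Fin d) _ i x)), by simp [hπ]⟩
  refine ⟨d, l, π, ι, fun i => ?_, fun i w => ?_, fun i x => ?_, fun w => ?_, fun i =>
    Module.Finite.of_surjective (π i) (hπs i)⟩
  · obtain ⟨w, hw⟩ := hπs i (Submodule.Quotient.mk 1)
    have h1 : r ^ p ^ a • (Submodule.Quotient.mk 1 : k[X] ⧸ k[X] ∙ r ^ l i) = 0 := by
      rw [← hw]
      show r ^ p ^ a • (DirectSum.component k[X] (Fin d) _ i) (Θ (of w)) = 0
      rw [← map_smul, ← map_smul, hkill, map_zero, map_zero]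
    rw [← Submodule.Quotient.mk_smul, Submodule.Quotient.mk_eq_zero, smul_eq_mul, mul_one,
      Submodule.mem_span_singleton] at h1
    obtain ⟨c, hc⟩ := h1
    rw [smul_eq_mul] at hc
    exact (pow_dvd_pow_iff hirr.ne_zero hirr.not_isUnit).1 ⟨c, by rw [← hc, mul_comm]⟩
  · show (DirectSum.component k[X] (Fin d) _ i) (Θ (of (U w))) = _
    rw [hof, ← AEval'.X_smul_of, map_smul, map_smul]
    rfl
  · show of.symm (Θ.symm (DirectSum.lof k[X] (Fin d) _ i ((X : k[X]) • x))) = _
    rw [map_smul, map_smul, LinearEquiv.symm_apply_eq, hof, ← AEval'.X_smul_of]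
    simp [hι, hof]
  · show ∑ i, of.symm (Θ.symm (DirectSum.lof k[X] (Fin d) _ i (Θ (of w) i))) = w
    rw [← map_sum, ← map_sum]
    have : ∑ i, DirectSum.lof k[X] (Fin d) _ i (Θ (of w) i) = Θ (of w) := by
      simp [DirectSum.lof_eq_of, DirectSum.sum_univ_of]
    rw [this]; simp

variable [IsAlgClosed k] {G : Type*} [Group G] [Fintype G]

/-- The relative trace of an endomorphism between two members. -/
noncomputable def trc (P : Subgroup G) (D D' : G → (V k n →ₗ[k] V k n))
    (f : V k n →ₗ[k] V k n) : V k n →ₗ[k] V k n :=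
  haveI := Fintype.ofFinite (G ⧸ P)
  ∑ q : G ⧸ P, (D' q.out).comp (f.comp (D q.out⁻¹))

theorem trc_eq (P : Subgroup G) [Fintype (G ⧸ P)] (D D' : G → (V k n →ₗ[k] V k n))
    (f : V k n →ₗ[k] V k n) :
    trc P D D' f = ∑ q : G ⧸ P, (D' q.out).comp (f.comp (D q.out⁻¹)) :=
  Finset.sum_congr (by ext; simp) fun _ _ => rfl

/-- No pencil. -/
theorem false_of_pencil [NeZero n] (p : ℕ) [Fact p.Prime] [CharP k p] (ε : A →ₐ[k] k)
    {δ₁ δ₂ : A →ₗ[k] k} (h₁ : IsDer ε δ₁) (h₂ : IsDer ε δ₂) {m₁ m₂ : A} (e₁ : ε m₁ = 0)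
    (e₂ : ε m₂ = 0) (d11 : δ₁ m₁ = 1) (d12 : δ₁ m₂ = 0) (d21 : δ₂ m₁ = 0) (d22 : δ₂ m₂ = 1)
    (ρ : G →* Matrix (Fin n) (Fin n) A) (hspan : Submodule.span k (Set.range ρ) = ⊤)
    {P : Subgroup G} {u : G} (hgen : P = Subgroup.zpowers u) {a : ℕ} (hu : u ^ p ^ a = 1)
    (γ : Matrix (Fin n) (Fin n) A) (hγ : ∀ x ∈ P, ρ x * γ = γ * ρ x)
    (htr : ∀ [Fintype (G ⧸ P)], ∑ q : G ⧸ P, ρ q.out * γ * ρ q.out⁻¹ = 1) : False := by
  classical
  haveI := Fintype.ofFinite (G ⧸ P)
  set δ : k → A →ₗ[k] k := fun t => δ₁ + t • δ₂ with hδ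
  have hder : ∀ t, IsDer ε (δ t) := fun t x y => by
    simp [hδ, h₁ x y, h₂ x y]; ring
  set D : k → G → (V k n →ₗ[k] V k n) := fun t g => act ε (δ t) (ρ g) with hD
  have hDmul : ∀ t g h, D t (g * h) = (D t g).comp (D t h) := fun t g h => by
    simp only [hD, map_mul, act_mul (hder t)]
  have hD1 : ∀ t, D t 1 = LinearMap.id := fun t => by simp only [hD, map_one, act_one (hder t)]
  -- traces intertwine
  have hint : ∀ (s t : k) (f : V k n →ₗ[k] V k n), (∀ x ∈ P, (D t x).comp f = f.comp (D s x)) →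
      ∀ m : Matrix (Fin n) (Fin n) A, (trc P (D s) (D t) f).comp (act ε (δ s) m) =
        (act ε (δ t) m).comp (trc P (D s) (D t) f) := by
    intro s t f hf
    set F : G → (V k n →ₗ[k] V k n) := fun g => (D t g).comp (f.comp (D s g⁻¹)) with hF
    have hFP : ∀ g, ∀ x ∈ P, F (g * x) = F g := by
      intro g x hx
      simp only [hF]
      rw [mul_inv_rev, hDmul, hDmul]
      calc (D t g ∘ₗ D t x) ∘ₗ f ∘ₗ D s x⁻¹ ∘ₗ D s g⁻¹
          = D t g ∘ₗ ((D t x ∘ₗ f) ∘ₗ D s x⁻¹) ∘ₗ D s g⁻¹ := rfl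
        _ = D t g ∘ₗ ((f ∘ₗ D s x) ∘ₗ D s x⁻¹) ∘ₗ D s g⁻¹ := by rw [hf x hx]
        _ = D t g ∘ₗ f ∘ₗ (D s x ∘ₗ D s x⁻¹) ∘ₗ D s g⁻¹ := rfl
        _ = _ := by rw [← hDmul, mul_inv_cancel, hD1, LinearMap.id_comp]
    have hG : ∀ h : G, (trc P (D s) (D t) f).comp (D s h) = (D t h).comp (trc P (D s) (D t) f) := by
      intro h
      rw [trc_eq]
      show (∑ q : G ⧸ P, F q.out).comp (D s h) = (D t h).comp (∑ q : G ⧸ P, F q.out)
      rw [show (∑ q : G ⧸ P, F q.out).comp (D s h) = ∑ q : G ⧸ P, (F q.out).comp (D s h) from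
          LinearMap.ext fun v => by simp [LinearMap.sum_apply],
        show (D t h).comp (∑ q : G ⧸ P, F q.out) = ∑ q : G ⧸ P, (D t h).comp (F q.out) from
          LinearMap.ext fun v => by simp [LinearMap.sum_apply]]
      symm
      refine Fintype.sum_equiv (MulAction.toPerm h) _ _ fun q => ?_
      obtain ⟨x, hx⟩ := QuotientGroup.mk_out_eq_mul P (h * q.out)
      have hq : (MulAction.toPerm h q : G ⧸ P) = ((h * q.out : G) : G ⧸ P) := by
        conv_lhs => rw [← QuotientGroup.out_eq' q]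
        rfl
      show _ = (F (MulAction.toPerm h q).out).comp (D s h)
      rw [hq, hx, hFP _ _ x.2]
      simp only [hF]
      rw [hDmul t h, show (h * q.out)⁻¹ = q.out⁻¹ * h⁻¹ by group, hDmul s]
      calc (D t h) ∘ₗ D t q.out ∘ₗ f ∘ₗ D s q.out⁻¹
          = D t h ∘ₗ D t q.out ∘ₗ f ∘ₗ D s q.out⁻¹ ∘ₗ LinearMap.id := by rw [LinearMap.comp_id]
        _ = _ := by rw [← hD1 s, ← inv_mul_cancel h, hDmul]; rfl
    intro m
    have hm : m ∈ Submodule.span k (Set.range ρ) := hspan ▸ Submodule.mem_top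
    induction hm using Submodule.span_induction with
    | mem x hx => obtain ⟨g, rfl⟩ := hx; exact hG g
    | zero => rw [show act ε (δ s) 0 = 0 by simpa using act_smul ε (δ s) 0 (0 : Matrix (Fin n) (Fin n) A),
        show act ε (δ t) 0 = 0 by simpa using act_smul ε (δ t) 0 (0 : Matrix (Fin n) (Fin n) A)]; simp
    | add x y _ _ hx hy => rw [act_add, act_add, LinearMap.comp_add, LinearMap.add_comp, hx, hy]
    | smul c x _ hx => rw [act_smul, act_smul, LinearMap.comp_smul, LinearMap.smul_comp, hx]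
  set e : V k n := (Pi.single 0 1, 0) with he
  -- every member is a summand of a bounded induced module
  have hsum : ∀ t : k, ∃ l : ℕ, l ≤ p ^ a ∧
      ∃ (π : V k n →ₗ[k] (k[X] ⧸ k[X] ∙ ((X : k[X]) - 1) ^ l))
        (ι : (k[X] ⧸ k[X] ∙ ((X : k[X]) - 1) ^ l) →ₗ[k] V k n),
        Module.Finite k (k[X] ⧸ k[X] ∙ ((X : k[X]) - 1) ^ l) ∧
        (∀ w, π (D t u w) = (X : k[X]) • π w) ∧ (∀ x, ι ((X : k[X]) • x) = D t u (ι x)) ∧
        (trc P (D t) (D t) ((act ε (δ t) γ).comp (ι.comp π)) e).1 ≠ 0 := by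
    intro t
    have hpow : ∀ m : ℕ, (D t u) ^ m = D t (u ^ m) := by
      intro m
      induction m with
      | zero => rw [pow_zero, pow_zero, hD1]; rfl
      | succ m ih => rw [pow_succ, pow_succ, hDmul, ih]; rfl
    obtain ⟨d, l, π, ι, hl, hπ, hι, hsum, hfin⟩ := exists_split p a (D t u)
      (by rw [hpow, hu, hD1]; rfl)
    by_contra hno
    push Not at hno
    have h1 : ∑ i, trc P (D t) (D t) ((act ε (δ t) γ).comp ((ι i).comp (π i))) =
        LinearMap.id := by
      simp only [trc_eq]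
      rw [Finset.sum_comm]
      have hq : ∀ q : G ⧸ P, ∑ i, (D t q.out).comp (((act ε (δ t) γ).comp ((ι i).comp (π i))).comp
          (D t q.out⁻¹)) = act ε (δ t) (ρ q.out * γ * ρ q.out⁻¹) := by
        intro q
        rw [act_mul (hder t), act_mul (hder t)]
        refine LinearMap.ext fun v => ?_
        simp only [LinearMap.sum_apply, LinearMap.comp_apply, ← map_sum, hsum]
        rfl
      rw [Finset.sum_congr rfl fun q _ => hq q,
        ← act_one (hder t), ← htr]
      exact (map_sum (AddMonoidHom.mk' (act ε (δ t)) (act_add ε (δ t))) _ _).symm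
    have h2 := congrArg Prod.fst (LinearMap.congr_fun h1 e)
    rw [LinearMap.sum_apply, Prod.fst_sum, Finset.sum_eq_zero fun i _ =>
      hno (l i) (hl i) (π i) (ι i) (hfin i) (hπ i) (hι i)] at h2
    simpa [he] using congrFun h2 0
  choose l hl π ι hfin hπ hι hne using hsum
  -- a pigeonhole
  have hinf : Infinite k := IsAlgClosed.instInfinite
  obtain ⟨L, hL⟩ := Finite.exists_infinite_fiber
    (fun t : k => (⟨l t, Nat.lt_succ_of_le (hl t)⟩ : Fin (p ^ a + 1)))
  obtain ⟨t₀, ht₀⟩ := (Set.infinite_coe_iff.1 hL).nonempty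
  simp only [Set.mem_preimage, Set.mem_singleton_iff] at ht₀
  set Q := k[X] ⧸ k[X] ∙ ((X : k[X]) - 1) ^ (L : ℕ)
  haveI : Module.Finite k Q := by
    have := hfin t₀
    rwa [show l t₀ = (L : ℕ) from congrArg Fin.val ht₀] at this
  have hpack : ∀ t : {t // l t = (L : ℕ)}, ∃ (π' : V k n →ₗ[k] Q) (ι' : Q →ₗ[k] V k n),
      (∀ w, π' (D t.1 u w) = (X : k[X]) • π' w) ∧ (∀ x, ι' ((X : k[X]) • x) = D t.1 u (ι' x)) ∧
        (trc P (D t.1) (D t.1) ((act ε (δ t.1) γ).comp (ι'.comp π')) e).1 ≠ 0 := by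
    rintro ⟨t, ht⟩
    have key : ∀ m : ℕ, l t = m → ∃ (π' : V k n →ₗ[k] (k[X] ⧸ k[X] ∙ ((X : k[X]) - 1) ^ m))
        (ι' : (k[X] ⧸ k[X] ∙ ((X : k[X]) - 1) ^ m) →ₗ[k] V k n),
        (∀ w, π' (D t u w) = (X : k[X]) • π' w) ∧ (∀ x, ι' ((X : k[X]) • x) = D t u (ι' x)) ∧
          (trc P (D t) (D t) ((act ε (δ t) γ).comp (ι'.comp π')) e).1 ≠ 0 := by
      rintro m rfl
      exact ⟨π t, ι t, hπ t, hι t, hne t⟩
    exact key _ ht
  choose π' ι' hπ' hι' hne' using hpack
  haveI : Infinite {t // l t = (L : ℕ)} := by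
    refine (Equiv.setCongr (?_ : _ = {t | l t = (L : ℕ)})).infinite_iff.1 hL
    ext t
    simp [Fin.ext_iff]
  obtain ⟨s, hs⟩ := Infinite.exists_subset_card_eq {t // l t = (L : ℕ)}
    (finrank k (G → Q) + 1)
  set F : {t // l t = (L : ℕ)} → (G → Q) := fun t g => π' t (D t.1 g⁻¹ e) with hF
  have hli : LinearIndependent k (fun i : s => F i.1) := by
    rw [Fintype.linearIndependent_iff]
    intro c hc j
    set R : (G → Q) →ₗ[k] V k n := ∑ q : G ⧸ P,
      ((D j.1.1 q.out).comp ((act ε (δ j.1.1) γ).comp (ι' j.1))).comp (LinearMap.proj q.out)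
      with hR
    have hRF : ∀ i, R (F i) = trc P (D i.1) (D j.1.1)
        ((act ε (δ j.1.1) γ).comp ((ι' j.1).comp (π' i))) e := fun i => by
      simp only [hR, LinearMap.sum_apply, trc, LinearMap.comp_apply, LinearMap.proj_apply, hF]
      exact Finset.sum_congr (by congr! 1) fun q _ => rfl
    have hscal : ∀ i : {t // l t = (L : ℕ)}, ∃ b : k, (R (F i)).1 = b • e.1 ∧ (i ≠ j.1 → b = 0) := by
      intro i
      have hgenx : ∀ x ∈ P, (D j.1.1 x).comp
          ((act ε (δ j.1.1) γ).comp ((ι' j.1).comp (π' i))) =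
          ((act ε (δ j.1.1) γ).comp ((ι' j.1).comp (π' i))).comp (D i.1 x) := by
        intro x hx
        rw [hgen] at hx
        obtain ⟨m, hm⟩ : ∃ m : ℕ, u ^ m = x :=
          Submonoid.mem_powers_iff _ _ |>.1 ((IsOfFinOrder.mem_powers_iff_mem_zpowers (isOfFinOrder_of_finite u)).2 hx)
        subst hm
        have hu1 : (D j.1.1 u).comp ((act ε (δ j.1.1) γ).comp ((ι' j.1).comp (π' i))) =
            ((act ε (δ j.1.1) γ).comp ((ι' j.1).comp (π' i))).comp (D i.1 u) := by
          have hc : (D j.1.1 u).comp (act ε (δ j.1.1) γ) = (act ε (δ j.1.1) γ).comp (D j.1.1 u) := by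
            simp only [hD]
            rw [← act_mul (hder _), ← act_mul (hder _), hγ u (hgen ▸ Subgroup.mem_zpowers u)]
          rw [← LinearMap.comp_assoc, hc]
          refine LinearMap.ext fun w => ?_
          simp only [LinearMap.comp_apply]
          rw [← hι' j.1, ← hπ' i]
        induction m with
        | zero => rw [pow_zero, hD1, hD1]; rfl
        | succ m ih =>
          rw [pow_succ, hDmul, hDmul]
          have ih' := ih (pow_mem (Subgroup.mem_zpowers u) m)
          rw [LinearMap.comp_assoc, hu1, ← LinearMap.comp_assoc, ih', LinearMap.comp_assoc]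
      obtain ⟨b, hb, hb0⟩ := intertwiner_eq (n := n) h₁ h₂ e₁ e₂ d11 d12 d21 d22
        (hint i.1 j.1.1 _ hgenx)
      exact ⟨b, by rw [hRF, hb], fun hij => hb0 fun h => hij (Subtype.ext h)⟩
    choose b hb hb0 using hscal
    have h1 := congrArg Prod.fst (congrArg R hc)
    rw [map_sum, Prod.fst_sum, Finset.sum_congr rfl fun i _ => by
      rw [map_smul, Prod.smul_fst, hb], Finset.sum_eq_single j] at h1
    · have hbj : b j.1 ≠ 0 := fun h0 => hne' j.1 (by rw [← hRF j.1, hb, h0, zero_smul])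
      rw [map_zero, smul_smul] at h1
      have h2 : c j * b j.1 = 0 := by simpa [he] using congrFun h1 0
      exact (mul_eq_zero.1 h2).resolve_right hbj
    · intro i _ hi
      rw [hb0 _ fun h => hi (Subtype.ext h), zero_smul, smul_zero]
    · exact fun h => absurd (Finset.mem_univ _) h
  have := hli.fintype_card_le_finrank
  rw [Fintype.card_coe, hs] at this
  omega

/-- A local algebra without a pencil is commutative. -/
theorem commutative_or_pencil [FiniteDimensional k A] (ε : A →ₐ[k] k) {N : ℕ}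
    (hN : LinearMap.ker ε.toLinearMap ^ N = ⊥) :
    (∀ x y : A, x * y = y * x) ∨ ∃ (δ₁ δ₂ : A →ₗ[k] k) (m₁ m₂ : A), IsDer ε δ₁ ∧ IsDer ε δ₂ ∧
      ε m₁ = 0 ∧ ε m₂ = 0 ∧ δ₁ m₁ = 1 ∧ δ₁ m₂ = 0 ∧ δ₂ m₁ = 0 ∧ δ₂ m₂ = 1 := by
  classical
  set m := LinearMap.ker ε.toLinearMap with hm
  have hmem : ∀ x : A, x - ε x • 1 ∈ m := fun x => by
    simp [hm, LinearMap.mem_ker]
  have hker : ∀ x, x ∈ m ↔ ε x = 0 := fun x => Iff.rfl
  set pr : A →ₗ[k] (A ⧸ (m * m ⊔ k ∙ (1 : A))) := Submodule.mkQ _ with hpr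
  by_cases hx : ∃ x : A, x ∈ m ∧ m ≤ k ∙ x ⊔ m * m
  · obtain ⟨x, hxm, hx⟩ := hx
    left
    set S := Subalgebra.toSubmodule (Algebra.adjoin k {x}) with hS
    have hxS : x ∈ S := Algebra.self_mem_adjoin_singleton k x
    have key : ∀ j : ℕ, m ≤ (S ⊓ m) ⊔ m ^ (j + 1) := by
      intro j
      induction j with
      | zero => rw [Submodule.pow_one]; exact le_sup_right
      | succ j ih =>
        refine hx.trans (sup_le ((Submodule.span_singleton_le_iff_mem _ _).2
          (Submodule.mem_sup_left ⟨hxS, hxm⟩)) ?_)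
        refine (mul_le_mul' ih le_rfl).trans ?_
        rw [Submodule.sup_mul]
        refine sup_le ((mul_le_mul' le_rfl ih).trans ?_) ?_
        · rw [Submodule.mul_sup]
          refine sup_le (le_sup_of_le_left (Submodule.mul_le.2 fun y hy z hz => ⟨?_, ?_⟩))
            (le_sup_of_le_right ?_)
          · exact (Algebra.adjoin k {x}).mul_mem hy.1 hz.1
          · exact (hker _).2 (by rw [map_mul, (hker _).1 hy.2, zero_mul])
          · exact (mul_le_mul' inf_le_right le_rfl).trans (pow_succ' m (j + 1)).ge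
        · exact le_sup_of_le_right (pow_succ m (j + 1)).ge
    have htop : ∀ y : A, y ∈ S := by
      intro y
      have h1 := key N (hmem y)
      rw [pow_succ, hN, Submodule.bot_mul, sup_bot_eq] at h1
      rw [← sub_add_cancel y (ε y • 1)]
      exact S.add_mem h1.1 (S.smul_mem _ (Algebra.adjoin k {x}).one_mem)
    intro y z
    exact congrArg Subtype.val (mul_comm (⟨y, htop y⟩ : Algebra.adjoin k {x}) ⟨z, htop z⟩)
  · right
    push Not at hx
    have hsq : m * m ≤ m := Submodule.mul_le.2 fun y hy z _ => (hker _).2 (by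
      rw [map_mul, (hker _).1 hy, zero_mul])
    obtain ⟨m₁, hm₁, hm₁'⟩ := SetLike.not_le_iff_exists.1 (hx 0 m.zero_mem)
    rw [Submodule.span_zero_singleton, bot_sup_eq] at hm₁'
    obtain ⟨m₂, hm₂, hm₂'⟩ := SetLike.not_le_iff_exists.1 (hx m₁ hm₁)
    have hli : LinearIndependent k ![(m * m ⊔ k ∙ (1 : A)).mkQ m₁, (m * m ⊔ k ∙ (1 : A)).mkQ m₂] := by
      rw [LinearIndependent.pair_iff]
      intro s t hst
      rw [← map_smul, ← map_smul, ← map_add, Submodule.mkQ_apply, Submodule.Quotient.mk_eq_zero,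
        Submodule.mem_sup] at hst
      obtain ⟨w, hw, o, ho, he⟩ := hst
      obtain ⟨c, rfl⟩ := Submodule.mem_span_singleton.1 ho
      have hc : c = 0 := by
        have := congrArg ε he
        simpa [(hker _).1 (hsq hw), (hker _).1 hm₁, (hker _).1 hm₂] using this
      subst hc
      rw [zero_smul, add_zero] at he
      have ht : t = 0 := by
        by_contra ht
        refine hm₂' ?_
        rw [Submodule.mem_sup]
        refine ⟨(-(t⁻¹ * s)) • m₁, Submodule.smul_mem _ _ (Submodule.mem_span_singleton_self _),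
          t⁻¹ • w, Submodule.smul_mem _ _ hw, ?_⟩
        rw [he, smul_add, smul_smul, smul_smul, inv_mul_cancel₀ ht, one_smul, neg_smul]
        abel
      subst ht
      rw [zero_smul, add_zero] at he
      refine ⟨?_, rfl⟩
      by_contra hs
      refine hm₁' ?_
      rw [show m₁ = s⁻¹ • w by rw [he, smul_smul, inv_mul_cancel₀ hs, one_smul]]
      exact Submodule.smul_mem _ _ hw
    obtain ⟨f, hf⟩ := LinearMap.exists_extend (p := Submodule.span k (Set.range _))
      ((Basis.span hli).equivFun.toLinearMap)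
    set g : A →ₗ[k] Fin 2 → k := f.comp (m * m ⊔ k ∙ (1 : A)).mkQ with hg
    have hg0 : ∀ w ∈ m * m ⊔ k ∙ (1 : A), g w = 0 := fun w hw => by
      simp [hg, (Submodule.Quotient.mk_eq_zero _).2 hw]
    have hder : ∀ i, IsDer ε ((LinearMap.proj i).comp g) := by
      intro i x y
      have h1 : x * y = (x - ε x • 1) * (y - ε y • 1) + ε x • (y - ε y • 1) +
          ε y • (x - ε x • 1) + (ε x * ε y) • 1 := by
        simp only [sub_mul, mul_sub, smul_mul_assoc, mul_smul_comm, one_mul, mul_one, smul_sub,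
          smul_smul]
        rw [mul_comm (ε y) (ε x)]
        abel
      have h2 : g ((x - ε x • 1) * (y - ε y • 1)) = 0 :=
        hg0 _ (Submodule.mem_sup_left (Submodule.mul_mem_mul (hmem x) (hmem y)))
      have h3 : g 1 = 0 := hg0 _ (Submodule.mem_sup_right (Submodule.mem_span_singleton_self _))
      simp only [LinearMap.comp_apply, LinearMap.proj_apply]
      rw [h1, map_add, map_add, map_add, h2, map_smul, map_smul, map_smul, map_sub, map_sub,
        map_smul, map_smul, h3]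
      simp [mul_comm]
    have hval : ∀ j : Fin 2, g (![m₁, m₂] j) = Pi.single j 1 := by
      intro j
      have h1 : (m * m ⊔ k ∙ (1 : A)).mkQ (![m₁, m₂] j) = ((Basis.span hli) j : _) := by
        rw [Basis.span_apply]
        fin_cases j <;> rfl
      show f _ = _
      rw [h1]
      have h2 := LinearMap.congr_fun hf ((Basis.span hli) j)
      refine Eq.trans h2 ?_
      funext i
      show (Basis.span hli).equivFun ((Basis.span hli) j) i = (Pi.single j 1 : Fin 2 → k) i
      rw [Basis.equivFun_apply, Basis.repr_self, Finsupp.single_eq_pi_single]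
    refine ⟨(LinearMap.proj 0).comp g, (LinearMap.proj 1).comp g, m₁, m₂, hder 0, hder 1,
      (hker _).1 hm₁, (hker _).1 hm₂, ?_, ?_, ?_, ?_⟩
    all_goals
      simp only [LinearMap.comp_apply, LinearMap.proj_apply]
      first
        | simpa using congrFun (hval 0) 0
        | simpa using congrFun (hval 1) 0
        | simpa using congrFun (hval 0) 1
        | simpa using congrFun (hval 1) 1

end Cfsg.Agent.Blocks.RepType
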