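import Mathlib

/-!
Squared absolute values of integer combinations of roots of unity, averaged over the
primitive exponents.
-/

set_option autoImplicit false

namespace Cfsg.Agent.Blocks.RootAvg

open scoped ComplexConjugate
open Finset

variable {ι : Type*} [Fintype ι] (e : ι → ℕ) (p P : ℕ)

/-- The sum of the weights with exponent `r + P t`. -/
def cls (w : ι → ℤ) (r t : ℕ) : ℤ := ∑ φ, if e φ = r + P * t then w φ else 0

/-- The squared differences inside the classes modulo `P`. -/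
def pairSum (w : ι → ℤ) : ℤ :=
  ∑ r ∈ range P, ∑ t ∈ range p, ∑ t' ∈ range p, (cls e P w r t - cls e P w r t') ^ 2

theorem pairSum_nonneg (w : ι → ℤ) : 0 ≤ pairSum e p P w :=
  sum_nonneg fun _ _ => sum_nonneg fun _ _ => sum_nonneg fun _ _ => sq_nonneg _

theorem cls_diff (n c : ι → ℤ) (r t t' : ℕ) :
    cls e P (fun φ => n φ * c φ) r t - cls e P (fun φ => n φ * c φ) r t' =
      ∑ φ, c φ * (((if e φ = r + P * t then 1 else 0) - (if e φ = r + P * t' then 1 else 0)) *
        n φ) := by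
  rw [cls, cls, ← sum_sub_distrib]
  refine sum_congr rfl fun φ _ => ?_
  split_ifs <;> ring

variable {e p P}

theorem pair_identity (f : ℕ → ℤ) :
    ∑ t ∈ range p, ∑ t' ∈ range p, (f t - f t') ^ 2 =
      2 * ((p : ℤ) * ∑ t ∈ range p, f t ^ 2 - (∑ t ∈ range p, f t) ^ 2) := by
  simp only [sub_sq, sum_add_distrib, sum_sub_distrib, sum_const, card_range, nsmul_eq_mul,
    ← mul_sum, ← sum_mul]
  ring

theorem sum_cls_eq (he : ∀ φ, e φ < p * P) {r : ℕ} (hr : r < P) (w : ι → ℤ) :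
    ∑ t ∈ range p, cls e P w r t = ∑ φ, if e φ % P = r then w φ else 0 := by
  simp only [cls]
  rw [sum_comm]
  refine sum_congr rfl fun φ _ => ?_
  split_ifs with h
  · rw [sum_eq_single (e φ / P)]
    · rw [if_pos]
      rw [← h]; exact (Nat.mod_add_div _ _).symm
    · intro t _ ht
      refine if_neg fun h' => ht ?_
      rw [h', Nat.add_mul_div_left _ _ (by omega), Nat.div_eq_of_lt hr, zero_add]
    · intro hh
      refine absurd (mem_range.2 ?_) hh
      exact Nat.div_lt_of_lt_mul (by rw [mul_comm]; exact he φ)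
  · refine sum_eq_zero fun t _ => if_neg fun h' => h ?_
    rw [h', Nat.add_mul_mod_self_left, Nat.mod_eq_of_lt hr]

theorem sum_sum_cls (he : ∀ φ, e φ < p * P) (w : ι → ℤ) :
    ∑ r ∈ range P, ∑ t ∈ range p, cls e P w r t = ∑ φ, w φ := by
  rw [sum_congr rfl fun r hr => sum_cls_eq he (mem_range.1 hr) w, sum_comm]
  refine sum_congr rfl fun φ _ => ?_
  rw [sum_ite_eq, if_pos]
  refine mem_range.2 (Nat.mod_lt _ ?_)
  by_contra h
  have := he φ
  simp [Nat.le_zero.1 (not_lt.1 h)] at this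

theorem pairSum_eq (he : ∀ φ, e φ < p * P) (w : ι → ℤ) :
    pairSum e p P w = 2 * ((p : ℤ) * ∑ φ, ∑ φ', (if e φ = e φ' then w φ * w φ' else 0) -
      ∑ φ, ∑ φ', if e φ % P = e φ' % P then w φ * w φ' else 0) := by
  simp only [pairSum, pair_identity, mul_sub, sum_sub_distrib, ← mul_sum]
  have hP : ∀ φ, e φ % P < P := fun φ => Nat.mod_lt _ (by
    by_contra h
    have := he φ
    simp [Nat.le_zero.1 (not_lt.1 h)] at this)
  congr 3
  · -- the squares
    calc ∑ r ∈ range P, ∑ t ∈ range p, cls e P w r t ^ 2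
        = ∑ φ, ∑ r ∈ range P, ∑ t ∈ range p,
            (if e φ = r + P * t then w φ else 0) * cls e P w r t := by
          rw [sum_comm (s := (univ : Finset ι))]
          refine sum_congr rfl fun r _ => ?_
          rw [sum_comm (s := (univ : Finset ι))]
          refine sum_congr rfl fun t _ => ?_
          rw [sq, cls, sum_mul]
      _ = _ := by
          refine sum_congr rfl fun φ _ => ?_
          rw [sum_eq_single (e φ % P), sum_eq_single (e φ / P)]
          · rw [if_pos (Nat.mod_add_div _ _).symm, cls, mul_sum]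
            refine sum_congr rfl fun φ' _ => ?_
            rw [Nat.mod_add_div]
            by_cases hh : e φ = e φ'
            · rw [if_pos hh.symm, if_pos hh]
            · rw [if_neg (Ne.symm hh), if_neg hh, mul_zero]
          · intro t _ ht
            rw [if_neg, zero_mul]
            intro h'
            refine ht (Nat.eq_of_mul_eq_mul_left ((Nat.zero_le _).trans_lt (hP φ)) ?_)
            have := Nat.mod_add_div (e φ) P
            omega
          · intro hh
            refine absurd (mem_range.2 ?_) hh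
            exact Nat.div_lt_of_lt_mul (by rw [mul_comm]; exact he φ)
          · intro r hr hne
            refine sum_eq_zero fun t _ => ?_
            rw [if_neg, zero_mul]
            intro h'
            exact hne (by rw [h', Nat.add_mul_mod_self_left, Nat.mod_eq_of_lt (mem_range.1 hr)])
          · exact fun hh => absurd (mem_range.2 (hP φ)) hh
  · rw [sum_congr rfl fun r hr => by rw [sum_cls_eq he (mem_range.1 hr) w, sq, sum_mul_sum],
      sum_comm]
    refine sum_congr rfl fun φ _ => ?_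
    rw [sum_comm]
    refine sum_congr rfl fun φ' _ => ?_
    simp only [ite_mul, zero_mul, mul_ite, mul_zero]
    rw [sum_ite_eq, if_pos (mem_range.2 (hP φ'))]

/-- Orthogonality of the powers of a primitive root. -/
theorem sum_norm_pow {N : ℕ} {ω : ℂ} (hω : IsPrimitiveRoot ω N) (hN : N ≠ 0) (w : ι → ℤ) :
    ∑ j ∈ range N, (∑ φ, (w φ : ℂ) * (ω ^ j) ^ e φ) * conj (∑ φ, (w φ : ℂ) * (ω ^ j) ^ e φ) =
      (N : ℂ) * ((∑ φ, ∑ φ', if e φ % N = e φ' % N then w φ * w φ' else 0 : ℤ) : ℂ) := by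
  have hω0 : ω ≠ 0 := hω.ne_zero hN
  have hconj : conj ω = ω⁻¹ :=
    (Complex.inv_eq_conj (Complex.norm_eq_one_of_pow_eq_one hω.pow_eq_one hN)).symm
  have hper : ∀ a, ω ^ a = ω ^ (a % N) := fun a => by
    conv_lhs => rw [← Nat.mod_add_div a N]
    rw [pow_add, pow_mul, hω.pow_eq_one, one_pow, mul_one]
  simp only [map_sum, map_mul, map_pow, map_intCast, hconj, sum_mul_sum]
  push_cast
  rw [sum_comm, mul_sum]
  refine sum_congr rfl fun φ _ => ?_
  rw [sum_comm, mul_sum]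
  refine sum_congr rfl fun φ' _ => ?_
  have hterm : ∀ j : ℕ, (w φ : ℂ) * (ω ^ j) ^ e φ * ((w φ' : ℂ) * (ω⁻¹ ^ j) ^ e φ') =
      ((w φ : ℂ) * w φ') * (ω ^ e φ * (ω ^ e φ')⁻¹) ^ j := fun j => by
    rw [mul_pow, inv_pow, inv_pow, inv_pow, ← pow_mul, ← pow_mul, ← pow_mul, ← pow_mul,
      mul_comm j, mul_comm j]
    ring
  rw [sum_congr rfl fun j _ => hterm j, ← mul_sum]
  split_ifs with h
  · have h1 : ω ^ e φ * (ω ^ e φ')⁻¹ = 1 := by
      rw [hper (e φ), hper (e φ'), h, mul_inv_cancel₀ (pow_ne_zero _ hω0)]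
    simp [h1, mul_comm]
  · have hne : ω ^ e φ * (ω ^ e φ')⁻¹ ≠ 1 := fun h1 => h
      (hω.pow_inj (Nat.mod_lt _ (Nat.pos_of_ne_zero hN)) (Nat.mod_lt _ (Nat.pos_of_ne_zero hN))
        (by rw [← hper, ← hper]; exact mul_inv_eq_one₀ (pow_ne_zero _ hω0) |>.1 h1))
    rw [geom_sum_eq hne, mul_pow, inv_pow, ← pow_mul, ← pow_mul, mul_comm (e φ), mul_comm (e φ'),
      pow_mul, pow_mul, hω.pow_eq_one, one_pow, one_pow, inv_one, one_mul, sub_self, zero_div,
      mul_zero, mul_zero]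

/-- The sum over the exponents prime to `p`. -/
theorem galois_sum (hp : 0 < p) (hP : 0 < P) (he : ∀ φ, e φ < p * P) {ω : ℂ}
    (hω : IsPrimitiveRoot ω (p * P)) (w : ι → ℤ) :
    2 * ∑ j ∈ (range (p * P)).filter (fun j => ¬ p ∣ j),
        (∑ φ, (w φ : ℂ) * (ω ^ j) ^ e φ) * conj (∑ φ, (w φ : ℂ) * (ω ^ j) ^ e φ) =
      (P : ℂ) * (pairSum e p P w : ℤ) := by
  set f : ℕ → ℂ := fun j =>
    (∑ φ, (w φ : ℂ) * (ω ^ j) ^ e φ) * conj (∑ φ, (w φ : ℂ) * (ω ^ j) ^ e φ) with hf
  have h1 := sum_filter_add_sum_filter_not (range (p * P)) (fun j => ¬ p ∣ j) f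
  have h2 : ∑ j ∈ (range (p * P)).filter (fun j => ¬¬ p ∣ j), f j = ∑ i ∈ range P, f (p * i) := by
    symm
    refine sum_nbij (fun i => p * i) (fun i hi => ?_) (fun i _ i' _ h => ?_) (fun j hj => ?_)
      (fun i _ => rfl)
    · simp only [coe_filter, coe_range, Set.mem_Iio, mem_filter, mem_range, Set.mem_setOf_eq,
        not_not] at hi ⊢
      exact ⟨Nat.mul_lt_mul_of_pos_left hi hp, dvd_mul_right p i⟩
    · exact Nat.eq_of_mul_eq_mul_left hp h
    · simp only [coe_filter, mem_range, Set.mem_setOf_eq, not_not] at hj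
      obtain ⟨i, rfl⟩ := hj.2
      exact ⟨i, mem_coe.2 (mem_range.2 (Nat.lt_of_mul_lt_mul_left hj.1)), rfl⟩
  have hωp : IsPrimitiveRoot (ω ^ p) P := hω.pow (Nat.mul_pos hp hP) rfl
  have hA := sum_norm_pow (e := e) hω (Nat.mul_pos hp hP).ne' w
  have hB := sum_norm_pow (e := e) hωp hP.ne' w
  simp only [← pow_mul] at hA hB
  have hB' : ∑ i ∈ range P, f (p * i) =
      (P : ℂ) * ((∑ φ, ∑ φ', if e φ % P = e φ' % P then w φ * w φ' else 0 : ℤ) : ℂ) := by
    rw [← hB]
    exact sum_congr rfl fun i _ => by simp only [hf, ← pow_mul, mul_assoc]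
  have hA' : ∑ j ∈ range (p * P), f j =
      ((p * P : ℕ) : ℂ) * ((∑ φ, ∑ φ', if e φ = e φ' then w φ * w φ' else 0 : ℤ) : ℂ) := by
    simp only [fun φ => Nat.mod_eq_of_lt (he φ)] at hA
    rw [← hA]
    exact sum_congr rfl fun i _ => by simp only [hf, ← pow_mul]
  rw [h2, hB', hA'] at h1
  show 2 * ∑ j ∈ (range (p * P)).filter (fun j => ¬ p ∣ j), f j = _
  rw [pairSum_eq he]
  push_cast at h1 ⊢
  linear_combination 2 * h1

/-- A non-zero value forces two different class sums. -/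
theorem exists_cls_ne (hp : 1 < p) (hP : 0 < P) (he : ∀ φ, e φ < p * P) {ω : ℂ}
    (hω : IsPrimitiveRoot ω (p * P)) {w : ι → ℤ} (hne : ∑ φ, (w φ : ℂ) * ω ^ e φ ≠ 0) :
    ∃ r ∈ range P, ∃ t ∈ range p, ∃ t' ∈ range p, cls e P w r t ≠ cls e P w r t' := by
  by_contra hcon
  push Not at hcon
  have h0 : pairSum e p P w = 0 := sum_eq_zero fun r hr => sum_eq_zero fun t ht =>
    sum_eq_zero fun t' ht' => by rw [hcon r hr t ht t' ht', sub_self, zero_pow two_ne_zero]
  have h := galois_sum (Nat.zero_lt_of_lt hp) hP he hω w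
  rw [h0, Int.cast_zero, mul_zero, mul_eq_zero] at h
  have h' := h.resolve_left two_ne_zero
  have hre := congrArg Complex.re h'
  rw [Complex.re_sum] at hre
  simp only [Complex.mul_conj, Complex.ofReal_re, Complex.zero_re] at hre
  have h1 := (sum_eq_zero_iff_of_nonneg fun j _ => Complex.normSq_nonneg _).1 hre 1
    (mem_filter.2 ⟨mem_range.2 (lt_of_lt_of_le hp (Nat.le_mul_of_pos_right p hP)),
      fun hd => hp.ne' (Nat.dvd_one.1 hd)⟩)
  rw [pow_one] at h1
  exact hne (Complex.normSq_eq_zero.1 h1)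

/-- Many unequal pairs once two values differ. -/
theorem le_sum_pairs {α : Type*} (f : ℕ → α) (g : ℕ → ℕ → ℤ) (m : ℤ) (hm : 0 ≤ m)
    (hg : ∀ t ∈ range p, ∀ t' ∈ range p, 0 ≤ g t t')
    (hgm : ∀ t ∈ range p, ∀ t' ∈ range p, f t ≠ f t' → m ≤ g t t')
    {t₀ t₁ : ℕ} (h₀ : t₀ ∈ range p) (h₁ : t₁ ∈ range p) (hne : f t₀ ≠ f t₁) :
    2 * ((p : ℤ) - 1) * m ≤ ∑ t ∈ range p, ∑ t' ∈ range p, g t t' := by
  classical
  set S := (range p).filter fun t => f t = f t₀ with hS
  set T := (range p).filter fun t => ¬ f t = f t₀ with hT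
  have hsplit := fun F : ℕ → ℤ => sum_filter_add_sum_filter_not (range p) (fun t => f t = f t₀) F
  have hST : ∀ t ∈ S, ∀ t' ∈ T, m ≤ g t t' ∧ m ≤ g t' t := by
    intro t ht t' ht'
    rw [hS, mem_filter] at ht
    rw [hT, mem_filter] at ht'
    exact ⟨hgm t ht.1 t' ht'.1 fun h => ht'.2 (h ▸ ht.2),
      hgm t' ht'.1 t ht.1 fun h => ht'.2 (h.trans ht.2)⟩
  have hcard : (S.card : ℤ) + T.card = p := by
    have := card_filter_add_card_filter_not (s := range p) fun t => f t = f t₀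
    rw [card_range] at this
    exact_mod_cast this
  have hS1 : (1 : ℤ) ≤ S.card := by
    exact_mod_cast (card_pos (s := S)).2 ⟨t₀, mem_filter.2 ⟨h₀, rfl⟩⟩
  have hT1 : (1 : ℤ) ≤ T.card := by
    exact_mod_cast (card_pos (s := T)).2 ⟨t₁, mem_filter.2 ⟨h₁, fun h => hne h.symm⟩⟩
  rw [← hsplit, ← hS, ← hT]
  have hmS : ∀ t ∈ S, (T.card : ℤ) * m ≤ ∑ t' ∈ range p, g t t' := fun t ht => by
    refine le_trans ?_ (sum_le_sum_of_subset_of_nonneg (s := T) (filter_subset _ _) fun t' ht' _ =>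
      hg t (mem_filter.1 ht).1 t' ht')
    rw [← nsmul_eq_mul]
    exact card_nsmul_le_sum T _ m fun t' ht' => (hST t ht t' ht').1
  have hmT : ∀ t ∈ T, (S.card : ℤ) * m ≤ ∑ t' ∈ range p, g t t' := fun t ht => by
    refine le_trans ?_ (sum_le_sum_of_subset_of_nonneg (s := S) (filter_subset _ _) fun t' ht' _ =>
      hg t (mem_filter.1 ht).1 t' ht')
    rw [← nsmul_eq_mul]
    exact card_nsmul_le_sum S _ m fun t' ht' => (hST t' ht' t ht).2
  have e1 := card_nsmul_le_sum S _ _ hmS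
  have e2 := card_nsmul_le_sum T _ _ hmT
  rw [nsmul_eq_mul] at e1 e2
  nlinarith [mul_nonneg (mul_nonneg (sub_nonneg.2 hS1) (sub_nonneg.2 hT1)) hm]

/-- A weight of total divisible by `p` with two different class sums is large. -/
theorem four_le_pairSum (he : ∀ φ, e φ < p * P) {w : ι → ℤ} (hdvd : (p : ℤ) ∣ ∑ φ, w φ)
    {r₀ t₀ t₁ : ℕ} (hr₀ : r₀ ∈ range P) (h₀ : t₀ ∈ range p) (h₁ : t₁ ∈ range p)
    (hne : cls e P w r₀ t₀ ≠ cls e P w r₀ t₁) :
    4 * ((p : ℤ) - 1) ≤ pairSum e p P w := by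
  classical
  set F : ℕ → ℤ := fun r => ∑ t ∈ range p, ∑ t' ∈ range p, (cls e P w r t - cls e P w r t') ^ 2
  have hFnn : ∀ r, 0 ≤ F r := fun r => sum_nonneg fun _ _ => sum_nonneg fun _ _ => sq_nonneg _
  have hFlow : ∀ r, ∀ t ∈ range p, ∀ t' ∈ range p, cls e P w r t ≠ cls e P w r t' →
      2 * ((p : ℤ) - 1) ≤ F r := fun r t ht t' ht' h => by
    have := le_sum_pairs (cls e P w r) (fun t t' => (cls e P w r t - cls e P w r t') ^ 2) 1
      zero_le_one (fun _ _ _ _ => sq_nonneg _) (fun a _ b _ hab => ?_) ht ht' h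
    · simpa using this
    · have := sub_ne_zero.2 hab
      have : 0 < (cls e P w r a - cls e P w r b) ^ 2 := by positivity
      omega
  show 4 * ((p : ℤ) - 1) ≤ ∑ r ∈ range P, F r
  rw [← add_sum_erase _ _ hr₀]
  by_cases hother : ∃ r ∈ (range P).erase r₀, ∃ t ∈ range p, ∃ t' ∈ range p,
      cls e P w r t ≠ cls e P w r t'
  · obtain ⟨r, hr, t, ht, t', ht', h⟩ := hother
    have := single_le_sum (fun r _ => hFnn r) hr
    have := hFlow r t ht t' ht' h
    have := hFlow r₀ t₀ h₀ t₁ h₁ hne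
    linarith
  push Not at hother
  have hd0 : (p : ℤ) ∣ ∑ t ∈ range p, cls e P w r₀ t := by
    rw [← sum_sum_cls he w, ← add_sum_erase _ _ hr₀] at hdvd
    refine (dvd_add_left (dvd_sum fun r hr => ?_)).1 hdvd
    rw [sum_congr rfl fun t ht => hother r hr t ht t₀ h₀, sum_const, card_range, nsmul_eq_mul]
    exact dvd_mul_right _ _
  obtain ⟨c, hc⟩ := hd0
  set g : ℕ → ℤ := fun t => cls e P w r₀ t - c with hg
  have hg0 : ∑ t ∈ range p, g t = 0 := by
    simp only [hg, sum_sub_distrib, sum_const, card_range, nsmul_eq_mul, hc, sub_self]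
  have hF0 : F r₀ = 2 * (p : ℤ) * ∑ t ∈ range p, g t ^ 2 := by
    have h := pair_identity (p := p) g
    rw [hg0] at h
    simp only [hg, sub_sub_sub_cancel_right] at h
    simp only [F, h]
    ring
  have hex : ∃ a ∈ range p, g a ≠ 0 := by
    by_contra hcon
    push Not at hcon
    refine hne ?_
    have e0 := hcon t₀ h₀
    have e1 := hcon t₁ h₁
    simp only [hg] at e0 e1
    omega
  obtain ⟨a, ha, hga⟩ := hex
  have hb : ∃ b ∈ range p, b ≠ a ∧ g b ≠ 0 := by
    by_contra hcon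
    push Not at hcon
    refine hga ?_
    rwa [sum_eq_single a (fun b hb hba => hcon b hb hba) (fun h => absurd ha h)] at hg0
  obtain ⟨b, hb, hba, hgb⟩ := hb
  have h2 : (2 : ℤ) ≤ ∑ t ∈ range p, g t ^ 2 := by
    calc (2 : ℤ) ≤ g a ^ 2 + g b ^ 2 := by
          have : 0 < g a ^ 2 := by positivity
          have : 0 < g b ^ 2 := by positivity
          omega
      _ = ∑ t ∈ ({a, b} : Finset ℕ), g t ^ 2 := by rw [sum_pair (Ne.symm hba)]
      _ ≤ _ := sum_le_sum_of_subset_of_nonneg (by simp [insert_subset_iff, ha, hb])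
          fun _ _ _ => sq_nonneg _
  have hrest : (0 : ℤ) ≤ ∑ r ∈ (range P).erase r₀, F r := sum_nonneg fun r _ => hFnn r
  nlinarith [mul_le_mul_of_nonneg_left h2 (Int.natCast_nonneg p)]

end Cfsg.Agent.Blocks.RootAvg
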