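import Cfsg.Agent.Blocks.StableTr

/-!
Uniserial modules over a block of a group with a normal subgroup of invertible index, the block
of the subgroup being a matrix algebra over a truncated polynomial ring.
-/

namespace Cfsg.Agent.Blocks.SemiUniserial

open scoped MonoidAlgebra
open StableTr Module

set_option autoImplicit false
set_option linter.unusedSectionVars false
set_option linter.style.haveILetI false

variable {k : Type*} [Field k] {G : Type*} [Group G] [Fintype G]

/-- The data of the block. -/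
structure SData (N : Subgroup G) (n q e : ℕ) [NeZero n] where
  β : k[G]
  x : k[G]
  τ : k[G]
  E : Fin n → Fin n → k[G]
  α : k
  E_mul : ∀ i j a b, E i j * E a b = if j = a then E i b else 0
  E_sum : ∑ i, E i i = β
  x_β : x * β = x
  x_E : ∀ i j, x * E i j = E i j * x
  x_pow : x ^ q = 0
  x_ne : x ^ (q - 1) * E 0 0 ≠ 0
  two_le : 2 ≤ q
  τ_β : τ * β = τ
  τ_E : ∀ i j, τ * E i j = E i j * τ
  τ_x : τ * x = α • (x * τ)
  α_ne : α ≠ 0
  τ_pow : τ ^ e = β
  e_pos : 0 < e
  e_ne : (e : k) ≠ 0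
  idx_ne : (N.index : k) ≠ 0
  x_supp : ∀ g, x.coeff g ≠ 0 → g ∈ N
  E_supp : ∀ i j g, (E i j).coeff g ≠ 0 → g ∈ N
  span_N : ∀ g ∈ N, MonoidAlgebra.single g 1 * β ∈
    Submodule.span k (Set.range fun w : ℕ × Fin n × Fin n => x ^ w.1 * E w.2.1 w.2.2)
  span_G : ∀ g, MonoidAlgebra.single g 1 * β ∈ Submodule.span k
    (Set.range fun w : ℕ × Fin n × Fin n × ℕ => x ^ w.1 * E w.2.1 w.2.2.1 * τ ^ w.2.2.2)

variable {N : Subgroup G} {n q e : ℕ} [NeZero n] (S : SData (k := k) N n q e)

variable {V W : Type*} [AddCommGroup V] [Module k V] [AddCommGroup W] [Module k W]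
variable {ρ : Representation k G V} {σ : Representation k G W}

/-- Belonging to the block. -/
def SData.InBlock (ρ : Representation k G V) : Prop := ∀ v, ρ.asAlgebraHom S.β v = v

theorem SData.E_β_left (i j : Fin n) : S.β * S.E i j = S.E i j := by
  rw [← S.E_sum, Finset.sum_mul, Finset.sum_eq_single i (fun a _ h => by simp [S.E_mul, h])
    (fun h => absurd (Finset.mem_univ _) h), S.E_mul, if_pos rfl]

theorem SData.E_β_right (i j : Fin n) : S.E i j * S.β = S.E i j := by
  rw [← S.E_sum, Finset.mul_sum, Finset.sum_eq_single j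
    (fun a _ h => by simp [S.E_mul, Ne.symm h])
    (fun h => absurd (Finset.mem_univ _) h), S.E_mul, if_pos rfl]

theorem SData.xpow_E (l : ℕ) (i j : Fin n) : S.x ^ l * S.E i j = S.E i j * S.x ^ l :=
  (Commute.pow_left (S.x_E i j) l).eq

theorem SData.τ_xpow (l : ℕ) : S.τ * S.x ^ l = S.α ^ l • (S.x ^ l * S.τ) := by
  induction l with
  | zero => simp
  | succ l ih =>
    rw [pow_succ, ← mul_assoc, ih, smul_mul_assoc, mul_assoc, S.τ_x, mul_smul_comm, smul_smul,
      mul_assoc, pow_succ]

theorem SData.xpow_eq_zero {l : ℕ} (h : q ≤ l) : S.x ^ l = 0 := by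
  rw [← Nat.sub_add_cancel h, pow_add, S.x_pow, mul_zero]

/-- A map commuting with the generators is equivariant. -/
theorem SData.eqv_of (hρ : S.InBlock ρ) (hσ : S.InBlock σ) {f : V →ₗ[k] W}
    (hx : ∀ v, σ.asAlgebraHom S.x (f v) = f (ρ.asAlgebraHom S.x v))
    (hE : ∀ i j v, σ.asAlgebraHom (S.E i j) (f v) = f (ρ.asAlgebraHom (S.E i j) v))
    (hτ : ∀ v, σ.asAlgebraHom S.τ (f v) = f (ρ.asAlgebraHom S.τ v)) : Eqv ρ σ f := by
  intro g v
  have hp : ∀ (y : k[G]), (∀ v, σ.asAlgebraHom y (f v) = f (ρ.asAlgebraHom y v)) →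
      ∀ (l : ℕ) (v : V), σ.asAlgebraHom (y ^ l) (f v) = f (ρ.asAlgebraHom (y ^ l) v) := by
    intro y hy l
    induction l with
    | zero => simp
    | succ l ih =>
      intro v
      rw [pow_succ, map_mul, map_mul, Module.End.mul_apply, hy, ih, Module.End.mul_apply]
  have h : ∀ z ∈ Submodule.span k
      (Set.range fun w : ℕ × Fin n × Fin n × ℕ => S.x ^ w.1 * S.E w.2.1 w.2.2.1 * S.τ ^ w.2.2.2),
      ∀ v, σ.asAlgebraHom z (f v) = f (ρ.asAlgebraHom z v) := by
    intro z hz
    induction hz using Submodule.span_induction with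
    | mem y hy =>
      obtain ⟨w, rfl⟩ := hy
      intro v
      simp only [map_mul, Module.End.mul_apply]
      rw [hp _ hτ, hE, hp _ hx]
    | zero => intro v; simp
    | add a b _ _ ha hb => intro v; simp [ha v, hb v]
    | smul c a _ ha => intro v; simp [ha v]
  have := h _ (S.span_G g) v
  rwa [map_mul, map_mul, Module.End.mul_apply, Module.End.mul_apply, hσ, hρ,
    Representation.asAlgebraHom_single_one, Representation.asAlgebraHom_single_one] at this

/-- The same for the normal subgroup. -/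
theorem SData.eqv_N_of (hρ : S.InBlock ρ) (hσ : S.InBlock σ) {f : V →ₗ[k] W}
    (hx : ∀ v, σ.asAlgebraHom S.x (f v) = f (ρ.asAlgebraHom S.x v))
    (hE : ∀ i j v, σ.asAlgebraHom (S.E i j) (f v) = f (ρ.asAlgebraHom (S.E i j) v)) :
    Eqv (ρ.comp N.subtype) (σ.comp N.subtype) f := by
  intro g v
  have hp : ∀ (l : ℕ) (v : V),
      σ.asAlgebraHom (S.x ^ l) (f v) = f (ρ.asAlgebraHom (S.x ^ l) v) := by
    intro l
    induction l with
    | zero => simp
    | succ l ih =>
      intro v
      rw [pow_succ, map_mul, map_mul, Module.End.mul_apply, hx, ih, Module.End.mul_apply]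
  have h : ∀ z ∈ Submodule.span k
      (Set.range fun w : ℕ × Fin n × Fin n => S.x ^ w.1 * S.E w.2.1 w.2.2),
      ∀ v, σ.asAlgebraHom z (f v) = f (ρ.asAlgebraHom z v) := by
    intro z hz
    induction hz using Submodule.span_induction with
    | mem y hy =>
      obtain ⟨w, rfl⟩ := hy
      intro v
      simp only [map_mul, Module.End.mul_apply]
      rw [hE, hp]
    | zero => intro v; simp
    | add a b _ _ ha hb => intro v; simp [ha v, hb v]
    | smul c a _ ha => intro v; simp [ha v]
  have := h _ (S.span_N g g.2) v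
  rwa [map_mul, map_mul, Module.End.mul_apply, Module.End.mul_apply, hσ, hρ,
    Representation.asAlgebraHom_single_one, Representation.asAlgebraHom_single_one] at this

/-- A generator of a uniserial module. -/
structure SData.Gen (ρ : Representation k G V) (j : ℕ) (ζ : k) (v : V) : Prop where
  pos : 1 ≤ j
  le : j ≤ q
  E_v : ρ.asAlgebraHom (S.E 0 0) v = v
  τ_v : ρ.asAlgebraHom S.τ v = ζ • v
  ne : ρ.asAlgebraHom (S.x ^ (j - 1)) v ≠ 0
  kill : ∀ w, ρ.asAlgebraHom (S.x ^ j) w = 0

/-- The element `φ` of a coordinate functional. -/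
noncomputable def SData.coord (ρ : Representation k G V) (j : ℕ) (lam : V →ₗ[k] k) :
    V →ₗ[k] k[G] :=
  ∑ i : Fin n, ∑ l ∈ Finset.range j,
    (lam.comp (ρ.asAlgebraHom (S.x ^ (j - 1 - l) * S.E 0 i))).smulRight (S.x ^ l * S.E i 0)

theorem SData.coord_apply (j : ℕ) (lam : V →ₗ[k] k) (m : V) :
    S.coord ρ j lam m = ∑ i : Fin n, ∑ l ∈ Finset.range j,
      lam (ρ.asAlgebraHom (S.x ^ (j - 1 - l) * S.E 0 i) m) • (S.x ^ l * S.E i 0) := by
  simp [SData.coord]

theorem SData.coord_E (j : ℕ) (lam : V →ₗ[k] k) (a b : Fin n) (m : V) :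
    S.coord ρ j lam (ρ.asAlgebraHom (S.E a b) m) = S.E a b * S.coord ρ j lam m := by
  rw [S.coord_apply, S.coord_apply, Finset.mul_sum, Finset.sum_eq_single a
    (fun i _ hi => Finset.sum_eq_zero fun l _ => by
      rw [← Module.End.mul_apply, ← map_mul, mul_assoc, S.E_mul, if_neg hi, mul_zero, map_zero,
        LinearMap.zero_apply, map_zero, zero_smul])
    (fun h => absurd (Finset.mem_univ _) h),
    Finset.sum_eq_single b (f := fun i => S.E a b * _) (fun i _ hi => by
      rw [Finset.mul_sum]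
      exact Finset.sum_eq_zero fun l _ => by
        rw [mul_smul_comm, ← mul_assoc, ← S.xpow_E, mul_assoc, S.E_mul, if_neg (Ne.symm hi),
          mul_zero, smul_zero])
    (fun h => absurd (Finset.mem_univ _) h), Finset.mul_sum]
  refine Finset.sum_congr rfl fun l _ => ?_
  rw [mul_smul_comm, ← mul_assoc, ← S.xpow_E, mul_assoc (S.x ^ l), S.E_mul, if_pos rfl,
    ← Module.End.mul_apply, ← map_mul, mul_assoc, S.E_mul, if_pos rfl]

theorem SData.coord_x {j : ℕ} (hj : 1 ≤ j) (lam : V →ₗ[k] k)
    (hk : ∀ w, ρ.asAlgebraHom (S.x ^ j) w = 0) (m : V) :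
    S.coord ρ j lam (ρ.asAlgebraHom S.x m) +
      (∑ i : Fin n, lam (ρ.asAlgebraHom (S.E 0 i) m) • (S.x ^ j * S.E i 0)) =
      S.x * S.coord ρ j lam m := by
  rw [S.coord_apply, S.coord_apply, Finset.mul_sum, ← Finset.sum_add_distrib]
  refine Finset.sum_congr rfl fun i _ => ?_
  obtain ⟨j, rfl⟩ : ∃ r, j = r + 1 := ⟨j - 1, by omega⟩
  rw [Finset.sum_range_succ', Finset.sum_range_succ, mul_add, Finset.mul_sum]
  have h0 : lam (ρ.asAlgebraHom (S.x ^ (j + 1 - 1 - 0) * S.E 0 i) (ρ.asAlgebraHom S.x m)) = 0 := by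
    rw [← Module.End.mul_apply, ← map_mul, mul_assoc, ← S.x_E, ← mul_assoc, ← pow_succ,
      Nat.add_sub_cancel, Nat.sub_zero, map_mul, Module.End.mul_apply, hk, map_zero]
  rw [h0, zero_smul, add_zero, mul_smul_comm, ← mul_assoc, ← pow_succ']
  congr 1
  · refine Finset.sum_congr rfl fun l hl => ?_
    rw [Finset.mem_range] at hl
    rw [← Module.End.mul_apply, ← map_mul, mul_assoc, ← S.x_E, ← mul_assoc, ← pow_succ,
      mul_smul_comm, ← mul_assoc, ← pow_succ']
    rw [show j + 1 - 1 - (l + 1) + 1 = j + 1 - 1 - l by omega]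
  · simp

/-- The multiples of a generator. -/
def SData.cyc (ρ : Representation k G V) (v : V) : Submodule k V :=
  Submodule.span k (Set.range fun w : ℕ × Fin n => ρ.asAlgebraHom (S.x ^ w.1 * S.E w.2 0) v)

theorem SData.cyc_mem (l : ℕ) (i : Fin n) (v : V) :
    ρ.asAlgebraHom (S.x ^ l * S.E i 0) v ∈ S.cyc ρ v :=
  Submodule.subset_span ⟨(l, i), rfl⟩

/-- A map out of the multiples, built from coordinates. -/
theorem SData.exists_coord (hρ : S.InBlock ρ) {j : ℕ} {ζ : k} {v : V}
    (hv : S.Gen ρ j ζ v) :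
    ∃ lam : V →ₗ[k] k, (∀ l, l < j → lam (ρ.asAlgebraHom (S.x ^ l) v) = if l = j - 1 then 1 else 0) ∧
      ∀ w, lam (ρ.asAlgebraHom S.τ w) = (S.α ^ (j - 1) * ζ) * lam w := by
  classical
  set X := ρ.asAlgebraHom S.x
  have hxl : ∀ l, ρ.asAlgebraHom (S.x ^ l) v = (X ^ l) v := fun l => by rw [map_pow]
  set y := ρ.asAlgebraHom (S.x ^ (j - 1)) v with hy
  set u : Fin (j - 1) → V := fun l => ρ.asAlgebraHom (S.x ^ (l : ℕ)) v
  have hnot : y ∉ Submodule.span k (Set.range u) := by
    intro h
    obtain ⟨c, hc⟩ := (Submodule.mem_span_range_iff_exists_fun k).1 h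
    -- a relation would kill the last power
    have key : ∀ r, r ≤ j - 1 → ∀ l : Fin (j - 1), (l : ℕ) < r → c l = 0 := by
      intro r
      induction r with
      | zero => intro _ l hl; omega
      | succ r ih =>
        intro hr l hl
        rcases Nat.lt_succ_iff_lt_or_eq.1 hl with hl | hl
        · exact ih (by omega) l hl
        have h1 := congrArg (ρ.asAlgebraHom (S.x ^ (j - 1 - r))) hc
        rw [map_sum, hy, ← Module.End.mul_apply, ← map_mul, ← pow_add,
          Finset.sum_eq_single l (fun b _ hb => ?_) (fun h => absurd (Finset.mem_univ _) h)] at h1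
        · rw [map_smul, ← Module.End.mul_apply, ← map_mul, ← pow_add,
            show j - 1 - r + (l : ℕ) = j - 1 by omega,
            show j - 1 - r + (j - 1) = j + (j - 2 - r) by omega, pow_add, map_mul,
            Module.End.mul_apply, hv.kill, smul_eq_zero] at h1
          exact h1.resolve_right hv.ne
        · rcases Nat.lt_or_ge (b : ℕ) r with hbr | hbr
          · rw [ih (by omega) b hbr, zero_smul, map_zero]
          · have : r < (b : ℕ) := lt_of_le_of_ne hbr fun hh => hb (Fin.ext (by omega))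
            rw [map_smul, ← Module.End.mul_apply, ← map_mul, ← pow_add,
              show j - 1 - r + (b : ℕ) = j + ((b : ℕ) - r - 1) by omega, pow_add, map_mul,
              Module.End.mul_apply, hv.kill, smul_zero]
    rw [Finset.sum_eq_zero fun l _ => by rw [key (j - 1) le_rfl l l.2, zero_smul]] at hc
    exact hv.ne hc.symm
  obtain ⟨f, hfy, hfu⟩ := Submodule.exists_dual_map_eq_bot_of_notMem hnot inferInstance
  set μ := S.α ^ (j - 1) * ζ with hμ
  set T := ρ.asAlgebraHom S.τ with hT
  have hTe : ∀ w, (T ^ e) w = w := fun w => by rw [hT, ← map_pow, S.τ_pow]; exact hρ w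
  have hTx : ∀ l, T (ρ.asAlgebraHom (S.x ^ l) v) = (S.α ^ l * ζ) • ρ.asAlgebraHom (S.x ^ l) v := by
    intro l
    rw [hT, ← Module.End.mul_apply, ← map_mul, S.τ_xpow, map_smul, LinearMap.smul_apply, map_mul,
      Module.End.mul_apply, hv.τ_v, map_smul, smul_smul]
  have hTp : ∀ (l m : ℕ), (T ^ m) (ρ.asAlgebraHom (S.x ^ l) v) =
      (S.α ^ l * ζ) ^ m • ρ.asAlgebraHom (S.x ^ l) v := by
    intro l m
    induction m with
    | zero => simp
    | succ m ih =>
      rw [pow_succ', Module.End.mul_apply, ih, map_smul, hTx, smul_smul, ← pow_succ]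
  have hμe : μ ^ e = 1 := by
    have h1 := hTe y
    rw [hy, hTp] at h1
    by_contra h2
    have h3 : (μ ^ e - 1) • y = 0 := by rw [sub_smul, one_smul, hμ, hy, h1, sub_self]
    exact (smul_ne_zero (sub_ne_zero.2 h2) hv.ne) h3
  have hμ0 : μ ≠ 0 := fun h => by rw [h, zero_pow (Nat.ne_of_gt S.e_pos)] at hμe; exact zero_ne_one hμe
  refine ⟨(f y)⁻¹ • (e : k)⁻¹ • ∑ m ∈ Finset.range e, (μ ^ m)⁻¹ • f.comp (T ^ m), fun l hl => ?_,
    fun w => ?_⟩
  · simp only [LinearMap.smul_apply, LinearMap.coe_sum, Finset.sum_apply, LinearMap.comp_apply,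
      hTp, map_smul, smul_eq_mul]
    by_cases hlj : l = j - 1
    · subst hlj
      rw [if_pos rfl]
      have h1 : ∑ m ∈ Finset.range e, (μ ^ m)⁻¹ * ((S.α ^ (j - 1) * ζ) ^ m *
          f (ρ.asAlgebraHom (S.x ^ (j - 1)) v)) = (e : k) * f y := by
        rw [Finset.sum_congr rfl fun m _ => by
          rw [← mul_assoc, ← hμ, inv_mul_cancel₀ (pow_ne_zero m hμ0), one_mul]]
        simp [hy]
      rw [h1, ← mul_assoc (e : k)⁻¹, inv_mul_cancel₀ S.e_ne, one_mul, inv_mul_cancel₀ hfy]
    · rw [if_neg hlj]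
      have h0 : f (ρ.asAlgebraHom (S.x ^ l) v) = 0 := by
        have h1 : ρ.asAlgebraHom (S.x ^ l) v ∈ Submodule.span k (Set.range u) :=
          Submodule.subset_span ⟨⟨l, by omega⟩, rfl⟩
        have h2 := Submodule.mem_map_of_mem (f := f) h1
        rw [hfu] at h2
        exact (Submodule.mem_bot k).1 h2
      rw [Finset.sum_eq_zero fun m _ => by rw [h0, mul_zero, mul_zero], mul_zero, mul_zero]
  · simp only [LinearMap.smul_apply, LinearMap.coe_sum, Finset.sum_apply, LinearMap.comp_apply,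
      smul_eq_mul, ← Module.End.mul_apply, ← pow_succ]
    set F : ℕ → k := fun m => (μ ^ m)⁻¹ * f ((T ^ m) w) with hF
    have h1 : ∀ m, (μ ^ m)⁻¹ * f ((T ^ (m + 1)) w) = μ * F (m + 1) := fun m => by
      simp only [hF]
      rw [pow_succ μ]
      field_simp
    rw [Finset.sum_congr rfl fun m _ => h1 m, ← Finset.mul_sum]
    have h2 : ∑ m ∈ Finset.range e, F (m + 1) = ∑ m ∈ Finset.range e, F m := by
      have ha := Finset.sum_range_succ F e
      have hb := Finset.sum_range_succ' F e
      have hFe : F e = F 0 := by simp [hF, hTe, hμe]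
      rw [hFe, hb] at ha
      exact add_right_cancel ha
    rw [h2]
    ring

/-- The retraction onto the multiples of a generator. -/
theorem SData.exists_retraction (hρ : S.InBlock ρ) {j : ℕ} {ζ : k} {v : V} (hv : S.Gen ρ j ζ v) :
    ∃ lam : V →ₗ[k] k, ∃ π : V →ₗ[k] V,
      (∀ m, π m = ρ.asAlgebraHom (S.coord ρ j lam m) v) ∧ Eqv ρ ρ π ∧
      (∀ m, π m ∈ S.cyc ρ v) ∧ ∀ w ∈ S.cyc ρ v, π w = w := by
  classical
  obtain ⟨lam, hlam, hlτ⟩ := S.exists_coord hρ hv
  set π : V →ₗ[k] V :=
    (LinearMap.applyₗ v).comp (ρ.asAlgebraHom.toLinearMap.comp (S.coord ρ j lam)) with hπ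
  have hπa : ∀ m, π m = ρ.asAlgebraHom (S.coord ρ j lam m) v := fun m => rfl
  have hx : ∀ m, ρ.asAlgebraHom S.x (π m) = π (ρ.asAlgebraHom S.x m) := by
    intro m
    rw [hπa, hπa, ← Module.End.mul_apply, ← map_mul, ← S.coord_x hv.pos lam hv.kill, map_add,
      LinearMap.add_apply]
    simp only [map_sum, map_smul, LinearMap.coe_sum, Finset.sum_apply, LinearMap.smul_apply]
    rw [add_eq_left]
    exact Finset.sum_eq_zero fun i _ => by rw [map_mul, Module.End.mul_apply, hv.kill, smul_zero]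
  have hE : ∀ a b m, ρ.asAlgebraHom (S.E a b) (π m) = π (ρ.asAlgebraHom (S.E a b) m) := by
    intro a b m
    rw [hπa, hπa, S.coord_E, map_mul, Module.End.mul_apply]
  have hτ : ∀ m, ρ.asAlgebraHom S.τ (π m) = π (ρ.asAlgebraHom S.τ m) := by
    intro m
    rw [hπa, hπa, S.coord_apply, S.coord_apply]
    simp only [map_sum, map_smul, LinearMap.coe_sum, Finset.sum_apply, LinearMap.smul_apply]
    refine Finset.sum_congr rfl fun i _ => Finset.sum_congr rfl fun l hl => ?_
    rw [Finset.mem_range] at hl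
    have h1 : ρ.asAlgebraHom S.τ (ρ.asAlgebraHom (S.x ^ l * S.E i 0) v) =
        (S.α ^ l * ζ) • ρ.asAlgebraHom (S.x ^ l * S.E i 0) v := by
      rw [← Module.End.mul_apply, ← map_mul, ← mul_assoc, S.τ_xpow, smul_mul_assoc, mul_assoc,
        S.τ_E, ← mul_assoc, map_smul, LinearMap.smul_apply, map_mul, Module.End.mul_apply, hv.τ_v,
        map_smul, smul_smul]
    set a := j - 1 - l with ha
    have h2 : S.α ^ a • lam (ρ.asAlgebraHom (S.x ^ a * S.E 0 i) (ρ.asAlgebraHom S.τ m)) =
        (S.α ^ (j - 1) * ζ) * lam (ρ.asAlgebraHom (S.x ^ a * S.E 0 i) m) := by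
      rw [← hlτ, ← map_smul, ← LinearMap.smul_apply, ← map_smul, ← Module.End.mul_apply,
        ← map_mul, ← Module.End.mul_apply, ← map_mul]
      congr 2
      rw [smul_mul_assoc, mul_assoc, ← S.τ_E, ← mul_assoc, ← smul_mul_assoc, ← S.τ_xpow,
        mul_assoc]
    rw [h1, smul_smul]
    congr 1
    rw [show j - 1 = a + l by omega, pow_add] at h2
    refine mul_left_cancel₀ (pow_ne_zero a S.α_ne) ?_
    rw [smul_eq_mul] at h2
    rw [h2]; ring
  have hmem : ∀ m, π m ∈ S.cyc ρ v := by
    intro m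
    rw [hπa, S.coord_apply]
    simp only [map_sum, map_smul, LinearMap.coe_sum, Finset.sum_apply, LinearMap.smul_apply]
    exact Submodule.sum_mem _ fun i _ => Submodule.sum_mem _ fun l _ =>
      Submodule.smul_mem _ _ (S.cyc_mem l i v)
  refine ⟨lam, π, hπa, S.eqv_of hρ hρ hx hE hτ, hmem, fun w hw => ?_⟩
  have hv0 : π v = v := by
    rw [hπa, S.coord_apply]
    simp only [map_sum, map_smul, LinearMap.coe_sum, Finset.sum_apply, LinearMap.smul_apply]
    rw [Finset.sum_eq_single (0 : Fin n) (fun i _ hi => Finset.sum_eq_zero fun l _ => by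
        rw [← hv.E_v, ← Module.End.mul_apply, ← map_mul, mul_assoc, S.E_mul, if_neg hi, mul_zero,
          map_zero, LinearMap.zero_apply, map_zero, zero_smul])
      (fun h => absurd (Finset.mem_univ _) h),
      Finset.sum_eq_single 0 (fun l hl hl0 => ?_) (fun h => absurd (Finset.mem_range.2 hv.pos) h)]
    · rw [map_mul, Module.End.mul_apply, hv.E_v, hlam _ (by have := hv.pos; omega), Nat.sub_zero,
        if_pos rfl, one_smul, map_mul, Module.End.mul_apply, hv.E_v, pow_zero, map_one,
        Module.End.one_apply]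
    · rw [Finset.mem_range] at hl
      rw [map_mul, Module.End.mul_apply, hv.E_v, hlam _ (by omega), if_neg (by omega), zero_smul]
  have hp : ∀ (l : ℕ) (m : V),
      ρ.asAlgebraHom (S.x ^ l) (π m) = π (ρ.asAlgebraHom (S.x ^ l) m) :=
    fun l m => asAlgebraHom_eqv (S.eqv_of hρ hρ hx hE hτ) _ m
  induction hw using Submodule.span_induction with
  | mem y hy =>
    obtain ⟨⟨l, i⟩, rfl⟩ := hy
    rw [← asAlgebraHom_eqv (S.eqv_of hρ hρ hx hE hτ), hv0]
  | zero => exact map_zero π
  | add a b _ _ ha hb => rw [map_add, ha, hb]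
  | smul c a _ ha => rw [map_smul, ha]

/-- Every non-zero module has a generator at the top exponent. -/
theorem SData.exists_gen [IsAlgClosed k] [FiniteDimensional k V] (hρ : S.InBlock ρ)
    [Nontrivial V] : ∃ j ζ v, S.Gen ρ j ζ v := by
  classical
  have hex : ∃ j, ∀ w, ρ.asAlgebraHom (S.x ^ j) w = 0 := ⟨q, fun w => by simp [S.x_pow]⟩
  set j := Nat.find hex with hj
  have hjk : ∀ w, ρ.asAlgebraHom (S.x ^ j) w = 0 := Nat.find_spec hex
  have hjq : j ≤ q := Nat.find_le fun w => by simp [S.x_pow]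
  have hj1 : 1 ≤ j := by
    rcases Nat.eq_zero_or_pos j with h | h
    · obtain ⟨w, hw⟩ := exists_ne (0 : V)
      exact absurd (by simpa [h] using hjk w) hw
    · exact h
  obtain ⟨w, hw⟩ := not_forall.1 (Nat.find_min hex (show j - 1 < j by omega))
  -- move to the corner
  obtain ⟨i, hi⟩ : ∃ i, ρ.asAlgebraHom (S.x ^ (j - 1) * S.E 0 i) w ≠ 0 := by
    by_contra hc
    push Not at hc
    refine hw ?_
    rw [← hρ (ρ.asAlgebraHom (S.x ^ (j - 1)) w), ← S.E_sum, map_sum, LinearMap.sum_apply]
    refine Finset.sum_eq_zero fun i _ => ?_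
    rw [← Module.End.mul_apply, ← map_mul, ← S.xpow_E, show S.E i i = S.E i 0 * S.E 0 i by
      rw [S.E_mul, if_pos rfl], ← mul_assoc, S.xpow_E, mul_assoc, map_mul, Module.End.mul_apply,
      hc i, map_zero]
  set u := ρ.asAlgebraHom (S.E 0 i) w with hu
  have huE : ρ.asAlgebraHom (S.E 0 0) u = u := by
    rw [hu, ← Module.End.mul_apply, ← map_mul, S.E_mul, if_pos rfl]
  have huj : ρ.asAlgebraHom (S.x ^ (j - 1)) u ≠ 0 := by
    rwa [hu, ← Module.End.mul_apply, ← map_mul]
  set T := ρ.asAlgebraHom S.τ with hT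
  have hTe : ∀ w, (T ^ e) w = w := fun w => by rw [hT, ← map_pow, S.τ_pow]; exact hρ w
  set U : Submodule k V := Submodule.span k (Set.range fun m : Fin e => (T ^ (m : ℕ)) u) with hU
  have huU : u ∈ U := Submodule.subset_span ⟨⟨0, S.e_pos⟩, by simp⟩
  have hTU : ∀ z ∈ U, T z ∈ U := by
    intro z hz
    induction hz using Submodule.span_induction with
    | mem y hy =>
      obtain ⟨m, rfl⟩ := hy
      rcases Nat.lt_or_ge ((m : ℕ) + 1) e with h | h
      · refine Submodule.subset_span ⟨⟨_, h⟩, ?_⟩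
        show (T ^ ((m : ℕ) + 1)) u = T ((T ^ (m : ℕ)) u)
        rw [pow_succ', Module.End.mul_apply]
      · have : T ((T ^ (m : ℕ)) u) = u := by
          rw [← Module.End.mul_apply, ← pow_succ', show (m : ℕ) + 1 = e by omega, hTe]
        rw [this]; exact huU
    | zero => simp
    | add a b _ _ ha hb => rw [map_add]; exact U.add_mem ha hb
    | smul c a _ ha => rw [map_smul]; exact U.smul_mem c ha
  have hUE : ∀ z ∈ U, ρ.asAlgebraHom (S.E 0 0) z = z := by
    intro z hz
    induction hz using Submodule.span_induction with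
    | mem y hy =>
      obtain ⟨m, rfl⟩ := hy
      show ρ.asAlgebraHom (S.E 0 0) ((T ^ (m : ℕ)) u) = (T ^ (m : ℕ)) u
      rw [hT, ← map_pow, ← Module.End.mul_apply, ← map_mul,
        ← ((show Commute S.τ (S.E 0 0) from S.τ_E 0 0).pow_left (m : ℕ)).eq, map_mul,
        Module.End.mul_apply, huE]
    | zero => simp
    | add a b _ _ ha hb => rw [map_add, ha, hb]
    | smul c a _ ha => rw [map_smul, ha]
  -- an eigenvector not killed
  have hs : ∃ v ∈ U, (∃ ζ : k, T v = ζ • v) ∧ ρ.asAlgebraHom (S.x ^ (j - 1)) v ≠ 0 := by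
    by_contra hc
    push Not at hc
    obtain ⟨z, hz⟩ : ∃ z : k, IsPrimitiveRoot z e := by
      haveI : NeZero (e : k) := ⟨S.e_ne⟩
      exact HasEnoughRootsOfUnity.exists_primitiveRoot k e
    set P : ℕ → V := fun r => ∑ m ∈ Finset.range e, (((z ^ r) ^ m)⁻¹ : k) • (T ^ m) u with hP
    have hz0 : z ≠ 0 := hz.ne_zero (Nat.ne_of_gt S.e_pos)
    have hPU : ∀ r, P r ∈ U := fun r => Submodule.sum_mem _ fun m hm =>
      U.smul_mem _ (Submodule.subset_span ⟨⟨m, Finset.mem_range.1 hm⟩, rfl⟩)
    have hPT : ∀ r, T (P r) = z ^ r • P r := by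
      intro r
      set μ := z ^ r with hμ
      have hμ0 : μ ≠ 0 := pow_ne_zero r hz0
      have hμe : μ ^ e = 1 := by rw [hμ, ← pow_mul, mul_comm, pow_mul, hz.pow_eq_one, one_pow]
      set F : ℕ → V := fun m => (μ ^ m)⁻¹ • (T ^ m) u with hF
      have h1 : ∀ m, T ((μ ^ m)⁻¹ • (T ^ m) u) = μ • F (m + 1) := fun m => by
        rw [map_smul, ← Module.End.mul_apply, ← pow_succ']
        simp only [hF]
        rw [smul_smul]; congr 1
        field_simp
        ring
      simp only [hP, map_sum]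
      rw [Finset.sum_congr rfl fun m _ => h1 m, ← Finset.smul_sum]
      congr 1
      have ha := Finset.sum_range_succ F e
      have hb := Finset.sum_range_succ' F e
      have hFe : F e = F 0 := by simp [hF, hTe, hμe]
      rw [hFe, hb] at ha
      exact add_right_cancel ha
    have hsum : ∑ r ∈ Finset.range e, P r = (e : k) • u := by
      simp only [hP]
      rw [Finset.sum_comm, Finset.sum_eq_single 0]
      · simp [Nat.cast_smul_eq_nsmul]
      · intro m hm hm0
        rw [Finset.mem_range] at hm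
        rw [← Finset.sum_smul]
        have h2 : ∀ r, ((z ^ r) ^ m)⁻¹ = ((z ^ m)⁻¹) ^ r := fun r => by
          rw [inv_pow, ← pow_mul, ← pow_mul, mul_comm]
        simp only [h2]
        have hne : (z ^ m)⁻¹ ≠ 1 := fun h => by
          rw [inv_eq_one] at h
          exact absurd (Nat.le_of_dvd (Nat.pos_of_ne_zero hm0) (hz.dvd_of_pow_eq_one m h))
            (not_le.2 hm)
        rw [geom_sum_eq hne, show ((z ^ m)⁻¹) ^ e = 1 by
          rw [inv_pow, ← pow_mul, mul_comm, pow_mul, hz.pow_eq_one, one_pow, inv_one]]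
        simp
      · exact fun h => absurd (Finset.mem_range.2 S.e_pos) h
    refine huj ((smul_eq_zero.1 (show (e : k) • ρ.asAlgebraHom (S.x ^ (j - 1)) u = 0 from ?_)
      ).resolve_left S.e_ne)
    rw [← map_smul, ← hsum, map_sum]
    exact Finset.sum_eq_zero fun r _ => hc _ (hPU r) ⟨_, hPT r⟩
  obtain ⟨v, hvU, ⟨ζ, hvT⟩, hvne⟩ := hs
  exact ⟨j, ζ, v, hj1, hjq, hUE v hvU, hvT, hvne, hjk⟩

/-- Maps out of a cyclic module. -/
theorem SData.exists_hom (hρ : S.InBlock ρ) (hσ : S.InBlock σ) {j : ℕ} {ζ : k} {v : V}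
    (hv : S.Gen ρ j ζ v) {w : W} (hwE : σ.asAlgebraHom (S.E 0 0) w = w)
    (hwτ : σ.asAlgebraHom S.τ w = ζ • w) (hwk : σ.asAlgebraHom (S.x ^ j) w = 0) :
    ∃ f : V →ₗ[k] W, Eqv ρ σ f ∧ f v = w := by
  classical
  obtain ⟨lam, π, hπ, hπe, hπm, hπf⟩ := S.exists_retraction hρ hv
  set f : V →ₗ[k] W :=
    (LinearMap.applyₗ w).comp (σ.asAlgebraHom.toLinearMap.comp (S.coord ρ j lam)) with hf
  have hfa : ∀ m, f m = σ.asAlgebraHom (S.coord ρ j lam m) w := fun m => rfl
  obtain ⟨-, hlτ'⟩ := And.intro hπf hπe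
  have hx : ∀ m, σ.asAlgebraHom S.x (f m) = f (ρ.asAlgebraHom S.x m) := by
    intro m
    rw [hfa, hfa, ← Module.End.mul_apply, ← map_mul, ← S.coord_x hv.pos lam hv.kill, map_add,
      LinearMap.add_apply]
    simp only [map_sum, map_smul, LinearMap.coe_sum, Finset.sum_apply, LinearMap.smul_apply]
    rw [add_eq_left]
    exact Finset.sum_eq_zero fun i _ => by
      rw [S.xpow_E, map_mul, Module.End.mul_apply, hwk, map_zero, smul_zero]
  have hE : ∀ a b m, σ.asAlgebraHom (S.E a b) (f m) = f (ρ.asAlgebraHom (S.E a b) m) := by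
    intro a b m
    rw [hfa, hfa, S.coord_E, map_mul, Module.End.mul_apply]
  -- both sides are coordinates
  have hindep : ∀ c : Fin n → Fin j → k,
      (∑ i, ∑ l, c i l • ρ.asAlgebraHom (S.x ^ (l : ℕ) * S.E i 0) v) = 0 → ∀ i l, c i l = 0 := by
    intro c hc i
    have h1 : ∀ l : Fin j, ρ.asAlgebraHom (S.E 0 i)
        (∑ a, ∑ b, c a b • ρ.asAlgebraHom (S.x ^ (b : ℕ) * S.E a 0) v) = 0 := fun _ => by
      rw [hc, map_zero]
    have h2 : ∑ b : Fin j, c i b • ρ.asAlgebraHom (S.x ^ (b : ℕ)) v = 0 := by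
      refine Eq.trans ?_ (h1 ⟨0, hv.pos⟩)
      rw [map_sum, Finset.sum_eq_single i]
      · rw [map_sum]
        refine Finset.sum_congr rfl fun b _ => ?_
        rw [map_smul, ← Module.End.mul_apply, ← map_mul, ← mul_assoc, ← S.xpow_E, mul_assoc,
          S.E_mul, if_pos rfl, map_mul, Module.End.mul_apply, hv.E_v]
      · intro a _ ha
        rw [map_sum]
        exact Finset.sum_eq_zero fun b _ => by
          rw [map_smul, ← Module.End.mul_apply, ← map_mul, ← mul_assoc, ← S.xpow_E, mul_assoc,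
            S.E_mul, if_neg (Ne.symm ha), mul_zero, map_zero, LinearMap.zero_apply, smul_zero]
      · exact fun h => absurd (Finset.mem_univ _) h
    have key : ∀ r, r ≤ j → ∀ l : Fin j, (l : ℕ) < r → c i l = 0 := by
      intro r
      induction r with
      | zero => intro _ l hl; omega
      | succ r ih =>
        intro hr l hl
        rcases Nat.lt_succ_iff_lt_or_eq.1 hl with hl | hl
        · exact ih (by omega) l hl
        have h3 := congrArg (ρ.asAlgebraHom (S.x ^ (j - 1 - r))) h2
        rw [map_sum, map_zero, Finset.sum_eq_single l (fun b _ hb => ?_)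
          (fun h => absurd (Finset.mem_univ _) h)] at h3
        · rw [map_smul, ← Module.End.mul_apply, ← map_mul, ← pow_add,
            show j - 1 - r + (l : ℕ) = j - 1 by omega, smul_eq_zero] at h3
          exact h3.resolve_right hv.ne
        · rcases Nat.lt_or_ge (b : ℕ) r with hbr | hbr
          · rw [ih (by omega) b hbr, zero_smul, map_zero]
          · have : r < (b : ℕ) := lt_of_le_of_ne hbr fun hh => hb (Fin.ext (by omega))
            rw [map_smul, ← Module.End.mul_apply, ← map_mul, ← pow_add,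
              show j - 1 - r + (b : ℕ) = j + ((b : ℕ) - r - 1) by omega, pow_add, map_mul,
              Module.End.mul_apply, hv.kill, smul_zero]
    exact fun l => key j le_rfl l l.2
  set C : V → Fin n → Fin j → k :=
    fun m i l => lam (ρ.asAlgebraHom (S.x ^ (j - 1 - (l : ℕ)) * S.E 0 i) m) with hC
  have hcoord : ∀ m, S.coord ρ j lam m = ∑ i, ∑ l : Fin j, C m i l • (S.x ^ (l : ℕ) * S.E i 0) := by
    intro m
    rw [S.coord_apply]
    refine Finset.sum_congr rfl fun i _ => ?_
    rw [Finset.sum_range (fun l => lam (ρ.asAlgebraHom (S.x ^ (j - 1 - l) * S.E 0 i) m) •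
      (S.x ^ l * S.E i 0))]
  have hτC : ∀ m i l, C (ρ.asAlgebraHom S.τ m) i l = (S.α ^ (l : ℕ) * ζ) * C m i l := by
    intro m
    have h1 := hπe
    have h2 : π (ρ.asAlgebraHom S.τ m) = ρ.asAlgebraHom S.τ (π m) :=
      (asAlgebraHom_eqv hπe _ m).symm
    rw [hπ, hπ, hcoord, hcoord] at h2
    simp only [map_sum, map_smul, LinearMap.coe_sum, Finset.sum_apply, LinearMap.smul_apply] at h2
    intro i l
    refine sub_eq_zero.1 (hindep (fun i l => C (ρ.asAlgebraHom S.τ m) i l -
      (S.α ^ (l : ℕ) * ζ) * C m i l) ?_ i l)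
    simp only [sub_smul, Finset.sum_sub_distrib, sub_eq_zero]
    rw [h2]
    refine Finset.sum_congr rfl fun a _ => Finset.sum_congr rfl fun b _ => ?_
    rw [← Module.End.mul_apply, ← map_mul, ← mul_assoc, S.τ_xpow, smul_mul_assoc, mul_assoc,
      S.τ_E, ← mul_assoc, map_smul, LinearMap.smul_apply, map_mul, Module.End.mul_apply, hv.τ_v,
      map_smul, smul_smul, smul_smul]
    congr 1; ring
  have hτ : ∀ m, σ.asAlgebraHom S.τ (f m) = f (ρ.asAlgebraHom S.τ m) := by
    intro m
    rw [hfa, hfa, hcoord, hcoord]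
    simp only [map_sum, map_smul, LinearMap.coe_sum, Finset.sum_apply, LinearMap.smul_apply]
    refine Finset.sum_congr rfl fun a _ => Finset.sum_congr rfl fun b _ => ?_
    rw [← Module.End.mul_apply, ← map_mul, ← mul_assoc, S.τ_xpow, smul_mul_assoc, mul_assoc,
      S.τ_E, ← mul_assoc, map_smul, LinearMap.smul_apply, map_mul, Module.End.mul_apply, hwτ,
      map_smul, smul_smul, smul_smul, hτC]
    congr 1; ring
  refine ⟨f, S.eqv_of hρ hσ hx hE hτ, ?_⟩
  have hπv : π v = v := hπf v (by
    have := S.cyc_mem (ρ := ρ) 0 0 v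
    rwa [pow_zero, one_mul, hv.E_v] at this)
  rw [hπ, hcoord] at hπv
  simp only [map_sum, map_smul, LinearMap.coe_sum, Finset.sum_apply, LinearMap.smul_apply] at hπv
  have hC0 : ∀ i l, C v i l = if i = 0 ∧ (l : ℕ) = 0 then 1 else 0 := by
    intro i l
    refine sub_eq_zero.1 (hindep (fun i l => C v i l - if i = 0 ∧ (l : ℕ) = 0 then 1 else 0) ?_ i l)
    simp only [sub_smul, Finset.sum_sub_distrib, hπv, sub_eq_zero]
    rw [Finset.sum_eq_single (0 : Fin n) (fun a _ ha => Finset.sum_eq_zero fun b _ => by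
        simp [ha]) (fun h => absurd (Finset.mem_univ _) h),
      Finset.sum_eq_single (⟨0, hv.pos⟩ : Fin j) (fun b _ hb => by
        rw [if_neg fun h => hb (Fin.ext h.2), zero_smul]) (fun h => absurd (Finset.mem_univ _) h)]
    simp [hv.E_v]
  rw [hfa, hcoord]
  simp only [map_sum, map_smul, LinearMap.coe_sum, Finset.sum_apply, LinearMap.smul_apply, hC0]
  rw [Finset.sum_eq_single (0 : Fin n) (fun a _ ha => Finset.sum_eq_zero fun b _ => by
      simp [ha]) (fun h => absurd (Finset.mem_univ _) h),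
    Finset.sum_eq_single (⟨0, hv.pos⟩ : Fin j) (fun b _ hb => by
      rw [if_neg fun h => hb (Fin.ext h.2), zero_smul]) (fun h => absurd (Finset.mem_univ _) h)]
  simp [hwE]

/-- A subspace stable under the generators is stable. -/
theorem SData.stable_of (hρ : S.InBlock ρ) (X : Submodule k V)
    (hx : ∀ v ∈ X, ρ.asAlgebraHom S.x v ∈ X) (hE : ∀ i j, ∀ v ∈ X, ρ.asAlgebraHom (S.E i j) v ∈ X)
    (hτ : ∀ v ∈ X, ρ.asAlgebraHom S.τ v ∈ X) (g : G) : ∀ v ∈ X, ρ g v ∈ X := by
  have hp : ∀ (y : k[G]), (∀ v ∈ X, ρ.asAlgebraHom y v ∈ X) →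
      ∀ (l : ℕ), ∀ v ∈ X, ρ.asAlgebraHom (y ^ l) v ∈ X := by
    intro y hy l
    induction l with
    | zero => intro v hv; simpa using hv
    | succ l ih =>
      intro v hv
      rw [pow_succ, map_mul, Module.End.mul_apply]
      exact ih _ (hy v hv)
  have h : ∀ z ∈ Submodule.span k
      (Set.range fun w : ℕ × Fin n × Fin n × ℕ => S.x ^ w.1 * S.E w.2.1 w.2.2.1 * S.τ ^ w.2.2.2),
      ∀ v ∈ X, ρ.asAlgebraHom z v ∈ X := by
    intro z hz
    induction hz using Submodule.span_induction with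
    | mem y hy =>
      obtain ⟨w, rfl⟩ := hy
      intro v hv
      simp only [map_mul, Module.End.mul_apply]
      exact hp _ hx _ _ (hE _ _ _ (hp _ hτ _ _ hv))
    | zero => intro v _; simp
    | add a b _ _ ha hb =>
      intro v hv; rw [map_add, LinearMap.add_apply]; exact X.add_mem (ha v hv) (hb v hv)
    | smul c a _ ha =>
      intro v hv; rw [map_smul, LinearMap.smul_apply]; exact X.smul_mem c (ha v hv)
  intro v hv
  have := h _ (S.span_G g) v hv
  rwa [map_mul, Module.End.mul_apply, hρ, Representation.asAlgebraHom_single_one] at this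

/-- An element of the local algebra killed by the top power is a multiple of `x`. -/
theorem SData.mem_x_of_kill {z : k[G]}
    (hz : z ∈ Submodule.span k (Set.range fun w : ℕ × Fin n × Fin n => S.x ^ w.1 * S.E w.2.1 w.2.2))
    (h0 : S.x ^ (q - 1) * z = 0) : ∃ r, z = S.x * r := by
  classical
  have hdec : ∃ (c : Fin n → Fin n → k) (r : k[G]), z = (∑ a, ∑ b, c a b • S.E a b) + S.x * r := by
    clear h0
    induction hz using Submodule.span_induction with
    | mem y hy =>
      obtain ⟨⟨l, a, b⟩, rfl⟩ := hy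
      rcases Nat.eq_zero_or_pos l with rfl | hl
      · refine ⟨fun i j => if i = a ∧ j = b then 1 else 0, 0, ?_⟩
        rw [mul_zero, add_zero, Finset.sum_eq_single a (fun i _ hi => Finset.sum_eq_zero fun j _ => by
            beta_reduce; rw [if_neg fun h => hi h.1, zero_smul]) (fun h => absurd (Finset.mem_univ _) h),
          Finset.sum_eq_single b (fun j _ hj => by beta_reduce; rw [if_neg fun h => hj h.2, zero_smul])
            (fun h => absurd (Finset.mem_univ _) h)]
        simp
      · obtain ⟨l, rfl⟩ : ∃ r, l = r + 1 := ⟨l - 1, by omega⟩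
        exact ⟨0, S.x ^ l * S.E a b, by simp [pow_succ', mul_assoc]⟩
    | zero => exact ⟨0, 0, by simp⟩
    | add u w _ _ hu hw =>
      obtain ⟨c, r, rfl⟩ := hu
      obtain ⟨c', r', rfl⟩ := hw
      refine ⟨c + c', r + r', ?_⟩
      simp only [Pi.add_apply, add_smul, Finset.sum_add_distrib, mul_add]
      abel
    | smul t u _ hu =>
      obtain ⟨c, r, rfl⟩ := hu
      exact ⟨fun a b => t * c a b, t • r, by simp [smul_add, Finset.smul_sum, smul_smul]⟩
  obtain ⟨c, r, rfl⟩ := hdec
  rw [mul_add, ← mul_assoc, ← pow_succ, Nat.sub_add_cancel (le_of_lt S.two_le), S.x_pow, zero_mul,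
    add_zero] at h0
  have hc : ∀ a b, c a b = 0 := by
    intro a b
    have h1 := congrArg (fun y => S.E 0 a * y * S.E b 0) h0
    simp only [mul_zero, zero_mul] at h1
    rw [← mul_assoc (S.E 0 a), ← S.xpow_E, mul_assoc (S.x ^ (q - 1)), mul_assoc] at h1
    simp only [Finset.mul_sum, Finset.sum_mul, mul_smul_comm, smul_mul_assoc] at h1
    rw [Finset.sum_eq_single a (fun i _ hi => Finset.sum_eq_zero fun j _ => by
        simp [S.E_mul, Ne.symm hi]) (fun h => absurd (Finset.mem_univ _) h),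
      Finset.sum_eq_single b (fun j _ hj => by simp [S.E_mul, hj])
        (fun h => absurd (Finset.mem_univ _) h)] at h1
    rw [S.E_mul, if_pos rfl, S.E_mul, if_pos rfl] at h1
    exact (smul_eq_zero.1 h1).resolve_right S.x_ne
  exact ⟨r, by simp [hc]⟩

/-- Stably zero maps from small modules land in the radical. -/
theorem SData.st_mem_range [FiniteDimensional k W] (hρ : S.InBlock ρ) (hσ : S.InBlock σ)
    {f : V →ₗ[k] W} (hf : St ρ σ f) (hk : ∀ v, ρ.asAlgebraHom (S.x ^ (q - 1)) v = 0) (v : V) :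
    f v ∈ LinearMap.range (σ.asAlgebraHom S.x) := by
  classical
  haveI : Fintype N := Fintype.ofFinite N
  obtain ⟨ψ, rfl⟩ := hf
  rw [← trS_tr1 N ψ, trS_apply]
  refine Submodule.sum_mem _ fun g _ => ?_
  set θ := tr1 (ρ.comp N.subtype) (σ.comp N.subtype) ψ
  have hθ : ∀ u, θ u ∈ LinearMap.range (σ.asAlgebraHom S.x) := by
    intro u
    set bW := Module.finBasis k W
    set Φ : Fin (Module.finrank k W) → V →ₗ[k] k[G] := fun b =>
      ∑ h : N, ((bW.coord b).comp (ψ.comp (ρ (h : G)⁻¹))).smulRight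
        (MonoidAlgebra.single (h : G) 1) with hΦ
    have hΦa : ∀ b u, Φ b u =
        ∑ h : N, bW.coord b (ψ (ρ (h : G)⁻¹ u)) • MonoidAlgebra.single (h : G) (1 : k) := fun b u => by
      simp [hΦ]
    have hθΦ : θ u = ∑ b, σ.asAlgebraHom (Φ b u) (bW b) := by
      simp only [θ, tr1_apply, hΦa, map_sum, map_smul, LinearMap.coe_sum, Finset.sum_apply,
        LinearMap.smul_apply, Representation.asAlgebraHom_single_one]
      rw [Finset.sum_comm]
      refine Finset.sum_congr rfl fun h _ => ?_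
      conv_lhs => rw [← bW.sum_repr (ψ ((ρ.comp N.subtype) h⁻¹ u))]
      rw [map_sum]
      exact Finset.sum_congr rfl fun b _ => by rw [map_smul]; rfl
    have hgN : ∀ b, ∀ g ∈ N, ∀ u, MonoidAlgebra.single g (1 : k) * Φ b u = Φ b (ρ g u) := by
      intro b g hg u
      rw [hΦa, hΦa, Finset.mul_sum]
      refine Fintype.sum_equiv (Equiv.mulLeft (⟨g, hg⟩ : N)) _ _ fun h => ?_
      rw [mul_smul_comm, MonoidAlgebra.single_mul_single, one_mul]
      simp only [Equiv.coe_mulLeft, Subgroup.coe_mul, mul_inv_rev, map_mul, Module.End.mul_apply]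
      rw [← Module.End.mul_apply (ρ g⁻¹), ← map_mul, inv_mul_cancel, map_one, Module.End.one_apply]
    have hsup : ∀ (b) (z : k[G]), (∀ g, z.coeff g ≠ 0 → g ∈ N) →
        ∀ u, z * Φ b u = Φ b (ρ.asAlgebraHom z u) := by
      intro b z hz u
      conv_lhs => rw [← MonoidAlgebra.sum_coeff_single z]
      conv_rhs => rw [← MonoidAlgebra.sum_coeff_single z]
      simp only [Finsupp.sum, Finset.sum_mul, map_sum, LinearMap.coe_sum, Finset.sum_apply]
      refine Finset.sum_congr rfl fun g hg => ?_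
      rw [show MonoidAlgebra.single g (z.coeff g) = z.coeff g • MonoidAlgebra.single g (1 : k) by
        rw [MonoidAlgebra.smul_single, smul_eq_mul, mul_one], smul_mul_assoc,
        hgN b g (hz g (Finsupp.mem_support_iff.1 hg)), map_smul, LinearMap.smul_apply, map_smul,
        Representation.asAlgebraHom_single_one]
    have hxq : ∀ r, ∀ g, (S.x ^ r).coeff g ≠ 0 → g ∈ N := by
      intro r
      induction r with
      | zero =>
        intro g hg
        rw [pow_zero, MonoidAlgebra.one_def, MonoidAlgebra.coeff_single] at hg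
        by_cases hg1 : g = 1
        · exact hg1 ▸ N.one_mem
        · exact absurd (Finsupp.single_eq_of_ne hg1) hg
      | succ r ih =>
        intro g hg
        have h1 : g ∈ (S.x ^ r * S.x).coeff.support := Finsupp.mem_support_iff.2 (pow_succ S.x r ▸ hg)
        obtain ⟨a, ha, b, hb, rfl⟩ := Finset.mem_mul.1 (MonoidAlgebra.support_coeff_mul_subset _ _ h1)
        exact N.mul_mem (ih a (Finsupp.mem_support_iff.1 ha))
          (S.x_supp b (Finsupp.mem_support_iff.1 hb))
    have hspan : ∀ b, Φ b u * S.β ∈ Submodule.span k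
        (Set.range fun w : ℕ × Fin n × Fin n => S.x ^ w.1 * S.E w.2.1 w.2.2) := by
      intro b
      rw [hΦa, Finset.sum_mul]
      exact Submodule.sum_mem _ fun h _ => by
        rw [smul_mul_assoc]; exact Submodule.smul_mem _ _ (S.span_N h h.2)
    rw [hθΦ]
    refine Submodule.sum_mem _ fun b _ => ?_
    obtain ⟨r, hr⟩ := S.mem_x_of_kill (hspan b) (by
      rw [← mul_assoc, hsup b _ (hxq _) u, hk, map_zero, zero_mul])
    refine ⟨σ.asAlgebraHom r (bW b), ?_⟩
    rw [← Module.End.mul_apply, ← map_mul, ← hr, map_mul, Module.End.mul_apply, hσ]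
  obtain ⟨w, hw⟩ := hθ (ρ g.out⁻¹ v)
  rw [← hw]
  have h : ∀ z ∈ Submodule.span k
      (Set.range fun w : ℕ × Fin n × Fin n × ℕ => S.x ^ w.1 * S.E w.2.1 w.2.2.1 * S.τ ^ w.2.2.2),
      σ.asAlgebraHom z (σ.asAlgebraHom S.x w) ∈ LinearMap.range (σ.asAlgebraHom S.x) := by
    intro z hz
    induction hz using Submodule.span_induction with
    | mem y hy =>
      obtain ⟨⟨l, a, b, m⟩, rfl⟩ := hy
      have hm : ∀ m, S.τ ^ m * S.x = S.α ^ m • (S.x * S.τ ^ m) := by
        intro m
        induction m with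
        | zero => simp
        | succ m ih =>
          rw [pow_succ, mul_assoc, S.τ_x, mul_smul_comm, ← mul_assoc, ih, smul_mul_assoc, smul_smul,
            mul_assoc, ← pow_succ']
      rw [← Module.End.mul_apply, ← map_mul]
      simp only
      rw [mul_assoc, hm, mul_smul_comm, map_smul, LinearMap.smul_apply]
      refine Submodule.smul_mem _ _ ⟨σ.asAlgebraHom (S.x ^ l * S.E a b * S.τ ^ m) w, ?_⟩
      rw [← Module.End.mul_apply, ← map_mul, ← mul_assoc, ← mul_assoc,
        ← mul_assoc (S.x ^ l * S.E a b), mul_assoc (S.x ^ l), ← S.x_E, ← mul_assoc, ← pow_succ,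
        ← pow_succ']
    | zero => simp
    | add a b _ _ ha hb => rw [map_add, LinearMap.add_apply]; exact Submodule.add_mem _ ha hb
    | smul c a _ ha => rw [map_smul, LinearMap.smul_apply]; exact Submodule.smul_mem _ _ ha
  have := h _ (S.span_G g.out)
  rwa [map_mul, Module.End.mul_apply, hσ, Representation.asAlgebraHom_single_one] at this

/-- A generator is not in the radical. -/
theorem SData.Gen.not_mem {j : ℕ} {ζ : k} {v : V} (hv : S.Gen ρ j ζ v) :
    v ∉ LinearMap.range (ρ.asAlgebraHom S.x) := by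
  rintro ⟨w, hw⟩
  apply hv.ne
  rw [← hw, ← Module.End.mul_apply, ← map_mul, ← pow_succ, Nat.sub_add_cancel hv.pos, hv.kill]

/-- The eigenvalue of a generator. -/
theorem SData.Gen.pow_eq_one (hρ : S.InBlock ρ) {j : ℕ} {ζ : k} {v : V} (hv : S.Gen ρ j ζ v) :
    ζ ^ e = 1 := by
  have hv0 : v ≠ 0 := fun h => hv.ne (by rw [h, map_zero])
  have hp : ∀ m, ρ.asAlgebraHom (S.τ ^ m) v = ζ ^ m • v := by
    intro m
    induction m with
    | zero => simp
    | succ m ih =>
      rw [pow_succ, map_mul, Module.End.mul_apply, hv.τ_v, map_smul, ih, smul_smul, ← pow_succ']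
  have h1 := hp e
  rw [S.τ_pow, hρ] at h1
  exact sub_eq_zero.1 ((smul_eq_zero.1 (show (ζ ^ e - 1) • v = 0 by
    rw [sub_smul, one_smul, ← h1, sub_self])).resolve_right hv0)

/-- A free summand is stably zero. -/
theorem SData.st_retraction (hρ : S.InBlock ρ) {ζ : k} {v : V} (hv : S.Gen ρ q ζ v)
    {lam : V →ₗ[k] k} {π : V →ₗ[k] V} (hπ : ∀ m, π m = ρ.asAlgebraHom (S.coord ρ q lam m) v)
    (hπe : Eqv ρ ρ π) : St ρ ρ π := by
  classical
  haveI : Fintype N := Fintype.ofFinite N
  set c1 : k[G] →ₗ[k] k :=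
    { toFun := fun z => z.coeff 1
      map_add' := fun a b => by simp
      map_smul' := fun a b => by simp }
  refine St.of_sub N S.idx_ne hπe ⟨(c1.comp (S.coord ρ q lam)).smulRight v, LinearMap.ext fun m => ?_⟩
  have hNc : ∀ g ∈ N, ∀ m, S.coord ρ q lam (ρ g m) = MonoidAlgebra.single g 1 * S.coord ρ q lam m := by
    intro g hg m
    have hsp : ∀ z ∈ Submodule.span k
        (Set.range fun w : ℕ × Fin n × Fin n => S.x ^ w.1 * S.E w.2.1 w.2.2),
        ∀ m, S.coord ρ q lam (ρ.asAlgebraHom z m) = z * S.coord ρ q lam m := by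
      intro z hz
      induction hz using Submodule.span_induction with
      | mem y hy =>
        obtain ⟨⟨l, a, b⟩, rfl⟩ := hy
        intro m
        have hl : ∀ (l : ℕ) m, S.coord ρ q lam (ρ.asAlgebraHom (S.x ^ l) m) =
            S.x ^ l * S.coord ρ q lam m := by
          intro l
          induction l with
          | zero => simp
          | succ l ih =>
            intro m
            have h1 := S.coord_x hv.pos lam hv.kill (ρ.asAlgebraHom (S.x ^ l) m)
            rw [Finset.sum_eq_zero (fun i _ => by rw [S.x_pow, zero_mul, smul_zero]), add_zero,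
              ih] at h1
            rw [pow_succ', map_mul, Module.End.mul_apply, h1, mul_assoc]
        simp only [map_mul, Module.End.mul_apply]
        rw [hl, S.coord_E, mul_assoc]
      | zero => intro m; simp
      | add a b _ _ ha hb => intro m; simp [ha m, hb m, add_mul]
      | smul c a _ ha => intro m; simp [ha m]
    have h2 := hsp _ (S.span_N g hg) m
    rw [map_mul, Module.End.mul_apply, hρ, Representation.asAlgebraHom_single_one, mul_assoc] at h2
    rw [h2]
    congr 1
    rw [S.coord_apply, Finset.mul_sum]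
    refine Finset.sum_congr rfl fun i _ => ?_
    rw [Finset.mul_sum]
    refine Finset.sum_congr rfl fun l _ => ?_
    rw [mul_smul_comm]
    congr 1
    rw [S.xpow_E, ← mul_assoc S.β, S.E_β_left]
  have hsupp : ∀ g, g ∉ N → (S.coord ρ q lam m).coeff g = 0 := by
    intro g hg
    have hx : ∀ l, ∀ g, (S.x ^ l * S.E 0 0).coeff g ≠ 0 → g ∈ N := by
      intro l
      induction l with
      | zero => intro g hg; rw [pow_zero, one_mul] at hg; exact S.E_supp _ _ g hg
      | succ l ih =>
        intro g hg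
        rw [pow_succ', mul_assoc] at hg
        obtain ⟨a, ha, b, hb, rfl⟩ :=
          Finset.mem_mul.1 (MonoidAlgebra.support_coeff_mul_subset _ _ (Finsupp.mem_support_iff.2 hg))
        exact N.mul_mem (S.x_supp a (Finsupp.mem_support_iff.1 ha))
          (ih b (Finsupp.mem_support_iff.1 hb))
    rw [S.coord_apply]
    simp only [MonoidAlgebra.coeff_sum, Finsupp.finsetSum_apply, MonoidAlgebra.coeff_smul,
      Finsupp.smul_apply]
    refine Finset.sum_eq_zero fun i _ => Finset.sum_eq_zero fun l _ => ?_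
    suffices h : (S.x ^ l * S.E i 0).coeff g = 0 by rw [h, smul_zero]
    by_contra hne
    have h2 : g ∈ (S.E i 0 * (S.x ^ l * S.E 0 0)).coeff.support := by
      rw [Finsupp.mem_support_iff, ← mul_assoc, ← S.xpow_E, mul_assoc, S.E_mul, if_pos rfl]
      exact hne
    obtain ⟨a, ha, b, hb, rfl⟩ := Finset.mem_mul.1 (MonoidAlgebra.support_coeff_mul_subset _ _ h2)
    exact hg (N.mul_mem (S.E_supp _ _ a (Finsupp.mem_support_iff.1 ha))
      (hx l b (Finsupp.mem_support_iff.1 hb)))
  rw [hπ, tr1_apply]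
  have h3 : ∀ h : N, c1 (S.coord ρ q lam (ρ ((h : G)⁻¹) m)) = (S.coord ρ q lam m).coeff (h : G) := by
    intro h
    rw [hNc _ (N.inv_mem h.2)]
    show (MonoidAlgebra.single (h : G)⁻¹ (1 : k) * S.coord ρ q lam m).coeff 1 = _
    rw [MonoidAlgebra.coeff_single_mul_apply, inv_inv, mul_one, one_mul]
  simp only [MonoidHom.coe_comp, Subgroup.coe_subtype, Function.comp_apply, Subgroup.coe_inv,
    LinearMap.smulRight_apply, LinearMap.comp_apply, h3, map_smul]
  conv_lhs => rw [← MonoidAlgebra.sum_coeff_single (S.coord ρ q lam m)]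
  rw [Finsupp.sum_fintype _ _ (fun g => by simp), map_sum, LinearMap.sum_apply,
    ← Finset.sum_subtype (Finset.univ.filter (· ∈ N)) (by simp)
      (fun g : G => (S.coord ρ q lam m).coeff g • ρ g v)]
  rw [Finset.sum_filter]
  refine Finset.sum_congr rfl fun g _ => ?_
  split_ifs with hg
  · rw [show MonoidAlgebra.single g ((S.coord ρ q lam m).coeff g) =
        (S.coord ρ q lam m).coeff g • MonoidAlgebra.single g (1 : k) by
      rw [MonoidAlgebra.smul_single, smul_eq_mul, mul_one], map_smul, LinearMap.smul_apply,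
      Representation.asAlgebraHom_single_one]
  · simp [hsupp g hg]

theorem SData.inBlock_sub (hρ : S.InBlock ρ) {X : Submodule k V}
    (hX : ∀ g, ∀ v ∈ X, ρ g v ∈ X) : S.InBlock (StableTr.sub ρ X hX) := fun v => Subtype.ext (by
  have := asAlgebraHom_eqv (eqv_subtype X hX) S.β v
  simp only [Submodule.subtype_apply] at this
  rw [← this, hρ])

theorem range_stable {f : V →ₗ[k] V} (hf : Eqv ρ ρ f) :
    ∀ g, ∀ v ∈ LinearMap.range f, ρ g v ∈ LinearMap.range f := by
  rintro g _ ⟨w, rfl⟩
  exact ⟨ρ g w, (hf g w).symm⟩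

/-- A projection is stably zero or has a uniserial summand. -/
theorem SData.dichotomy [IsAlgClosed k] [FiniteDimensional k V] (hρ : S.InBlock ρ) :
    ∀ (d : ℕ) (π : V →ₗ[k] V) (hπ : Eqv ρ ρ π), π.comp π = π →
      Module.finrank k (LinearMap.range π) = d → St ρ ρ π ∨
      ∃ (π0 : V →ₗ[k] V) (h0 : Eqv ρ ρ π0) (j : ℕ) (ζ : k) (v : LinearMap.range π0),
        π0.comp π0 = π0 ∧ j < q ∧
          S.Gen (StableTr.sub ρ (LinearMap.range π0) (range_stable h0)) j ζ v := by
  intro d
  induction d using Nat.strong_induction_on with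
  | _ d ih =>
    intro π hπ hππ hd
    by_cases h0 : π = 0
    · exact Or.inl (h0 ▸ St.zero)
    have hfix : ∀ w ∈ LinearMap.range π, π w = w := by
      rintro _ ⟨u, rfl⟩; exact LinearMap.congr_fun hππ u
    haveI : Nontrivial (LinearMap.range π) := by
      rw [Submodule.nontrivial_iff_ne_bot, Ne, LinearMap.range_eq_bot]; exact h0
    have hσ := S.inBlock_sub hρ (range_stable hπ)
    obtain ⟨j, ζ, v, hv⟩ := S.exists_gen hσ
    obtain ⟨lam, ϖ, hϖ, hϖe, hϖm, hϖf⟩ := S.exists_retraction hσ hv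
    set c := π.codRestrict (LinearMap.range π) (fun w => LinearMap.mem_range_self π w)
    have hce : Eqv ρ (StableTr.sub ρ (LinearMap.range π) (range_stable hπ)) c :=
      eqv_codRestrict hπ _
    set π1 : V →ₗ[k] V := (LinearMap.range π).subtype.comp (ϖ.comp c) with hπ1
    have hπ1e : Eqv ρ ρ π1 := (eqv_subtype _ _).comp (hϖe.comp hce)
    have hc : ∀ x : LinearMap.range π, c x = x := fun x => Subtype.ext (hfix x x.2)
    have hϖϖ : ∀ x, ϖ (ϖ x) = ϖ x := fun x => hϖf _ (hϖm x)
    have h11 : π1.comp π1 = π1 := LinearMap.ext fun w => by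
      simp only [hπ1, LinearMap.comp_apply, Submodule.subtype_apply, hc, hϖϖ]
    have hvfix : ϖ v = v := hϖf v (by
      have := S.cyc_mem (ρ := StableTr.sub ρ (LinearMap.range π) (range_stable hπ)) 0 0 v
      rwa [pow_zero, one_mul, hv.E_v] at this)
    have hv1 : π1 v = (v : V) := by
      simp only [hπ1, LinearMap.comp_apply, Submodule.subtype_apply, hc, hvfix]
    rcases lt_or_eq_of_le hv.le with hj | hj
    · refine Or.inr ⟨π1, hπ1e, j, ζ, ⟨v, v, hv1⟩, h11, hj, hv.pos, hv.le, Subtype.ext ?_,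
        Subtype.ext ?_, fun hh => hv.ne (Subtype.ext ?_), fun w => Subtype.ext ?_⟩
      · rw [← Submodule.subtype_apply, ← asAlgebraHom_eqv (eqv_subtype _ _)]
        show ρ.asAlgebraHom (S.E 0 0) (v : V) = v
        exact (asAlgebraHom_eqv (eqv_subtype _ (range_stable hπ)) (S.E 0 0) v).trans
          (congrArg Subtype.val hv.E_v)
      · rw [← Submodule.subtype_apply, ← asAlgebraHom_eqv (eqv_subtype _ _)]
        show ρ.asAlgebraHom S.τ (v : V) = ζ • (v : V)
        exact (asAlgebraHom_eqv (eqv_subtype _ (range_stable hπ)) S.τ v).trans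
          (congrArg Subtype.val hv.τ_v)
      · have h2 := congrArg (LinearMap.range π1).subtype hh
        rw [← asAlgebraHom_eqv (eqv_subtype _ _), map_zero] at h2
        exact ((asAlgebraHom_eqv (eqv_subtype _ (range_stable hπ)) (S.x ^ (j - 1)) v).symm.trans h2)
      · obtain ⟨u, hu⟩ := w.2
        rw [← Submodule.subtype_apply, ← asAlgebraHom_eqv (eqv_subtype _ _), ZeroMemClass.coe_zero]
        show ρ.asAlgebraHom (S.x ^ j) (w : V) = 0
        rw [← hu, hπ1, LinearMap.comp_apply, asAlgebraHom_eqv (eqv_subtype _ (range_stable hπ)), hv.kill,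
          map_zero]
    · subst hj
      have hs1 : St ρ ρ π1 :=
        St.comp_left (eqv_subtype _ _) (St.comp_right (S.st_retraction hσ hv hϖ hϖe) hce)
      have hπ1π : π.comp π1 = π1 := LinearMap.ext fun w => hfix _ (by
        simp only [hπ1, LinearMap.comp_apply, Submodule.subtype_apply]; exact Subtype.coe_prop _)
      have hππ1 : π1.comp π = π1 := LinearMap.ext fun w => by
        simp only [hπ1, LinearMap.comp_apply]
        congr 2
        exact Subtype.ext (LinearMap.congr_fun hππ w)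
      set π2 := π - π1
      have h22 : π2.comp π2 = π2 := by
        simp only [π2, LinearMap.sub_comp, LinearMap.comp_sub, hππ, h11, hπ1π, hππ1]
        abel
      have hlt : Module.finrank k (LinearMap.range π2) < d := by
        rw [← hd]
        refine Submodule.finrank_lt_finrank_of_lt (lt_of_le_of_ne ?_ fun he => ?_)
        · rintro _ ⟨w, rfl⟩
          refine ⟨π2 w, ?_⟩
          rw [← LinearMap.comp_apply]
          simp only [π2, LinearMap.comp_sub, hππ, hπ1π]
        · have h1 : (v : V) ∈ LinearMap.range π2 := by rw [he]; exact v.2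
          obtain ⟨u, hu⟩ := h1
          have h2 : π2 v = (v : V) := by rw [← hu, ← LinearMap.comp_apply, h22]
          simp only [π2, LinearMap.sub_apply, hv1, hfix _ v.2, sub_self] at h2
          exact hv.ne (by rw [show v = 0 from Subtype.ext h2.symm, map_zero])
      rcases ih _ hlt π2 (hπ.sub hπ1e) h22 rfl with h | h
      · left
        have : π = π1 + π2 := by simp [π2]
        exact this ▸ hs1.add h
      · exact Or.inr h

/-- The socle of a cyclic module. -/
theorem SData.socle (hρ : S.InBlock ρ) {j : ℕ} {ζ : k} {v : V} (hv : S.Gen ρ j ζ v)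
    {w : V} (hw : w ∈ S.cyc ρ v) (hwE : ρ.asAlgebraHom (S.E 0 0) w = w)
    (hwx : ρ.asAlgebraHom S.x w = 0) : ∃ c : k, w = c • ρ.asAlgebraHom (S.x ^ (j - 1)) v := by
  classical
  obtain ⟨lam, π, hπ, -, -, hπf⟩ := S.exists_retraction hρ hv
  refine ⟨lam w, ?_⟩
  conv_lhs => rw [← hπf w hw]
  rw [hπ, S.coord_apply]
  simp only [map_sum, map_smul, LinearMap.coe_sum, Finset.sum_apply, LinearMap.smul_apply]
  rw [Finset.sum_eq_single (0 : Fin n) (fun i _ hi => Finset.sum_eq_zero fun l _ => by
      rw [← hwE, ← Module.End.mul_apply, ← map_mul, mul_assoc, S.E_mul, if_neg hi, mul_zero,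
        map_zero, LinearMap.zero_apply, map_zero, zero_smul])
    (fun h => absurd (Finset.mem_univ _) h),
    Finset.sum_eq_single (j - 1) (fun l hl hlj => ?_)
      (fun h => absurd (Finset.mem_range.2 (by have := hv.pos; omega)) h)]
  · rw [Nat.sub_self, pow_zero, one_mul, hwE, map_mul, Module.End.mul_apply, hv.E_v]
  · rw [Finset.mem_range] at hl
    obtain ⟨a, ha⟩ : ∃ a, j - 1 - l = a + 1 := ⟨j - 1 - l - 1, by omega⟩
    rw [ha, map_mul, Module.End.mul_apply, hwE, pow_succ, map_mul, Module.End.mul_apply, hwx,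
      map_zero, map_zero, zero_smul]

end Cfsg.Agent.Blocks.SemiUniserial
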