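import Cfsg.Agent.Blocks.StableTr
import Cfsg.Agent.BlockChar.GroupLift

/-!
Stable restriction to the normaliser of a subgroup of a trivially intersecting defect group.
-/

namespace Cfsg.Agent.Blocks.StableLocal

open scoped MonoidAlgebra
open StableTr Cfsg.Agent.BlockChar
open scoped Classical

set_option autoImplicit false
set_option linter.unusedSectionVars false
set_option linter.style.haveILetI false
set_option linter.style.openClassical false

universe u v

variable {k : Type v} [Field k] {G : Type u} [Group G] [Fintype G]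

/-- The local situation. -/
structure Ctx (k : Type v) [Field k] (G : Type u) [Group G] [Fintype G] where
  P : Subgroup G
  C : Subgroup G
  H' : Subgroup G
  H : Subgroup G
  eB : k[G]
  β : k[G]
  a : k[G]
  aB : k[G]
  O : Finset k[G]
  PC : P ≤ C
  CH' : C ≤ H'
  H'H : H' ≤ H
  norm : ∀ x ∈ H, ∀ c ∈ C, x⁻¹ * c * x ∈ C
  free : ∀ d ∈ P, d ≠ 1 → ∀ y : G, d * y = y * d → y ∈ C
  freeH : ∀ d ∈ P, d ≠ 1 → ∀ q : G, q⁻¹ * d * q ∈ P → q ∈ H
  β_supp : SupportedIn C β
  β_fix : Fixed H' β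
  β_idem : β * β = β
  β_orth : ∀ q ∈ H, q ∉ H' → β * cj q β = 0
  a_supp : SupportedIn C a
  a_fix : Fixed P a
  a_tr : ∀ [Fintype (C ⧸ P.subgroupOf C)],
    ∑ r : C ⧸ P.subgroupOf C, cj (r.out : G) a = β
  aB_fix : Fixed P aB
  aB_tr : ∀ [Fintype (G ⧸ P)], ∑ q : G ⧸ P, cj q.out aB = eB
  eB_fix : Fixed (⊤ : Subgroup G) eB
  trunc_eq : ∀ g, (∑ b ∈ O, b).coeff g = if g ∈ C then eB.coeff g else 0
  orbit : ∀ b ∈ O, ∃ x ∈ H, b = cj x β
  idx_ne : ((C.subgroupOf H').index : k) ≠ 0

variable (X : Ctx k G)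
variable {U V : Type*} [AddCommGroup U] [Module k U] [AddCommGroup V] [Module k V]
variable {ρ : Representation k G U} {σ : Representation k G V}

theorem asAlgebraHom_cj (ρ : Representation k G U) (x : G) (z : k[G]) :
    ρ.asAlgebraHom (cj x z) = ρ x * ρ.asAlgebraHom z * ρ x⁻¹ := by
  rw [cj_eq_conj, map_mul, map_mul, Representation.asAlgebraHom_single_one,
    Representation.asAlgebraHom_single_one]

theorem asAlgebraHom_cj_apply (ρ : Representation k G U) (x : G) (z : k[G]) (v : U) :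
    ρ.asAlgebraHom (cj x z) v = ρ x (ρ.asAlgebraHom z (ρ x⁻¹ v)) := by
  rw [asAlgebraHom_cj]; rfl

/-- Fixed elements give equivariant maps. -/
theorem eqv_of_fixed {S : Subgroup G} {z : k[G]} (hz : Fixed S z) :
    Eqv (ρ.comp S.subtype) (ρ.comp S.subtype) (ρ.asAlgebraHom z) := by
  intro g v
  show ρ (g : G) (ρ.asAlgebraHom z v) = ρ.asAlgebraHom z (ρ (g : G) v)
  conv_rhs => rw [← hz g g.2, asAlgebraHom_cj_apply]
  rw [← Module.End.mul_apply (ρ (g : G)⁻¹), ← map_mul, inv_mul_cancel, map_one, Module.End.one_apply]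

/-- Transport of stable zero along an equality of subgroups of the ambient group. -/
theorem st_of_le {K S : Subgroup G} [Fintype K] [Fintype S] (h : S ≤ K)
    [Fintype (S.subgroupOf K)] {f : U →ₗ[k] V}
    (hf : St (ρ.comp S.subtype) (σ.comp S.subtype) f) :
    St ((ρ.comp K.subtype).comp (S.subgroupOf K).subtype)
      ((σ.comp K.subtype).comp (S.subgroupOf K).subtype) f := by
  obtain ⟨ψ, rfl⟩ := hf
  refine ⟨ψ, LinearMap.ext fun v => ?_⟩
  rw [tr1_apply, tr1_apply]
  refine Fintype.sum_equiv (Subgroup.subgroupOfEquivOfLe h).symm.toEquiv _ _ fun s => ?_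
  rfl

theorem st_of_le' {K S : Subgroup G} [Fintype K] [Fintype S] (h : S ≤ K)
    [Fintype (S.subgroupOf K)] {f : U →ₗ[k] V}
    (hf : St ((ρ.comp K.subtype).comp (S.subgroupOf K).subtype)
      ((σ.comp K.subtype).comp (S.subgroupOf K).subtype) f) :
    St (ρ.comp S.subtype) (σ.comp S.subtype) f := by
  obtain ⟨ψ, rfl⟩ := hf
  refine ⟨ψ, LinearMap.ext fun v => ?_⟩
  rw [tr1_apply, tr1_apply]
  refine Fintype.sum_equiv (Subgroup.subgroupOfEquivOfLe h).toEquiv _ _ fun s => ?_
  rfl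

/-- Restriction keeps stably zero maps. -/
theorem St.res (S : Subgroup G) [Fintype S] {f : U →ₗ[k] V} (hf : St ρ σ f) :
    St (ρ.comp S.subtype) (σ.comp S.subtype) f := by
  classical
  obtain ⟨ψ, rfl⟩ := hf
  haveI : Fintype (Quotient (QuotientGroup.rightRel S)) := Fintype.ofFinite _
  refine ⟨∑ q : Quotient (QuotientGroup.rightRel S), (σ q.out).comp (ψ.comp (ρ q.out⁻¹)),
    LinearMap.ext fun v => ?_⟩
  rw [tr1_apply, tr1_apply]
  simp only [LinearMap.coe_sum, Finset.sum_apply, LinearMap.comp_apply, map_sum]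
  rw [← Fintype.sum_prod_type']
  have hbij : Function.Bijective
      fun w : S × Quotient (QuotientGroup.rightRel S) => (w.1 : G) * w.2.out := by
    refine ⟨fun w w' h => ?_, fun g => ?_⟩
    · have h1 : w.2 = w'.2 := by
        rw [← Quotient.out_eq w.2, ← Quotient.out_eq w'.2]
        refine Quotient.sound (QuotientGroup.rightRel_apply.2 ?_)
        have : w'.2.out * w.2.out⁻¹ = (w'.1 : G)⁻¹ * (w.1 : G) := by
          simp only at h
          rw [eq_inv_mul_iff_mul_eq, ← mul_assoc, ← h, mul_inv_cancel_right]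
        rw [this]
        exact S.mul_mem (S.inv_mem w'.1.2) w.1.2
      refine Prod.ext (Subtype.ext ?_) h1
      simpa [h1] using h
    · have hr := Quotient.exact (Quotient.out_eq (Quotient.mk (QuotientGroup.rightRel S) g))
      exact ⟨(⟨_, QuotientGroup.rightRel_apply.1 hr⟩,
        Quotient.mk (QuotientGroup.rightRel S) g), inv_mul_cancel_right _ _⟩
  refine (Fintype.sum_equiv (Equiv.ofBijective _ hbij) _ _ fun w => ?_).symm
  show σ (w.1 : G) (σ w.2.out (ψ (ρ w.2.out⁻¹ (ρ (w.1 : G)⁻¹ v)))) =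
    σ ((w.1 : G) * w.2.out) (ψ (ρ ((w.1 : G) * w.2.out)⁻¹ v))
  rw [mul_inv_rev, map_mul, map_mul]
  rfl

/-- Conjugating a stably zero map. -/
theorem St.conj {S : Subgroup G} [Fintype S] (x : G) (hx : ∀ c ∈ S, x⁻¹ * c * x ∈ S)
    {f : U →ₗ[k] V} (hf : St (ρ.comp S.subtype) (σ.comp S.subtype) f) :
    St (ρ.comp S.subtype) (σ.comp S.subtype) ((σ x).comp (f.comp (ρ x⁻¹))) := by
  classical
  obtain ⟨ψ, rfl⟩ := hf
  refine ⟨(σ x).comp (ψ.comp (ρ x⁻¹)), LinearMap.ext fun v => ?_⟩
  simp only [LinearMap.comp_apply, tr1_apply, map_sum]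
  refine (Fintype.sum_equiv (Equiv.ofBijective (fun s : S => (⟨_, hx s s.2⟩ : S)) ?_) _ _
    fun s => ?_).symm
  · refine (Finite.injective_iff_bijective).1 fun s t h => Subtype.ext ?_
    simpa using congrArg Subtype.val h
  · show σ (s : G) (σ x (ψ (ρ x⁻¹ (ρ (s : G)⁻¹ v)))) =
      σ x (σ (x⁻¹ * (s : G) * x) (ψ (ρ (x⁻¹ * (s : G) * x)⁻¹ (ρ x⁻¹ v))))
    simp only [← Module.End.mul_apply, ← map_mul]
    congr 2
    · group
    · congr 2; group

/-- A free orbit sum is a trace from the trivial subgroup. -/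
theorem st_of_free {S : Subgroup G} [Fintype S] {α : Type*} [Fintype α] [MulAction S α]
    (hfree : ∀ (s : S) (a : α), s • a = a → s = 1) (F : α → U →ₗ[k] V)
    (hF : ∀ (s : S) (a : α), F (s • a) = (σ (s : G)).comp ((F a).comp (ρ (s : G)⁻¹))) :
    St (ρ.comp S.subtype) (σ.comp S.subtype) (∑ a, F a) := by
  classical
  haveI : Fintype (Quotient (MulAction.orbitRel S α)) := Fintype.ofFinite _
  refine ⟨∑ o : Quotient (MulAction.orbitRel S α), F o.out, LinearMap.ext fun v => ?_⟩
  simp only [LinearMap.coe_sum, Finset.sum_apply, tr1_apply, map_sum]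
  rw [← Fintype.sum_prod_type']
  have hbij : Function.Bijective
      fun w : S × Quotient (MulAction.orbitRel S α) => w.1 • w.2.out := by
    refine ⟨fun w w' h => ?_, fun a => ?_⟩
    · have h1 : w.2 = w'.2 := by
        rw [← Quotient.out_eq w.2, ← Quotient.out_eq w'.2]
        refine Quotient.sound ⟨w.1⁻¹ * w'.1, ?_⟩
        simp only at h
        show (w.1⁻¹ * w'.1) • w'.2.out = w.2.out
        rw [mul_smul, ← h, inv_smul_smul]
      refine Prod.ext ?_ h1
      simp only [h1] at h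
      have h2 : (w'.1⁻¹ * w.1) • w'.2.out = w'.2.out := by rw [mul_smul, h, inv_smul_smul]
      exact (inv_mul_eq_one.1 (hfree _ _ h2)).symm
    · obtain ⟨s, hs⟩ := (Quotient.exact (Quotient.out_eq
        (Quotient.mk (MulAction.orbitRel S α) a)) :
        (MulAction.orbitRel S α).r (Quotient.mk (MulAction.orbitRel S α) a).out a)
      refine ⟨(s⁻¹, Quotient.mk _ a), ?_⟩
      show s⁻¹ • _ = a
      rw [← hs, inv_smul_smul]
  refine (Fintype.sum_equiv (Equiv.ofBijective _ hbij) _ _ fun w => ?_).symm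
  show σ (w.1 : G) (F w.2.out (ρ (w.1 : G)⁻¹ v)) = F (w.1 • w.2.out) v
  rw [hF]
  rfl

variable {X}

theorem Ctx.eqv_β (X : Ctx k G) :
    Eqv (ρ.comp X.H'.subtype) (ρ.comp X.H'.subtype) (ρ.asAlgebraHom X.β) :=
  eqv_of_fixed X.β_fix

/-- An equivariant map as a trace through the local element. -/
theorem Ctx.β_comp (X : Ctx k G) [Fintype X.C] [Fintype (X.C ⧸ X.P.subgroupOf X.C)] {f : U →ₗ[k] V}
    (hf : Eqv (ρ.comp X.C.subtype) (σ.comp X.C.subtype) f) :
    trS (X.P.subgroupOf X.C) (ρ.comp X.C.subtype) (σ.comp X.C.subtype)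
      ((σ.asAlgebraHom X.a).comp f) = (σ.asAlgebraHom X.β).comp f := by
  refine LinearMap.ext fun v => ?_
  rw [trS_apply, ← X.a_tr, map_sum]
  simp only [LinearMap.comp_apply, LinearMap.coe_sum, Finset.sum_apply]
  refine Finset.sum_congr rfl fun r _ => ?_
  rw [asAlgebraHom_cj_apply]
  show σ (r.out : G) (σ.asAlgebraHom X.a (f (ρ (r.out⁻¹ : X.C) v))) = _
  congr 2
  exact (hf r.out⁻¹ v).symm

/-- Stably zero for the centraliser from a free sum. -/
theorem Ctx.st_of_freeP (X : Ctx k G) [Fintype X.P] [Fintype X.C] {f : U →ₗ[k] V}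
    (hf : Eqv (ρ.comp X.C.subtype) (σ.comp X.C.subtype) f)
    (hP : St (ρ.comp X.P.subtype) (σ.comp X.P.subtype) f) :
    St (ρ.comp X.C.subtype) (σ.comp X.C.subtype) ((σ.asAlgebraHom X.β).comp f) := by
  classical
  rw [← X.β_comp hf]
  refine St.of_trS _ ?_
  refine st_of_le X.PC (St.comp_left ?_ hP)
  exact eqv_of_fixed X.a_fix

/-- Every local map lifts, up to stably zero maps. -/
theorem Ctx.exists_lift (X : Ctx k G) [Fintype X.H'] {f : U →ₗ[k] V}
    (hf : Eqv (ρ.comp X.H'.subtype) (σ.comp X.H'.subtype) f)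
    (hfl : (σ.asAlgebraHom X.β).comp f = f) (hfr : f.comp (ρ.asAlgebraHom X.β) = f) :
    ∃ g : U →ₗ[k] V, Eqv ρ σ g ∧ St (ρ.comp X.H'.subtype) (σ.comp X.H'.subtype)
      ((σ.asAlgebraHom X.β).comp (g.comp (ρ.asAlgebraHom X.β)) - f) := by
  classical
  haveI : Fintype X.P := Fintype.ofFinite _
  haveI : Fintype X.C := Fintype.ofFinite _
  haveI : Fintype (X.C ⧸ X.P.subgroupOf X.C) := Fintype.ofFinite _
  haveI : Fintype (G ⧸ X.C) := Fintype.ofFinite _
  haveI : Fintype (G ⧸ X.P) := Fintype.ofFinite _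
  set e : k := ((X.C.subgroupOf X.H').index : k) with he
  have hfC : Eqv (ρ.comp X.C.subtype) (σ.comp X.C.subtype) f := fun c v => hf ⟨c, X.CH' c.2⟩ v
  set g : U →ₗ[k] V := e⁻¹ • trS X.C ρ σ f with hg
  have hge : Eqv ρ σ g := (trS_eqv hfC).smul _
  refine ⟨g, hge, ?_⟩
  set D := (σ.asAlgebraHom X.β).comp (g.comp (ρ.asAlgebraHom X.β)) - f
  have hDe : Eqv (ρ.comp X.H'.subtype) (σ.comp X.H'.subtype) D :=
    (X.eqv_β.comp (Eqv.comp (fun h v => hge (h : G) v) X.eqv_β)).sub hf
  refine St.of_sub (X.C.subgroupOf X.H') X.idx_ne hDe (st_of_le X.CH' ?_)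
  -- the terms
  set term : G → U →ₗ[k] V := fun y =>
    (σ.asAlgebraHom X.β).comp ((σ y).comp (f.comp ((ρ y⁻¹).comp (ρ.asAlgebraHom X.β)))) with hterm
  have hin : ∀ y ∈ X.H', term y = f := by
    intro y hy
    refine LinearMap.ext fun v => ?_
    simp only [hterm, LinearMap.comp_apply]
    rw [show σ y (f (ρ y⁻¹ (ρ.asAlgebraHom X.β v))) = f (ρ.asAlgebraHom X.β v) from ?_]
    · rw [← LinearMap.comp_apply f, hfr, ← LinearMap.comp_apply (σ.asAlgebraHom X.β), hfl]
    · rw [show σ y (f (ρ y⁻¹ (ρ.asAlgebraHom X.β v))) = f (ρ y (ρ y⁻¹ (ρ.asAlgebraHom X.β v)))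
        from hf ⟨y, hy⟩ _, ← Module.End.mul_apply (ρ y), ← map_mul, mul_inv_cancel, map_one,
        Module.End.one_apply]
  have hmid : ∀ y ∈ X.H, y ∉ X.H' → term y = 0 := by
    intro y hy hy'
    refine LinearMap.ext fun v => ?_
    simp only [hterm, LinearMap.comp_apply, LinearMap.zero_apply]
    rw [show f (ρ y⁻¹ (ρ.asAlgebraHom X.β v)) =
      σ.asAlgebraHom X.β (f (ρ y⁻¹ (ρ.asAlgebraHom X.β v))) from
        (LinearMap.congr_fun hfl _).symm]
    generalize f (ρ y⁻¹ (ρ.asAlgebraHom X.β v)) = w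
    have h1 : σ y (σ.asAlgebraHom X.β w) = σ.asAlgebraHom (cj y X.β) (σ y w) := by
      rw [asAlgebraHom_cj_apply, ← Module.End.mul_apply (σ y⁻¹), ← map_mul, inv_mul_cancel, map_one,
        Module.End.one_apply]
    rw [h1, ← Module.End.mul_apply, ← map_mul, X.β_orth y hy hy', map_zero, LinearMap.zero_apply]
  -- split the sum
  have hsum : (σ.asAlgebraHom X.β).comp (g.comp (ρ.asAlgebraHom X.β)) =
      e⁻¹ • ∑ q : G ⧸ X.C, term q.out := by
    refine LinearMap.ext fun v => ?_
    simp only [hg, hterm, LinearMap.comp_apply, LinearMap.smul_apply, trS_apply, map_smul, map_sum,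
      LinearMap.coe_sum, Finset.sum_apply]
  have hcard : (Finset.univ.filter fun q : G ⧸ X.C => q.out ∈ X.H').card =
      (X.C.subgroupOf X.H').index := by
    rw [Subgroup.index, ← Fintype.card_subtype, ← Nat.card_eq_fintype_card]
    refine Nat.card_congr
      { toFun := fun q => ((⟨q.1.out, q.2⟩ : X.H') : X.H' ⧸ X.C.subgroupOf X.H')
        invFun := fun r => ⟨((r.out : G) : G ⧸ X.C), ?_⟩
        left_inv := fun q => ?_
        right_inv := fun r => ?_ }
    · have h1 := QuotientGroup.eq.1 (QuotientGroup.out_eq' ((r.out : G) : G ⧸ X.C))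
      have := X.H'.mul_mem r.out.2 (X.H'.inv_mem (X.CH' h1))
      rwa [mul_inv_rev, inv_inv, mul_inv_cancel_left] at this
    · refine Subtype.ext ?_
      show ((_ : G) : G ⧸ X.C) = q.1
      conv_rhs => rw [← QuotientGroup.out_eq' q.1]
      rw [QuotientGroup.eq]
      exact Subgroup.mem_subgroupOf.1 (QuotientGroup.eq.1 (QuotientGroup.out_eq'
        ((⟨q.1.out, q.2⟩ : X.H') : X.H' ⧸ X.C.subgroupOf X.H')))
    · conv_rhs => rw [← QuotientGroup.out_eq' r]
      rw [QuotientGroup.eq, Subgroup.mem_subgroupOf]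
      exact QuotientGroup.eq.1 (QuotientGroup.out_eq' ((r.out : G) : G ⧸ X.C))
  have hD : D = e⁻¹ • ∑ q ∈ Finset.univ.filter (fun q : G ⧸ X.C => q.out ∉ X.H), term q.out := by
    simp only [D, hsum]
    rw [← Finset.sum_filter_add_sum_filter_not Finset.univ (fun q : G ⧸ X.C => q.out ∈ X.H'),
      Finset.sum_congr rfl (fun q hq => hin _ (Finset.mem_filter.1 hq).2), Finset.sum_const,
      hcard, smul_add, ← Nat.cast_smul_eq_nsmul k, smul_smul, inv_mul_cancel₀ X.idx_ne, one_smul,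
      add_sub_cancel_left]
    congr 1
    refine (Finset.sum_subset (fun q hq => ?_) fun q hq hq' => ?_).symm
    · simp only [Finset.mem_filter, Finset.mem_univ, true_and] at hq ⊢
      exact fun h => hq (X.H'H h)
    · simp only [Finset.mem_filter, Finset.mem_univ, true_and, not_not] at hq hq'
      exact hmid _ hq' hq
  rw [hD]
  refine St.smul _ ?_
  -- refine to the defect group
  set f0 := (σ.asAlgebraHom X.a).comp f
  have hf0 : Eqv (ρ.comp X.P.subtype) (σ.comp X.P.subtype) f0 :=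
    (eqv_of_fixed X.a_fix).comp fun s v => hfC ⟨s, X.PC s.2⟩ v
  set term0 : G → U →ₗ[k] V := fun y =>
    (σ.asAlgebraHom X.β).comp ((σ y).comp (f0.comp ((ρ y⁻¹).comp (ρ.asAlgebraHom X.β)))) with ht0
  have hexp : ∀ y, term y = ∑ r : X.C ⧸ X.P.subgroupOf X.C, term0 (y * r.out) := by
    intro y
    refine LinearMap.ext fun v => ?_
    have hfa : f = trS (X.P.subgroupOf X.C) (ρ.comp X.C.subtype) (σ.comp X.C.subtype) f0 := by
      rw [X.β_comp hfC, hfl]
    simp only [hterm, ht0, LinearMap.comp_apply, LinearMap.coe_sum, Finset.sum_apply]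
    conv_lhs => rw [hfa, trS_apply]
    simp only [map_sum]
    refine Finset.sum_congr rfl fun r _ => ?_
    show σ.asAlgebraHom X.β (σ y (σ (r.out : G) (f0 (ρ ((r.out⁻¹ : X.C) : G)
      (ρ y⁻¹ (ρ.asAlgebraHom X.β v)))))) = _
    rw [Subgroup.coe_inv, mul_inv_rev, map_mul, map_mul]
    rfl
  have hcoset : ∀ y (c : G), c ∈ X.P → term0 (y * c) = term0 y := by
    intro y c hc
    refine LinearMap.ext fun v => ?_
    simp only [ht0, LinearMap.comp_apply]
    rw [mul_inv_rev, map_mul, map_mul, Module.End.mul_apply, Module.End.mul_apply]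
    congr 2
    have h := hf0 ⟨c, hc⟩ (ρ c⁻¹ (ρ y⁻¹ (ρ.asAlgebraHom X.β v)))
    refine h.trans ?_
    show f0 (ρ c (ρ c⁻¹ _)) = _
    rw [← Module.End.mul_apply (ρ c), ← map_mul, mul_inv_cancel, map_one, Module.End.one_apply]
  have hperm : ∀ y c, c ∈ X.P → ∀ z : G ⧸ X.P, z = ((c * y : G) : G ⧸ X.P) →
      term0 z.out = term0 (c * y) := by
    intro y c _ z hz
    have h := QuotientGroup.eq.1 (hz ▸ QuotientGroup.out_eq' z : (z.out : G ⧸ X.P) = ((c * y : G) : G ⧸ X.P))
    rw [← hcoset z.out _ h, mul_inv_cancel_left]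
  set α := {z : G ⧸ X.P // z.out ∉ X.H}
  have hHinv : ∀ (y : G) (z : G ⧸ X.P), z = (y : G ⧸ X.P) → (z.out ∈ X.H ↔ y ∈ X.H) := by
    intro y z hz
    have h := X.H'H (X.CH' (X.PC (QuotientGroup.eq.1
      (hz ▸ QuotientGroup.out_eq' z : (z.out : G ⧸ X.P) = (y : G ⧸ X.P)))))
    constructor
    · intro hm
      have := X.H.mul_mem hm h
      rwa [mul_inv_cancel_left] at this
    · intro hm
      have := X.H.mul_mem hm (X.H.inv_mem h)
      rwa [mul_inv_rev, inv_inv, mul_inv_cancel_left] at this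
  have hPH : X.P ≤ X.H := X.PC.trans (X.CH'.trans X.H'H)
  letI : MulAction X.P α :=
    { smul := fun s z => ⟨(s : G) • z.1, fun hm => z.2 (by
        have h1 : (s : G) • z.1 = (((s : G) * z.1.out : G) : G ⧸ X.P) := by
          conv_lhs => rw [← QuotientGroup.out_eq' z.1]
          rfl
        exact (X.H.mul_mem_cancel_left (hPH s.2)).1 ((hHinv _ _ h1).1 hm))⟩
      one_smul := fun z => Subtype.ext (one_smul G z.1)
      mul_smul := fun s t z => Subtype.ext (mul_smul (s : G) (t : G) z.1) }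
  have hst : St (ρ.comp X.P.subtype) (σ.comp X.P.subtype) (∑ z : α, term0 z.1.out) := by
    refine st_of_free (fun s z h => ?_) _ fun s z => ?_
    · by_contra hs
      have h1 : (((s : G) * z.1.out : G) : G ⧸ X.P) = (z.1.out : G ⧸ X.P) := by
        rw [QuotientGroup.out_eq']
        conv_rhs => rw [← show (s : G) • z.1 = z.1 from congrArg Subtype.val h,
          ← QuotientGroup.out_eq' z.1]
        rfl
      have h2 := QuotientGroup.eq.1 h1.symm
      refine z.2 (X.freeH (s : G) s.2 (fun h => hs (Subtype.ext h)) z.1.out ?_)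
      rwa [← mul_assoc] at h2
    · have h1 : (s • z : α).1 = (((s : G) * z.1.out : G) : G ⧸ X.P) := by
        conv_lhs => rw [show (s • z : α).1 = (s : G) • z.1 from rfl, ← QuotientGroup.out_eq' z.1]
        rfl
      show term0 (s • z : α).1.out = _
      rw [hperm z.1.out (s : G) s.2 _ h1]
      refine LinearMap.ext fun v => ?_
      simp only [ht0, LinearMap.comp_apply]
      rw [mul_inv_rev, map_mul, map_mul, Module.End.mul_apply, Module.End.mul_apply,
        show ρ (s : G)⁻¹ (ρ.asAlgebraHom X.β v) = ρ.asAlgebraHom X.β (ρ (s : G)⁻¹ v) from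
          eqv_of_fixed (ρ := ρ) X.β_fix ⟨(s : G)⁻¹, X.CH' (X.PC (X.P.inv_mem s.2))⟩ v]
      exact (eqv_of_fixed (ρ := σ) X.β_fix ⟨(s : G), X.CH' (X.PC s.2)⟩ _).symm
  have hre : ∑ q ∈ Finset.univ.filter (fun q : G ⧸ X.C => q.out ∉ X.H), term q.out =
      ∑ z : α, term0 z.1.out := by
    rw [Finset.sum_congr rfl (fun q _ => hexp q.out), ← Finset.sum_product']
    refine Finset.sum_bij' (fun w _ => (⟨((w.1.out * w.2.out : G) : G ⧸ X.P), ?_⟩ : α))
      (fun z _ => (((z.1.out : G) : G ⧸ X.C),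
        ((⟨((z.1.out : G) : G ⧸ X.C).out⁻¹ * z.1.out,
          QuotientGroup.eq.1 (QuotientGroup.out_eq' _)⟩ : X.C) : X.C ⧸ X.P.subgroupOf X.C)))
      (fun _ _ => Finset.mem_univ _) (fun z _ => ?_) (fun w hw => ?_) (fun z _ => ?_)
      (fun w hw => ?_)
    · rw [hHinv _ _ rfl]
      simp only [Finset.mem_product, Finset.mem_filter, Finset.mem_univ, true_and, and_true] at *
      exact fun h => (‹w.1.out ∉ X.H›) ((X.H.mul_mem_cancel_right
        (X.H'H (X.CH' w.2.out.2))).1 h)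
    · simp only [Finset.mem_product, Finset.mem_filter, Finset.mem_univ, true_and, and_true]
      intro hm
      have h := X.H'H (X.CH' (QuotientGroup.eq.1
        (QuotientGroup.out_eq' ((z.1.out : G) : G ⧸ X.C))))
      have := X.H.mul_mem hm h
      rw [mul_inv_cancel_left] at this
      exact z.2 this
    · have h1 : ((((w.1.out * w.2.out : G) : G ⧸ X.P).out : G) : G ⧸ X.C) = w.1 := by
        have h := X.PC (QuotientGroup.eq.1
          (QuotientGroup.out_eq' ((w.1.out * w.2.out : G) : G ⧸ X.P)))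
        rw [QuotientGroup.eq.2 h, QuotientGroup.mk_mul_of_mem _ w.2.out.2, QuotientGroup.out_eq']
      refine Prod.ext h1 ?_
      conv_rhs => rw [← QuotientGroup.out_eq' w.2]
      rw [QuotientGroup.eq, Subgroup.mem_subgroupOf]
      simp only [Subgroup.coe_mul, Subgroup.coe_inv, h1]
      have h := QuotientGroup.eq.1 (QuotientGroup.out_eq' ((w.1.out * w.2.out : G) : G ⧸ X.P))
      have h2 : (((w.1.out * w.2.out : G) : G ⧸ X.P).out)⁻¹ * (w.1.out * w.2.out) =
          (w.1.out⁻¹ * ((w.1.out * w.2.out : G) : G ⧸ X.P).out)⁻¹ * (w.2.out : G) := by group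
      rwa [h2] at h
    · refine Subtype.ext ?_
      show ((_ : G) : G ⧸ X.P) = z.1
      conv_rhs => rw [← QuotientGroup.out_eq' z.1]
      rw [QuotientGroup.eq]
      have h := Subgroup.mem_subgroupOf.1 (QuotientGroup.eq.1 (QuotientGroup.out_eq'
        ((⟨((z.1.out : G) : G ⧸ X.C).out⁻¹ * z.1.out,
          QuotientGroup.eq.1 (QuotientGroup.out_eq' _)⟩ : X.C) : X.C ⧸ X.P.subgroupOf X.C)))
      simp only [Subgroup.coe_mul, Subgroup.coe_inv] at h
      rwa [mul_inv_rev, mul_assoc]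
    · have h := QuotientGroup.eq.1 (QuotientGroup.out_eq' ((w.1.out * w.2.out : G) : G ⧸ X.P))
      show term0 (w.1.out * w.2.out) = term0 ((w.1.out * w.2.out : G) : G ⧸ X.P).out
      have h2 := hcoset ((w.1.out * w.2.out : G) : G ⧸ X.P).out _ h
      rwa [mul_inv_cancel_left] at h2
  rw [hre]
  have heq : Eqv (ρ.comp X.C.subtype) (σ.comp X.C.subtype) (∑ z : α, term0 z.1.out) := by
    rw [← hre]
    have h1 : ∑ q ∈ Finset.univ.filter (fun q : G ⧸ X.C => q.out ∉ X.H), term q.out = e • D := by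
      rw [hD, smul_smul, mul_inv_cancel₀ X.idx_ne, one_smul]
    rw [h1]
    exact fun c v => (hDe.smul e) ⟨c, X.CH' c.2⟩ v
  have hfix : (σ.asAlgebraHom X.β).comp (∑ z : α, term0 z.1.out) = ∑ z : α, term0 z.1.out := by
    refine LinearMap.ext fun v => ?_
    simp only [ht0, LinearMap.comp_apply, LinearMap.coe_sum, Finset.sum_apply, map_sum,
      ← Module.End.mul_apply (σ.asAlgebraHom X.β) (σ.asAlgebraHom X.β), ← map_mul, X.β_idem]
  rw [← hfix]
  exact X.st_of_freeP heq hst

/-- A global map vanishing stably locally vanishes stably. -/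
theorem Ctx.st_of_local (X : Ctx k G) [Fintype X.H'] {g : U →ₗ[k] V} (hg : Eqv ρ σ g)
    (hρ : ∀ v, ρ.asAlgebraHom X.eB v = v) (hσ : ∀ v, σ.asAlgebraHom X.eB v = v)
    (h : St (ρ.comp X.H'.subtype) (σ.comp X.H'.subtype)
      ((σ.asAlgebraHom X.β).comp (g.comp (ρ.asAlgebraHom X.β)))) : St ρ σ g := by
  classical
  haveI : Fintype X.P := Fintype.ofFinite _
  haveI : Fintype X.C := Fintype.ofFinite _
  haveI : Fintype (X.C ⧸ X.P.subgroupOf X.C) := Fintype.ofFinite _
  haveI : Fintype (G ⧸ X.P) := Fintype.ofFinite _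
  haveI : Fintype (G ⧸ X.C) := Fintype.ofFinite _
  set A' := ∑ r : X.C ⧸ X.P.subgroupOf X.C, cj (r.out : G) X.aB with hA'
  have hA'e : Eqv (σ.comp X.C.subtype) (σ.comp X.C.subtype) (σ.asAlgebraHom A') := by
    have h1 : σ.asAlgebraHom A' = trS (X.P.subgroupOf X.C) (σ.comp X.C.subtype)
        (σ.comp X.C.subtype) (σ.asAlgebraHom X.aB) := by
      refine LinearMap.ext fun v => ?_
      rw [trS_apply, hA', map_sum, LinearMap.sum_apply]
      exact Finset.sum_congr rfl fun r _ => asAlgebraHom_cj_apply σ _ _ _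
    rw [h1]
    exact trS_eqv fun s v => eqv_of_fixed (ρ := σ) X.aB_fix ⟨(s.1 : G), s.2⟩ v
  have hgC : Eqv (ρ.comp X.C.subtype) (σ.comp X.C.subtype) g := fun c v => hg (c : G) v
  set θ := (σ.asAlgebraHom A').comp g
  have hθe : Eqv (ρ.comp X.C.subtype) (σ.comp X.C.subtype) θ := hA'e.comp hgC
  suffices hθ : St (ρ.comp X.C.subtype) (σ.comp X.C.subtype) θ by
    have hgt : g = trS X.C ρ σ θ := by
      refine LinearMap.ext fun v => ?_
      conv_lhs => rw [← hσ (g v), ← X.aB_tr]
      rw [trS_apply]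
      simp only [map_sum, LinearMap.coe_sum, Finset.sum_apply, θ, LinearMap.comp_apply, hA']
      simp only [asAlgebraHom_cj_apply]
      rw [← Finset.sum_product']
      have hcoset : ∀ y c, c ∈ X.P → σ (y * c) (σ.asAlgebraHom X.aB (σ (y * c)⁻¹ (g v))) =
          σ y (σ.asAlgebraHom X.aB (σ y⁻¹ (g v))) := by
        intro y c hc
        rw [mul_inv_rev, map_mul, map_mul, Module.End.mul_apply, Module.End.mul_apply,
          show σ.asAlgebraHom X.aB (σ c⁻¹ (σ y⁻¹ (g v))) = σ c⁻¹ (σ.asAlgebraHom X.aB (σ y⁻¹ (g v)))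
            from (eqv_of_fixed X.aB_fix ⟨c⁻¹, X.P.inv_mem hc⟩ _).symm,
          ← Module.End.mul_apply (σ c), ← map_mul, mul_inv_cancel, map_one, Module.End.one_apply]
      refine Finset.sum_bij' (fun z _ => (((z.out : G) : G ⧸ X.C),
        ((⟨((z.out : G) : G ⧸ X.C).out⁻¹ * z.out,
          QuotientGroup.eq.1 (QuotientGroup.out_eq' _)⟩ : X.C) : X.C ⧸ X.P.subgroupOf X.C)))
        (fun w _ => ((w.1.out * w.2.out : G) : G ⧸ X.P))
        (fun _ _ => Finset.mem_univ _) (fun _ _ => Finset.mem_univ _) (fun z _ => ?_)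
        (fun w _ => ?_) (fun z _ => ?_)
      · conv_rhs => rw [← QuotientGroup.out_eq' z]
        rw [QuotientGroup.eq]
        have h := Subgroup.mem_subgroupOf.1 (QuotientGroup.eq.1 (QuotientGroup.out_eq'
          ((⟨((z.out : G) : G ⧸ X.C).out⁻¹ * z.out,
            QuotientGroup.eq.1 (QuotientGroup.out_eq' _)⟩ : X.C) : X.C ⧸ X.P.subgroupOf X.C)))
        simp only [Subgroup.coe_mul, Subgroup.coe_inv] at h
        rwa [mul_inv_rev, mul_assoc]
      · have h1 : ((((w.1.out * w.2.out : G) : G ⧸ X.P).out : G) : G ⧸ X.C) = w.1 := by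
          have h := X.PC (QuotientGroup.eq.1
            (QuotientGroup.out_eq' ((w.1.out * w.2.out : G) : G ⧸ X.P)))
          rw [QuotientGroup.eq.2 h, QuotientGroup.mk_mul_of_mem _ w.2.out.2, QuotientGroup.out_eq']
        refine Prod.ext h1 ?_
        conv_rhs => rw [← QuotientGroup.out_eq' w.2]
        rw [QuotientGroup.eq, Subgroup.mem_subgroupOf]
        simp only [Subgroup.coe_mul, Subgroup.coe_inv, h1]
        have h := QuotientGroup.eq.1 (QuotientGroup.out_eq' ((w.1.out * w.2.out : G) : G ⧸ X.P))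
        have h2 : (((w.1.out * w.2.out : G) : G ⧸ X.P).out)⁻¹ * (w.1.out * w.2.out) =
            (w.1.out⁻¹ * ((w.1.out * w.2.out : G) : G ⧸ X.P).out)⁻¹ * (w.2.out : G) := by group
        rwa [h2] at h
      · set y := ((z.out : G) : G ⧸ X.C).out
        set r := ((⟨y⁻¹ * z.out, QuotientGroup.eq.1 (QuotientGroup.out_eq' _)⟩ : X.C) :
          X.C ⧸ X.P.subgroupOf X.C).out
        have h : (r : G)⁻¹ * (y⁻¹ * z.out) ∈ X.P :=
          Subgroup.mem_subgroupOf.1 (QuotientGroup.eq.1 (QuotientGroup.out_eq' _))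
        show _ = σ y (σ (r : G) (σ.asAlgebraHom X.aB (σ (r : G)⁻¹ (g (ρ y⁻¹ v)))))
        rw [← hg y⁻¹ v, show z.out = y * (r : G) * ((r : G)⁻¹ * (y⁻¹ * z.out)) by group,
          hcoset _ _ h, mul_inv_rev, map_mul, map_mul]
        rfl
    rw [hgt]
    exact St.of_trS _ hθ
  -- decompose the identity
  set u := X.eB - ∑ b ∈ X.O, b with hu
  have hsplit : θ = θ.comp (ρ.asAlgebraHom u) + ∑ b ∈ X.O, θ.comp (ρ.asAlgebraHom b) := by
    refine LinearMap.ext fun v => ?_
    simp only [hu, map_sub, map_sum, LinearMap.add_apply, LinearMap.comp_apply,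
      LinearMap.sub_apply, LinearMap.coe_sum, Finset.sum_apply, hρ, sub_add_cancel]
  rw [hsplit]
  refine St.add ?_ (St.sum _ _ fun b hb => ?_)
  · have hco : ∀ y, y ∈ X.C → u.coeff y = 0 := fun y hy => by
      rw [hu, MonoidAlgebra.coeff_sub, Finsupp.sub_apply, X.trunc_eq, if_pos hy, sub_self]
    set α := {y : G // y ∉ X.C}
    letI : MulAction X.P α :=
      { smul := fun s y => ⟨(s : G) * y.1 * (s : G)⁻¹, fun hm => y.2 (by
          have := X.C.mul_mem (X.C.mul_mem (X.C.inv_mem (X.PC s.2)) hm) (X.PC s.2)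
          simpa [mul_assoc] using this)⟩
        one_smul := fun y => Subtype.ext (by show ((1 : X.P) : G) * y.1 * ((1 : X.P) : G)⁻¹ = y.1; simp)
        mul_smul := fun s t y => Subtype.ext (by
          show ((s * t : X.P) : G) * y.1 * ((s * t : X.P) : G)⁻¹ =
            (s : G) * ((t : G) * y.1 * (t : G)⁻¹) * (s : G)⁻¹
          simp [mul_assoc]) }
    have hfixu : ∀ (s : X.P) (y : G), u.coeff ((s : G) * y * (s : G)⁻¹) = u.coeff y := by
      intro s y
      simp only [hu, MonoidAlgebra.coeff_sub, Finsupp.sub_apply, X.trunc_eq,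
        X.eB_fix.coeff (Subgroup.mem_top (s : G))]
      have hiff : (s : G) * y * (s : G)⁻¹ ∈ X.C ↔ y ∈ X.C := by
        constructor
        · intro hm
          have := X.C.mul_mem (X.C.mul_mem (X.C.inv_mem (X.PC s.2)) hm) (X.PC s.2)
          simpa [mul_assoc] using this
        · exact fun hm => X.C.mul_mem (X.C.mul_mem (X.PC s.2) hm) (X.C.inv_mem (X.PC s.2))
      simp only [hiff]
    have hAu : ρ.asAlgebraHom u = ∑ y : α, u.coeff y.1 • ρ y.1 := by
      conv_lhs => rw [← MonoidAlgebra.sum_coeff_single u]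
      rw [Finsupp.sum_fintype _ _ (fun g => by simp), map_sum,
        ← Finset.sum_subtype (Finset.univ.filter (· ∉ X.C)) (by simp) (fun y => u.coeff y • ρ y),
        Finset.sum_filter]
      refine Finset.sum_congr rfl fun y _ => ?_
      rw [show MonoidAlgebra.single y (u.coeff y) = u.coeff y • MonoidAlgebra.single y (1 : k) by
          rw [MonoidAlgebra.smul_single, smul_eq_mul, mul_one], map_smul,
          Representation.asAlgebraHom_single_one]
      by_cases hy : y ∈ X.C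
      · simp [hco y hy]
      · simp [hy]
    have hst : St (ρ.comp X.P.subtype) (ρ.comp X.P.subtype) (ρ.asAlgebraHom u) := by
      rw [hAu]
      refine st_of_free (fun s y h => ?_) _ fun s y => ?_
      · by_contra hs
        refine y.2 (X.free (s : G) s.2 (fun h => hs (Subtype.ext h)) y.1 ?_)
        have h1 : (s : G) * y.1 * (s : G)⁻¹ = y.1 := congrArg Subtype.val h
        exact mul_inv_eq_iff_eq_mul.1 h1
      · show u.coeff ((s : G) * y.1 * (s : G)⁻¹) • ρ ((s : G) * y.1 * (s : G)⁻¹) = _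
        rw [hfixu, map_mul, map_mul, LinearMap.smul_comp, LinearMap.comp_smul]
        rfl
    have huC : Fixed X.C u := by
      refine fixed_of_coeff fun c hc y => ?_
      simp only [hu, MonoidAlgebra.coeff_sub, Finsupp.sub_apply, X.trunc_eq,
        X.eB_fix.coeff (Subgroup.mem_top c)]
      have hiff : c * y * c⁻¹ ∈ X.C ↔ y ∈ X.C := by
        rw [Subgroup.mul_mem_cancel_right _ (X.C.inv_mem hc), Subgroup.mul_mem_cancel_left _ hc]
      simp only [hiff]
    set f1 := g.comp (ρ.asAlgebraHom u)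
    have hf1 : Eqv (ρ.comp X.C.subtype) (σ.comp X.C.subtype) f1 := hgC.comp (eqv_of_fixed huC)
    have h1 : θ.comp (ρ.asAlgebraHom u) = trS (X.P.subgroupOf X.C) (ρ.comp X.C.subtype)
        (σ.comp X.C.subtype) ((σ.asAlgebraHom X.aB).comp f1) := by
      refine LinearMap.ext fun v => ?_
      rw [trS_apply]
      simp only [θ, f1, LinearMap.comp_apply, hA', map_sum, LinearMap.coe_sum, Finset.sum_apply,
        asAlgebraHom_cj_apply]
      refine Finset.sum_congr rfl fun r _ => ?_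
      congr 2
      exact hf1 r.out⁻¹ v
    rw [h1]
    refine St.of_trS _ (st_of_le X.PC ?_)
    exact St.comp_left (eqv_of_fixed X.aB_fix)
      (St.comp_left (σ := ρ.comp X.P.subtype) (τ := σ.comp X.P.subtype) (fun s v => hg (s : G) v) hst)
  · obtain ⟨x, hx, rfl⟩ := X.orbit b hb
    have h1 : St (ρ.comp X.C.subtype) (σ.comp X.C.subtype)
        ((σ.asAlgebraHom X.β).comp (g.comp (ρ.asAlgebraHom X.β))) :=
      st_of_le' X.CH' (St.res (X.C.subgroupOf X.H') h)
    have h2 := St.conj x (X.norm x hx) h1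
    have h3 : (σ x).comp (((σ.asAlgebraHom X.β).comp (g.comp (ρ.asAlgebraHom X.β))).comp (ρ x⁻¹)) =
        g.comp (ρ.asAlgebraHom (cj x X.β)) := by
      refine LinearMap.ext fun v => ?_
      simp only [LinearMap.comp_apply, asAlgebraHom_cj_apply]
      rw [asAlgebraHom_eqv hg, hg, ← Module.End.mul_apply (ρ.asAlgebraHom X.β), ← map_mul,
        X.β_idem]
    rw [h3] at h2
    simp only [θ, LinearMap.comp_assoc]
    exact St.comp_left hA'e h2

end Cfsg.Agent.Blocks.StableLocal
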