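import Mathlib

/-!
Maps of representations that are traces from the trivial subgroup.
-/

namespace Cfsg.Agent.Blocks.StableTr

open scoped MonoidAlgebra

set_option autoImplicit false
set_option linter.unusedSectionVars false
set_option linter.style.haveILetI false

variable {k : Type*} [Field k] {G : Type*} [Group G] [Fintype G]
variable {U V W : Type*} [AddCommGroup U] [Module k U] [AddCommGroup V] [Module k V]
  [AddCommGroup W] [Module k W]
variable {ρ : Representation k G U} {σ : Representation k G V} {τ : Representation k G W}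

/-- Commuting with the action. -/
def Eqv (ρ : Representation k G U) (σ : Representation k G V) (f : U →ₗ[k] V) : Prop :=
  ∀ g v, σ g (f v) = f (ρ g v)

/-- The trace from the trivial subgroup. -/
noncomputable def tr1 (ρ : Representation k G U) (σ : Representation k G V) (ψ : U →ₗ[k] V) :
    U →ₗ[k] V :=
  ∑ g : G, (σ g).comp (ψ.comp (ρ g⁻¹))

theorem tr1_apply (ψ : U →ₗ[k] V) (v : U) : tr1 ρ σ ψ v = ∑ g : G, σ g (ψ (ρ g⁻¹ v)) := by
  simp [tr1]

/-- Stably zero maps. -/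
def St (ρ : Representation k G U) (σ : Representation k G V) (f : U →ₗ[k] V) : Prop :=
  ∃ ψ, f = tr1 ρ σ ψ

theorem tr1_eqv (ψ : U →ₗ[k] V) : Eqv ρ σ (tr1 ρ σ ψ) := by
  intro h v
  rw [tr1_apply, tr1_apply, map_sum]
  refine Fintype.sum_equiv (Equiv.mulLeft h) _ _ fun g => ?_
  simp only [Equiv.coe_mulLeft, ← Module.End.mul_apply, ← map_mul]
  simp [mul_assoc]

theorem St.eqv {f : U →ₗ[k] V} (h : St ρ σ f) : Eqv ρ σ f := by
  obtain ⟨ψ, rfl⟩ := h; exact tr1_eqv ψ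

theorem Eqv.comp {f : U →ₗ[k] V} {g : V →ₗ[k] W} (hg : Eqv σ τ g) (hf : Eqv ρ σ f) :
    Eqv ρ τ (g.comp f) := fun x v => by
  rw [LinearMap.comp_apply, hg, hf, LinearMap.comp_apply]

theorem Eqv.add {f g : U →ₗ[k] V} (hf : Eqv ρ σ f) (hg : Eqv ρ σ g) : Eqv ρ σ (f + g) :=
  fun x v => by simp [map_add, hf x v, hg x v]

theorem Eqv.sub {f g : U →ₗ[k] V} (hf : Eqv ρ σ f) (hg : Eqv ρ σ g) : Eqv ρ σ (f - g) :=
  fun x v => by simp [map_sub, hf x v, hg x v]

theorem Eqv.smul {f : U →ₗ[k] V} (c : k) (hf : Eqv ρ σ f) : Eqv ρ σ (c • f) :=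
  fun x v => by simp [hf x v]

theorem eqv_id : Eqv ρ ρ (LinearMap.id : U →ₗ[k] U) := fun _ _ => rfl

theorem St.zero : St ρ σ (0 : U →ₗ[k] V) := ⟨0, by simp [tr1]⟩

theorem St.add {f g : U →ₗ[k] V} (hf : St ρ σ f) (hg : St ρ σ g) : St ρ σ (f + g) := by
  obtain ⟨a, rfl⟩ := hf; obtain ⟨b, rfl⟩ := hg
  exact ⟨a + b, by simp [tr1, LinearMap.add_comp, LinearMap.comp_add, Finset.sum_add_distrib]⟩

theorem St.smul {f : U →ₗ[k] V} (c : k) (hf : St ρ σ f) : St ρ σ (c • f) := by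
  obtain ⟨a, rfl⟩ := hf
  exact ⟨c • a, by simp [tr1, Finset.smul_sum, LinearMap.smul_comp, LinearMap.comp_smul]⟩

theorem St.sub {f g : U →ₗ[k] V} (hf : St ρ σ f) (hg : St ρ σ g) : St ρ σ (f - g) := by
  rw [sub_eq_add_neg, ← neg_one_smul k g]
  exact hf.add (hg.smul _)

theorem St.sum {ι : Type*} (s : Finset ι) (f : ι → U →ₗ[k] V) (h : ∀ i ∈ s, St ρ σ (f i)) :
    St ρ σ (∑ i ∈ s, f i) :=
  Finset.sum_induction f _ (fun _ _ => St.add) St.zero h

theorem St.comp_left {f : U →ₗ[k] V} {g : V →ₗ[k] W} (hg : Eqv σ τ g) (hf : St ρ σ f) :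
    St ρ τ (g.comp f) := by
  obtain ⟨a, rfl⟩ := hf
  refine ⟨g.comp a, LinearMap.ext fun v => ?_⟩
  simp only [LinearMap.comp_apply, tr1_apply, map_sum]
  exact Finset.sum_congr rfl fun x _ => (hg x _).symm

theorem St.comp_right {f : U →ₗ[k] V} {g : V →ₗ[k] W} (hg : St σ τ g) (hf : Eqv ρ σ f) :
    St ρ τ (g.comp f) := by
  obtain ⟨a, rfl⟩ := hg
  refine ⟨a.comp f, LinearMap.ext fun v => ?_⟩
  simp only [LinearMap.comp_apply, tr1_apply]
  exact Finset.sum_congr rfl fun x _ => by rw [hf]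

/-- The trace from a subgroup. -/
noncomputable def trS (S : Subgroup G) (ρ : Representation k G U) (σ : Representation k G V)
    (f : U →ₗ[k] V) : U →ₗ[k] V :=
  haveI := Fintype.ofFinite (G ⧸ S)
  ∑ q : G ⧸ S, (σ q.out).comp (f.comp (ρ q.out⁻¹))

theorem trS_apply (S : Subgroup G) [Fintype (G ⧸ S)] (f : U →ₗ[k] V) (v : U) :
    trS S ρ σ f v = ∑ q : G ⧸ S, σ q.out (f (ρ q.out⁻¹ v)) := by
  rw [trS, LinearMap.sum_apply]
  exact Finset.sum_congr (by ext; simp) fun _ _ => rfl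

theorem conj_eq_of_coset {S : Subgroup G} {f : U →ₗ[k] V}
    (hf : Eqv (ρ.comp S.subtype) (σ.comp S.subtype) f) {a b : G} (hab : (a : G ⧸ S) = (b : G ⧸ S))
    (v : U) : σ a (f (ρ a⁻¹ v)) = σ b (f (ρ b⁻¹ v)) := by
  have h : a⁻¹ * b ∈ S := QuotientGroup.eq.1 hab
  have h2 : σ (a⁻¹ * b) (f (ρ b⁻¹ v)) = f (ρ (a⁻¹ * b) (ρ b⁻¹ v)) := hf ⟨_, h⟩ (ρ b⁻¹ v)
  rw [← Module.End.mul_apply (ρ (a⁻¹ * b)), ← map_mul, mul_inv_cancel_right] at h2
  rw [← h2, ← Module.End.mul_apply, ← map_mul, mul_inv_cancel_left]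

theorem trS_eqv {S : Subgroup G} {f : U →ₗ[k] V}
    (hf : Eqv (ρ.comp S.subtype) (σ.comp S.subtype) f) : Eqv ρ σ (trS S ρ σ f) := by
  classical
  intro g v
  rw [trS_apply, trS_apply, map_sum]
  refine Fintype.sum_equiv (MulAction.toPerm g : Equiv.Perm (G ⧸ S)) _ _ fun q => ?_
  have h1 : ((g * q.out : G) : G ⧸ S) = ((g • q : G ⧸ S).out : G ⧸ S) := by
    rw [QuotientGroup.out_eq']
    conv_rhs => rw [← QuotientGroup.out_eq' q]
    rfl
  have h2 := conj_eq_of_coset hf h1 (ρ g v)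
  simp only [MulAction.toPerm_apply]
  rw [← h2, ← Module.End.mul_apply (σ g), ← map_mul, ← Module.End.mul_apply (ρ _) (ρ g), ← map_mul,
    mul_inv_rev, inv_mul_cancel_right]

theorem trS_id (S : Subgroup G) {f : U →ₗ[k] V} (hf : Eqv ρ σ f) :
    trS S ρ σ f = (S.index : k) • f := by
  classical
  refine LinearMap.ext fun v => ?_
  rw [trS_apply, LinearMap.smul_apply]
  simp only [← hf _, ← Module.End.mul_apply, ← map_mul, mul_inv_cancel]
  simp [Subgroup.index, Nat.card_eq_fintype_card, Nat.cast_smul_eq_nsmul]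

/-- Transitivity of traces. -/
theorem trS_tr1 (S : Subgroup G) [Fintype S] (ψ : U →ₗ[k] V) :
    trS S ρ σ (tr1 (ρ.comp S.subtype) (σ.comp S.subtype) ψ) = tr1 ρ σ ψ := by
  classical
  refine LinearMap.ext fun v => ?_
  rw [trS_apply, tr1_apply]
  simp only [tr1_apply, map_sum, MonoidHom.coe_comp, Subgroup.coe_subtype, Function.comp_apply,
    Subgroup.coe_inv]
  rw [← Fintype.sum_prod_type']
  have hbij : Function.Bijective fun w : (G ⧸ S) × S => w.1.out * (w.2 : G) := by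
    refine ⟨fun w w' h => ?_, fun g => ⟨((g : G ⧸ S), ⟨(g : G ⧸ S).out⁻¹ * g,
      QuotientGroup.eq.1 (QuotientGroup.out_eq' (g : G ⧸ S))⟩), mul_inv_cancel_left _ _⟩⟩
    have h1 : w.1 = w'.1 := by
      have := congrArg (fun g : G => (g : G ⧸ S)) h
      simpa only [QuotientGroup.mk_mul_of_mem _ (SetLike.coe_mem _), QuotientGroup.out_eq'] using this
    refine Prod.ext h1 (Subtype.ext ?_)
    simpa [h1] using h
  refine Fintype.sum_equiv (Equiv.ofBijective _ hbij) _ _ fun w => ?_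
  show σ w.1.out (σ (w.2 : G) (ψ (ρ (w.2 : G)⁻¹ (ρ w.1.out⁻¹ v)))) =
    σ (w.1.out * (w.2 : G)) (ψ (ρ (w.1.out * (w.2 : G))⁻¹ v))
  rw [mul_inv_rev, map_mul, map_mul]
  rfl

/-- An averaged map is stably zero. -/
theorem St.of_trS (S : Subgroup G) [Fintype S] {f : U →ₗ[k] V}
    (h : St (ρ.comp S.subtype) (σ.comp S.subtype) f) : St ρ σ (trS S ρ σ f) := by
  obtain ⟨ψ, rfl⟩ := h
  exact ⟨ψ, trS_tr1 S ψ⟩

/-- Higman's criterion for an invertible index. -/
theorem St.of_sub (S : Subgroup G) [Fintype S] (hS : (S.index : k) ≠ 0) {f : U →ₗ[k] V}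
    (hf : Eqv ρ σ f) (h : St (ρ.comp S.subtype) (σ.comp S.subtype) f) : St ρ σ f := by
  have h1 := (St.of_trS S h).smul (S.index : k)⁻¹
  rwa [trS_id S hf, smul_smul, inv_mul_cancel₀ hS, one_smul] at h1

/-- The representation on a stable subspace. -/
def sub (ρ : Representation k G U) (X : Submodule k U) (hX : ∀ g, ∀ v ∈ X, ρ g v ∈ X) :
    Representation k G X where
  toFun g := (ρ g).restrict (hX g)
  map_one' := by ext; simp
  map_mul' a b := by ext; simp

@[simp] theorem sub_apply (X : Submodule k U) (hX : ∀ g, ∀ v ∈ X, ρ g v ∈ X) (g : G) (v : X) :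
    (sub ρ X hX g v : U) = ρ g v := rfl

theorem eqv_subtype (X : Submodule k U) (hX : ∀ g, ∀ v ∈ X, ρ g v ∈ X) :
    Eqv (sub ρ X hX) ρ X.subtype := fun _ _ => rfl

theorem eqv_codRestrict {X : Submodule k V} {hX : ∀ g, ∀ v ∈ X, σ g v ∈ X} {f : U →ₗ[k] V}
    (hf : Eqv ρ σ f) (hfX : ∀ v, f v ∈ X) : Eqv ρ (sub σ X hX) (f.codRestrict X hfX) :=
  fun g v => Subtype.ext (hf g v)

theorem asAlgebraHom_eqv {f : U →ₗ[k] V} (hf : Eqv ρ σ f) (z : k[G]) (v : U) :
    σ.asAlgebraHom z (f v) = f (ρ.asAlgebraHom z v) := by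
  induction z using MonoidAlgebra.induction_on with
  | of g => rw [Representation.asAlgebraHom_of, Representation.asAlgebraHom_of]; exact hf g v
  | add a b ha hb => rw [map_add, map_add, LinearMap.add_apply, LinearMap.add_apply, map_add, ha, hb]
  | smul r a ha => rw [map_smul, map_smul, LinearMap.smul_apply, LinearMap.smul_apply, map_smul, ha]

theorem asAlgebraHom_mem (X : Submodule k U) (hX : ∀ g, ∀ v ∈ X, ρ g v ∈ X) (z : k[G]) {v : U}
    (hv : v ∈ X) : ρ.asAlgebraHom z v ∈ X := by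
  have := asAlgebraHom_eqv (eqv_subtype X hX) z ⟨v, hv⟩
  rw [Submodule.subtype_apply, Submodule.subtype_apply] at this
  rw [this]; exact Subtype.coe_prop _

end Cfsg.Agent.Blocks.StableTr
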