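import Mathlib

/-!
A Sylow `p`-subgroup of a symmetric or alternating group is generated by elements of order `p`.
-/

set_option autoImplicit false

namespace Cfsg.Agent.Blocks.SymSylowGen

open Equiv Equiv.Perm

variable {p : ℕ}

/-- The subgroup is generated by its elements of order dividing `p`, and so is its even part. -/
def Good (p : ℕ) {α : Type*} [DecidableEq α] [Fintype α] (W : Subgroup (Perm α)) : Prop :=
  ∀ f ∈ W, f ∈ Subgroup.closure {x | x ∈ W ∧ x ^ p = 1} ∧
    (sign f = 1 → f ∈ Subgroup.closure {x | x ∈ W ∧ x ^ p = 1 ∧ sign x = 1})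

/-- Translations on the second coordinate. -/
def trans (p m : ℕ) : Multiplicative (Fin m → ZMod p) →* Perm (Fin m × ZMod p) where
  toFun c :=
    { toFun := fun x => (x.1, x.2 + c.toAdd x.1)
      invFun := fun x => (x.1, x.2 - c.toAdd x.1)
      left_inv := fun x => by simp
      right_inv := fun x => by simp }
  map_one' := by ext x <;> simp
  map_mul' c d := by
    ext x
    · rfl
    · show x.2 + (c.toAdd x.1 + d.toAdd x.1) = x.2 + d.toAdd x.1 + c.toAdd x.1
      abel

/-- Permutations of the blocks. -/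
def blocks (p m : ℕ) : Perm (Fin m) →* Perm (Fin m × ZMod p) where
  toFun σ := prodCongrLeft fun _ : ZMod p => σ
  map_one' := by ext x <;> simp
  map_mul' σ τ := by ext x <;> simp

theorem trans_apply (m : ℕ) (c : Multiplicative (Fin m → ZMod p)) (x : Fin m × ZMod p) :
    trans p m c x = (x.1, x.2 + c.toAdd x.1) := rfl

theorem blocks_apply (m : ℕ) (σ : Perm (Fin m)) (x : Fin m × ZMod p) :
    blocks p m σ x = (σ x.1, x.2) := rfl

theorem sign_blocks [NeZero p] (m : ℕ) (σ : Perm (Fin m)) :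
    sign (blocks p m σ) = sign σ ^ p := by
  show sign (prodCongrLeft fun _ : ZMod p => σ) = _
  rw [sign_prodCongrLeft, Finset.prod_const, Finset.card_univ, ZMod.card]

theorem blocks_mul_trans (m : ℕ) (σ : Perm (Fin m)) (c : Multiplicative (Fin m → ZMod p)) :
    trans p m c * blocks p m σ =
      blocks p m σ * trans p m (Multiplicative.ofAdd fun i => c.toAdd (σ i)) := by
  ext x <;> rfl

/-- The wreath product with `ZMod p`. -/
def wr (p m : ℕ) (W : Subgroup (Perm (Fin m))) : Subgroup (Perm (Fin m × ZMod p)) where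
  carrier := {f | ∃ σ ∈ W, ∃ c, f = blocks p m σ * trans p m c}
  one_mem' := ⟨1, W.one_mem, 1, by simp⟩
  mul_mem' := by
    rintro _ _ ⟨σ, hσ, c, rfl⟩ ⟨τ, hτ, d, rfl⟩
    refine ⟨σ * τ, W.mul_mem hσ hτ, (Multiplicative.ofAdd fun i => c.toAdd (τ i)) * d, ?_⟩
    rw [map_mul, map_mul, mul_assoc, ← mul_assoc (trans p m c), blocks_mul_trans]
    simp only [mul_assoc]
  inv_mem' := by
    rintro _ ⟨σ, hσ, c, rfl⟩
    refine ⟨σ⁻¹, W.inv_mem hσ, Multiplicative.ofAdd fun i => c⁻¹.toAdd (σ⁻¹ i), ?_⟩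
    rw [mul_inv_rev, ← map_inv, ← map_inv, blocks_mul_trans]

theorem card_wr [NeZero p] (m : ℕ) (W : Subgroup (Perm (Fin m))) :
    Nat.card (wr p m W) = Nat.card W * p ^ m := by
  have e : Function.Bijective (fun x : W × Multiplicative (Fin m → ZMod p) =>
      (⟨blocks p m x.1 * trans p m x.2, x.1, x.1.2, x.2, rfl⟩ : wr p m W)) := by
    constructor
    · rintro ⟨σ, c⟩ ⟨τ, d⟩ h
      have h' : ∀ x, (blocks p m σ * trans p m c) x = (blocks p m τ * trans p m d) x :=
        fun x => Equiv.ext_iff.1 (congrArg Subtype.val h) x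
      refine Prod.ext (Subtype.ext (Equiv.ext fun i => congrArg Prod.fst (h' (i, 0)))) ?_
      refine Multiplicative.toAdd.injective (funext fun i => ?_)
      simpa [blocks_apply, trans_apply] using congrArg Prod.snd (h' (i, 0))
    · rintro ⟨_, σ, hσ, c, rfl⟩
      exact ⟨(⟨σ, hσ⟩, c), rfl⟩
  rw [← Nat.card_eq_of_bijective _ e, Nat.card_prod, Nat.card_congr Multiplicative.toAdd,
    Nat.card_fun, Nat.card_zmod, Nat.card_fin]

theorem good_wr [Fact p.Prime] (m : ℕ) (W : Subgroup (Perm (Fin m))) (hW : Good p W) :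
    Good p (wr p m W) := by
  rintro _ ⟨σ, hσ, c, rfl⟩
  have hc : (trans p m c) ^ p = 1 := by
    rw [← map_pow, show c ^ p = 1 from ?_, map_one]
    refine Multiplicative.toAdd.injective (funext fun i => ?_)
    simp
  have hcW : trans p m c ∈ wr p m W := ⟨1, W.one_mem, c, by simp⟩
  have hσW : blocks p m σ ∈ Subgroup.closure
      {x | x ∈ wr p m W ∧ x ^ p = 1 ∧ sign x = 1} := by
    have h1 := Subgroup.mem_map_of_mem (blocks p m) (hW σ hσ).1
    rw [MonoidHom.map_closure] at h1
    refine Subgroup.closure_mono ?_ h1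
    rintro _ ⟨x, ⟨hx, hxp⟩, rfl⟩
    refine ⟨⟨x, hx, 1, by simp⟩, by rw [← map_pow, hxp, map_one], ?_⟩
    rw [sign_blocks, ← map_pow, hxp, map_one]
  constructor
  · exact Subgroup.mul_mem _ (Subgroup.closure_mono (k := {x | x ∈ wr p m W ∧ x ^ p = 1}) (fun x hx => ⟨hx.1, hx.2.1⟩) hσW)
      (Subgroup.subset_closure ⟨hcW, hc⟩)
  · intro hsign
    refine Subgroup.mul_mem _ hσW (Subgroup.subset_closure ⟨hcW, hc, ?_⟩)
    have hσs : sign (blocks p m σ) = 1 := by
      have h2 := Subgroup.mem_map_of_mem sign hσW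
      rw [MonoidHom.map_closure] at h2
      have h3 : Subgroup.closure (sign '' {x | x ∈ wr p m W ∧ x ^ p = 1 ∧ sign x = 1}) ≤ ⊥ := by
        rw [Subgroup.closure_le]
        rintro _ ⟨x, hx, rfl⟩
        exact hx.2.2
      exact h3 h2
    rwa [map_mul, hσs, one_mul] at hsign

/-- Extending by fixed points and relabelling. -/
theorem good_map {α β : Type*} [DecidableEq α] [Fintype α] [DecidableEq β] [Fintype β]
    (φ : Perm α →* Perm β) (hφ : ∀ x, sign (φ x) = sign x)
    {W : Subgroup (Perm α)} (hW : Good p W) : Good p (W.map φ) := by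
  rintro _ ⟨f, hf, rfl⟩
  refine ⟨?_, fun hs => ?_⟩
  · have h := Subgroup.mem_map_of_mem φ (hW f hf).1
    rw [MonoidHom.map_closure] at h
    refine Subgroup.closure_mono ?_ h
    rintro _ ⟨x, ⟨hx, hxp⟩, rfl⟩
    exact ⟨Subgroup.mem_map_of_mem φ hx, by rw [← map_pow, hxp, map_one]⟩
  · have h := Subgroup.mem_map_of_mem φ ((hW f hf).2 (by rwa [hφ] at hs))
    rw [MonoidHom.map_closure] at h
    refine Subgroup.closure_mono ?_ h
    rintro _ ⟨x, ⟨hx, hxp, hxs⟩, rfl⟩
    exact ⟨Subgroup.mem_map_of_mem φ hx, by rw [← map_pow, hxp, map_one], by rw [hφ, hxs]⟩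

theorem exists_good [hp : Fact p.Prime] : ∀ n : ℕ, ∃ W : Subgroup (Perm (Fin n)),
    Nat.card W = p ^ (n.factorial).factorization p ∧ Good p W := by
  intro n
  induction n using Nat.strong_induction_on with
  | _ n ih =>
  rcases Nat.eq_zero_or_pos n with rfl | hn
  · refine ⟨⊥, by simp, fun f hf => ?_⟩
    rw [Subgroup.mem_bot] at hf
    subst hf
    exact ⟨one_mem _, fun _ => one_mem _⟩
  obtain ⟨W, hWc, hWg⟩ := ih (n / p) (Nat.div_lt_self hn hp.out.one_lt)
  have hcard : Fintype.card (Fin (n / p) × ZMod p ⊕ Fin (n % p)) = n := by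
    simp [Nat.div_add_mod, mul_comm]
  let e := Fintype.equivFinOfCardEq hcard
  let φ : Perm (Fin (n / p) × ZMod p) →* Perm (Fin n) :=
    e.permCongrHom.toMonoidHom.comp
      ((Equiv.Perm.sumCongrHom _ _).comp (MonoidHom.inl _ (Perm (Fin (n % p)))))
  have hφ : ∀ x, sign (φ x) = sign x := fun x => by
    show sign (e.permCongr (Equiv.sumCongr x 1)) = sign x
    rw [sign_permCongr, sign_sumCongr, map_one, mul_one]
  have hinj : Function.Injective φ := e.permCongrHom.injective.comp
    (Equiv.Perm.sumCongrHom_injective.comp fun a b h => congrArg Prod.fst h)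
  refine ⟨(wr p (n / p) W).map φ, ?_, good_map φ hφ (good_wr _ W hWg)⟩
  rw [← Nat.card_congr ((wr p (n / p) W).equivMapOfInjective φ hinj).toEquiv, card_wr, hWc,
    ← pow_add, Nat.factorization_def _ hp.out, Nat.factorization_def _ hp.out]
  congr 1
  have h1 := padicValNat_factorial_mul_add (p := p) (n / p) (Nat.mod_lt n hp.out.pos)
  have h2 := padicValNat_factorial_mul (p := p) (n / p)
  rw [Nat.div_add_mod] at h1
  omega

theorem pow_mem_commutator {G : Type*} [Group G] (P : Subgroup G)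
    (h : P ≤ Subgroup.closure {x | x ∈ P ∧ x ^ p = 1}) (x : P) : x ^ p ∈ commutator P := by
  have hle : P ≤ Subgroup.map P.subtype
      ((powMonoidHom p : Abelianization P →* Abelianization P).comp Abelianization.of).ker := by
    refine h.trans ((Subgroup.closure_le _).2 fun y hy => ?_)
    refine ⟨⟨y, hy.1⟩, ?_, rfl⟩
    show Abelianization.of (⟨y, hy.1⟩ : P) ^ p = 1
    rw [← map_pow, show (⟨y, hy.1⟩ : P) ^ p = 1 from Subtype.ext hy.2, map_one]
  obtain ⟨z, hz, hzx⟩ := hle x.2
  obtain rfl : z = x := Subtype.ext hzx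
  have hz' : Abelianization.of (z ^ p) = 1 := by rw [map_pow]; exact hz
  exact (QuotientGroup.eq_one_iff _).1 hz'

theorem good_sylow [hp : Fact p.Prime] {n : ℕ} (P : Sylow p (Perm (Fin n))) :
    Good p (P : Subgroup (Perm (Fin n))) := by
  obtain ⟨W, hW, hg⟩ := exists_good (p := p) n
  let S : Sylow p (Perm (Fin n)) := Sylow.ofCard W (by
    rw [hW, Nat.card_perm, Nat.card_fin])
  obtain ⟨g, hgS⟩ := MulAction.exists_smul_eq (Perm (Fin n)) S P
  rw [← hgS, Sylow.coe_subgroup_smul, Subgroup.pointwise_smul_def, Sylow.coe_ofCard]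
  refine good_map _ (fun x => ?_) hg
  show sign (g * x * g⁻¹) = sign x
  rw [map_mul, map_mul, map_inv, mul_right_comm, mul_inv_cancel, one_mul]

end Cfsg.Agent.Blocks.SymSylowGen
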