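import Cfsg.Agent.Blocks.Brauer
import Cfsg.Agent.Blocks.Lattice
import Cfsg.Agent.Chars.Eigen
import Cfsg.Agent.BlockChar.Bridge
import Mathlib.LinearAlgebra.Trace
import Mathlib.GroupTheory.Sylow

/-!
Homomorphisms between small lattices are detected on the normalizer of a TI Sylow subgroup.
-/

namespace Cfsg.Agent.Blocks.TIRestrict

open Cfsg Cfsg.Agent Cfsg.Agent.BlockChar Cfsg.Agent.Blocks Module
open scoped ComplexConjugate

set_option autoImplicit false
set_option linter.unusedSectionVars false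
set_option linter.style.haveILetI false
set_option linter.unusedVariables false

universe u

variable {G : Type u} [Group G] [Fintype G] {p : ℕ} [Fact p.Prime]

section general

variable {k : Type*} [CommRing k] {m n : ℕ}

/-- Conjugation of rectangular matrices. -/
def adj (ρ : G →* Matrix (Fin m) (Fin m) k) (σ : G →* Matrix (Fin n) (Fin n) k) (g : G) :
    Matrix (Fin m) (Fin n) k →ₗ[k] Matrix (Fin m) (Fin n) k where
  toFun T := ρ g * T * σ g⁻¹
  map_add' a b := by rw [Matrix.mul_add, Matrix.add_mul]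
  map_smul' c a := by simp [Matrix.mul_smul, Matrix.smul_mul]

theorem adj_apply (ρ : G →* Matrix (Fin m) (Fin m) k) (σ : G →* Matrix (Fin n) (Fin n) k) (g : G)
    (T : Matrix (Fin m) (Fin n) k) : adj ρ σ g T = ρ g * T * σ g⁻¹ := rfl

theorem adj_mul (ρ : G →* Matrix (Fin m) (Fin m) k) (σ : G →* Matrix (Fin n) (Fin n) k) (g h : G)
    (T : Matrix (Fin m) (Fin n) k) : adj ρ σ (g * h) T = adj ρ σ g (adj ρ σ h T) := by
  simp only [adj_apply, map_mul, mul_inv_rev, Matrix.mul_assoc]

theorem adj_one (ρ : G →* Matrix (Fin m) (Fin m) k) (σ : G →* Matrix (Fin n) (Fin n) k)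
    (T : Matrix (Fin m) (Fin n) k) : adj ρ σ 1 T = T := by
  simp [adj_apply]

/-- The relative trace. -/
noncomputable def relTr (ρ : G →* Matrix (Fin m) (Fin m) k) (σ : G →* Matrix (Fin n) (Fin n) k)
    (H : Subgroup G) : Matrix (Fin m) (Fin n) k →ₗ[k] Matrix (Fin m) (Fin n) k :=
  haveI := Fintype.ofFinite (G ⧸ H)
  ∑ q : G ⧸ H, adj ρ σ q.out

theorem relTr_apply (ρ : G →* Matrix (Fin m) (Fin m) k) (σ : G →* Matrix (Fin n) (Fin n) k)
    (H : Subgroup G) [Fintype (G ⧸ H)] (T : Matrix (Fin m) (Fin n) k) :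
    relTr ρ σ H T = ∑ q : G ⧸ H, adj ρ σ q.out T := by
  unfold relTr
  rw [LinearMap.sum_apply]
  exact Finset.sum_congr (by ext; simp) fun _ _ => rfl

end general

section residue

variable {M : Ideal AlgInt} [M.IsMaximal] {m n : ℕ}

/-- A trace over a free orbit is non-zero only in large dimension. -/
theorem free_trace (hpM : (p : AlgInt) ∈ M) {P : Subgroup G} (hP : IsPGroup p P)
    (ρ : G →* Matrix (Fin m) (Fin m) (Res M)) (σ : G →* Matrix (Fin n) (Fin n) (Res M))
    [Fintype P] (X : Matrix (Fin m) (Fin n) (Res M)) (hX : ∑ u : P, adj ρ σ u X ≠ 0) :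
    Nat.card P ≤ m * n ∧ (m * n = Nat.card P →
      ∀ T : Matrix (Fin m) (Fin n) (Res M), (∀ u ∈ P, adj ρ σ u T = T) →
        ∃ c : Res M, T = c • ∑ u : P, adj ρ σ u X) := by
  classical
  set φ : (P → Res M) →ₗ[Res M] Matrix (Fin m) (Fin n) (Res M) :=
    ∑ u : P, (LinearMap.proj u).smulRight (adj ρ σ u X) with hφ
  have hφa : ∀ f, φ f = ∑ u : P, f u • adj ρ σ u X := fun f => by simp [hφ]
  have hφeq : ∀ (v : P) f, adj ρ σ v (φ f) = φ (fun u => f (v⁻¹ * u)) := by
    intro v f
    rw [hφa, hφa, map_sum]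
    refine Fintype.sum_equiv (Equiv.mulLeft v) _ _ fun u => ?_
    rw [map_smul, ← adj_mul]
    simp
  have hconst : ∀ f : P → Res M, (∀ v u : P, f (v⁻¹ * u) = f u) →
      φ f = f 1 • ∑ u : P, adj ρ σ u X := by
    intro f hf
    rw [hφa, Finset.smul_sum]
    refine Finset.sum_congr rfl fun u _ => ?_
    congr 1
    have := hf u⁻¹ 1
    rwa [inv_inv, mul_one] at this
  have hinj : Function.Injective φ := by
    rw [← LinearMap.ker_eq_bot]
    by_contra hne
    set K := LinearMap.ker φ
    set bas := Module.finBasis (Res M) K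
    have hd : 0 < finrank (Res M) K := by
      rw [Nat.pos_iff_ne_zero, Ne, Submodule.finrank_eq_zero]; exact hne
    have hst : ∀ (v : P) f, f ∈ K → (fun u => f (v⁻¹ * u)) ∈ K := by
      intro v f hf
      rw [LinearMap.mem_ker, ← hφeq, LinearMap.mem_ker.1 hf, map_zero]
    set r : P →* Module.End (Res M) K :=
      { toFun := fun v => (LinearMap.funLeft (Res M) (Res M) fun u => v⁻¹ * u).restrict (hst v)
        map_one' := LinearMap.ext fun f => Subtype.ext (funext fun u => by
          show (f : P → Res M) (1⁻¹ * u) = _; simp)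
        map_mul' := fun a b => LinearMap.ext fun f => Subtype.ext (funext fun u => by
          show (f : P → Res M) ((a * b)⁻¹ * u) = (f : P → Res M) (b⁻¹ * (a⁻¹ * u))
          rw [mul_inv_rev, mul_assoc]) } with hr
    obtain ⟨v, hv0, hv⟩ := exists_fixed_vector (M := M) hpM hd hP
      ((LinearMap.toMatrixAlgEquiv bas).toMonoidHom.comp r)
    set f : K := bas.equivFun.symm v with hf
    have hfix : ∀ w : P, r w f = f := by
      intro w
      apply bas.equivFun.injective
      conv_rhs => rw [hf, LinearEquiv.apply_symm_apply, ← hv w]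
      rw [Basis.equivFun_apply, ← LinearMap.toMatrix_mulVec_repr bas bas (r w) f]
      congr 1
      rw [hf, ← Basis.equivFun_apply, LinearEquiv.apply_symm_apply]
    have hfc : ∀ w u : P, (f : P → Res M) (w⁻¹ * u) = (f : P → Res M) u := fun w u =>
      congrFun (congrArg Subtype.val (hfix w)) u
    have h1 : (f : P → Res M) 1 • ∑ u : P, adj ρ σ u X = 0 := by
      rw [← hconst _ hfc]; exact f.2
    have h0 : (f : P → Res M) 1 = 0 := (smul_eq_zero.1 h1).resolve_right hX
    apply hv0
    have : f = 0 := Subtype.ext (funext fun u => by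
      have h2 := hfc u⁻¹ 1
      rw [inv_inv, mul_one] at h2
      exact h2.trans h0)
    rw [hf, LinearEquiv.map_eq_zero_iff] at this
    exact this
  have hdim : finrank (Res M) (Matrix (Fin m) (Fin n) (Res M)) = m * n := by
    simp [Module.finrank_matrix]
  have hPd : finrank (Res M) (P → Res M) = Nat.card P := by
    rw [Module.finrank_pi, Nat.card_eq_fintype_card]
  refine ⟨?_, fun he T hT => ?_⟩
  · have := LinearMap.finrank_le_finrank_of_injective hinj
    rwa [hdim, hPd] at this
  · obtain ⟨f, hf⟩ := (LinearMap.injective_iff_surjective_of_finrank_eq_finrank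
      (by rw [hdim, hPd, he])).1 hinj T
    refine ⟨f 1, ?_⟩
    rw [← hf, hconst f fun v u => ?_]
    exact congrFun (hinj (show φ (fun u => f (v⁻¹ * u)) = φ f by
      rw [← hφeq, hf, hT v v.2])) u

/-- Modulo `M` the relative trace from the normalizer is injective on invariants. -/
theorem eq_zero_of_trace (hpM : (p : AlgInt) ∈ M) (P : Sylow p G)
    (hTI : ∀ g : G, g ∉ Subgroup.normalizer ((P : Subgroup G) : Set G) → ∀ u ∈ (P : Subgroup G),
      g⁻¹ * u * g ∈ (P : Subgroup G) → u = 1)
    (ρ : G →* Matrix (Fin m) (Fin m) (Res M)) (σ : G →* Matrix (Fin n) (Fin n) (Res M))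
    (hd : m * n < Nat.card (P : Subgroup G) ∨ (m * n = Nat.card (P : Subgroup G) ∧
      ∃ (T₁ T₂ : Matrix (Fin m) (Fin n) (Res M)), (∀ u ∈ (P : Subgroup G), adj ρ σ u T₁ = T₁) ∧
        (∀ u ∈ (P : Subgroup G), adj ρ σ u T₂ = T₂) ∧ LinearIndependent (Res M) ![T₁, T₂]))
    (T : Matrix (Fin m) (Fin n) (Res M))
    (hT : ∀ h ∈ Subgroup.normalizer ((P : Subgroup G) : Set G), adj ρ σ h T = T)
    (htr : relTr ρ σ (Subgroup.normalizer ((P : Subgroup G) : Set G)) T = 0) : T = 0 := by
  classical
  set H := Subgroup.normalizer ((P : Subgroup G) : Set G) with hH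
  haveI := Fintype.ofFinite (G ⧸ H)
  haveI := Fintype.ofFinite (P : Subgroup G)
  have hPH : (P : Subgroup G) ≤ H := Subgroup.le_normalizer
  have hzero : ∀ X : Matrix (Fin m) (Fin n) (Res M), ∑ u : (P : Subgroup G), adj ρ σ u X = 0 := by
    intro X
    by_contra hX
    obtain ⟨h1, h2⟩ := free_trace hpM P.isPGroup' ρ σ X hX
    rcases hd with hlt | ⟨he, T₁, T₂, hT₁, hT₂, hli⟩
    · omega
    · obtain ⟨c₁, hc₁⟩ := h2 he T₁ hT₁
      obtain ⟨c₂, hc₂⟩ := h2 he T₂ hT₂
      by_cases h0 : c₁ = 0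
      · exact hli.ne_zero 0 (by simp [hc₁, h0])
      · have := (LinearIndependent.pair_iff.1 hli) c₂ (-c₁) (by
          rw [hc₁, hc₂, neg_smul, smul_smul, smul_smul, mul_comm c₂, add_neg_cancel])
        exact h0 (neg_eq_zero.1 this.2)
  set F : G ⧸ H → Matrix (Fin m) (Fin n) (Res M) := fun q => adj ρ σ q.out T with hF
  have hFmk : ∀ g : G, F (g : G ⧸ H) = adj ρ σ g T := by
    intro g
    obtain ⟨h, hh⟩ := QuotientGroup.mk_out_eq_mul H g
    show adj ρ σ (Quotient.out (g : G ⧸ H)) T = _
    rw [hh, adj_mul, hT _ h.2]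
  have hfix : ∀ (g : G) (u : G), u ∈ (P : Subgroup G) → u ≠ 1 →
      ((u * g : G) : G ⧸ H) = (g : G ⧸ H) → (g : G ⧸ H) = ((1 : G) : G ⧸ H) := by
    intro g u hu hu1 he
    rw [QuotientGroup.eq] at he ⊢
    rw [mul_one]
    have hw : g⁻¹ * u * g ∈ H := by
      have := H.inv_mem he
      rwa [mul_inv_rev, inv_inv, ← mul_assoc] at this
    have hwP : g⁻¹ * u * g ∈ (P : Subgroup G) := by
      obtain ⟨j, hj⟩ := P.isPGroup' ⟨u, hu⟩
      have hwj : (g⁻¹ * u * g) ^ p ^ j = 1 := by
        have h2 := conj_pow (i := p ^ j) (a := g⁻¹) (b := u)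
        rw [inv_inv] at h2
        rw [h2, show u ^ p ^ j = 1 from congrArg Subtype.val hj, mul_one, inv_mul_cancel]
      set w := g⁻¹ * u * g with hw'
      have hsup : IsPGroup p ((P : Subgroup G) ⊔ Subgroup.zpowers w : Subgroup G) := by
        refine P.isPGroup'.to_sup_of_normal_left' ?_ (Subgroup.zpowers_le.2 hw)
        intro x
        obtain ⟨i, hi⟩ := x.2
        refine ⟨j, Subtype.ext ?_⟩
        rw [SubmonoidClass.coe_pow, ← hi, Subgroup.coe_one]
        show (w ^ i) ^ p ^ j = 1
        rw [← zpow_natCast (w ^ i), ← zpow_mul, mul_comm, zpow_mul, zpow_natCast, hwj, one_zpow]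
      rw [← P.is_maximal' hsup le_sup_left]
      exact Subgroup.mem_sup_right (Subgroup.mem_zpowers _)
    by_contra hg
    exact hu1 (hTI g (fun h => hg (H.inv_mem h)) u hu hwP)
  -- sum over the non-trivial orbits
  have hrest : ∑ q ∈ Finset.univ.erase ((1 : G) : G ⧸ H), F q = 0 := by
    rw [← Finset.sum_fiberwise _ (fun q : G ⧸ H =>
      (Quotient.mk (MulAction.orbitRel (P : Subgroup G) (G ⧸ H)) q)) F]
    refine Finset.sum_eq_zero fun O _ => ?_
    induction O using Quotient.inductionOn with | h q => ?_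
    induction q using QuotientGroup.induction_on with | H g => ?_
    by_cases hg : (g : G ⧸ H) = ((1 : G) : G ⧸ H)
    · refine Finset.sum_eq_zero fun q hq => ?_
      exfalso
      rw [Finset.mem_filter, Finset.mem_erase, Quotient.eq] at hq
      obtain ⟨u, hu⟩ := hq.2
      refine hq.1.1 ?_
      rw [← hu, hg]
      show (((u : G) * 1 : G) : G ⧸ H) = _
      rw [QuotientGroup.eq, mul_one, mul_one]
      exact H.inv_mem (hPH u.2)
    · have hbij : ∑ u : (P : Subgroup G), F (((u : G) * g : G) : G ⧸ H) = 0 := by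
        rw [Finset.sum_congr rfl fun u _ => by rw [hFmk, adj_mul]]
        exact hzero _
      rw [← hbij]
      symm
      refine Finset.sum_bij (fun u _ => (((u : G) * g : G) : G ⧸ H)) (fun u _ => ?_)
        (fun u _ v _ huv => ?_) (fun q hq => ?_) (fun u _ => rfl)
      · rw [Finset.mem_filter, Finset.mem_erase, Quotient.eq]
        refine ⟨⟨fun h1 => hg ?_, Finset.mem_univ _⟩, ⟨u, rfl⟩⟩
        rw [QuotientGroup.eq] at h1 ⊢
        have := H.mul_mem (H.inv_mem (hPH u.2)) (H.inv_mem (by simpa using h1))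
        rw [mul_one]
        refine H.inv_mem ?_
        simpa [mul_assoc] using this
      · by_contra hne
        refine hg (hfix g ((v : G)⁻¹ * u) ((P : Subgroup G).mul_mem (Subgroup.inv_mem _ v.2) u.2)
          (fun h => hne (Subtype.ext (inv_mul_eq_one.1 h).symm)) ?_)
        rw [QuotientGroup.eq] at huv ⊢
        have := H.inv_mem huv
        simpa [mul_assoc] using H.inv_mem this
      · rw [Finset.mem_filter, Finset.mem_erase, Quotient.eq] at hq
        obtain ⟨u, hu⟩ := hq.2
        exact ⟨u, Finset.mem_univ _, hu⟩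
  rw [relTr_apply, ← Finset.add_sum_erase _ _ (Finset.mem_univ ((1 : G) : G ⧸ H))] at htr
  rw [show ∑ q ∈ Finset.univ.erase ((1 : G) : G ⧸ H), adj ρ σ q.out T = 0 from hrest, add_zero,
    show adj ρ σ (Quotient.out ((1 : G) : G ⧸ H)) T = adj ρ σ 1 T from hFmk 1, adj_one] at htr
  exact htr

/-- Injectivity modulo `M` lifts. -/
theorem injective_of_res {ι κ : Type*} [Fintype ι] [Fintype κ] [DecidableEq ι]
    (A : κ → ι → ℂ) (hA : ∀ a i, MemLocalRing M (A a i))
    (h : ∀ c : ι → Res M, (∀ a, ∑ i, res M (A a i) * c i = 0) → c = 0)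
    (c : ι → ℂ) (hc : ∀ a, ∑ i, A a i * c i = 0) : c = 0 := by
  classical
  set T : (ι → Res M) →ₗ[Res M] κ → Res M :=
    Matrix.mulVecLin (Matrix.of fun a i => res M (A a i)) with hT
  obtain ⟨S, hS⟩ := T.exists_leftInverse_of_injective (by
    rw [eq_bot_iff]
    intro c hc
    exact (Submodule.mem_bot _).2 (h c fun a => congrFun (LinearMap.mem_ker.1 hc) a))
  choose s hs using fun (i : ι) (a : κ) => res_surjective (M := M) (S (Pi.single a 1) i)
  set P : Matrix ι ι ℂ := fun i j => ∑ a, (s i a : ℂ) * A a j with hP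
  have hPR : ∀ i j, MemLocalRing M (P i j) := fun i j =>
    memR_sum _ _ fun a _ => memR_mul (memR_of_algInt _) (hA a j)
  set P' : Matrix ι ι (loc M) := fun i j => ⟨P i j, mem_loc.2 (hPR i j)⟩ with hP'
  have hone : P'.map (residue M) = 1 := by
    ext i j
    rw [Matrix.map_apply]
    show residue M ⟨P i j, _⟩ = _
    rw [← res_of_mem (hPR i j), hP]
    simp only
    rw [res_sum _ _ fun a _ => memR_mul (memR_of_algInt _) (hA a j)]
    have h1 : S (T (Pi.single j 1)) i = (1 : Matrix ι ι (Res M)) i j := by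
      have h2 := congrFun (LinearMap.congr_fun hS (Pi.single j 1)) i
      rw [LinearMap.comp_apply, LinearMap.id_apply] at h2
      rw [h2, Matrix.one_apply, Pi.single_apply]
    rw [← h1]
    conv_rhs => rw [pi_eq_sum_univ' (T (Pi.single j 1))]
    rw [map_sum, Finset.sum_apply]
    refine Finset.sum_congr rfl fun a _ => ?_
    rw [map_smul, Pi.smul_apply, smul_eq_mul, res_mul (memR_of_algInt _) (hA a j), hs, mul_comm]
    congr 1
    simp [hT]
  have hu : IsUnit P := by
    have h1 := isUnit_matrix_of_residue P' (by rw [hone]; exact isUnit_one)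
    exact h1.map ((loc M).subtype.mapMatrix)
  refine (Matrix.mulVec_injective_iff_isUnit.2 hu) ?_
  funext i
  rw [Matrix.mulVec_zero, Pi.zero_apply, Matrix.mulVec, dotProduct, hP]
  simp only [Finset.sum_mul]
  rw [Finset.sum_comm]
  refine Finset.sum_eq_zero fun a _ => ?_
  simp only [mul_assoc, ← Finset.mul_sum, hc a, mul_zero]

end residue

section complex

variable {M : Ideal AlgInt} [M.IsMaximal] {m n : ℕ}

/-- The average over a subgroup. -/
noncomputable def avg (ρ : G →* Matrix (Fin m) (Fin m) ℂ) (σ : G →* Matrix (Fin n) (Fin n) ℂ)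
    (H : Subgroup G) : Matrix (Fin m) (Fin n) ℂ →ₗ[ℂ] Matrix (Fin m) (Fin n) ℂ :=
  haveI := Fintype.ofFinite H
  (Nat.card H : ℂ)⁻¹ • ∑ h : H, adj ρ σ h

theorem avg_apply (ρ : G →* Matrix (Fin m) (Fin m) ℂ) (σ : G →* Matrix (Fin n) (Fin n) ℂ)
    (H : Subgroup G) [Fintype H] (T : Matrix (Fin m) (Fin n) ℂ) :
    avg ρ σ H T = (Nat.card H : ℂ)⁻¹ • ∑ h : H, adj ρ σ h T := by
  unfold avg
  rw [LinearMap.smul_apply, LinearMap.sum_apply]
  congr 1
  exact Finset.sum_congr (by ext; simp) fun _ _ => rfl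

theorem adj_avg (ρ : G →* Matrix (Fin m) (Fin m) ℂ) (σ : G →* Matrix (Fin n) (Fin n) ℂ)
    (H : Subgroup G) {g : G} (hg : g ∈ H) (T : Matrix (Fin m) (Fin n) ℂ) :
    adj ρ σ g (avg ρ σ H T) = avg ρ σ H T := by
  haveI := Fintype.ofFinite H
  rw [avg_apply, map_smul, map_sum]
  congr 1
  exact Fintype.sum_equiv (Equiv.mulLeft (⟨g, hg⟩ : H)) _ _ fun h => (adj_mul _ _ _ _ _).symm

theorem avg_fix (ρ : G →* Matrix (Fin m) (Fin m) ℂ) (σ : G →* Matrix (Fin n) (Fin n) ℂ)
    (H : Subgroup G) {T : Matrix (Fin m) (Fin n) ℂ} (hT : ∀ g ∈ H, adj ρ σ g T = T) :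
    avg ρ σ H T = T := by
  haveI := Fintype.ofFinite H
  rw [avg_apply, Finset.sum_congr rfl fun h _ => hT _ h.2, Finset.sum_const, Finset.card_univ,
    ← Nat.card_eq_fintype_card, ← Nat.cast_smul_eq_nsmul ℂ, smul_smul,
    inv_mul_cancel₀ Chars.card_ne_zero, one_smul]

theorem trace_avg {ρ : G →* Matrix (Fin m) (Fin m) ℂ} {σ : G →* Matrix (Fin n) (Fin n) ℂ}
    {χ ψ : G → ℂ} (hρ : ∀ g, (ρ g).trace = χ g) (hσ : ∀ g, (σ g).trace = ψ g)
    (hψ : IsCharacter G ψ) (H : Subgroup G) [Fintype H] :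
    (finrank ℂ (LinearMap.range (avg ρ σ H)) : ℂ) =
      classInner (fun h : H => χ h) (fun h : H => ψ h) := by
  classical
  have hproj : LinearMap.IsProj (LinearMap.range (avg ρ σ H)) (avg ρ σ H) :=
    ⟨fun T => ⟨T, rfl⟩, by rintro _ ⟨T, rfl⟩; exact avg_fix _ _ _ fun g hg => adj_avg _ _ _ hg T⟩
  rw [← hproj.trace]
  have hadj : ∀ g : G, LinearMap.trace ℂ _ (adj ρ σ g) = χ g * conj (ψ g) := by
    intro g
    rw [LinearMap.trace_eq_matrix_trace ℂ (Matrix.stdBasis ℂ (Fin m) (Fin n)), Matrix.trace,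
      Fintype.sum_prod_type, ← hρ g, ← Chars.char_inv_eq_conj hψ, ← hσ, Matrix.trace, Matrix.trace,
      Finset.sum_mul_sum]
    refine Finset.sum_congr rfl fun i _ => Finset.sum_congr rfl fun j _ => ?_
    rw [Matrix.diag_apply, LinearMap.toMatrix_apply, Matrix.stdBasis_eq_single, adj_apply]
    have hrepr : ∀ X : Matrix (Fin m) (Fin n) ℂ,
        (Matrix.stdBasis ℂ (Fin m) (Fin n)).repr X (i, j) = X i j := fun X => by
      simp [Matrix.stdBasis]
    rw [hrepr, Matrix.diag_apply, Matrix.diag_apply, Matrix.mul_assoc, Matrix.mul_apply,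
      Finset.sum_eq_single i]
    · rw [Matrix.single_mul_apply_same, one_mul]
    · intro l _ hl
      rw [Matrix.single_mul_apply_of_ne _ _ _ _ _ hl, mul_zero]
    · exact fun h => absurd (Finset.mem_univ _) h
  unfold avg
  rw [map_smul, map_sum, Chars.classInner_def, smul_eq_mul]
  congr 1
  exact Finset.sum_congr (by ext; simp) fun h _ => hadj h

/-- The inner product over the normalizer of a TI Sylow subgroup. -/
theorem classInner_le (hpM : (p : AlgInt) ∈ M) (P : Sylow p G)
    (hTI : ∀ g : G, g ∉ Subgroup.normalizer ((P : Subgroup G) : Set G) → ∀ u ∈ (P : Subgroup G),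
      g⁻¹ * u * g ∈ (P : Subgroup G) → u = 1)
    {ρ : G →* Matrix (Fin m) (Fin m) ℂ} {σ : G →* Matrix (Fin n) (Fin n) ℂ}
    (hρR : ∀ g i j, MemLocalRing M (ρ g i j)) (hσR : ∀ g i j, MemLocalRing M (σ g i j))
    (hd : m * n < Nat.card (P : Subgroup G) ∨
      (m * n = Nat.card (P : Subgroup G) ∧ 2 ≤ n ∧ ∃ h : m = n, ∀ g, σ g = (h ▸ ρ g)))
    (T : Matrix (Fin m) (Fin n) ℂ)
    (hT : ∀ h ∈ Subgroup.normalizer ((P : Subgroup G) : Set G), adj ρ σ h T = T)
    (htr : relTr ρ σ (Subgroup.normalizer ((P : Subgroup G) : Set G)) T = 0) : T = 0 := by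
  classical
  set H := Subgroup.normalizer ((P : Subgroup G) : Set G) with hH
  haveI := Fintype.ofFinite H
  haveI := Fintype.ofFinite (G ⧸ H)
  have hred : ∀ (l : ℕ) (τ : G →* Matrix (Fin l) (Fin l) ℂ), (∀ g i j, MemLocalRing M (τ g i j)) →
      ∃ τ' : G →* Matrix (Fin l) (Fin l) (Res M), ∀ g i j, τ' g i j = res M (τ g i j) := by
    intro l τ hτ
    refine ⟨{ toFun := fun g => Matrix.of fun i j => res M (τ g i j)
              map_one' := ?_
              map_mul' := ?_ }, fun g i j => rfl⟩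
    · ext i j
      rw [Matrix.of_apply, map_one]
      by_cases hij : i = j
      · subst hij; rw [Matrix.one_apply_eq, Matrix.one_apply_eq, res_one]
      · rw [Matrix.one_apply_ne hij, Matrix.one_apply_ne hij, res_zero]
    · intro g h
      ext i j
      rw [Matrix.of_apply, map_mul, Matrix.mul_apply, Matrix.mul_apply,
        res_sum _ _ fun l _ => memR_mul (hτ g i l) (hτ h l j)]
      exact Finset.sum_congr rfl fun l _ => res_mul (hτ g i l) (hτ h l j)
  obtain ⟨ρ', hρ'⟩ := hred m ρ hρR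
  obtain ⟨σ', hσ'⟩ := hred n σ hσR
  have hδ : ∀ (i : Fin m) (j : Fin n) (ab : Fin m × Fin n),
      MemLocalRing M (if ab = (i, j) then (1 : ℂ) else 0) := fun i j ab => by
    split_ifs
    · exact memR_one
    · exact memR_zero
  set A : (H × Fin m × Fin n) ⊕ (Fin m × Fin n) → Fin m × Fin n → ℂ := fun a ab => match a with
    | .inl (h, i, j) => ρ h i ab.1 * σ (h : G)⁻¹ ab.2 j - (if ab = (i, j) then 1 else 0)
    | .inr (i, j) => ∑ q : G ⧸ H, ρ q.out i ab.1 * σ (q.out)⁻¹ ab.2 j with hA
  have hAR : ∀ a ab, MemLocalRing M (A a ab) := by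
    rintro (⟨h, i, j⟩ | ⟨i, j⟩) ab
    · exact memR_sub (memR_mul (hρR _ _ _) (hσR _ _ _)) (hδ i j ab)
    · exact memR_sum _ _ fun q _ => memR_mul (hρR _ _ _) (hσR _ _ _)
  have hexp : ∀ {k : Type} [inst : CommRing k] (r : G →* Matrix (Fin m) (Fin m) k)
      (s : G →* Matrix (Fin n) (Fin n) k) (g : G) (X : Matrix (Fin m) (Fin n) k) i j,
      adj r s g X i j = ∑ ab : Fin m × Fin n, r g i ab.1 * s g⁻¹ ab.2 j * X ab.1 ab.2 := by
    intro k _ r s g X i j
    rw [adj_apply, Matrix.mul_apply, Fintype.sum_prod_type, Finset.sum_comm]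
    refine Finset.sum_congr rfl fun b _ => ?_
    rw [Matrix.mul_apply, Finset.sum_mul]
    exact Finset.sum_congr rfl fun a _ => by ring
  have hres0 : ∀ c : Fin m × Fin n → Res M, (∀ a, ∑ ab, res M (A a ab) * c ab = 0) → c = 0 := by
    intro c hc
    have h0 : Matrix.of (fun i j => c (i, j)) = 0 := by
      refine eq_zero_of_trace hpM P hTI ρ' σ' ?_ _ (fun h hh => ?_) ?_
      · rcases hd with hlt | ⟨he, hn2, hmn, hσρ⟩
        · exact Or.inl hlt
        · subst hmn
          have hσρ' : σ' = ρ' := MonoidHom.ext fun g => by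
            ext i j
            rw [hσ', hρ', hσρ]
          refine Or.inr ⟨he, ?_⟩
          rw [hσρ']
          haveI := Fintype.ofFinite (P : Subgroup G)
          obtain ⟨v, hv0, hv⟩ := exists_fixed_vector (M := M) hpM (show 0 < m by omega)
            P.isPGroup' (ρ'.comp (P : Subgroup G).subtype)
          set τ : (P : Subgroup G) →* Matrix (Fin m) (Fin m) (Res M) :=
            { toFun := fun u => (ρ' ((u : G))⁻¹).transpose
              map_one' := by simp
              map_mul' := fun a b => by simp [Matrix.transpose_mul] }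
          obtain ⟨w, hw0, hw⟩ := exists_fixed_vector (M := M) hpM (show 0 < m by omega)
            P.isPGroup' τ
          refine ⟨1, Matrix.vecMulVec v w, fun u hu => ?_, fun u hu => ?_, ?_⟩
          · rw [adj_apply, Matrix.mul_one, ← map_mul, mul_inv_cancel, map_one]
          · have h1 : Matrix.mulVec (ρ' u) v = v := hv ⟨u, hu⟩
            have h2 : Matrix.mulVec (ρ' u⁻¹).transpose w = w := hw ⟨u, hu⟩
            rw [Matrix.mulVec_transpose] at h2
            rw [adj_apply, Matrix.mul_vecMulVec, Matrix.vecMulVec_mul, h1, h2]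
          · rw [LinearIndependent.pair_iff]
            intro s t hst
            obtain ⟨i, hi⟩ := Function.ne_iff.1 hv0
            obtain ⟨j, hj⟩ := Function.ne_iff.1 hw0
            haveI : Nontrivial (Fin m) := Fin.nontrivial_iff_two_le.2 hn2
            obtain ⟨l, hl⟩ := exists_ne i
            have e1 := congrFun (congrFun hst i) j
            have e2 := congrFun (congrFun hst l) l
            have e3 := congrFun (congrFun hst i) i
            by_cases hij : i = j
            · subst hij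
              have e4 := congrFun (congrFun hst l) i
              simp [Matrix.vecMulVec_apply, Matrix.one_apply, hl] at e4
              rcases e4 with h | h | h
              · subst h
                simp at e2
                exact ⟨e2, rfl⟩
              · simp [Matrix.vecMulVec_apply, h] at e2
                refine ⟨e2, ?_⟩
                simp [Matrix.vecMulVec_apply, e2] at e3
                rcases e3 with h' | h' | h'
                · exact h'
                · exact absurd h' hi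
                · exact absurd h' hj
              · exact absurd h hj
            · simp [Matrix.vecMulVec_apply, Matrix.one_apply, hij] at e1
              rcases e1 with h | h | h
              · subst h
                simp at e2
                exact ⟨e2, rfl⟩
              · exact absurd h hi
              · exact absurd h hj
      · ext i j
        have h1 := hc (Sum.inl (⟨h, hh⟩, i, j))
        simp only [hA] at h1
        rw [Finset.sum_congr rfl fun ab _ => by
          rw [res_sub (memR_mul (hρR _ _ _) (hσR _ _ _)) (hδ i j ab), res_mul (hρR _ _ _) (hσR _ _ _),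
            ← hρ', ← hσ', sub_mul], Finset.sum_sub_distrib, sub_eq_zero] at h1
        rw [hexp]
        refine h1.trans ?_
        rw [Finset.sum_eq_single (i, j)]
        · rw [if_pos rfl, res_one, one_mul]; rfl
        · intro ab _ hab; rw [if_neg hab, res_zero, zero_mul]
        · exact fun h => absurd (Finset.mem_univ _) h
      · ext i j
        have h1 := hc (Sum.inr (i, j))
        simp only [hA] at h1
        rw [relTr_apply, Matrix.sum_apply, Finset.sum_congr rfl fun q _ => hexp ρ' σ' _ _ i j,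
          Finset.sum_comm]
        refine Eq.trans (Finset.sum_congr rfl fun ab _ => ?_) h1
        rw [res_sum _ _ fun q _ => memR_mul (hρR _ _ _) (hσR _ _ _), Finset.sum_mul]
        refine Finset.sum_congr rfl fun q _ => ?_
        rw [res_mul (hρR _ _ _) (hσR _ _ _), hρ', hσ']
        rfl
    funext ⟨i, j⟩
    exact congrFun (congrFun h0 i) j
  have h := injective_of_res A hAR hres0 (fun ab => T ab.1 ab.2) ?_
  · ext i j
    exact congrFun h (i, j)
  rintro (⟨h, i, j⟩ | ⟨i, j⟩)
  · simp only [hA, sub_mul, Finset.sum_sub_distrib]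
    rw [← hexp, hT h h.2, Finset.sum_eq_single (i, j)]
    · simp
    · intro ab _ hab; rw [if_neg hab, zero_mul]
    · exact fun h => absurd (Finset.mem_univ _) h
  · simp only [hA, Finset.sum_mul]
    rw [Finset.sum_comm, Finset.sum_congr rfl fun q _ => (hexp ρ σ _ T i j).symm,
      ← Matrix.sum_apply, ← relTr_apply, htr]
    rfl

/-- The inner products over `G` and over the normalizer. -/
theorem classInner_eq (hpM : (p : AlgInt) ∈ M) (P : Sylow p G)
    (hTI : ∀ g : G, g ∉ Subgroup.normalizer ((P : Subgroup G) : Set G) → ∀ u ∈ (P : Subgroup G),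
      g⁻¹ * u * g ∈ (P : Subgroup G) → u = 1)
    (χ ψ : IrrCharacter G)
    (hd : charDegree (χ : G → ℂ) * charDegree (ψ : G → ℂ) < Nat.card (P : Subgroup G) ∨
      (charDegree (χ : G → ℂ) * charDegree (ψ : G → ℂ) = Nat.card (P : Subgroup G) ∧
        χ = ψ ∧ 2 ≤ charDegree (χ : G → ℂ)))
    [Fintype (Subgroup.normalizer ((P : Subgroup G) : Set G))] :
    classInner (fun h : Subgroup.normalizer ((P : Subgroup G) : Set G) => (χ : G → ℂ) h)
      (fun h : Subgroup.normalizer ((P : Subgroup G) : Set G) => (ψ : G → ℂ) h) =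
      classInner (χ : G → ℂ) (ψ : G → ℂ) := by
  classical
  obtain ⟨m, ρ, hm, hm1, hρt, hρR, -⟩ := exists_locRep hpM χ.2
  have hmdeg : charDegree (χ : G → ℂ) = m := by
    have h2 : (charDegree (χ : G → ℂ) : ℂ) = (m : ℂ) := by
      rw [charDegree_cast (Chars.irr_isCharacter χ), hm1]
    exact_mod_cast h2
  obtain ⟨n, σ, hn1, hσt, hσR, hd'⟩ : ∃ (n : ℕ) (σ : G →* Matrix (Fin n) (Fin n) ℂ),
      (ψ : G → ℂ) 1 = n ∧ (∀ g, (σ g).trace = (ψ : G → ℂ) g) ∧
      (∀ g i j, MemLocalRing M (σ g i j)) ∧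
      (m * n < Nat.card (P : Subgroup G) ∨
        (m * n = Nat.card (P : Subgroup G) ∧ 2 ≤ n ∧ ∃ h : m = n, ∀ g, σ g = (h ▸ ρ g))) := by
    rcases hd with hlt | ⟨he, rfl, h2⟩
    · obtain ⟨n, σ, -, hn1, hσt, hσR, -⟩ := exists_locRep hpM ψ.2
      refine ⟨n, σ, hn1, hσt, hσR, Or.inl ?_⟩
      have hndeg : charDegree (ψ : G → ℂ) = n := by
        have h2 : (charDegree (ψ : G → ℂ) : ℂ) = (n : ℂ) := by
          rw [charDegree_cast (Chars.irr_isCharacter ψ), hn1]
        exact_mod_cast h2
      rwa [hmdeg, hndeg] at hlt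
    · rw [hmdeg] at he h2
      exact ⟨m, ρ, hm1, hρt, hρR, Or.inr ⟨he, h2, rfl, fun g => rfl⟩⟩
  set H := Subgroup.normalizer ((P : Subgroup G) : Set G) with hH
  have htop : classInner (fun h : (⊤ : Subgroup G) => (χ : G → ℂ) h)
      (fun h : (⊤ : Subgroup G) => (ψ : G → ℂ) h) = classInner (χ : G → ℂ) (ψ : G → ℂ) := by
    rw [Chars.classInner_def, Chars.classInner_def,
      Nat.card_congr (Subgroup.topEquiv (G := G)).toEquiv]
    congr 1
    exact Fintype.sum_equiv (Subgroup.topEquiv (G := G)).toEquiv _ _ fun x => rfl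
  have e1 := @trace_avg G _ _ m n ρ σ (χ : G → ℂ) (ψ : G → ℂ) hρt hσt (Chars.irr_isCharacter ψ) H
    (inferInstanceAs (Fintype (Subgroup.normalizer ((P : Subgroup G) : Set G))))
  have e2 := trace_avg hρt hσt (Chars.irr_isCharacter ψ) ⊤
  rw [← htop]
  refine (Eq.trans ?_ (e1.symm.trans ?_)).trans e2
  · congr!
  rw [Nat.cast_inj]
  refine le_antisymm ?_ ?_
  · haveI := Fintype.ofFinite (G ⧸ H)
    have hmaps : ∀ T ∈ LinearMap.range (avg ρ σ H), relTr ρ σ H T ∈ LinearMap.range (avg ρ σ ⊤) := by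
      rintro _ ⟨T, rfl⟩
      refine ⟨relTr ρ σ H (avg ρ σ H T), avg_fix _ _ _ fun g _ => ?_⟩
      rw [relTr_apply, map_sum]
      refine Fintype.sum_equiv (MulAction.toPerm g) _ _ fun q => ?_
      obtain ⟨h, hh⟩ := QuotientGroup.mk_out_eq_mul H (g * q.out)
      have hq : (MulAction.toPerm g q : G ⧸ H) = ((g * q.out : G) : G ⧸ H) := by
        conv_lhs => rw [← QuotientGroup.out_eq' q]
        rfl
      rw [← adj_mul, hq, hh, adj_mul (g := g * q.out), adj_avg _ _ _ h.2]
    refine LinearMap.finrank_le_finrank_of_injective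
      (f := (relTr ρ σ H).restrict hmaps) ?_
    rw [← LinearMap.ker_eq_bot, eq_bot_iff]
    rintro ⟨T, hT⟩ hk
    rw [LinearMap.mem_ker] at hk
    refine (Submodule.mem_bot _).2 (Subtype.ext ?_)
    refine classInner_le hpM P hTI hρR hσR hd' T (fun h hh => ?_) (congrArg Subtype.val hk)
    obtain ⟨X, rfl⟩ := hT
    exact adj_avg _ _ _ hh X
  · refine Submodule.finrank_mono ?_
    rintro _ ⟨T, rfl⟩
    exact ⟨avg ρ σ ⊤ T, avg_fix _ _ _ fun g _ => adj_avg _ _ _ (Subgroup.mem_top g) T⟩

end complex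

end Cfsg.Agent.Blocks.TIRestrict
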