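import Cfsg.Agent.Blocks.TIRestrict

/-!
The norm of a small character over a group containing the normalizer of a TI Sylow subgroup.
-/

namespace Cfsg.Agent.Blocks.TIRestrict

open Cfsg Cfsg.Agent Cfsg.Agent.BlockChar Cfsg.Agent.Blocks Module
open scoped ComplexConjugate

set_option autoImplicit false
set_option linter.unusedSectionVars false
set_option linter.style.haveILetI false

universe u

variable {G : Type u} [Group G] [Fintype G] {p : ℕ} [Fact p.Prime] {M : Ideal AlgInt}
  [M.IsMaximal]

theorem classInner_expand {K : Type*} [Group K] [Fintype K] (f : K → G) (c : IrrCharacter G → ℂ)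
    (hc : ∀ a, conj (c a) = c a) :
    classInner (fun h : K => ∑ a, c a * (a : G → ℂ) (f h))
      (fun h : K => ∑ b, c b * (b : G → ℂ) (f h)) =
      ∑ a, ∑ b, c a * c b *
        classInner (fun h : K => (a : G → ℂ) (f h)) (fun h : K => (b : G → ℂ) (f h)) := by
  simp only [Chars.classInner_def, map_sum, map_mul, hc, Finset.mul_sum, Finset.sum_mul]
  rw [Finset.sum_comm]
  conv_rhs => rw [Finset.sum_comm]
  refine Finset.sum_congr rfl fun a _ => ?_
  rw [Finset.sum_comm]
  exact Finset.sum_congr rfl fun b _ => Finset.sum_congr rfl fun h _ => by ring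

/-- The norm over the normalizer. -/
theorem norm_normalizer (hpM : (p : AlgInt) ∈ M) (P : Sylow p G)
    (hTI : ∀ g : G, g ∉ Subgroup.normalizer ((P : Subgroup G) : Set G) → ∀ u ∈ (P : Subgroup G),
      g⁻¹ * u * g ∈ (P : Subgroup G) → u = 1)
    (χ : G → ℂ) (hχ : IsCharacter G χ) (hdeg : charDegree χ ^ 2 ≤ Nat.card (P : Subgroup G))
    [Fintype (Subgroup.normalizer ((P : Subgroup G) : Set G))] :
    classInner (fun h : Subgroup.normalizer ((P : Subgroup G) : Set G) => χ h)
      (fun h : Subgroup.normalizer ((P : Subgroup G) : Set G) => χ h) = classInner χ χ := by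
  classical
  choose c hc using fun a : IrrCharacter G =>
    Chars.exists_classInner_eq_nat hχ (Chars.irr_isCharacter a)
  have hexp : χ = fun g => ∑ a : IrrCharacter G, (c a : ℂ) * (a : G → ℂ) g := by
    funext g
    conv_lhs => rw [Chars.eq_sum_classInner (Chars.isClassFunction_of_isCharacter hχ)]
    rw [Finset.sum_apply]
    exact Finset.sum_congr rfl fun a _ => by rw [Pi.smul_apply, smul_eq_mul, hc]
  have hdsum : ∑ a : IrrCharacter G, c a * charDegree (a : G → ℂ) = charDegree χ := by
    apply Nat.cast_injective (R := ℂ)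
    push_cast
    rw [charDegree_cast hχ]
    conv_rhs => rw [hexp]
    exact Finset.sum_congr rfl fun a _ => by rw [charDegree_cast (Chars.irr_isCharacter a)]
  have hd2 := (Nat.pow_le_pow_left hdsum.le 2).trans hdeg
  conv_lhs => rw [hexp]
  conv_rhs => rw [hexp]
  refine (classInner_expand (K := Subgroup.normalizer ((P : Subgroup G) : Set G))
    (fun h => (h : G)) (fun a => (c a : ℂ)) (fun a => Complex.conj_natCast _)).trans
    (Eq.trans ?_ (classInner_expand (K := G) (fun g => g) (fun a => (c a : ℂ))
      (fun a => Complex.conj_natCast _)).symm)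
  refine Finset.sum_congr rfl fun a _ => Finset.sum_congr rfl fun b _ => ?_
  by_cases h0 : c a = 0 ∨ c b = 0
  · rcases h0 with h | h <;> simp [h]
  push Not at h0
  congr 1
  have ha1 := (charDegree_eq a.2).2
  have hb1 := (charDegree_eq b.2).2
  by_cases hab : a = b
  · subst hab
    have hle : charDegree (a : G → ℂ) ≤ ∑ x : IrrCharacter G, c x * charDegree (x : G → ℂ) :=
      (Nat.le_mul_of_pos_left _ (Nat.pos_of_ne_zero h0.1)).trans
        (Finset.single_le_sum (f := fun x : IrrCharacter G => c x * charDegree (x : G → ℂ))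
          (fun _ _ => Nat.zero_le _) (Finset.mem_univ a))
    have hle2 := (Nat.pow_le_pow_left hle 2).trans hd2
    by_cases hone : charDegree (a : G → ℂ) = 1
    · have hval : ∀ g : G, (a : G → ℂ) g * conj ((a : G → ℂ) g) = 1 := by
        intro g
        obtain ⟨m, ρ, -, hm1, hρt, -, -⟩ := exists_locRep hpM a.2
        obtain rfl : m = 1 := by
          have h2 : (charDegree (a : G → ℂ) : ℂ) = (m : ℂ) := by
            rw [charDegree_cast (Chars.irr_isCharacter a), hm1]
          rw [hone] at h2
          exact_mod_cast h2.symm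
        have hval' : (a : G → ℂ) g ^ orderOf g = 1 := by
          have h3 : ∀ k : ℕ, (a : G → ℂ) g ^ k = ρ (g ^ k) 0 0 := by
            intro k
            induction k with
            | zero => simp
            | succ k ih =>
              rw [pow_succ, ih, pow_succ, map_mul, Matrix.mul_apply, Fin.sum_univ_one, ← hρt g,
                Matrix.trace_fin_one]
          rw [h3, pow_orderOf_eq_one, map_one, Matrix.one_apply_eq]
        rw [Complex.mul_conj, Complex.normSq_eq_norm_sq,
          Complex.norm_eq_one_of_pow_eq_one hval' (orderOf_pos g).ne']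
        norm_num
      simp only [Chars.classInner_def, hval, Finset.sum_const, Finset.card_univ, nsmul_eq_mul,
        mul_one, ← Nat.card_eq_fintype_card, inv_mul_cancel₀ Chars.card_ne_zero]
    · rcases lt_or_eq_of_le hle2 with h | h
      · exact classInner_eq hpM P hTI a a (Or.inl (by rwa [← pow_two]))
      · exact classInner_eq hpM P hTI a a (Or.inr ⟨by rw [← pow_two]; exact h, rfl, by omega⟩)
  · refine classInner_eq hpM P hTI a b (Or.inl ?_)
    have hle : charDegree (a : G → ℂ) + charDegree (b : G → ℂ) ≤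
        ∑ x : IrrCharacter G, c x * charDegree (x : G → ℂ) := by
      refine le_trans ?_ (Finset.sum_le_univ_sum_of_nonneg (s := {a, b}) fun _ => Nat.zero_le _)
      rw [Finset.sum_pair hab]
      exact add_le_add (Nat.le_mul_of_pos_left _ (Nat.pos_of_ne_zero h0.1))
        (Nat.le_mul_of_pos_left _ (Nat.pos_of_ne_zero h0.2))
    have hle2 := (Nat.pow_le_pow_left hle 2).trans hd2
    nlinarith

/-- The norm over any subgroup containing the normalizer. -/
theorem norm_overgroup (hpM : (p : AlgInt) ∈ M) (P : Sylow p G)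
    (hTI : ∀ g : G, g ∉ Subgroup.normalizer ((P : Subgroup G) : Set G) → ∀ u ∈ (P : Subgroup G),
      g⁻¹ * u * g ∈ (P : Subgroup G) → u = 1)
    (χ : G → ℂ) (hχ : IsCharacter G χ) (hdeg : charDegree χ ^ 2 ≤ Nat.card (P : Subgroup G))
    (H : Subgroup G) [Fintype H]
    (hH : Subgroup.normalizer ((P : Subgroup G) : Set G) ≤ H) :
    classInner χ χ = classInner (fun h : H => χ h) (fun h : H => χ h) := by
  classical
  obtain ⟨n, R, hR⟩ := hχ
  set ρ : G →* Matrix (Fin n) (Fin n) ℂ :=
    (LinearMap.toMatrixAlgEquiv' (R := ℂ) (n := Fin n)).toMonoidHom.comp R with hρ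
  have htr : ∀ g, (ρ g).trace = χ g := by
    intro g
    rw [← hR]
    show (LinearMap.toMatrix' (R g)).trace = LinearMap.trace ℂ _ (R g)
    rw [LinearMap.trace_eq_matrix_trace ℂ (Pi.basisFun ℂ (Fin n)), LinearMap.toMatrix_eq_toMatrix']
  have hχ' : IsCharacter G χ := ⟨n, R, hR⟩
  haveI := Fintype.ofFinite (Subgroup.normalizer ((P : Subgroup G) : Set G))
  have hmono : ∀ A B : Subgroup G, A ≤ B →
      LinearMap.range (avg ρ ρ B) ≤ LinearMap.range (avg ρ ρ A) := by
    rintro A B hAB _ ⟨T, rfl⟩
    exact ⟨avg ρ ρ B T, avg_fix _ _ _ fun g hg => adj_avg _ _ _ (hAB hg) T⟩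
  have htop : classInner (fun h : (⊤ : Subgroup G) => χ h) (fun h : (⊤ : Subgroup G) => χ h) =
      classInner χ χ := by
    rw [Chars.classInner_def, Chars.classInner_def,
      Nat.card_congr (Subgroup.topEquiv (G := G)).toEquiv]
    congr 1
    exact Fintype.sum_equiv (Subgroup.topEquiv (G := G)).toEquiv _ _ fun x => rfl
  have e0 := norm_normalizer hpM P hTI χ hχ' hdeg
  rw [← htop, ← trace_avg htr htr hχ' _, ← trace_avg htr htr hχ' _, Nat.cast_inj] at e0
  rw [← htop, ← trace_avg htr htr hχ' _, ← trace_avg htr htr hχ' _, Nat.cast_inj]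
  have h1 := Submodule.finrank_mono (hmono H ⊤ le_top)
  have h2 := Submodule.finrank_mono (hmono _ H hH)
  omega

end Cfsg.Agent.Blocks.TIRestrict
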